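import Cfsg.Agent.C3.Deg
import Cfsg.Agent.GS.Lem2

/-! Prime codegree. -/

set_option autoImplicit false

namespace Cfsg.Agent.C3

open Cfsg H3 Subgroup Finset
open scoped ComplexConjugate

variable {G : Type*} [Group G] [Finite G] {χ ψ : G → ℂ}

/-- An abelian normal subgroup of index `χ 1` is self-centralizing. -/
theorem cent_le_of_index (h : IsIrrCharacter G χ) {A : Subgroup G} [A.Normal] [IsMulCommutative A]
    (hd : charDegree χ = A.index) : centralizer (A : Set G) ≤ A := by
  have := Fintype.ofFinite G
  have := Fintype.ofFinite A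
  obtain ⟨θ, a, b⟩ := h.exists_under A
  have c := a.isClassFunction.le_inertia
  obtain ⟨ψ, d, e, f⟩ := h.exists_clifford_corr a rfl c b
  obtain ⟨l, rfl⟩ := a.exists_linear_of_comm
  have i := d.resLe_eq_smul c (isIrrCharacter_linear l) le_rfl (f ▸ b)
  have j := d.degree_sq_le_index (le_charCenter_of_res_eq (N := A.subgroupOf _) d.isCharacter
    (l.comp (subgroupOfEquivOfLe c).toMonoidHom) (funext fun n => congrFun i (subgroupOfEquivOfLe c n)))
  have k : charDegree χ = (inertia (G := G) fun g => (l g : ℂ)).index * charDegree ψ := charDegree_eq (by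
    rw [← e, indFun_one, ← d.cast_charDegree]; simp)
  rw [hd, ← relIndex_mul_index c, mul_comm] at k
  have m := Nat.eq_of_mul_eq_mul_left (Nat.pos_of_ne_zero index_ne_zero_of_finite) k
  have n := d.charDegree_pos
  refine le_trans (fun g o => mem_inertia.2 (cjf_of_centralizer o fun g => (l g : ℂ))) (relIndex_eq_one.1 ?_ : inertia _ ≤ A)
  change _ ≤ A.relIndex _ at j
  rw [m] at j ⊢
  nlinarith

theorem cod_prime (h : IsIrrCharacter G χ) (hk : charKer χ = ⊥) {p : ℕ} (hp : p.Prime)
    (hc : Nat.card G = p * charDegree χ) : ∃ P : Subgroup G, P.Normal ∧ Nat.card P = p ∧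
      centralizer (P : Set G) ≤ P ∧ (Nat.card P).Coprime P.index := by
  have := Fact.mk hp
  have a := h.charDegree_pos
  have b : charDegree χ < p := by
    have b := h.degree_sq_le_index (Z := ⊥) bot_le
    rw [index_bot, hc] at b
    refine lt_of_le_of_ne (by nlinarith) fun c => ?_
    have := IsPGroup.commGroupOfCardEqPrimeSq (by rw [hc, c, sq] : Nat.card G = p ^ 2)
    have := IsPGroup.isMulCommutative_of_card_eq_prime_sq (by rw [hc, c, sq] : Nat.card G = p ^ 2)
    exact hp.one_lt.ne' (c.symm.trans (charDegree_eq (by simpa using h.degree_eq_one_of_comm)))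
  obtain ⟨P⟩ := (inferInstance : Nonempty (Sylow p G))
  have c : ¬ p ∣ charDegree χ := Nat.not_dvd_of_pos_of_lt a b
  have d : Nat.card P = p := by
    rw [P.card_eq_multiplicity, hc, Nat.factorization_mul hp.ne_zero a.ne']
    simp [hp.factorization_self, Nat.factorization_eq_zero_of_not_dvd c]
  have e : (P : Subgroup G).index = charDegree χ := Nat.eq_of_mul_eq_mul_left hp.pos (by
    rw [← hc, ← (P : Subgroup G).card_mul_index, d])
  have f : Nat.card (Sylow p G) = 1 := by
    have f := Nat.le_of_dvd a (e ▸ P.card_dvd_index)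
    have := card_sylow_modEq_one p G
    rwa [Nat.ModEq, Nat.mod_eq_of_lt (f.trans_lt b), Nat.mod_eq_of_lt hp.one_lt] at this
  have := (Nat.card_eq_one_iff_unique.1 f).1
  have i := P.normal_of_subsingleton
  have := isCyclic_of_prime_card d
  exact ⟨P, i, d, cent_le_of_index h e.symm, P.card_coprime_index⟩

end Cfsg.Agent.C3
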