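import Cfsg.Agent.H9.Simp
import Cfsg.Agent.S0111
import Cfsg.Agent.S2431
import Cfsg.Agent.S0261
import Cfsg.Agent.H4.Dick5

/-! Simple fusion systems on dihedral groups. -/

namespace Cfsg.Agent.C3.FS

open Subgroup H9
open scoped MatrixGroups commutatorElement

section
variable {G : Type*} [Group G] [Finite G]

theorem no_index_two (hG : commutator G = ⊤) {M : Subgroup G} (hM : M.Normal) : M.index ≠ 2 := by
  intro h
  have : Fact (Nat.Prime 2) := ⟨Nat.prime_two⟩
  have hc : IsCyclic (G ⧸ M) := isCyclic_of_prime_card (p := 2) h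
  have h1 : commutator G ≤ M := by
    rw [commutator_def, commutator_le]
    intro a _ b _
    rw [← QuotientGroup.eq_one_iff]
    change QuotientGroup.mk' M _ = 1
    rw [map_commutatorElement, commutatorElement_eq_one_iff_mul_comm]
    exact hc.isMulCommutative.is_comm.comm _ _
  rw [hG, top_le_iff] at h1
  rw [h1, index_top] at h
  omega

/-- Thompson transfer in a perfect group -/
theorem conj_into (hG : commutator G = ⊤) {S M : Subgroup G} (hs : Syl 2 S ⊤) (hM : M ≤ S)
    (hi : M.relIndex S = 2) {x : G} (hx : x ∈ S) (ho : orderOf x = 2) :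
    ∃ y ∈ M, orderOf y = 2 ∧ IsConj x y := by
  by_cases h : x ∈ M
  · exact ⟨x, h, ho, IsConj.refl x⟩
  obtain ⟨P, rfl⟩ := hs.exists_sylow_top
  rcases S0111.result P M hM hi x ho hx h with ⟨N, h1, h2, -⟩ | ⟨g, hg⟩
  · exact absurd h2 (no_index_two hG h1)
  · refine ⟨_, hg, ?_, isConj_iff.2 ⟨g, rfl⟩⟩
    rw [← ho]
    exact (MulAut.conj g).orderOf_eq x

theorem dih (hG : commutator G = ⊤) {S : Subgroup G} (hs : Syl 2 S ⊤) {a t : G} (ha : a ∈ S)
    (ht : t ∈ S) (hta : t ∉ zpowers a) (h1 : ∀ x ∈ S, x * t ∈ zpowers a ∨ x ∈ zpowers a)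
    (h2 : ∀ x ∈ S, x ∉ zpowers a → x ^ 2 = 1)
    (hN : normalizer (S : Set G) ≤ S ⊔ centralizer (S : Set G)) :
    (groupFusionSystem S).IsSimple 2 := by
  have hi : (zpowers a).relIndex S = 2 := relIndex_eq_two_iff_exists_notMem_and.2 ⟨t, ht, hta, h1⟩
  have h3 : ∀ x ∈ S, x ∉ zpowers a → x ∈ closure {x | x ∈ S ∧ orderOf x = 2} := fun x hx h =>
    subset_closure ⟨hx, orderOf_eq_prime (h2 x hx h) fun e => h (e ▸ one_mem _)⟩
  refine simple_of_one_class hs (fun h => hta (by rw [h, mem_bot] at ht; rw [ht]; exact one_mem _))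
    (pResidual_of_perfect hG) hN (fun x hx y hy ox oy => ?_) ?_
  · obtain ⟨u, hu, ou, cu⟩ := conj_into hG hs (zpowers_le.2 ha) hi hx ox
    obtain ⟨v, hv, ov, cv⟩ := conj_into hG hs (zpowers_le.2 ha) hi hy oy
    have : u = v := H4.eq_of_sq_eq_one_of_cyclic hu hv (by rintro rfl; simp at ou)
      (by rintro rfl; simp at ov) (by rw [← sq, ← ou, pow_orderOf_eq_one])
      (by rw [← sq, ← ov, pow_orderOf_eq_one])
    exact cu.trans (this ▸ cv.symm)
  · refine (commutator_le.2 fun x hx y hy => ?_ : ⁅S, S⁆ ≤ S).trans fun x hx => ?_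
    · exact mul_mem (mul_mem (mul_mem hx hy) (inv_mem hx)) (inv_mem hy)
    by_cases h : x ∈ zpowers a
    · have : x = x * t * t⁻¹ := by group
      rw [this]
      exact mul_mem (h3 _ (mul_mem hx ht) fun e => hta (by simpa using mul_mem (inv_mem h) e))
        (inv_mem (h3 t ht hta))
    · exact h3 x hx h

/-- normalizer of the image of a self-normalizing subgroup containing the kernel -/
theorem norm_map {H : Type*} [Group H] (f : G →* H) (hf : Function.Surjective f) {P : Subgroup G}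
    (hk : f.ker ≤ P) (hN : normalizer (P : Set G) ≤ P) :
    normalizer ((P.map f : Subgroup H) : Set H) ≤ P.map f := by
  intro y hy
  obtain ⟨g, rfl⟩ := hf y
  refine mem_map_of_mem f (hN (mem_normalizer_iff.2 fun x => ?_))
  have e : ∀ z, z ∈ P ↔ f z ∈ P.map f := fun z => by
    rw [← mem_comap, comap_map_eq_self hk]
  rw [e, e, mem_normalizer_iff.1 hy, map_mul, map_mul, map_inv]

end

theorem psl2 {F : Type*} [Field F] [Fintype F] (hodd : Fintype.card F % 2 = 1)
    (h16 : 16 ∣ Fintype.card F ^ 2 - 1) (S : Sylow 2 PSL(2, F)) :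
    (groupFusionSystem (S : Subgroup PSL(2, F))).IsSimple 2 := by
  classical
  have ho : Odd (Fintype.card F) := Nat.odd_iff.2 hodd
  have h8 : Fintype.card F % 8 = 1 ∨ Fintype.card F % 8 = 7 := by
    have h1 : 1 ≤ Fintype.card F ^ 2 := Nat.one_le_pow _ _ Fintype.card_pos
    have h2 : Fintype.card F ^ 2 % 16 = 1 := by omega
    rw [Nat.pow_mod] at h2
    have h3 : Fintype.card F % 16 < 16 := Nat.mod_lt _ (by norm_num)
    have h4 : Fintype.card F % 8 = Fintype.card F % 16 % 8 := by omega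
    rw [h4]
    generalize Fintype.card F % 16 = r at h2 h3
    interval_cases r <;> simp at h2 ⊢
  have hq : 7 ≤ Fintype.card F := by
    have := Fintype.one_lt_card (α := F)
    omega
  have h2 : (2 : F) ≠ 0 := fun h => by
    have := FiniteField.even_card_of_char_two (F := F) (by
      have := (ringChar.spec F 2).1 (by exact_mod_cast h)
      exact ((Nat.dvd_prime Nat.prime_two).1 this).resolve_left CharP.ringChar_ne_one)
    omega
  have hG : commutator PSL(2, F) = ⊤ := SL2Simple.PSL_commutator_eq_top (by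
    by_contra h
    push Not at h
    have : (Finset.univ : Finset F) ⊆ {0, 1, -1} := fun a _ => by
      by_cases ha : a = 0
      · simp [ha]
      · rcases sq_eq_one_iff.1 (h a ha) with rfl | rfl <;> simp
    have h3 := (Finset.card_le_card this).trans Finset.card_le_three
    rw [Finset.card_univ] at h3
    omega)
  obtain ⟨P⟩ : Nonempty (Sylow 2 SL(2, F)) := inferInstance
  obtain ⟨k, hk, ⟨e⟩⟩ := S0261.result ho P
  obtain ⟨hC, hN, -⟩ := S2431.result ho P
  have hN := hN h8
  have hZ : center SL(2, F) ≤ P := hC.ge.trans ((centralizer_le_normalizer _).trans hN.le)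
  let f : SL(2, F) →* PSL(2, F) := QuotientGroup.mk' _
  have hf : Function.Surjective f := QuotientGroup.mk'_surjective _
  let φ : QuaternionGroup (2 ^ k) →* PSL(2, F) := f.comp ((P : Subgroup SL(2, F)).subtype.comp e.symm.toMonoidHom)
  have hs := (syl_top P).map f
  rw [map_top_of_surjective f hf] at hs
  have hm : ∀ q, φ q ∈ (P : Subgroup SL(2, F)).map f := fun q => mem_map_of_mem f (e.symm q).2
  have hr : ∀ x ∈ (P : Subgroup SL(2, F)).map f, ∃ q, φ q = x := by
    rintro _ ⟨y, hy, rfl⟩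
    exact ⟨e ⟨y, hy⟩, by simp [φ]⟩
  have : NeZero (2 ^ k) := ⟨by positivity⟩
  have hA : ∀ i, φ (.a i) ∈ zpowers (φ (.a 1)) := fun i => by
    rw [← ZMod.natCast_zmod_val i, ← QuaternionGroup.a_one_pow, map_pow]
    exact pow_mem (mem_zpowers _) _
  refine simple_sylow hs (dih hG hs (hm (.a 1)) (hm (.xa 0)) ?_ (fun x hx => ?_) (fun x hx h => ?_)
    ((norm_map f hf (by rwa [QuotientGroup.ker_mk']) hN.le).trans le_sup_left)) S
  · intro h
    obtain ⟨j, hj⟩ := (mem_powers_iff_mem_zpowers.2 h)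
    simp only [← map_pow, QuaternionGroup.a_one_pow] at hj
    have h3 : φ (.xa 0 * (.a j)⁻¹) = 1 := by rw [map_mul, map_inv, hj, mul_inv_cancel]
    have h4 := mem_center_iff.1 ((QuotientGroup.eq_one_iff _).1 h3) (e.symm (.a 1)).1
    have h5 : (QuaternionGroup.a 1 : QuaternionGroup (2 ^ k)) * (.xa 0 * (.a j)⁻¹) =
        (.xa 0 * (.a j)⁻¹) * .a 1 := e.symm.injective (Subtype.ext (by simpa using h4))
    have h6 : (QuaternionGroup.a (j : ZMod (2 * 2 ^ k)))⁻¹ = .a (-j) := rfl
    simp only [h6, QuaternionGroup.xa_mul_a, QuaternionGroup.a_mul_xa, QuaternionGroup.xa.injEq] at h5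
    have h7 : ((2 : ℕ) : ZMod (2 * 2 ^ k)) = 0 := by push_cast; linear_combination -h5
    have h8 := Nat.le_of_dvd (by norm_num) ((ZMod.natCast_eq_zero_iff _ _).1 h7)
    have : 2 ^ 1 ≤ 2 ^ k := Nat.pow_le_pow_right (by norm_num) hk
    omega
  · obtain ⟨q, rfl⟩ := hr x hx
    rcases q with i | i
    · exact Or.inr (hA i)
    · rw [← map_mul, QuaternionGroup.xa_mul_xa]; exact Or.inl (hA _)
  · obtain ⟨q, rfl⟩ := hr x hx
    rcases q with i | i
    · exact absurd (hA i) h
    · rw [← map_pow]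
      refine (QuotientGroup.eq_one_iff _).2 ?_
      have h3 : ((e.symm (.xa i ^ 2)).1) ^ 2 = 1 := by
        rw [← Subgroup.coe_pow, ← map_pow, ← pow_mul, QuaternionGroup.xa_pow_four, map_one]; rfl
      change (e.symm (.xa i ^ 2)).1 ∈ _
      rcases (H4.sq_eq_one_iff_SL h2).1 h3 with h | h <;> rw [h]
      · exact one_mem _
      · exact mem_center_iff.2 fun g => by simp

end Cfsg.Agent.C3.FS
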