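import Cfsg.Agent.H9.Simp
import Cfsg.Agent.H4.Linear

/-! The defining characteristic fusion system of `PSL_n(q)`. -/

namespace Cfsg.Agent.C3.FS

open Subgroup H9 Matrix Matrix.SpecialLinearGroup

/-- a submonoid of a finite group is a subgroup -/
def sub {G : Type*} [Group G] [Finite G] (M : Submonoid G) : Subgroup G :=
  { M with
    inv_mem' := fun {g} hg => Submonoid.powers_le.2 hg
      (mem_powers_iff_mem_zpowers.2 (inv_mem (mem_zpowers g))) }

/-- a `p`-subgroup containing the `p`-elements of its normalizer is Sylow -/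
theorem syl_of_norm {G : Type*} [Group G] [Finite G] {p : ℕ} [Fact p.Prime] {U : Subgroup G}
    (hU : IsPGroup p U) (h : ∀ g ∈ normalizer (U : Set G), ∀ k, g ^ p ^ k = 1 → g ∈ U) : Syl p U ⊤ := by
  obtain ⟨P, hP⟩ := hU.exists_le_sylow
  have : U = P := by
    by_contra hne
    have := P.isPGroup'.isNilpotent
    obtain ⟨g, h1, h2⟩ := SetLike.exists_of_lt
      (L.lt_inf_normalizer_of_isNilpotent (lt_of_le_of_ne hP hne))
    obtain ⟨k, hk⟩ := P.isPGroup' ⟨g, h1.1⟩
    exact h2 (h g h1.2 k (congrArg Subtype.val hk))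
  exact this ▸ syl_top P

variable {K : Type*} [Field K] [Finite K] {ι : Type*} [Fintype ι] [DecidableEq ι] [LinearOrder ι]

local notation "SL'" => Matrix.SpecialLinearGroup ι K
local notation "tv" => Matrix.SpecialLinearGroup.transvection

theorem dg_mul {g h : Matrix ι ι K} (hg : g.BlockTriangular id) (hh : h.BlockTriangular id) (i : ι) :
    (g * h) i i = g i i * h i i := by
  rw [mul_apply]
  refine Finset.sum_eq_single i (fun k _ hk => ?_) (by simp)
  rcases lt_or_gt_of_ne hk with h | h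
  · rw [hg h, zero_mul]
  · rw [hh h, mul_zero]

variable (ι K) in
/-- upper triangular matrices -/
def Bo : Subgroup SL' := sub
  { carrier := {g | g.1.BlockTriangular id}
    one_mem' := blockTriangular_one
    mul_mem' := fun ha hb => ha.mul hb }

theorem mem_Bo {g : SL'} : g ∈ Bo K ι ↔ g.1.BlockTriangular id := Iff.rfl

variable (ι K) in
/-- upper unitriangular matrices -/
def Un : Subgroup SL' := sub
  { carrier := {g | g.1.BlockTriangular id ∧ ∀ i, g.1 i i = 1}
    one_mem' := ⟨blockTriangular_one, fun i => by simp⟩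
    mul_mem' := fun {a b} ha hb => ⟨ha.1.mul hb.1, fun i => by
      rw [Matrix.SpecialLinearGroup.coe_mul, dg_mul ha.1 hb.1, ha.2, hb.2, mul_one]⟩ }

theorem mem_Un {g : SL'} : g ∈ Un K ι ↔ g.1.BlockTriangular id ∧ ∀ i, g.1 i i = 1 := Iff.rfl

theorem dg_inv {g : SL'} (hg : g ∈ Bo K ι) (i : ι) : g.1 i i * (g⁻¹).1 i i = 1 := by
  rw [← dg_mul hg ((Bo K ι).inv_mem hg), ← Matrix.SpecialLinearGroup.coe_mul, mul_inv_cancel]; simp

theorem dg_pow {g : SL'} (hg : g ∈ Bo K ι) (i : ι) (m : ℕ) : (g ^ m).1 i i = g.1 i i ^ m := by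
  induction m with
  | zero => simp
  | succ m ih => rw [pow_succ, Matrix.SpecialLinearGroup.coe_mul, dg_mul ((Bo K ι).pow_mem hg m) hg, ih, pow_succ]

theorem Bo_le_norm : Bo K ι ≤ normalizer (Un K ι : Set SL') := fun g hg =>
  mem_normalizer_of_finite fun u hu => by
    have h1 : u ∈ Bo K ι := hu.1
    refine ⟨(Bo K ι).mul_mem ((Bo K ι).mul_mem hg h1) ((Bo K ι).inv_mem hg), fun i => ?_⟩
    rw [Matrix.SpecialLinearGroup.coe_mul, dg_mul ((Bo K ι).mul_mem hg h1) ((Bo K ι).inv_mem hg),
      Matrix.SpecialLinearGroup.coe_mul, dg_mul hg h1, hu.2, mul_one, dg_inv hg]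

theorem tv_mem {i j : ι} (h : i < j) (c : K) : tv h.ne c ∈ Un K ι :=
  ⟨fun a b hab => by
    have : ¬ (i = a ∧ j = b) := by rintro ⟨rfl, rfl⟩; exact lt_asymm h hab
    simp [transvection_coe, single_apply, this, one_apply_ne (show a ≠ b from ne_of_gt hab)],
  fun a => by
    have : ¬ (i = a ∧ j = a) := by rintro ⟨rfl, rfl⟩; exact lt_irrefl _ h
    simp [transvection_coe, single_apply, this]⟩

theorem norm_le_Bo : normalizer (Un K ι : Set SL') ≤ Bo K ι := by
  intro g hg i a hai
  by_contra hne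
  have h1 : ∀ b, a < b → ∀ j, j ≤ i → (g⁻¹).1 b j = 0 := fun b hb j hj => by
    have h2 := (mem_normalizer_iff.1 hg _).1 (tv_mem hb (1 : K))
    have h3 : (g * tv hb.ne (1 : K) * g⁻¹).1 = 1 + g.1 * single a b 1 * (g⁻¹).1 := by
      rw [Matrix.SpecialLinearGroup.coe_mul, Matrix.SpecialLinearGroup.coe_mul, transvection_coe, mul_add, add_mul,
        mul_one, ← Matrix.SpecialLinearGroup.coe_mul, mul_inv_cancel, Matrix.SpecialLinearGroup.coe_one]
    have h4 : (g.1 * single a b (1 : K) * (g⁻¹).1 : Matrix ι ι K) i j = g.1 i a * (g⁻¹).1 b j := by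
      rw [mul_apply, Finset.sum_eq_single b (fun k _ hk => by simp [hk]) (by simp)]
      simp
    have h5 : (g * tv hb.ne (1 : K) * g⁻¹).1 i j = (1 : Matrix ι ι K) i j := by
      rcases hj.lt_or_eq with h | rfl
      · rw [h2.1 h, one_apply_ne (ne_of_gt h)]
      · rw [h2.2, one_apply_eq]
    rw [h3, Matrix.add_apply, h4, add_eq_left] at h5
    exact (mul_eq_zero.1 h5).resolve_left hne
  have h2 : det (g⁻¹).1 = 0 := by
    rw [det_apply]
    refine Finset.sum_eq_zero fun σ _ => ?_
    have : ∏ j, (g⁻¹).1 (σ j) j = 0 := by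
      by_contra h0
      have h3 : ∀ j, j ≤ i → σ j ≤ a := fun j hj => le_of_not_gt fun h =>
        h0 (Finset.prod_eq_zero (Finset.mem_univ j) (h1 _ h j hj))
      have h4 := Finset.card_le_card_of_injOn (s := Finset.univ.filter (· ≤ i))
        (t := Finset.univ.filter (· ≤ a)) σ (fun j hj => by simpa using h3 j (by simpa using hj))
        σ.injective.injOn
      refine h4.not_gt (Finset.card_lt_card ⟨fun j hj => ?_, fun h => ?_⟩)
      · simp only [Finset.mem_filter, Finset.mem_univ, true_and] at hj ⊢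
        exact hj.trans (le_of_lt hai)
      · have := h (show i ∈ Finset.univ.filter (· ≤ i) by simp)
        simp only [Finset.mem_filter, Finset.mem_univ, true_and] at this
        exact absurd hai (not_lt.2 this)
    rw [this, smul_zero]
  exact zero_ne_one (h2.symm.trans (g⁻¹).2)

theorem Un_le {T : Subgroup SL'} (h : ∀ {i j : ι} (hij : i < j) c, tv hij.ne c ∈ T) :
    Un K ι ≤ T := by
  classical
  intro g hg
  induction hm : (Finset.univ.filter fun x : ι × ι => x.1 ≠ x.2 ∧ g.1 x.1 x.2 ≠ 0).card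
    using Nat.strong_induction_on generalizing g with
  | _ m ih =>
  set s := Finset.univ.filter fun x : ι × ι => x.1 ≠ x.2 ∧ g.1 x.1 x.2 ≠ 0 with hs
  rcases s.eq_empty_or_nonempty with h0 | h0
  · have : g = 1 := by
      ext a b
      by_cases hab : a = b
      · subst hab; simp [hg.2]
      · by_contra hne
        have : (a, b) ∈ s := by simpa [hs, hab, one_apply_ne hab] using hne
        simp [h0] at this
    exact this ▸ one_mem _
  obtain ⟨⟨i, j⟩, h1, h2⟩ := s.exists_max_image Prod.snd h0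
  have h3 : i ≠ j ∧ g.1 i j ≠ 0 := by simpa [hs] using h1
  have hij : i < j := lt_of_le_of_ne (le_of_not_gt fun h => h3.2 (hg.1 h)) h3.1
  have h4 : ∀ b, b ≠ j → g.1 j b = 0 := fun b hb => by
    rcases lt_or_gt_of_ne hb with h | h
    · exact hg.1 h
    · by_contra hne
      exact (h2 (j, b) (by simp [hs, hb.symm, hne])).not_gt h
  have h5 : (Finset.univ.filter fun x : ι × ι => x.1 ≠ x.2 ∧
      (tv hij.ne (-g.1 i j) * g).1 x.1 x.2 ≠ 0) ⊆ s.erase (i, j) := by
    rintro ⟨a, b⟩ hab
    simp only [Finset.mem_filter, Finset.mem_univ, true_and] at hab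
    have e : (tv hij.ne (-g.1 i j) * g).1 = Matrix.transvection i j (-g.1 i j) * g.1 := rfl
    rw [e] at hab
    by_cases ha : a = i
    · subst ha
      rw [transvection_mul_apply_same] at hab
      by_cases hb : b = j
      · subst hb; simp [hg.2] at hab
      · rw [h4 b hb, mul_zero, add_zero] at hab
        simp [hs, hb, hab.1, hab.2]
    · rw [transvection_mul_apply_of_ne _ _ _ _ ha] at hab
      simp [hs, ha, hab.1, hab.2]
  have h6 := ih _ (hm ▸ (Finset.card_le_card h5).trans_lt (Finset.card_erase_lt_of_mem h1))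
    (mul_mem (tv_mem hij _) hg) rfl
  simpa using mul_mem (inv_mem (h hij (-g.1 i j))) h6

variable {p : ℕ} [hp : Fact p.Prime] [CharP K p]

theorem one_of_pow {a : K} {k : ℕ} (h : a ^ p ^ k = 1) : a = 1 := by
  have : (a - 1) ^ p ^ k = 0 := by rw [sub_pow_char_pow, h, one_pow, sub_self]
  exact sub_eq_zero.1 (pow_eq_zero_iff (pow_ne_zero _ hp.1.ne_zero) |>.1 this)

theorem Un_pg : IsPGroup p (Un K ι) := by
  rintro ⟨g, hg⟩
  have h1 : (g.1 - 1) ^ Fintype.card ι = 0 := by
    have h2 : (g.1 - 1).charpoly = Polynomial.X ^ Fintype.card ι := by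
      rw [charpoly_of_upperTriangular _ (hg.1.sub blockTriangular_one)]
      simp [hg.2]
    have := (g.1 - 1).aeval_self_charpoly
    simpa [h2] using this
  refine ⟨Fintype.card ι, Subtype.ext (Subtype.ext ?_)⟩
  rcases isEmpty_or_nonempty ι with h | h
  · exact Subsingleton.elim _ _
  have h3 : (g.1 - 1) ^ p ^ Fintype.card ι = 0 :=
    pow_eq_zero_of_le (Nat.lt_pow_self hp.1.one_lt).le h1
  rw [sub_pow_char_pow_of_commute _ _ (Commute.one_right _), one_pow, sub_eq_zero] at h3
  simpa using h3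

theorem Un_syl : Syl p (Un K ι) ⊤ := syl_of_norm Un_pg fun g hg k hk =>
  ⟨norm_le_Bo hg, fun i => one_of_pow (k := k) (by rw [← dg_pow (norm_le_Bo hg), hk]; simp)⟩

theorem tv_pow {i j : ι} (h : i ≠ j) (c : K) : tv h c ^ p ^ 1 = 1 := by
  have : ∀ m : ℕ, tv h c ^ m = tv h (m * c) := fun m => by
    induction m with
    | zero => simp
    | succ m ih => rw [pow_succ, ih, ← transvection_add]; push_cast; ring_nf
  rw [this]; simp

theorem conj1 {i j k : ι} (hij : i ≠ j) (hkj : k ≠ j) (hik : i ≠ k) {c d : K} (hc : c ≠ 0)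
    (hd : d ≠ 0) : IsConj (tv hij c) (tv hkj d) := by
  obtain ⟨t, ht, rfl⟩ : ∃ t, t ≠ 0 ∧ d = t * c := ⟨d / c, div_ne_zero hd hc, by field_simp⟩
  refine isConj_iff.2 ⟨tv hik (-t⁻¹) * tv hik.symm t, mul_inv_eq_iff_eq_mul.2 (Subtype.ext ?_)⟩
  have e : -t⁻¹ * t * c = -c := by field_simp
  simp only [Matrix.SpecialLinearGroup.coe_mul, transvection_coe, mul_add, add_mul, one_mul, mul_one,
    single_mul_single_same, single_mul_single_of_ne _ _ _ _ hij.symm,
    single_mul_single_of_ne _ _ _ _ hkj.symm, single_mul_single_of_ne _ _ _ _ hik.symm, e]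
  rw [← single_neg i j c]
  abel

theorem conj2 {i j k : ι} (hij : i ≠ j) (hik : i ≠ k) (hjk : j ≠ k) {c d : K} (hc : c ≠ 0)
    (hd : d ≠ 0) : IsConj (tv hij c) (tv hik d) := by
  obtain ⟨t, ht, rfl⟩ : ∃ t, t ≠ 0 ∧ d = c * t := ⟨d / c, div_ne_zero hd hc, by field_simp⟩
  refine (isConj_iff.2 ⟨tv hjk t * tv hjk.symm (-t⁻¹),
    mul_inv_eq_iff_eq_mul.2 (Subtype.ext ?_)⟩).symm
  have e : c * (t * -t⁻¹) = -c := by field_simp
  simp only [Matrix.SpecialLinearGroup.coe_mul, transvection_coe, mul_add, add_mul, one_mul, mul_one,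
    single_mul_single_same, single_mul_single_of_ne _ _ _ _ hij.symm,
    single_mul_single_of_ne _ _ _ _ hjk, single_mul_single_of_ne _ _ _ _ hik.symm, e]
  rw [← single_neg i j c]
  abel

variable (K) in
/-- stabilizer of a coordinate -/
def Yc (l : ι) : Subgroup SL' := sub
  { carrier := {g | ∀ v : ι → K, (g • v) l = v l}
    one_mem' := fun v => by simp
    mul_mem' := fun ha hb v => by rw [mul_smul, ha, hb] }

variable (K) in
/-- transvections with a fixed axis -/
def Rc (l : ι) : Subgroup SL' := sub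
  { carrier := {g | (∀ v : ι → K, (g • v) l = v l) ∧ ∀ v : ι → K, v l = 0 → g • v = v}
    one_mem' := ⟨fun v => by simp, fun v _ => by simp⟩
    mul_mem' := fun ha hb => ⟨fun v => by rw [mul_smul, ha.1, hb.1],
      fun v h => by rw [mul_smul, hb.2 v h, ha.2 v h]⟩ }

variable (K) in
/-- transvections with a fixed centre -/
def Rr (l : ι) : Subgroup SL' := sub
  { carrier := {g | g • (Pi.single l 1 : ι → K) = Pi.single l 1 ∧
      ∀ v : ι → K, ∃ c : K, g • v = v + c • Pi.single l 1}
    one_mem' := ⟨by simp, fun v => ⟨0, by simp⟩⟩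
    mul_mem' := fun {a b} ha hb => ⟨by rw [mul_smul, hb.1, ha.1], fun v => by
      obtain ⟨c, hc⟩ := hb.2 v
      obtain ⟨d, hd⟩ := ha.2 (b • v)
      exact ⟨c + d, by rw [mul_smul, hd, hc, add_smul, add_assoc]⟩⟩ }

theorem Yc_le (l : ι) : Yc K l ≤ normalizer (Rc K l : Set SL') := fun g hg =>
  mem_normalizer_of_finite fun r hr => by
    have h1 := (Yc K l).inv_mem hg
    refine ⟨fun v => by rw [mul_smul, mul_smul, hg, hr.1, h1], fun v hv => ?_⟩
    rw [mul_smul, mul_smul, hr.2 _ ((h1 v).trans hv), smul_inv_smul]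

theorem smul_add' (g : SL') (v w : ι → K) (c : K) : g • (v + c • w) = g • v + c • g • w := by
  change g.1 *ᵥ _ = g.1 *ᵥ _ + c • g.1 *ᵥ _
  rw [mulVec_add, mulVec_smul]

theorem St_le (l : ι) : MulAction.stabilizer SL' (Pi.single l 1 : ι → K) ≤
    normalizer (Rr K l : Set SL') := fun g hg =>
  mem_normalizer_of_finite fun r hr => by
    have h1 := MulAction.mem_stabilizer_iff.1 (inv_mem hg)
    have h2 := MulAction.mem_stabilizer_iff.1 hg
    refine ⟨by rw [mul_smul, mul_smul, h1, hr.1, h2], fun v => ?_⟩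
    obtain ⟨c, hc⟩ := hr.2 (g⁻¹ • v)
    exact ⟨c, by rw [mul_smul, mul_smul, hc, smul_add', smul_inv_smul, h2]⟩

theorem smul_single (g : SL') (i j : ι) : (g • (Pi.single j 1 : ι → K)) i = g.1 i j := by
  simp [Matrix.SpecialLinearGroup.smul_def]

theorem smul_ap (g : SL') (v : ι → K) (i : ι) : (g • v) i = ∑ j, g.1 i j * v j := rfl

theorem tv_smul {i j : ι} (h : i ≠ j) (c : K) (v : ι → K) :
    tv h c • v = v + (c * v j) • Pi.single i 1 := by
  ext a
  simp [Matrix.SpecialLinearGroup.smul_def, transvection_coe, add_mulVec, single_mulVec,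
    Pi.single_apply, Function.update_apply]

theorem Rc_ent {l : ι} {g : SL'} (hg : g ∈ Rc K l) (i : ι) {j : ι} (hj : j ≠ l) :
    g.1 i j = (1 : Matrix ι ι K) i j := by
  rw [← smul_single, hg.2 _ (by simp [hj.symm]), one_apply, Pi.single_apply]

theorem Rr_ent {l : ι} {g : SL'} (hg : g ∈ Rr K l) {i : ι} (hi : i ≠ l) (j : ι) :
    g.1 i j = (1 : Matrix ι ι K) i j := by
  obtain ⟨c, hc⟩ := hg.2 (Pi.single j 1)
  rw [← smul_single, hc, one_apply]
  simp [Pi.single_apply, hi]

theorem Rc_le {l : ι} (hl : ∀ i, i ≤ l) : Rc K l ≤ Un K ι := fun g hg =>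
  ⟨fun i j (h : j < i) => by rw [Rc_ent hg i (ne_of_lt (lt_of_lt_of_le h (hl i))), one_apply_ne (ne_of_gt h)],
    fun i => by
      by_cases h : i = l
      · subst h; rw [← smul_single, hg.1]; simp
      · rw [Rc_ent hg i h, one_apply_eq]⟩

theorem Rr_le {l : ι} (hl : ∀ i, l ≤ i) : Rr K l ≤ Un K ι := fun g hg =>
  ⟨fun i j (h : j < i) => by rw [Rr_ent hg (ne_of_gt (lt_of_le_of_lt (hl j) h)), one_apply_ne (ne_of_gt h)],
    fun i => by
      by_cases h : i = l
      · subst h; rw [← smul_single, hg.1]; simp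
      · rw [Rr_ent hg h, one_apply_eq]⟩

theorem Rc_cent (l : ι) (c : SL') (hc : ∃ k, c ^ p ^ k = 1) (h : ∀ x ∈ Rc K l, x * c = c * x) :
    c ∈ Rc K l := by
  have h1 : ∀ j, j ≠ l → ∀ i, c.1 i j = if i = j then c.1 l l else 0 := fun j hj i => by
    have h2 := congrArg (fun g : SL' => g.1 i l) (h (tv hj 1) ⟨fun v => by simp [tv_smul, hj.symm],
      fun v hv => by simp [tv_smul, hv]⟩)
    change (Matrix.transvection j l (1 : K) * c.1 : Matrix ι ι K) i l =
      (c.1 * Matrix.transvection j l (1 : K) : Matrix ι ι K) i l at h2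
    rw [mul_transvection_apply_same] at h2
    split_ifs with e
    · subst e; rw [transvection_mul_apply_same] at h2; linear_combination -h2
    · rw [transvection_mul_apply_of_ne _ _ _ _ e] at h2; linear_combination -h2
  have h2 : ∀ v : ι → K, (c • v) l = c.1 l l * v l := fun v => by
    rw [smul_ap]
    exact Finset.sum_eq_single l (fun j _ hj => by simp [h1 j hj, hj.symm]) (by simp)
  have h3 : ∀ (m : ℕ) (v : ι → K), ((c ^ m) • v) l = c.1 l l ^ m * v l := fun m => by
    induction m with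
    | zero => simp
    | succ m ih => intro v; rw [pow_succ, mul_smul, ih, h2, pow_succ, mul_assoc]
  obtain ⟨k, hk⟩ := hc
  have h4 : c.1 l l = 1 := one_of_pow (p := p) (k := k) (by simpa [hk] using (h3 (p ^ k) 1).symm)
  refine ⟨fun v => by rw [h2, h4, one_mul], fun v hv => funext fun i => ?_⟩
  rw [smul_ap, Finset.sum_eq_single i (fun j _ hj => ?_) (by simp)]
  · by_cases e : i = l
    · subst e; simp [hv]
    · simp [h1 i e, h4]
  · by_cases e : j = l
    · subst e; simp [hv]
    · simp [h1 j e, hj.symm]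

theorem Rr_cent (l : ι) (c : SL') (hc : ∃ k, c ^ p ^ k = 1) (h : ∀ x ∈ Rr K l, x * c = c * x) :
    c ∈ Rr K l := by
  have h1 : ∀ i, i ≠ l → ∀ j, c.1 i j = if j = i then c.1 l l else 0 := fun i hi j => by
    have h2 := congrArg (fun g : SL' => g.1 l j) (h (tv hi.symm 1) ⟨by simp [tv_smul, hi],
      fun v => ⟨_, tv_smul _ _ _⟩⟩)
    change (Matrix.transvection l i (1 : K) * c.1 : Matrix ι ι K) l j =
      (c.1 * Matrix.transvection l i (1 : K) : Matrix ι ι K) l j at h2
    rw [transvection_mul_apply_same] at h2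
    split_ifs with e
    · subst e; rw [mul_transvection_apply_same] at h2; linear_combination h2
    · rw [mul_transvection_apply_of_ne _ _ _ _ e] at h2; linear_combination h2
  have h2 : c • (Pi.single l 1 : ι → K) = 0 + c.1 l l • Pi.single l 1 := funext fun i => by
    rw [smul_single]
    by_cases e : i = l
    · subst e; simp
    · simp [h1 i e, e, Ne.symm e]
  have h3 : ∀ m : ℕ, (c ^ m) • (Pi.single l 1 : ι → K) = c.1 l l ^ m • Pi.single l 1 := fun m => by
    induction m with
    | zero => simp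
    | succ m ih => rw [pow_succ, mul_smul, h2, smul_add', ih, smul_zero, zero_add, smul_smul, pow_succ']
  obtain ⟨k, hk⟩ := hc
  have h4 : c.1 l l = 1 := one_of_pow (p := p) (k := k) (by
    simpa [hk] using (congrFun (h3 (p ^ k)) l).symm)
  refine ⟨by rw [h2, h4]; simp, fun v => ⟨(c • v) l - v l, funext fun i => ?_⟩⟩
  by_cases e : i = l
  · subst e; simp
  · rw [smul_ap, Finset.sum_eq_single i (fun j _ hj => by simp [h1 i e, hj]) (by simp)]
    simp [h1 i e, h4, e]

theorem diag_mem {i j : ι} (h : i ≠ j) {a : K} (ha : a ≠ 0) {H : Subgroup SL'}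
    (h1 : ∀ c, tv h c ∈ H) (h2 : ∀ c, tv h.symm c ∈ H) : diag2n h a ha ∈ H := by
  rw [H4.diag2n_decompose]
  exact mul_mem (mul_mem (mul_mem (mul_mem (mul_mem (h1 _) (h2 _)) (h1 _)) (h1 _)) (h2 _)) (h1 _)

theorem sl_simple {f k l : ι} (hf : ∀ i, f ≤ i) (hl : ∀ i, i ≤ l) (hfk : f < k) (hkl : k < l) :
    (groupFusionSystem (Un K ι)).IsSimple p := by
  have hfl := hfk.trans hkl
  refine simple_of_crit Un_syl (fun h => ?_) (fun T hT h0 => ?_) fun H h1 _ h3 g hg => ?_
  · have h1 := tv_mem hfl (1 : K)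
    rw [h, mem_bot] at h1
    have := (transvection_mem_center_iff hfl.ne (1 : K)).1 (by rw [h1]; exact one_mem _)
    exact one_ne_zero this
  · obtain ⟨z, hz, ho, hc⟩ := hT.exists_central (Un_pg (p := p)) h0
    have hp' : ∃ k, z ^ p ^ k = 1 := ⟨1, by rw [pow_one, ← ho, pow_orderOf_eq_one]⟩
    have c1 := Rc_cent l z hp' fun x hx => hc x (Rc_le hl hx)
    have c2 := Rr_cent f z hp' fun x hx => hc x (Rr_le hf hx)
    have e : z = tv hfl.ne (z.1 f l) := by
      ext i j
      by_cases hj : j = l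
      · by_cases hi : i = f
        · subst hi hj; simp [transvection_coe, one_apply_ne hfl.ne]
        · simp [transvection_coe, Rr_ent c2 hi, single_apply, Ne.symm hi]
      · simp [transvection_coe, Rc_ent c1 i hj, single_apply, Ne.symm hj]
    have ha : z.1 f l ≠ 0 := fun h => by
      rw [h, transvection_coeff_zero] at e
      rw [e, orderOf_one] at ho
      exact hp.1.one_lt.ne ho
    have k1 : ∀ {i} (hi : i ≠ l) {c : K}, c ≠ 0 → IsConj z (tv hi c) := fun {i} hi c hc => by
      rw [e]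
      by_cases h : i = f
      · subst h
        exact (conj1 hi hkl.ne hfk.ne ha one_ne_zero).trans (conj1 hkl.ne hi hfk.ne' one_ne_zero hc)
      · exact conj1 _ hi (Ne.symm h) ha hc
    refine Un_le fun {i j} hij c => ?_
    by_cases h : c = 0
    · rw [h, transvection_coeff_zero]; exact one_mem _
    refine hT.conj hz (tv_mem hij c) ?_
    by_cases hj : j = l
    · subst hj; exact k1 _ h
    · have hi := (hij.trans_le (hl j)).ne
      exact (k1 hi one_ne_zero).trans (conj2 hi hij.ne (Ne.symm hj) one_ne_zero h)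
  · have hB := norm_le_Bo hg
    have hD : det (diagonal fun i => g.1 i i) = 1 := by
      rw [det_diagonal, ← det_of_upperTriangular hB]; exact g.2
    let d : SL' := ⟨_, hD⟩
    have hd : d ∈ Bo K ι := blockTriangular_diagonal _
    have hu : d⁻¹ * g ∈ Un K ι := ⟨(Bo K ι).mul_mem ((Bo K ι).inv_mem hd) hB, fun i => by
      rw [Matrix.SpecialLinearGroup.coe_mul, dg_mul ((Bo K ι).inv_mem hd) hB, mul_comm]
      simpa [d] using dg_inv hd i⟩
    have hH : d ∈ H := by
      rw [show d = _ from diag_eq_diag2n_prod k _ hD]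
      refine H.noncommProd_mem _ fun i _ => ?_
      split_ifs with hi
      · by_cases e : i = l
        · subst e
          refine h3 _ (Rr_le hf) (Rr_cent f) ⟨Bo_le_norm (blockTriangular_diagonal _), ?_⟩
          refine diag_mem _ _ (fun c => subset_closure ⟨St_le f ?_, 1, tv_pow _ _⟩)
            fun c => subset_closure ⟨St_le f ?_, 1, tv_pow _ _⟩
          · simp [tv_smul, hfk.ne']
          · simp [tv_smul, hfl.ne']
        · refine h3 _ (Rc_le hl) (Rc_cent l) ⟨Bo_le_norm (blockTriangular_diagonal _), ?_⟩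
          refine diag_mem _ _ (fun c => subset_closure ⟨Yc_le l fun v => ?_, 1, tv_pow _ _⟩)
            fun c => subset_closure ⟨Yc_le l fun v => ?_, 1, tv_pow _ _⟩
          · simp [tv_smul, Ne.symm e]
          · simp [tv_smul, hkl.ne']
      · exact one_mem _
    simpa using mul_mem hH (h1 hu)

theorem psl_simple {f k l : ι} (hf : ∀ i, f ≤ i) (hl : ∀ i, i ≤ l) (hfk : f < k) (hkl : k < l)
    (S : Sylow p (ProjectiveSpecialLinearGroup ι K)) :
    (groupFusionSystem (S : Subgroup (ProjectiveSpecialLinearGroup ι K))).IsSimple p := by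
  refine simple_of_hom (QuotientGroup.mk' _) (QuotientGroup.mk'_surjective _) Un_syl
    (fun x hx h => ?_) (sl_simple hf hl hfk hkl) S
  obtain ⟨r, -, hr⟩ := Matrix.SpecialLinearGroup.mem_center_iff.1 ((QuotientGroup.eq_one_iff x).1 h)
  have h1 := hx.2 f
  rw [← hr] at h1
  refine Subtype.ext ?_
  rw [← hr, show r = 1 by simpa using h1]
  simp

end Cfsg.Agent.C3.FS
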