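import Cfsg.Agent.C3.Deg
import Cfsg.Agent.H1.Misc
import Cfsg.Agent.H1.PGrp

/-! Irreducible characters vanishing on all but two classes. -/

set_option autoImplicit false

namespace Cfsg.Agent.C3

open Cfsg H3 Subgroup Finset
open scoped ComplexConjugate

variable {G : Type*} [Group G] [Finite G] {χ ψ : G → ℂ} {x : G}

structure Gag (χ : G → ℂ) (x : G) : Prop where
  irr : IsIrrCharacter G χ
  two : 2 < Nat.card G
  ne : x ≠ 1
  supp : ∀ g, χ g ≠ 0 ↔ g = 1 ∨ IsConj x g

theorem exists_gag (hG : 2 < Nat.card G) (h : IsIrrCharacter G χ)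
    (h2 : Nat.card {C : ConjClasses G // ∃ g ∈ C.carrier, χ g ≠ 0} = 2) : ∃ x, Gag χ x := by
  obtain ⟨⟨C, x, a, b⟩, c, d⟩ := (Nat.card_eq_two_iff' (⟨ConjClasses.mk 1, 1,
    ConjClasses.mem_carrier_mk, h.apply_one_ne_zero⟩ : {C : ConjClasses G // ∃ g ∈ C.carrier, χ g ≠ 0})).1 h2
  obtain rfl := ConjClasses.mem_carrier_iff_mk_eq.1 a
  refine ⟨x, h, hG, fun e => c (by subst e; rfl), fun g => ⟨fun e => or_iff_not_imp_left.2 fun f => ?_, ?_⟩⟩
  · exact ConjClasses.mk_eq_mk_iff_isConj.1 (congrArg Subtype.val (d ⟨ConjClasses.mk g, g,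
      ConjClasses.mem_carrier_mk, e⟩ fun i => f (isConj_one_left.1
        (ConjClasses.mk_eq_mk_iff_isConj.1 (congrArg Subtype.val i))))).symm
  · rintro (rfl | e)
    exacts [h.apply_one_ne_zero, h.isClassFunction.eq_of_isConj e ▸ b]

namespace Gag

theorem sum_eq [Fintype G] (h : Gag χ x) {f : G → ℂ} (hf : IsClassFunction G f) :
    ∑ g, f g * χ g = f 1 * χ 1 + (centralizer ({x} : Set G)).index * (f x * χ x) := by
  classical
  rw [← card_filter_isConj, ← nsmul_eq_mul, ← sum_const, ← add_sum_erase _ _ (mem_univ 1), sum_filter,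
    ← add_sum_erase _ (fun g => if IsConj x g then f x * χ x else 0) (mem_univ 1),
    if_neg (by simpa using h.ne), zero_add]
  congr 1
  refine sum_congr rfl fun g a => ?_
  split_ifs with b
  · rw [hf.eq_of_isConj b, h.irr.isClassFunction.eq_of_isConj b]
  · rw [not_not.1 (mt (h.supp g).1 (not_or.2 ⟨(mem_erase.1 a).1, b⟩)), mul_zero]

theorem ne_one (h : Gag χ x) : χ ≠ fun _ => 1 := by
  classical
  rintro rfl
  have := Fintype.ofFinite G
  have a := h.sum_eq (isClassFunction_const 1)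
  simp only [mul_one, sum_const, card_univ, nsmul_eq_mul, ← Nat.card_eq_fintype_card] at a
  have b : Nat.card G = 1 + (centralizer ({x} : Set G)).index := by exact_mod_cast a
  have c := (Nat.dvd_add_left dvd_rfl).1 (b ▸ index_dvd_card (centralizer ({x} : Set G)))
  have := h.two
  have := Nat.dvd_one.1 c
  omega

theorem val (h : Gag χ x) : χ 1 + (centralizer ({x} : Set G)).index * χ x = 0 := by
  have := Fintype.ofFinite G
  have a := h.sum_eq (isClassFunction_const 1)
  have b := card_mul_classInner χ fun _ => 1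
  rw [h.irr.inner_of_ne isIrrCharacter_one h.ne_one] at b
  simp only [one_mul, mul_zero, map_one, mul_one] at a b
  rw [← a, ← b]

theorem faithful (h : Gag χ x) (g : G) (hg : χ g = χ 1) : g = 1 := by
  refine ((h.supp g).1 (hg ▸ h.irr.apply_one_ne_zero)).resolve_right fun a => ?_
  have b := h.val
  rw [h.irr.isClassFunction.eq_of_isConj a, hg] at b
  have : ((1 + (centralizer ({x} : Set G)).index : ℕ) : ℂ) = 0 :=
    mul_right_cancel₀ h.irr.apply_one_ne_zero (by push_cast; linear_combination b)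
  exact (by omega : 1 + (centralizer ({x} : Set G)).index ≠ 0) (Nat.cast_eq_zero.1 this)

theorem mem_ker (h : Gag χ x) (hψ : IsIrrCharacter G ψ) (hne : ψ ≠ χ) : x ∈ charKer ψ := by
  have := Fintype.ofFinite G
  have a := h.sum_eq hψ.isClassFunction.conj
  have b := card_mul_classInner χ ψ
  rw [h.irr.inner_of_ne hψ hne.symm, mul_zero] at b
  simp only [mul_comm (χ _)] at b
  refine hψ.mem_charKer_iff.2 ((starRingEnd ℂ).injective (mul_left_cancel₀ h.irr.apply_one_ne_zero ?_))
  linear_combination b + a + conj (ψ x) * h.val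

/-- The support. -/
theorem mem_ncl (h : Gag χ x) (g : G) : g ∈ normalClosure ({x} : Set G) ↔ χ g ≠ 0 := by
  classical
  refine ⟨fun a b => ?_, fun a => ?_⟩
  · have c := congrArg Complex.re (sum_irr_degree_mul_of_ne (g := g) fun c => h.irr.apply_one_ne_zero (c ▸ b))
    rw [Complex.re_sum] at c
    have d : ∀ ψ : IrrCharacter G, ψ.1 ≠ χ → ψ.1 1 * ψ.1 g = ((charDegree ψ.1 ^ 2 : ℕ) : ℂ) := fun ψ d => by
      have := ψ.2.isClassFunction.charKer_normal
      rw [apply_of_mem_charKer (χ := ψ.1) (normalClosure_le_normal (by simpa using h.mem_ker ψ.2 d) a),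
        ← ψ.2.cast_charDegree, Nat.cast_pow, sq]
    refine (sum_pos' (fun ψ _ => ?_) ⟨⟨_, isIrrCharacter_one⟩, mem_univ _, by simp⟩).ne' c
    by_cases e : ψ.1 = χ
    · simp [e, b]
    · rw [d ψ e, Complex.natCast_re]; positivity
  rcases (h.supp g).1 a with rfl | b
  · exact one_mem _
  · obtain ⟨c, rfl⟩ := isConj_iff.1 b
    exact normalClosure_normal.conj_mem _ (subset_normalClosure (Set.mem_singleton x)) c

variable {N : Subgroup G}

theorem eq_ncl (h : Gag χ x) (hN : ∀ g, g ∈ N ↔ χ g ≠ 0) : N = normalClosure ({x} : Set G) :=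
  Subgroup.ext fun g => (hN g).trans (h.mem_ncl g).symm

theorem isConj (h : Gag χ x) (hN : ∀ g, g ∈ N ↔ χ g ≠ 0) {y : G} (hy : y ∈ N) (h1 : y ≠ 1) : IsConj x y :=
  ((h.supp y).1 ((hN y).1 hy)).resolve_left h1

theorem mem (h : Gag χ x) (hN : ∀ g, g ∈ N ↔ χ g ≠ 0) : x ∈ N := (hN x).2 ((h.supp x).2 (.inr (.refl x)))

theorem of_conj (h : Gag χ x) {y : G} (hy : IsConj x y) : Gag χ y :=
  ⟨h.irr, h.two, fun a => h.ne (isConj_one_left.1 (a ▸ hy)), fun g => (h.supp g).trans
    (or_congr_right ⟨hy.symm.trans, hy.trans⟩)⟩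

theorem le_of_normal (h : Gag χ x) (K : Subgroup G) [hK : K.Normal] (h1 : K ≠ ⊥) :
    normalClosure ({x} : Set G) ≤ K := by
  classical
  have := Fintype.ofFinite K
  refine normalClosure_le_normal (Set.singleton_subset_iff.2 (by_contra fun a => ?_))
  have b := h.irr.inner_res_one_eq_zero (N := K) (by rwa [ker_eq_bot h.faithful, le_bot_iff])
  rw [classInner_def, sum_eq_single 1 (fun g _ c => by
    rw [not_not.1 (mt (h.supp g).1 (not_or.2 ⟨by simpa using c, fun d => a ?_⟩)), zero_mul]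
    obtain ⟨c, d⟩ := isConj_iff.1 d.symm
    exact d ▸ hK.conj_mem _ g.2 c) (by simp)] at b
  simpa [h.irr.apply_one_ne_zero, Nat.card_pos.ne'] using b

theorem elementary (h : Gag χ x) : ∃ p : ℕ, p.Prime ∧ IsElementaryAbelian p (normalClosure ({x} : Set G)) := by
  have a : normalClosure ({x} : Set G) ≠ ⊥ := fun a => h.ne (a.le (subset_normalClosure rfl))
  obtain ⟨p, hp, b⟩ := H1.exists_prime_dvd_card a
  obtain ⟨y, c, d⟩ := H1.exists_mem_orderOf_eq_prime hp b
  have := Fact.mk hp
  have e : ∀ z ∈ normalClosure ({x} : Set G), z ^ p = 1 := fun z e => by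
    by_cases f : z = 1
    · simp [f]
    obtain ⟨g, rfl⟩ := isConj_iff.1 ((h.isConj h.mem_ncl c fun i => hp.one_lt.ne' (by
      rw [← d, i, orderOf_one])).symm.trans (h.isConj h.mem_ncl e f))
    rw [conj_pow, ← d, pow_orderOf_eq_one]; simp
  exact ⟨p, hp, H1.elementary_of_minimal_normal_of_isPGroup (H1.isPGroup_iff_forall_mem.2 fun z f =>
    ⟨1, by simpa using e z f⟩) fun M i j => or_iff_not_imp_left.2 fun k => j.antisymm (h.le_of_normal M k)⟩

theorem card_eq (h : Gag χ x) (hN : ∀ g, g ∈ N ↔ χ g ≠ 0) :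
    Nat.card N = (centralizer ({x} : Set G)).index + 1 := by
  classical
  have := Fintype.ofFinite G
  rw [← card_filter_isConj, ← card_insert_of_notMem (a := 1) (by simpa using h.ne), Nat.card_eq_fintype_card,
    Fintype.card_subtype]
  congr 1; ext g; simp [hN, h.supp]

theorem exists_e (h : Gag χ x) (hN : ∀ g, g ∈ N ↔ χ g ≠ 0) : ∃ e : ℕ, χ x = -e ∧
    χ 1 = e * (centralizer ({x} : Set G)).index ∧
    Nat.card (centralizer ({x} : Set G)) = e ^ 2 * Nat.card N := by
  have := Fintype.ofFinite G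
  have a := h.val
  have b : ((centralizer ({x} : Set G)).index : ℂ) ≠ 0 := Nat.cast_ne_zero.2 index_ne_zero_of_finite
  obtain ⟨e, c⟩ : (centralizer ({x} : Set G)).index ∣ charDegree χ := nat_dvd_of_isIntegral_div
    index_ne_zero_of_finite (by
      convert (h.irr.isCharacter.isIntegral x).neg using 1
      rw [h.irr.cast_charDegree]; field_simp; linear_combination a)
  have d : χ 1 = e * (centralizer ({x} : Set G)).index := by rw [← h.irr.cast_charDegree, c]; simp [mul_comm]
  have f : χ x = -e := mul_left_cancel₀ b (by linear_combination a - d)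
  refine ⟨e, f, d, Nat.eq_of_mul_eq_mul_right (Nat.pos_of_ne_zero index_ne_zero_of_finite :
    0 < (centralizer ({x} : Set G)).index) ?_⟩
  have i := h.sum_eq h.irr.isClassFunction.conj
  have j := card_mul_classInner χ χ
  simp only [h.irr.inner_self, mul_comm (χ _)] at j
  rw [← j, d, f] at i
  rw [card_mul_index, h.card_eq hN]
  have : (Nat.card G : ℂ) = (e ^ 2 * ((centralizer ({x} : Set G)).index + 1) *
    (centralizer ({x} : Set G)).index : ℕ) := by simp at i ⊢; linear_combination i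
  exact_mod_cast this

theorem isPGroup_cent (h : Gag χ x) (hN : ∀ g, g ∈ N ↔ χ g ≠ 0) {p : ℕ} [hp : Fact p.Prime]
    (hNp : IsPGroup p N) : IsPGroup p (centralizer ({x} : Set G)) := by
  classical
  obtain ⟨e, a, b, c⟩ := h.exists_e hN
  refine H1.isPGroup_iff_forall_prime.2 fun q hq d => by_contra fun f => ?_
  have := Fact.mk hq
  obtain ⟨Q, i, j, k⟩ := H1.exists_isSylowIn q (centralizer ({x} : Set G))
  have l : Q ⊓ N = ⊥ := IsPGroup.disjoint_of_ne q p f _ _ j hNp |>.eq_bot
  have m : zpowers x ≤ normalizer (Q : Set G) :=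
    (le_centralizer_iff.1 (i.trans (H1.centralizer_zpowers x).ge)).trans (centralizer_le_normalizer _)
  have := normal_subgroupOf_of_le_normalizer (H1.sup_le_normalizer m)
  have := Fintype.ofFinite (Q.subgroupOf (zpowers x ⊔ Q))
  have n := ((h.irr.isCharacter.res (zpowers x ⊔ Q)).avg (N := Q.subgroupOf _)).isIntegral
    ⟨x, mem_sup_left (mem_zpowers x)⟩
  rw [avg_apply, sum_eq_single 1 (fun y _ o => by
    refine not_not.1 (mt (hN _).2 fun r => o (Subtype.ext (Subtype.ext ?_)))
    exact l.le ⟨y.2, (mul_mem_cancel_right (h.mem hN)).1 r⟩) (by simp), H1.card_subgroupOf le_sup_right] at n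
  have o : Nat.card Q ∣ e := nat_dvd_of_isIntegral_div Nat.card_pos.ne' (by
    convert n.neg using 1
    simp [a, div_eq_inv_mul])
  have r := H1.card_mul_relIndex i
  obtain ⟨s, t⟩ := j.exists_card_eq
  obtain ⟨u, rfl⟩ := o
  refine k ((dvd_pow_self q (n := s) ?_).trans (t ▸ Dvd.intro (u ^ 2 * Nat.card N)
    (Nat.eq_of_mul_eq_mul_left (Nat.card_pos (α := Q)) (by rw [r, c]; ring))))
  rintro rfl
  exact k (by rwa [← r, t, pow_zero, one_mul] at d)

theorem not_dvd_index (h : Gag χ x) (hN : ∀ g, g ∈ N ↔ χ g ≠ 0) {p : ℕ} [hp : Fact p.Prime]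
    (hNp : IsPGroup p N) : ¬ p ∣ (centralizer ({x} : Set G)).index := fun a =>
  hp.out.one_lt.ne' (Nat.dvd_one.1 ((Nat.dvd_add_right a).1 (h.card_eq hN ▸
    H1.dvd_card_of_isPGroup_of_ne_bot hNp fun b => h.ne (b.le (h.mem hN)))))

theorem card_cent (h : Gag χ x) (hN : ∀ g, g ∈ N ↔ χ g ≠ 0) [N.Normal] {y : G} (hy : y ∉ N) :
    Nat.card (centralizer ({y} : Set G)) = Nat.card (centralizer ({(y : G ⧸ N)} : Set (G ⧸ N))) := by
  classical
  have a := sum_irr_norm_sq y
  rw [← sum_filter_add_sum_filter_not _ (fun χ : IrrCharacter G => N ≤ charKer χ.1),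
    sum_eq_zero (s := filter (fun χ : IrrCharacter G => ¬ N ≤ charKer χ.1) _) fun ψ b => by
      have := ψ.2.isClassFunction.charKer_normal
      rw [by_contra fun c : ¬ ψ.1 = χ => (mem_filter.1 b).2 ((h.eq_ncl hN).le.trans
        (normalClosure_le_normal (by simpa using h.mem_ker ψ.2 c))), not_not.1 (mt (hN y).2 hy)]
      simp, add_zero, sum_subtype (p := fun χ : IrrCharacter G => N ≤ charKer χ.1) _ (by simp),
    ← (irrQuotEquiv N).sum_comp] at a
  exact_mod_cast a.symm.trans (sum_irr_norm_sq (y : G ⧸ N))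

theorem card_le (h : Gag χ x) (hN : ∀ g, g ∈ N ↔ χ g ≠ 0) [N.Normal] {p : ℕ} [hp : Fact p.Prime]
    (hNp : IsPGroup p N) (P : Sylow p G) {y : G} (hy : y ∉ N) :
    Nat.card N ≤ (centralizer ({y} : Set G)).relIndex P := by
  have a : Nat.card N ∣ (centralizer ({y} : Set G)).index := ⟨(centralizer ({(y : G ⧸ N)} : Set (G ⧸ N))).index,
    Nat.eq_of_mul_eq_mul_left (Nat.card_pos (α := centralizer ({y} : Set G))) (by
      rw [card_mul_index, h.card_cent hN hy, mul_left_comm, card_mul_index, ← index_eq_card, card_mul_index])⟩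
  refine Nat.le_of_dvd (Nat.pos_of_ne_zero index_ne_zero_of_finite) ((H1.coprime_card_of_isPGroup hNp
    ((Nat.coprime_comm.1 (hp.out.coprime_iff_not_dvd.2 P.not_dvd_index)))).dvd_of_dvd_mul_right (a.trans ?_))
  rw [← inf_relIndex_right, relIndex_mul_index inf_le_right]
  exact index_dvd_of_le inf_le_left

end Gag

end Cfsg.Agent.C3
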