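import Cfsg.Agent.C3.Glaub3

/-! Cyclic operator groups: values of canonical extensions. -/

set_option autoImplicit false

namespace Cfsg.Agent.C3

open Cfsg Subgroup H3 BG
open scoped ComplexConjugate commutatorElement

section
variable {X : Type*} [Group X] [Finite X]

theorem card_irr_coprime {K H : Subgroup X} [K.Normal] (h : K ⊔ H = ⊤) (hc : (♯K).Coprime (♯H)) :
    Nat.card {χ : IrrCharacter X // (charDegree χ.1).Coprime (♯H)} =
      Nat.card {θ : IrrCharacter K // SInv H θ.1} * Nat.card (H →* ℂˣ) := by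
  have := Fintype.ofFinite K
  have := Fintype.ofFinite X
  have h1 := H1.isComplement'_of_inf_eq_bot_of_sup_eq_top (inf_eq_bot_of_coprime hc) h
  let π : X →* H := h1.symm.QuotientMulEquiv.toMonoidHom.comp (QuotientGroup.mk' K)
  have h2 : Function.Surjective π := h1.symm.QuotientMulEquiv.surjective.comp (QuotientGroup.mk'_surjective K)
  have h3 : π.ker = K := Subgroup.ext fun x => by simp [π]
  have h4 := h1.symm.index_eq_card
  choose E a b using fun θ : {θ : IrrCharacter K // SInv H θ.1} => exists_ext_of_coprime θ.1.2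
    (fun g => funext fun n => (h.ge.trans (sup_le (self_le_stab θ.1.2.isClassFunction)
      (le_stab.2 ⟨le_normalizer_of_normal, θ.2⟩)) (mem_top g)).2 _ _ rfl) (h4 ▸ hc)
  have c : ∀ θ (μ : H →* ℂˣ) (k : K), E θ k * μ (π k) = θ.1.1 k := fun θ μ k => by
    rw [b, show π k = 1 from h3.ge k.2]; simp
  have d : ∀ θ, IsIrrCharacter K fun k : K => E θ k := fun θ => funext (b θ) ▸ θ.1.2
  rw [← Nat.card_prod]
  refine (Nat.card_eq_of_bijective (β := {χ : IrrCharacter X // (charDegree χ.1).Coprime (♯H)})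
    (fun x => ⟨⟨fun g => E x.1 g * x.2 (π g), (a _).mul_linear (x.2.comp π)⟩,
    hc.coprime_dvd_left ((charDegree_eq ((c x.1 x.2 1).trans x.1.1.2.cast_charDegree.symm)).dvd.trans
      x.1.1.2.degree_dvd_card)⟩) ⟨?_, fun χ => ?_⟩).symm
  · rintro ⟨θ, μ⟩ ⟨θ', μ'⟩ e
    replace e : (fun g => E θ g * μ (π g)) = fun g => E θ' g * μ' (π g) := congrArg (·.1.1) e
    obtain rfl : θ = θ' := Subtype.ext (Subtype.ext (funext fun k =>
      (c θ μ k).symm.trans ((congrFun e k).trans (c θ' μ' k))))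
    have k : ∀ μ : H →* ℂˣ, K ≤ charKer fun g => (μ.comp π g : ℂ) := fun μ =>
      h3.ge.trans (ker_le_charKer_comp π fun x => (μ x : ℂ))
    have := linear_injective (gallagher_injective (isIrrCharacter_linear (μ.comp π)) (k μ)
      (isIrrCharacter_linear (μ'.comp π)) (k μ') (a θ).isCharacter (d θ)
      (funext fun g => (mul_comm _ _).trans ((congrFun e g).trans (mul_comm _ _))))
    rw [(MonoidHom.cancel_right h2).1 this]
  obtain ⟨θ, e, f⟩ := χ.1.2.exists_under K
  obtain ⟨m, g, i⟩ := χ.1.2.exists_degree_eq e f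
  obtain rfl : m = 1 := Nat.eq_one_of_dvd_coprimes χ.2 (by
    rw [charDegree_eq (n := m * charDegree θ) (by rw [g, Nat.cast_mul, e.cast_charDegree])]
    exact dvd_mul_right _ _) (h4 ▸ i)
  obtain rfl := (χ.1.2.isCharacter.res K).eq_of_inner_ne_zero_of_degree e f (by simpa using g)
  let θ : {θ : IrrCharacter K // SInv H θ.1} := ⟨⟨_, e⟩, fun s _ g g' u => by
    simp only [u]; exact χ.1.2.isClassFunction.conj_apply _ _⟩
  obtain ⟨β, j, k, l⟩ := χ.1.2.exists_gallagher (a θ).isCharacter (d θ) (by rwa [funext (b θ)])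
  obtain ⟨γ, m, n⟩ := j.isCharacter.exists_of_surjective π h2 (h3 ▸ k)
  obtain ⟨μ, rfl⟩ := m.exists_linear (by
    have := (congrFun l 1).symm.trans (b θ 1).symm
    rw [← map_one π, n]
    exact mul_left_eq_self₀.1 this |>.resolve_right (a θ).apply_one_ne_zero)
  exact ⟨(θ, μ), Subtype.ext (Subtype.ext (funext fun g => by
    rw [l, Pi.mul_apply, ← n, mul_comm]))⟩

theorem detOrder_pow_dvd {χ : X → ℂ} (h : IsIrrCharacter X χ) {k : ℕ} (hk : k.Coprime (Nat.card X)) :
    detOrder (fun g => χ (g ^ k)) ∣ detOrder χ := by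
  obtain ⟨δ, hδ⟩ := h.isCharacter.exists_det
  have : detChar (fun g => χ (g ^ k)) = detChar χ ^ k := funext fun g => by
    rw [← (h.comp_pow hk).isCharacter.detChar_res (zpowers g) ⟨g, mem_zpowers g⟩]
    letI : CommGroup (zpowers g) := IsCyclic.commGroup
    refine (h.isCharacter.detChar_comp ((zpowers g).subtype.comp (powMonoidHom k)) _).trans ?_
    simp [hδ]
  rw [detOrder, this]; exact orderOf_pow_dvd k

theorem exists_factor {N : Subgroup X} [N.Normal] {F E : X → ℂ} (hF : IsCharacter X F)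
    (hE : IsCharacter X E) (hr : IsIrrCharacter N fun n : N => E n) :
    ∀ e : ℂ, (fun n : N => F n) = e • (fun n : N => E n) →
      ∃ ψ, IsCharacter X ψ ∧ N ≤ charKer ψ ∧ F = ψ * E := by
  have := Fintype.ofFinite N
  refine hF.induction_on (P := fun F : X → ℂ => ∀ e : ℂ, (fun n : N => F n) = e • (fun n : N => E n) →
      ∃ ψ, IsCharacter X ψ ∧ N ≤ charKer ψ ∧ F = ψ * E)
    (fun _ _ => ⟨0, isCharacter_zero, fun _ _ _ => rfl, by simp⟩) fun φ ψ a b ih e he => ?_
  obtain ⟨c, hc⟩ := exists_eq_smul_of_add (a.isCharacter.res N) (b.res N) hr he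
  obtain ⟨d, hd⟩ := exists_eq_smul_of_add (b.res N) (a.isCharacter.res N) hr ((add_comm _ _).trans he)
  obtain ⟨β, f, g, rfl⟩ := a.exists_gallagher hE hr (by
    rw [hc, classInner_smul_left, hr.inner_self, mul_one]
    exact fun u => a.apply_one_ne_zero (by simpa [u] using congrFun hc 1))
  obtain ⟨γ, i, j, rfl⟩ := ih d hd
  exact ⟨β + γ, f.isCharacter.add i, fun n hn x => by rw [Pi.add_apply, g hn, j hn, Pi.add_apply],
    (add_mul ..).symm⟩

end

section
variable {C S : Type*} [Group C] [Group S] [Fintype C] [Fintype S] {Φ : C × S → ℂ}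

theorem isCharacter_slice (h : IsCharacter _ Φ) {β : C → ℂ} (hβ : IsCharacter C β) :
    IsCharacter S fun x => ⟪fun c => Φ (c, x), β⟫ := by
  refine h.induction_on (P := fun Φ => IsCharacter S fun x => ⟪fun c => Φ (c, x), β⟫) ?_
    fun φ ψ a _ ih => ?_
  · exact (funext fun _ => classInner_zero_left β) ▸ isCharacter_zero
  obtain ⟨u, v, b, c, rfl⟩ := a.exists_prod
  obtain ⟨m, hm⟩ := b.isCharacter.exists_nat_inner hβ
  convert (c.isCharacter.natCast_smul m).add ih using 2 with x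
  rw [Pi.add_apply, Pi.smul_apply, smul_eq_mul, ← hm, mul_comm, ← classInner_smul_left,
    ← classInner_add_left]
  exact congrArg (⟪·, β⟫) (funext fun _ => by simp [mul_comm])

theorem isClassFunction_slice (h : IsClassFunction _ Φ) (x : S) : IsClassFunction C fun c => Φ (c, x) :=
  fun c d => by simpa using h (c, x) (d, 1)

theorem card_mul_nrm (Φ : C × S → ℂ) : Nat.card S * nrm Φ = ∑ x, nrm fun c => Φ (c, x) := by
  simp only [nrm_eq_sum, Fintype.sum_prod_type_right, ← Finset.mul_sum, Nat.card_prod]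
  have := (Nat.card_pos (α := S)).ne'
  push_cast; field_simp

theorem exists_of_slices [IsMulCommutative S] [Nontrivial S] (h : IsCharacter _ Φ)
    (h1 : ∀ x ≠ 1, nrm (fun c => Φ (c, x)) = 1) : ∃ (ε : ℤ) (β : C → ℂ) (μ : S →* ℂˣ) (ϑ : C → ℂ),
      (ε = 1 ∨ ε = -1) ∧ IsIrrCharacter C β ∧ IsCharacter C ϑ ∧ (∀ c, ∀ x ≠ 1, Φ (c, x) = ε * β c * μ x) ∧
      ∀ c, Φ (c, 1) = Nat.card S * ϑ c + ε * β c := by
  classical
  obtain ⟨d, d1, -⟩ := (h.comp (MonoidHom.inl C S)).exists_nat_coeffs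
  set n := Nat.card S
  have hn : 0 < n := Nat.card_pos
  let ϑ : C → ℂ := ∑ γ : IrrCharacter C, (((2 * d γ + n) / (2 * n) : ℕ) : ℂ) • γ.1
  have h2 : IsCharacter C ϑ := isCharacter_sum _ _ fun γ _ => γ.2.isCharacter.natCast_smul _
  let Ψ : C × S → ℂ := Φ - (fun z => ϑ z.1) * fun z => regChar S z.2
  have h3 : IsGeneralizedCharacter _ Ψ := h.isGen.sub
    ((h2.comp (MonoidHom.fst C S)).mul (isCharacter_regChar.comp (MonoidHom.snd C S))).isGen
  have h4 : ∀ c, ∀ x ≠ 1, Ψ (c, x) = Φ (c, x) := fun c x hx => by simp [Ψ, regChar_of_ne hx]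
  have h5 : (fun c => Ψ (c, 1)) = (fun c => Φ (c, 1)) - (n : ℂ) • ϑ := funext fun c => by
    simp [Ψ, regChar_one, mul_comm, n]
  have h6 : ∀ γ, IsIrrCharacter C γ → ‖⟪γ, fun c => Ψ (c, 1)⟫‖ ≤ n / 2 := fun γ a => by
    rw [← conj_classInner, RCLike.norm_conj, h5, classInner_sub_left, classInner_smul_left,
      classInner_sum_irr _ ⟨γ, a⟩]
    erw [d1 ⟨γ, a⟩]
    have b := Nat.div_add_mod (2 * d ⟨γ, a⟩ + n) (2 * n)
    have c := Nat.mod_lt (2 * d ⟨γ, a⟩ + n) (by omega : 0 < 2 * n)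
    generalize (2 * d ⟨γ, a⟩ + n) / (2 * n) = q at *
    generalize (2 * d ⟨γ, a⟩ + n) % (2 * n) = r at *
    rw [show (d ⟨γ, a⟩ : ℂ) - n * q = ((d ⟨γ, a⟩ - n * q : ℝ) : ℂ) by push_cast; rfl, Complex.norm_real,
      Real.norm_eq_abs, abs_le]
    have b' : (2 * n * q + r : ℝ) = 2 * d ⟨γ, a⟩ + n := by exact_mod_cast b
    have c' : (r : ℝ) < 2 * n := by exact_mod_cast c
    have := r.cast_nonneg (α := ℝ)
    constructor <;> linarith
  obtain ⟨b, b1, b2⟩ := h3.exists_int_coeffs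
  have h7 : nrm (fun c => Ψ (c, 1)) ≤ n / 2 * nrm Ψ := by
    have e : (fun c => Ψ (c, 1)) = ∑ Θ : IrrCharacter (C × S), (b Θ : ℂ) • fun c => Θ.1 (c, 1) :=
      funext fun c => by rw [b2]; simp
    rw [nrm_def Ψ, h3.inner_self_eq_sum_sq b b1, Complex.intCast_re, nrm_def]
    refine (Complex.re_le_norm _).trans ?_
    nth_rw 1 [e]
    rw [classInner_sum_left, Int.cast_sum, Finset.mul_sum]
    refine norm_sum_le_of_le _ fun Θ _ => ?_
    obtain ⟨u, v, a, c, f⟩ := Θ.2.exists_prod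
    rw [classInner_smul_left, norm_mul, mul_comm, Complex.norm_intCast, Int.cast_pow, ← sq_abs, ← Int.cast_abs]
    refine mul_le_mul (h6 _ ?_) (int_le_sq _) (by positivity) (by positivity)
    simpa [f, c.degree_eq_one_of_comm] using a
  have h8 : n * nrm Ψ + 1 = nrm (fun c => Ψ (c, 1)) + n := by
    rw [card_mul_nrm, ← Finset.add_sum_erase _ _ (Finset.mem_univ 1), Finset.sum_congr rfl (g := fun _ => 1)
      fun x hx => by rw [funext fun c => h4 c x (Finset.ne_of_mem_erase hx), h1 x (Finset.ne_of_mem_erase hx)]]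
    rw [Finset.sum_const, Finset.card_erase_of_mem (Finset.mem_univ _), Finset.card_univ,
      ← Nat.card_eq_fintype_card, nsmul_eq_mul, Nat.cast_sub hn]
    push_cast; ring
  obtain ⟨m, hm⟩ := h3.exists_nat_nrm
  have h9 : (1 : ℝ) < n := by exact_mod_cast Finite.one_lt_card
  have := nrm_nonneg fun c => Ψ (c, 1)
  obtain rfl : m = 1 := by
    have a : (m : ℝ) < 2 := by rw [hm] at h7 h8; nlinarith
    have c : (0 : ℝ) < m := by rw [hm] at h8; nlinarith
    norm_cast at a c; omega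
  obtain ⟨ε, Θ, a, c, e⟩ := (h3.isSIrr_of_nrm (by simpa using hm)).exists_sign
  obtain ⟨u, v, f, g, rfl⟩ := c.exists_prod
  obtain ⟨μ, rfl⟩ := g.exists_linear_of_comm
  obtain ⟨ε, i, rfl⟩ : ∃ η : ℤ, (η = 1 ∨ η = -1) ∧ ε = η :=
    a.elim (fun a => ⟨1, .inl rfl, by simp [a]⟩) fun a => ⟨-1, .inr rfl, by simp [a]⟩
  refine ⟨ε, u, μ, ϑ, i, f, h2, fun c x hx => by rw [← h4 c x hx, e]; simp [mul_assoc], fun c => ?_⟩
  have := congrFun h5 c
  rw [e] at this
  simp at this
  rw [this]; ring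

end

end Cfsg.Agent.C3
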