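import Cfsg.Agent.C3.Glaub4

/-! Canonical extensions for cyclic operator groups. -/

set_option autoImplicit false

namespace Cfsg.Agent.C3

open Cfsg Subgroup H3 BG
open scoped ComplexConjugate commutatorElement

variable {Γ : Type*} [Group Γ] {A B C D G K N S P Q : Subgroup Γ} {s t x y : Γ} {F F' : Γ → ℂ}

/-- The multiplication map. -/
def mulHom (h : C ≤ 𝒞 S) : C × S →* Γ :=
  C.subtype.noncommCoprod S.subtype fun c x => (h c.2 x x.2).symm

theorem char_mulHom (h : C ≤ 𝒞 S) (hF : IsCharacter Γ F) :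
    IsCharacter (C × S) fun z => F (z.1 * z.2) := hF.comp (mulHom h)

variable [Finite Γ]

theorem one_of_cent (hx : x ∈ 𝒩 G) (hc : (orderOf x).Coprime (♯G)) :
    One G (G ⊓ 𝒞 (zpowers x)) x := (act_bot (zpowers_le.2 hx)).one (by simpa using hc)

omit [Finite Γ] in
theorem ext_of_char (hF : IsCharacter Γ F) (h : IsIrrCharacter A (rs A F)) : Ext A s F := ⟨hF.res _, h⟩

/-- The hypotheses on a canonical extension. -/
structure Can (G S : Subgroup Γ) (F : Γ → ℂ) : Prop where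
  norm : S ≤ 𝒩 G
  cop : (♯G).Coprime (♯S)
  top : G ⊔ S = ⊤
  irr : IsIrrCharacter Γ F
  res : IsIrrCharacter G (rs G F)
  det : (detOrder F).Coprime (♯S)

omit [Finite Γ] in
theorem normal_of_top (h1 : S ≤ 𝒩 G) (h2 : G ⊔ S = ⊤) : G.Normal :=
  normalizer_eq_top_iff.1 (top_le_iff.1 (h2 ▸ sup_le le_normalizer h1))

theorem index_eq_of_top (h1 : S ≤ 𝒩 G) (h2 : G ⊔ S = ⊤) (hc : (♯G).Coprime (♯S)) : G.index = ♯S :=
  have := normal_of_top h1 h2
  (H1.isComplement'_of_inf_eq_bot_of_sup_eq_top (inf_eq_bot_of_coprime hc) h2).symm.index_eq_card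

theorem exists_can (h1 : S ≤ 𝒩 G) (hc : (♯G).Coprime (♯S)) (h2 : G ⊔ S = ⊤) {χ : G → ℂ}
    (hχ : IrrI S χ) : ∃ F, (Can G S F ∧ rs G F = χ) ∧ ∀ F', Can G S F' → rs G F' = χ → F' = F := by
  have := normal_of_top h1 h2
  have h3 := index_eq_of_top h1 h2 hc
  have h4 := hc.coprime_dvd_left (detOrder_dvd_card hχ.irr.isCharacter)
  obtain ⟨F, ⟨a, b, c⟩, d⟩ := exists_canonical_ext hχ.irr (fun g => funext fun n =>
    (h2.ge.trans (sup_le (self_le_stab hχ.irr.isClassFunction) (le_stab.2 ⟨h1, hχ.inv⟩)) (mem_top g)).2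
      _ _ rfl) (h3 ▸ (hc.coprime_dvd_left hχ.irr.degree_dvd_card).symm) (h3 ▸ h4.symm)
  exact ⟨F, ⟨⟨h1, hc, h2, a, by rw [show rs G F = χ from funext b]; exact hχ.irr, c ▸ h4⟩, funext b⟩,
    fun F' e f => d F' e.irr (congrFun f) (h3 ▸ e.det.symm)⟩

namespace Can

omit [Finite Γ] in
theorem irrI (h : Can G S F) : IrrI S (rs G F) :=
  ⟨h.res, fun s _ g g' e => by rw [rs, e]; exact h.irr.isClassFunction.conj_apply _ _⟩

theorem apply_pow (h : Can G S F) {c : Γ} (hc : c ∈ G ⊓ 𝒞 S) (hs : s ∈ S) {k : ℕ} (hk : k.Coprime (♯S)) :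
    F (c * s ^ k) = F (c * s) := by
  obtain ⟨j, a, b⟩ := Nat.chineseRemainder h.cop 1 k
  have h1 : j.Coprime (Nat.card Γ) := by
    rw [← G.card_mul_index, index_eq_of_top h.norm h.top h.cop]
    exact Nat.Coprime.mul_right (by rw [Nat.Coprime, Nat.gcd_comm, Nat.gcd_rec, a, ← Nat.gcd_rec]; simp)
      (by rw [Nat.Coprime, Nat.gcd_comm, Nat.gcd_rec, b, ← Nat.gcd_rec]; exact hk.symm)
  have h2 : ∀ g ∈ G, g ^ j = g := fun g hg =>
    (pow_eq_pow_iff_modEq.2 (a.of_dvd (G.orderOf_dvd_natCard hg))).trans (pow_one g)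
  have h3 : rs G (fun g => F (g ^ j)) = rs G F := funext fun g => congrArg F (h2 g g.2)
  obtain ⟨E, -, e⟩ := exists_can h.norm h.cop h.top h.irrI
  have := congrFun ((e _ ⟨h.norm, h.cop, h.top, h.irr.comp_pow h1, h3 ▸ h.res,
    h.det.coprime_dvd_left (detOrder_pow_dvd h.irr h1)⟩ h3).trans (e F h rfl).symm) (c * s)
  rwa [Commute.mul_pow (hc.2 s hs).symm, h2 c hc.1,
    pow_eq_pow_iff_modEq.2 (b.of_dvd (S.orderOf_dvd_natCard hs))] at this

theorem one (h : Can G S F) (hs : zpowers s = S) : One G (G ⊓ 𝒞 S) s :=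
  hs ▸ one_of_cent (h.norm (hs ▸ mem_zpowers s)) (by rw [← Nat.card_zpowers, hs]; exact h.cop.symm)

theorem trl_eq (h : Can G S F) (hs : zpowers s = S) (ht : zpowers t = S) :
    trl (G ⊓ 𝒞 S) t F = trl (G ⊓ 𝒞 S) s F := by
  obtain ⟨k, rfl⟩ := mem_powers_iff_mem_zpowers.2 (hs.ge (ht ▸ mem_zpowers t))
  refine funext fun c => h.apply_pow c.2 (hs ▸ mem_zpowers s) ?_
  have := congrArg (fun A : Subgroup Γ => ♯A) (ht.trans hs.symm)
  simp only [Nat.card_zpowers, orderOf_pow] at this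
  rw [← hs, Nat.card_zpowers, Nat.coprime_comm]
  exact (Nat.div_eq_self.1 this).resolve_left (orderOf_pos s).ne'

theorem exists_irr (h : Can G S F) (hs : zpowers s = S) : ∃ (β : ↥(G ⊓ 𝒞 S) → ℂ) (ε : ℤ),
    IsIrrCharacter _ β ∧ (ε = 1 ∨ ε = -1) ∧ ∀ c : ↥(G ⊓ 𝒞 S), ∀ t, zpowers t = S → F (c * t) = ε * β c := by
  have := Fintype.ofFinite ↥(G ⊓ 𝒞 S)
  have := Fintype.ofFinite S
  have h1 := char_mulHom (C := G ⊓ 𝒞 S) inf_le_right h.irr.isCharacter
  have h2 : s ∈ S := hs ▸ mem_zpowers s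
  have h3 : IsGeneralizedCharacter _ (trl (G ⊓ 𝒞 S) s F) :=
    (isClassFunction_slice h1.isClassFunction ⟨s, h2⟩).isGen_of_inner fun β a =>
      (isCharacter_slice h1 a.isCharacter).isGen.exists_int_of_pow ⟨s, h2⟩ fun k hk =>
        congrArg (⟪·, β⟫) (funext fun c => h.apply_pow c.2 h2 hk)
  rcases h3.irr_or_neg_irr ((h.one hs).inner_self (ext_of_char h.irr.isCharacter h.res) rfl) with a | a
  · exact ⟨_, 1, a, .inl rfl, fun c t ht => by simpa using congrFun (h.trl_eq hs ht) c⟩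
  · exact ⟨_, -1, a, .inr rfl, fun c t ht => by simpa using congrFun (h.trl_eq hs ht) c⟩

end Can

theorem inner_sign_ne_zero {X : Type*} [Group X] [Fintype X] {β : X → ℂ} (h : IsIrrCharacter X β)
    {a b : ℂ} (ha : a ≠ 0) (hb : b ≠ 0) : ⟪fun c => a * β c, fun c => b * β c⟫ ≠ 0 := by
  change ⟪a • β, b • β⟫ ≠ 0
  rw [classInner_smul_left, classInner_smul_right, h.inner_self]
  simp [ha, hb]

theorem eq_of_smul_eq {X : Type*} [Group X] [Finite X] {β γ : X → ℂ} (h : IsIrrCharacter X β)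
    (h' : IsIrrCharacter X γ) {a b : ℂ} (ha : a ≠ 0) (e : ∀ c, a * β c = b * γ c) : β = γ ∧ a = b := by
  have := Fintype.ofFinite X
  have h1 := inner_sign_ne_zero h ha one_ne_zero
  simp only [e, one_mul] at h1
  obtain rfl := h'.eq_of_inner_ne_zero h (right_ne_zero_of_mul ((classInner_smul_left b γ β).symm ▸ h1))
  exact ⟨rfl, mul_right_cancel₀ h.apply_one_ne_zero (e 1)⟩

omit [Finite Γ] in
theorem sign_ne_zero {ε : ℤ} (h : ε = 1 ∨ ε = -1) : (ε : ℂ) ≠ 0 := by rcases h with rfl | rfl <;> simp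

end Cfsg.Agent.C3
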