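import Cfsg.Agent.H9.Small
import Cfsg.Agent.H2.Alperin
import Cfsg.Agent.H1.Coprime

/-! Strongly closed subgroups of a fixed order and `p`-nilpotency. -/

namespace Cfsg.Agent.C3.HS

open Subgroup H2
open scoped commutatorElement

variable {G : Type*} [Group G] [Finite G] {p : ℕ} [hp : Fact p.Prime]

theorem cyc {g x : G} {n k : ℕ} (hn : g ^ n = 1) (hq : ∀ q : ℕ, q.Prime → q ∣ n → p < q)
    (hx : x ^ p ^ k = 1) (h : g * x * g⁻¹ ∈ zpowers x) : g * x * g⁻¹ = x := by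
  have h1 : g ∈ normalizer (zpowers x : Set G) :=
    mem_normalizer_of_cj_le (by rw [cj_zpowers]; exact zpowers_le.2 h)
  have h2 : (zpowers x).normalizerMonoidHom ⟨g, h1⟩ = 1 := by
    refine orderOf_eq_one_iff.1 (by_contra fun h2 => ?_)
    obtain ⟨q, h3, h4⟩ := Nat.exists_prime_and_dvd h2
    have h5 := hq q h3 (h4.trans (orderOf_dvd_of_pow_eq_one (by
      rw [← map_pow, show (⟨g, h1⟩ : normalizer (zpowers x : Set G)) ^ n = 1 from Subtype.ext hn,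
        map_one])))
    have h6 := h4.trans (orderOf_dvd_natCard _)
    obtain ⟨j, -, hj⟩ := (Nat.dvd_prime_pow hp.1).1 (orderOf_dvd_of_pow_eq_one hx)
    rw [IsCyclic.card_mulAut, Nat.card_zpowers, hj] at h6
    rcases j with _ | j
    · exact h3.one_lt.ne' (by simpa using h6)
    · rw [Nat.totient_prime_pow_succ hp.1] at h6
      rcases (Nat.Prime.dvd_mul h3).1 h6 with h6 | h6
      · exact h5.ne' ((Nat.prime_dvd_prime_iff_eq h3 hp.1).1 (h3.dvd_of_dvd_pow h6))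
      · have := Nat.le_of_dvd (by have := hp.1.one_lt; omega) h6; omega
  exact congrArg Subtype.val (DFunLike.congr_fun h2 ⟨x, mem_zpowers x⟩)

theorem cyc_mod {M N : Subgroup G} (hN : N ≤ normalizer (M : Set G)) {g x : G} (hg : g ∈ N)
    (hxN : x ∈ N) {n k : ℕ} (hn : g ^ n = 1) (hq : ∀ q : ℕ, q.Prime → q ∣ n → p < q)
    (hx : x ^ p ^ k = 1) (h : g * x * g⁻¹ ∈ M ⊔ zpowers x) : g * x * g⁻¹ * x⁻¹ ∈ M := by
  have := (normal_subgroupOf_iff_le_normalizer_inf (H := M) (K := N)).2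
    (le_trans (le_inf hN le_normalizer) inf_normalizer_le_normalizer_inf)
  obtain ⟨m, hm, j, e⟩ := (H1.mem_sup_zpowers_iff (hN hxN)).1 h
  have h1 : m ∈ N := by
    rw [← mul_inv_eq_iff_eq_mul] at e
    exact e ▸ mul_mem (mul_mem (mul_mem hg hxN) (inv_mem hg)) (inv_mem (zpow_mem hxN j))
  have h2 := cyc (g := ((⟨g, hg⟩ : N) : N ⧸ M.subgroupOf N)) (x := ((⟨x, hxN⟩ : N) : N ⧸ _)) (n := n)
    (k := k) (by rw [← QuotientGroup.mk_pow]; exact congrArg _ (Subtype.ext hn)) hq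
    (by rw [← QuotientGroup.mk_pow]; exact congrArg _ (Subtype.ext hx)) ⟨j, by
      change QuotientGroup.mk ((⟨x, hxN⟩ : N) ^ j) =
        QuotientGroup.mk ((⟨g, hg⟩ : N) * ⟨x, hxN⟩ * (⟨g, hg⟩ : N)⁻¹)
      rw [show (⟨g, hg⟩ * ⟨x, hxN⟩ * (⟨g, hg⟩ : N)⁻¹ : N) = ⟨m, h1⟩ * ⟨x, hxN⟩ ^ j from Subtype.ext e,
        QuotientGroup.mk_mul, (QuotientGroup.eq_one_iff (⟨m, h1⟩ : N)).2 hm, one_mul]⟩
  simpa [div_eq_mul_inv, mem_subgroupOf] using
    (QuotientGroup.eq_iff_div_mem (x := (⟨g, hg⟩ : N) * (⟨x, hxN⟩ : N) * (⟨g, hg⟩ : N)⁻¹)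
      (y := ⟨x, hxN⟩)).1 h2

theorem between {A B : Subgroup G} (hB : IsPGroup p B) (h : A ≤ B) {m : ℕ}
    (h1 : Nat.card A ≤ p ^ m) (h2 : p ^ m ≤ Nat.card B) : ∃ E, A ≤ E ∧ E ≤ B ∧ Nat.card E = p ^ m := by
  obtain ⟨a, ha⟩ := IsPGroup.iff_card.1 (hB.to_le h)
  obtain ⟨b, hb⟩ := IsPGroup.iff_card.1 hB
  rw [ha, Nat.pow_le_pow_iff_right hp.1.one_lt] at h1
  rw [hb, Nat.pow_le_pow_iff_right hp.1.one_lt] at h2
  obtain ⟨E, h3, h4⟩ := Sylow.exists_subgroup_card_pow_prime_le p (hb ▸ pow_dvd_pow p h2)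
    (A.subgroupOf B) ((Nat.card_congr (subgroupOfEquivOfLe h).toEquiv).trans ha) h1
  exact ⟨E.map B.subtype, (map_subgroupOf_eq_of_le h).ge.trans (map_mono h4), map_subtype_le _,
    (card_map_of_injective B.subtype_injective).trans h3⟩

/-- Frattini subgroup in the ambient group -/
abbrev Φ (S : Subgroup G) : Subgroup G := (frattini S).map S.subtype

theorem mem_Φ_sup {S : Subgroup G} (hS : IsPGroup p S) {x y : G} (hx : x ∈ S) (hy : y ∈ S)
    (h : ∀ M ≤ S, p * Nat.card M = Nat.card S → x ∈ M → y ∈ M) : y ∈ Φ S ⊔ zpowers x := by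
  by_contra hc
  obtain ⟨M, h1, h2, h3⟩ := H1.exists_isCoatom_notMem hp.1 (N := frattini S ⊔ zpowers ⟨x, hx⟩)
    ((H1.commutator_le_frattini hS).trans le_sup_left)
    (fun x => mem_sup_left (H1.pow_mem_frattini hS x)) (x := ⟨y, hy⟩) fun h => hc (by
      simpa [Subgroup.map_sup] using mem_map_of_mem S.subtype h)
  refine h3 ((mem_map_iff_mem S.subtype_injective).1 (h _ (map_subtype_le M) ?_
    (mem_map_of_mem _ (h2 (mem_sup_right (mem_zpowers _))))))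
  rw [card_map_of_injective S.subtype_injective, ← H1.index_eq_of_isCoatom_of_isPGroup hS h1,
    index_mul_card]

theorem pNil_of_le_Φ {S K : Subgroup G} (hS : SylIn p S K) (h : S ⊓ resOf p K ≤ Φ S) : PNil p K := by
  have h1 : SylIn p (S.subgroupOf K) ⊤ := by
    rw [← subgroupOf_self]; exact (sylIn_subgroupOf_iff le_rfl hS.le).2 hS
  refine pNil_top_subtype_iff.1 (pNil_of_inf_le_frattini h1 ?_)
  rw [← map_le_map_iff_of_injective K.subtype_injective, H1.map_map_frattini h1.pgrp,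
    map_subgroupOf_eq_of_le hS.le, map_inf _ _ _ K.subtype_injective, map_subgroupOf_eq_of_le hS.le,
    pResidual_map_subtype]
  exact h

/-- strong closure of all subgroups of order `p ^ m` (and `4` if `p ^ m = 2`) -/
def SC (p m : ℕ) (S K : Subgroup G) : Prop := ∀ E ≤ S, (Nat.card E = p ^ m ∨ (p ^ m = 2 ∧ Nat.card E = 4)) →
  ∀ g ∈ K, ∀ x ∈ E, g * x * g⁻¹ ∈ S → g * x * g⁻¹ ∈ E

theorem SC.small {m : ℕ} (hm : 0 < m) {S K H : Subgroup G} (h : SC p m S K) (hS : IsPGroup p S)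
    (hH : H ≤ S) (hc : Nat.card H = p ^ m) {x g : G} (hx : x ∈ S) (hs : H9.Sm p x)
    (hn : x ∈ normalizer (H : Set G)) (hg : g ∈ K)
    (hgx : g * x * g⁻¹ ∈ S) : g * x * g⁻¹ ∈ H ⊔ zpowers x := by
  have h1 : H ⊔ zpowers x ≤ S := sup_le hH (zpowers_le.2 hx)
  by_cases h2 : Nat.card (zpowers x) ≤ p ^ m
  · obtain ⟨E, h3, h4, h5⟩ := between (hS.to_le h1) le_sup_right h2 (hc ▸ card_le_of_le le_sup_left)
    exact h4 (h E (h4.trans h1) (.inl h5) g hg x (h3 (mem_zpowers x)) hgx)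
  · refine mem_sup_right (h _ (zpowers_le.2 hx) (.inr ?_) g hg x (mem_zpowers x) hgx)
    rw [Nat.card_zpowers] at h2 ⊢
    have h3 : p ≤ p ^ m := Nat.le_self_pow hm.ne' p
    by_cases h4 : p = 2
    · subst h4
      have h5 := Nat.le_of_dvd (by norm_num) (orderOf_dvd_of_pow_eq_one hs.2)
      obtain ⟨j, -, hj⟩ := (Nat.dvd_prime_pow hp.1).1 (orderOf_dvd_of_pow_eq_one (n := 2 ^ 2) hs.2)
      rw [hj, not_le, Nat.pow_lt_pow_iff_right one_lt_two] at h2
      rw [hj, show 2 * 2 = 2 ^ 2 from rfl, Nat.pow_le_pow_iff_right one_lt_two] at h5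
      obtain rfl : m = 1 := by omega
      obtain rfl : j = 2 := by omega
      exact ⟨rfl, hj⟩
    · have := Nat.le_of_dvd hp.1.pos (orderOf_dvd_of_pow_eq_one (hs.1 h4)); omega

theorem main {m : ℕ} (hm : 0 < m) {S : Subgroup G} (hmS : p ^ m < Nat.card S) (n : ℕ) :
    ∀ K : Subgroup G, Nat.card K = n → SylIn p S K → (∀ q : ℕ, q.Prime → q ∣ Nat.card K → p ≤ q) →
      SC p m S K → PNil p K := by
  induction n using Nat.strong_induction_on with
  | _ n ih =>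
  intro K hK hS hmin h
  have hq : ∀ g ∈ K, (orderOf g).Coprime p → ∀ q : ℕ, q.Prime → q ∣ orderOf g → p < q :=
    fun g hg hc q h1 h2 => lt_of_le_of_ne (hmin q h1 (h2.trans (orderOf_dvd_natCard K hg))) (by
      rintro rfl; exact hp.1.coprime_iff_not_dvd.1 hc.symm h2)
  by_cases hB : ∃ y ∈ S, orderOf y = p ^ m ∧ K ≤ normalizer (zpowers y : Set G)
  · obtain ⟨y, hy, h1, h2⟩ := hB
    refine hS.frobenius fun U hU _ _ _ g hg ho => ?_
    obtain ⟨D, h3, h4, -, h5, h6⟩ := H9.exists_thD_amb (hS.pgrp.to_le hU)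
    refine mem_centralizer_iff.2 (h6 g hg.2 ho fun x hx => ?_)
    have hx' := hU (h3 hx)
    obtain ⟨k, hk⟩ := isPGroup_iff_forall.1 hS.pgrp x hx'
    have h7 := cyc_mod h2 hg.1 (hS.le hx') (pow_orderOf_eq_one g) (hq g hg.1 ho) hk
      (h.small hm hS.pgrp (zpowers_le.2 hy) (by rw [Nat.card_zpowers, h1]) hx' (h5 x hx)
        (h2 (hS.le hx')) hg.1 (hU (h3 (h4 g hg.2 x hx))))
    have h8 := cyc (pow_orderOf_eq_one g) (hq g hg.1 ho) (h1 ▸ pow_orderOf_eq_one y)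
      ((mem_normalizer_iff.1 (h2 hg.1) y).1 (mem_zpowers y))
    obtain ⟨z, hz⟩ : ∃ z, z = g * x * g⁻¹ * x⁻¹ := ⟨_, rfl⟩
    rw [← hz] at h7
    have h9 : Commute z g := by
      obtain ⟨j, rfl⟩ := h7
      exact Commute.zpow_left (mul_inv_eq_iff_eq_mul.1 h8).symm j
    have h10 : ∀ i : ℕ, g ^ i * x = z ^ i * x * g ^ i := fun i => by
      induction i with
      | zero => simp
      | succ i ih =>
        rw [pow_succ', mul_assoc, ih, ← mul_assoc, ← mul_assoc, ← (h9.pow_left i).eq, pow_succ z,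
          mul_assoc (z ^ i) z, mul_assoc (z ^ i), mul_assoc (z ^ i), mul_assoc (z ^ i), hz]
        congr 1; group
    have h11 := h10 (orderOf g)
    rw [pow_orderOf_eq_one, one_mul, mul_one, right_eq_mul] at h11
    rw [eq_one_of_mem_pgroup_of_coprime hS.pgrp (zpowers_le.2 hy h7)
      (ho.coprime_dvd_left (orderOf_dvd_of_pow_eq_one h11))] at hz
    rw [← mul_inv_eq_one, mul_inv_rev, ← mul_assoc, ← inv_eq_one, hz]; group
  have h1 : ∀ x ∈ S, ∀ g ∈ K, g * x * g⁻¹ ∈ S → g * x * g⁻¹ ∈ Φ S ⊔ zpowers x := by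
    intro x hx g hg hgx
    by_cases h2 : Nat.card (zpowers x) ≤ p ^ m
    · refine mem_Φ_sup hS.pgrp hx hgx fun M h3 h4 h5 => ?_
      obtain ⟨E, h6, h7, h8⟩ := between (hS.pgrp.to_le h3) (zpowers_le.2 h5) h2 (by
        obtain ⟨a, ha⟩ := IsPGroup.iff_card.1 (hS.pgrp.to_le h3)
        rw [← h4, ha, ← pow_succ', Nat.pow_lt_pow_iff_right hp.1.one_lt] at hmS
        rw [ha]; exact Nat.pow_le_pow_right hp.1.pos (by omega))
      exact h7 (h E (h7.trans h3) (.inl h8) g hg x (h6 (mem_zpowers x)) hgx)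
    · obtain ⟨E, -, h3, h4⟩ := between (hS.pgrp.to_le (zpowers_le.2 hx)) bot_le (m := m)
        (by rw [card_bot]; exact Nat.one_le_pow _ _ hp.1.pos) (not_le.1 h2).le
      have := isCyclic_of_le h3
      obtain ⟨y, rfl⟩ := (Subgroup.isCyclic_iff_exists_zpowers_eq_top E).1 this
      have h5 := h3.trans (zpowers_le.2 hx)
      have h6 : ∀ g ∈ K, g * y * g⁻¹ ∈ S → g ∈ K ⊓ normalizer (zpowers y : Set G) := fun g hg h6 =>
        ⟨hg, mem_normalizer_of_cj_le (by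
          rw [cj_zpowers]; exact zpowers_le.2 (h _ h5 (.inl h4) g hg y (mem_zpowers y) h6))⟩
      have h7 : S ≤ K ⊓ normalizer (zpowers y : Set G) := fun s hs =>
        h6 s (hS.le hs) (mul_mem (mul_mem hs (h5 (mem_zpowers y))) (inv_mem hs))
      have h8 := ih _ (hK ▸ card_lt_of_lt (lt_of_le_of_ne inf_le_left fun e => hB
        ⟨y, h5 (mem_zpowers y), by rw [← Nat.card_zpowers, h4], inf_eq_left.1 e⟩)) _ rfl
        (hS.mono h7 inf_le_left) (fun q h1 h2 => hmin q h1 (h2.trans (card_dvd_of_le inf_le_left)))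
        fun E h1 h2 g hg => h E h1 h2 g hg.1
      obtain ⟨v, hv, e⟩ := h8.control (hS.mono h7 inf_le_left) (h6 g hg (by
        obtain ⟨j, rfl⟩ := h3 (mem_zpowers y)
        rw [← conj_zpow]; exact zpow_mem hgx j))
      rw [← e x hx hgx, show v * x * v⁻¹ = ⁅v, x⁆ * x by group]
      exact mul_mem_sup (H1.commutator_le_map_frattini hS.pgrp (commutator_mem_commutator hv hx))
        (mem_zpowers x)
  have h2 : ∀ U ≤ S, ⁅U, resOf p (K ⊓ normalizer (U : Set G))⁆ ≤ Φ S := fun U hU => by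
    let T : Subgroup G :=
      { carrier := {g | g ∈ normalizer (U : Set G) ∧ ∀ x ∈ U, g * x * g⁻¹ * x⁻¹ ∈ Φ S}
        one_mem' := ⟨one_mem _, by simp⟩
        mul_mem' := fun {a b} ha hb => ⟨mul_mem ha.1 hb.1, fun x hx => by
          simpa [mul_assoc] using mul_mem (ha.2 _ ((mem_normalizer_iff.1 hb.1 x).1 hx)) (hb.2 x hx)⟩
        inv_mem' := fun {a} ha => ⟨inv_mem ha.1, fun x hx => by
          simpa [mul_assoc] using inv_mem (ha.2 _ ((mem_normalizer_iff.1 (inv_mem ha.1) x).1 hx))⟩ }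
    have h3 : resOf p (K ⊓ normalizer (U : Set G)) ≤ T := resOf_le_iff.2 fun g hg ho =>
      ⟨hg.2, fun x hx => by
        obtain ⟨k, hk⟩ := isPGroup_iff_forall.1 hS.pgrp x (hU hx)
        have h4 : ∀ g ∈ K ⊓ normalizer (U : Set G), ∀ x ∈ U, g * x * g⁻¹ ∈ U := fun g hg x hx =>
          (mem_normalizer_iff.1 hg.2 x).1 hx
        refine (cyc_mod (M := Φ S ⊓ U) (N := K ⊓ normalizer (U : Set G)) (fun a ha =>
          mem_normalizer_of_cj_le (cj_le_iff_forall.2 fun z hz => ⟨?_, h4 a ha z hz.2⟩)) hg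
          ⟨hS.le (hU hx), le_normalizer hx⟩ (pow_orderOf_eq_one g) (hq g hg.1 ho) hk ?_).1
        · exact sup_le le_rfl (zpowers_le.2 hz.1) (h1 z (hU hz.2) a ha.1 (hU (h4 a ha z hz.2)))
        · obtain ⟨a, ha, j, e⟩ := (H1.mem_sup_zpowers_iff (H1.normalizer_le_normalizer_map_frattini S
            (le_normalizer (hU hx)))).1 (h1 x (hU hx) g hg.1 (hU (h4 g hg x hx)))
          refine e ▸ mul_mem_sup ⟨ha, ?_⟩ ⟨j, rfl⟩
          rw [← mul_inv_eq_iff_eq_mul] at e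
          exact e ▸ U.mul_mem (h4 g hg x hx) (U.inv_mem (U.zpow_mem hx j))⟩
    rw [commutator_comm]
    exact commutator_le.2 fun g hg => (h3 hg).2
  exact pNil_of_le_Φ hS (hS.inf_resOf_le_of_local (le_normalizer.trans
    (H1.normalizer_le_normalizer_map_frattini S)) (h2 S le_rfl) fun U hU => h2 U hU.lt.le)

theorem strong {S E : Subgroup G} (hS : IsPGroup p S) (hE : E ≤ S)
    (h : ∀ g : G, E.map (MulAut.conj g).toMonoidHom ⊓ normalizer (E : Set G) ≤ E) :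
    S ≤ normalizer (E : Set G) := by
  by_contra hc
  obtain ⟨x, h1, h2, h3⟩ := exists_mem_normalizer_not_mem hS
    (lt_of_le_of_ne inf_le_left fun e => hc (inf_eq_left.1 e) : S ⊓ normalizer (E : Set G) < S)
  exact h3 ⟨h1, mem_normalizer_of_cj_le (cj_le_iff_forall.2 fun y hy => h x ⟨⟨y, hy, rfl⟩,
    ((mem_normalizer_iff.1 h2 y).1 ⟨hE hy, le_normalizer hy⟩).2⟩)⟩

theorem exists_sc {S D : Subgroup G} (hS : IsPGroup p S) (h1 : D ≤ S) (h2 : 1 < Nat.card D)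
    (h3 : Nat.card D < Nat.card S) (h : ∀ E : Subgroup G, E ≤ S →
      (Nat.card E = Nat.card D ∨ (Nat.card D = 2 ∧ Nat.card E = 4)) →
        ∀ g : G, E.map (MulAut.conj g).toMonoidHom ⊓ normalizer (E : Set G) ≤ E) :
    ∃ m, 0 < m ∧ p ^ m < Nat.card S ∧ SC p m S ⊤ := by
  obtain ⟨m, hm⟩ := IsPGroup.iff_card.1 (hS.to_le h1)
  rw [hm] at h h2 h3
  exact ⟨m, Nat.pos_of_ne_zero (by rintro rfl; simp at h2), h3, fun E h4 h5 g _ x hx h6 =>
    h E h4 h5 g ⟨⟨x, hx, rfl⟩, strong hS h4 (h E h4 h5) h6⟩⟩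

end Cfsg.Agent.C3.HS
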