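import Cfsg.Agent.C3.HS1
import Cfsg.Agent.H1.Misc

/-! Strongly closed subgroups of a fixed order and supersolvability. -/

namespace Cfsg.Agent.C3.HS

open Subgroup H2
open scoped commutatorElement

/-- derived subgroup together with `(p-1)`-st powers -/
def Lp (p : ℕ) (G : Type*) [Group G] : Subgroup G :=
  commutator G ⊔ closure (Set.range fun g : G => g ^ (p - 1))

variable {G : Type*} [Group G] [Finite G] {p : ℕ} [hp : Fact p.Prime]

theorem cyc2 {g x : G} (hg : g ∈ Lp p G) {n k : ℕ} (hn : g ^ n = 1) (hc : n.Coprime p)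
    (hx : x ^ p ^ k = 1) (h : ∀ g, g * x * g⁻¹ ∈ zpowers x) : g * x * g⁻¹ = x := by
  have : (zpowers x).Normal := normal_iff_cj.2 fun g => mem_normalizer_iff_cj.1
    (mem_normalizer_of_cj_le (by rw [cj_zpowers]; exact zpowers_le.2 (h g)))
  obtain ⟨j, -, hj⟩ := (Nat.dvd_prime_pow hp.1).1 (orderOf_dvd_of_pow_eq_one hx)
  rcases j with _ | j
  · simp [orderOf_eq_one_iff.1 hj]
  let φ := (IsCyclic.mulAutMulEquiv (zpowers x)).toMonoidHom.comp (MulAut.conjNormal (H := zpowers x))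
  have h1 : Lp p G ≤ ((powMonoidHom (p ^ j)).comp φ).ker := by
    refine sup_le (Abelianization.commutator_subset_ker _) ((closure_le _).2 ?_)
    rintro _ ⟨g, rfl⟩
    have := pow_card_eq_one' (x := φ g)
    rw [(Nat.card_congr (IsCyclic.mulAutMulEquiv (zpowers x)).toEquiv).symm.trans
      (show _ = p ^ j * (p - 1) by rw [IsCyclic.card_mulAut, Nat.card_zpowers, hj,
        Nat.totient_prime_pow_succ hp.1])] at this
    simpa [← pow_mul, mul_comm] using this
  have h2 : φ g = 1 := orderOf_eq_one_iff.1 (Nat.eq_one_of_dvd_coprimes (hc.pow_right j)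
    (orderOf_dvd_of_pow_eq_one (by rw [← map_pow, hn, map_one])) (orderOf_dvd_of_pow_eq_one (h1 hg)))
  have h3 : MulAut.conjNormal (H := zpowers x) g = 1 :=
    (map_eq_one_iff _ (IsCyclic.mulAutMulEquiv (zpowers x)).injective).1 h2
  exact congrArg Subtype.val (DFunLike.congr_fun h3 ⟨x, mem_zpowers x⟩)

theorem cyc2_mod {M : Subgroup G} [M.Normal] {g x : G} (hg : g ∈ Lp p G)
    (hc : (orderOf g).Coprime p) {k : ℕ} (hx : x ^ p ^ k = 1)
    (h : ∀ g, g * x * g⁻¹ ∈ M ⊔ zpowers x) : g * x * g⁻¹ * x⁻¹ ∈ M := by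
  have h1 : Lp p G ≤ (Lp p (G ⧸ M)).comap (QuotientGroup.mk' M) := by
    refine sup_le (map_le_iff_le_comap.1 (le_sup_of_le_left ?_)) ((closure_le _).2 ?_)
    · rw [_root_.commutator_def, map_commutator]; exact commutator_mono le_top le_top
    · rintro _ ⟨g, rfl⟩; exact mem_sup_right (subset_closure ⟨g, rfl⟩)
  have h2 := cyc2 (h1 hg) (x := (x : G ⧸ M)) (k := k)
    (by rw [← map_pow, pow_orderOf_eq_one, map_one]) hc
    (by rw [← QuotientGroup.mk_pow, hx]; rfl) fun g => by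
      obtain ⟨g, rfl⟩ := QuotientGroup.mk_surjective g
      have := mem_map_of_mem (QuotientGroup.mk' M) (h g)
      rwa [Subgroup.map_sup, H1.map_mk'_eq_bot_iff.2 le_rfl, bot_sup_eq, MonoidHom.map_zpowers] at this
  simpa [div_eq_mul_inv] using (QuotientGroup.eq_iff_div_mem (x := g * x * g⁻¹) (y := x)).1 h2

omit [Finite G] in
theorem comm_of {S : Subgroup G} (hS : IsPGroup p S) {g x : G} (ho : (orderOf g).Coprime p)
    (h1 : g * x * g⁻¹ * x⁻¹ ∈ S) (h9 : Commute (g * x * g⁻¹ * x⁻¹) g) : x * g = g * x := by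
  obtain ⟨z, hz⟩ : ∃ z, z = g * x * g⁻¹ * x⁻¹ := ⟨_, rfl⟩
  rw [← hz] at h1 h9
  have h10 : ∀ i : ℕ, g ^ i * x = z ^ i * x * g ^ i := fun i => by
    induction i with
    | zero => simp
    | succ i ih =>
      rw [pow_succ', mul_assoc, ih, ← mul_assoc, ← mul_assoc, ← (h9.pow_left i).eq, pow_succ z,
        mul_assoc (z ^ i) z, mul_assoc (z ^ i), mul_assoc (z ^ i), mul_assoc (z ^ i), hz]
      congr 1; group
  have h11 := h10 (orderOf g)
  rw [pow_orderOf_eq_one, one_mul, mul_one, right_eq_mul] at h11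
  rw [eq_one_of_mem_pgroup_of_coprime hS h1
    (ho.coprime_dvd_left (orderOf_dvd_of_pow_eq_one h11))] at hz
  rw [← mul_inv_eq_one, mul_inv_rev, ← mul_assoc, ← inv_eq_one, hz]; group

theorem key {m : ℕ} (hm : 0 < m) {S : Subgroup G} [hn : S.Normal] (hS : IsPGroup p S)
    (hmS : p ^ m < Nat.card S) (h : SC p m S ⊤) {A : Subgroup G} [A.Normal] (hA : A < S) :
    ∃ g ∈ S, g ∉ A ∧ (A ⊔ zpowers g).Normal := by
  have h1 : resOf p (Lp p G) ≤ centralizer (S : Set G) := resOf_le_iff.2 fun g hg ho => by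
    by_cases hB : ∃ y ∈ S, orderOf y = p ^ m
    · obtain ⟨y, hy, h1⟩ := hB
      have h2 : ∀ g, g * y * g⁻¹ ∈ zpowers y := fun g => h _ (zpowers_le.2 hy)
        (.inl (by rw [Nat.card_zpowers, h1])) g trivial y (mem_zpowers y) (hn.conj_mem y hy g)
      have : (zpowers y).Normal := normal_iff_cj.2 fun g => mem_normalizer_iff_cj.1
        (mem_normalizer_of_cj_le (by rw [cj_zpowers]; exact zpowers_le.2 (h2 g)))
      obtain ⟨D, h3, -, -, h5, h6⟩ := H9.exists_thD_amb hS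
      refine mem_centralizer_iff.2 (h6 g (le_normalizer_of_normal (mem_top _)) ho fun x hx => ?_)
      obtain ⟨k, hk⟩ := isPGroup_iff_forall.1 hS x (h3 hx)
      have h7 := cyc2_mod hg ho hk fun g => h.small hm hS (zpowers_le.2 hy)
        (by rw [Nat.card_zpowers, h1]) (h3 hx) (h5 x hx) (le_normalizer_of_normal (mem_top _)) trivial
        (hn.conj_mem x (h3 hx) g)
      have h8 := cyc2 hg (pow_orderOf_eq_one g) ho (h1 ▸ pow_orderOf_eq_one y) h2
      refine comm_of hS ho (zpowers_le.2 hy h7) ?_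
      obtain ⟨j, hj⟩ := h7
      exact hj ▸ Commute.zpow_left (mul_inv_eq_iff_eq_mul.1 h8).symm j
    · have : (Φ S).Normal := inferInstance
      refine H1.le_centralizer_of_commutator_le_frattini (A := zpowers g) le_normalizer_of_normal ?_
        ?_ (mem_zpowers g)
      · obtain ⟨j, hj⟩ := IsPGroup.iff_card.1 (hS.to_subgroup (frattini S))
        rw [hj, Nat.card_zpowers]; exact ho.pow_right j
      rw [commutator_comm]
      refine commutator_le.2 fun a ha x hx => ?_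
      obtain ⟨k, hk⟩ := isPGroup_iff_forall.1 hS x hx
      refine cyc2_mod (zpowers_le.2 hg ha) (ho.coprime_dvd_left (orderOf_dvd_of_mem_zpowers ha)) hk
        fun g => mem_Φ_sup hS hx (hn.conj_mem x hx g) fun M h3 h4 h5 => ?_
      obtain ⟨E, h6, h7, h8⟩ := between (hS.to_le h3) (zpowers_le.2 h5) (m := m) (by
        by_contra h2
        obtain ⟨E, -, h3, h4⟩ := between (hS.to_le (zpowers_le.2 hx)) bot_le (m := m)
          (by rw [card_bot]; exact Nat.one_le_pow _ _ hp.1.pos) (not_le.1 h2).le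
        obtain ⟨y, rfl⟩ := (Subgroup.isCyclic_iff_exists_zpowers_eq_top E).1 (isCyclic_of_le h3)
        exact hB ⟨y, zpowers_le.2 hx (h3 (mem_zpowers y)), by rw [← Nat.card_zpowers, h4]⟩) (by
        obtain ⟨a, ha⟩ := IsPGroup.iff_card.1 (hS.to_le h3)
        rw [← h4, ha, ← pow_succ', Nat.pow_lt_pow_iff_right hp.1.one_lt] at hmS
        rw [ha]; exact Nat.pow_le_pow_right hp.1.pos (by omega))
      exact h7 (h E (h7.trans h3) (.inl h8) g trivial x (h6 (mem_zpowers x)) (hn.conj_mem x hx g))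
  obtain ⟨M, hM, h3, h4, h5⟩ := H1.exists_minimal_normal_gt hA
  have : (Lp p G).Normal := Normal.of_commutator_le _ le_sup_left
  obtain ⟨T, hT⟩ := exists_sylIn p (Lp p G)
  have h6 : ⁅M, Lp p G⁆ ≤ A := by
    rcases h5 (A ⊔ ⁅M, Lp p G⁆) inferInstance le_sup_left
      (sup_le h3.le (commutator_le_left _ _)) with h6 | h6
    · exact le_sup_right.trans h6.le
    have := (hS.to_sup_of_normal_left hT.pgrp).isNilpotent
    refine absurd (le_of_le_sup_commutator this (h4.trans le_sup_left) le_normalizer_of_normal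
      (h6.ge.trans (sup_le_sup_left ?_ _))) h3.not_ge
    rw [commutator_comm, commutator_comm M]
    refine (H1.commutator_le_of_mul_centralizer fun k hk => ?_).trans
      (commutator_mono le_sup_right le_rfl)
    obtain ⟨u, hu, c, hc, e⟩ := hT.exists_mul_resOf hk
    exact ⟨u, hu, c, centralizer_le h4 (h1 hc), e⟩
  obtain ⟨g, h7, h8, e⟩ := H1.exists_sup_zpowers_of_relIndex_prime h3.le
    (H1.relIndex_eq_prime_of_chief h3 (hS.to_le h4) h5 h6 le_sup_left
      (fun g => mem_sup_right (subset_closure ⟨g, rfl⟩)) ▸ hp.1)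
  exact ⟨g, h4 h7, h8, e ▸ hM⟩

theorem key' {S : Subgroup G} (hS : IsPGroup p S)
    (h : IsCyclic S ∨ ∃ m, 0 < m ∧ p ^ m < Nat.card S ∧ SC p m S ⊤) {A : Subgroup G} [hA : A.Normal]
    (hSA : ¬ S ≤ A) : ∃ g ∈ S, g ∉ A ∧ ∀ n ∈ normalizer (S : Set G), n * g * n⁻¹ ∈ A ⊔ zpowers g := by
  rcases h with h | ⟨m, hm, h1, h⟩
  · obtain ⟨y, rfl⟩ := (Subgroup.isCyclic_iff_exists_zpowers_eq_top S).1 h
    exact ⟨y, mem_zpowers y, fun h => hSA (zpowers_le.2 h), fun n hn =>
      mem_sup_right ((mem_normalizer_iff.1 hn y).1 (mem_zpowers y))⟩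
  have e := subgroupOfEquivOfLe (le_normalizer (H := S))
  have : ((A ⊓ S).subgroupOf (normalizer (S : Set G))).Normal := by
    rw [subgroupOf, comap_inf]; exact normal_inf_normal _ (S.subgroupOf _)
  obtain ⟨g, h2, h3, h4⟩ := key hm (hS.of_equiv e.symm) (Nat.card_congr e.toEquiv ▸ h1)
    (fun E h2 h3 g _ x hx h4 => (mem_map_iff_mem (subtype_injective _)).1 (h (E.map (Subgroup.subtype _))
      ((map_mono h2).trans (map_subgroupOf_eq_of_le le_normalizer).le)
      (by rwa [card_map_of_injective (subtype_injective _)]) g trivial x (mem_map_of_mem _ hx) h4))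
    (A := (A ⊓ S).subgroupOf _) (lt_of_le_of_ne (subgroupOf_mono _ inf_le_right) fun e => hSA
      fun x hx => (mem_subgroupOf.1 (e.ge (show (⟨x, le_normalizer hx⟩ : normalizer (S : Set G)) ∈
        S.subgroupOf _ from hx))).1)
  refine ⟨g, h2, fun h => h3 ⟨h, h2⟩, fun n hn => ?_⟩
  have := mem_map_of_mem (Subgroup.subtype _) (h4.conj_mem g (mem_sup_right (mem_zpowers g)) ⟨n, hn⟩)
  rw [Subgroup.map_sup, MonoidHom.map_zpowers, subgroupOf_map_subtype] at this
  exact (sup_le_sup_right (inf_le_left.trans inf_le_left : A ⊓ S ⊓ _ ≤ A) _ :) this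

omit hp in
theorem embed (n : ℕ) : ∀ (E : Subgroup G) [E.Normal], Nat.card E = n →
    (∀ (p : ℕ) [Fact p.Prime], ∀ P, SylIn p P E →
      IsCyclic P ∨ ∃ m, 0 < m ∧ p ^ m < Nat.card P ∧ SC p m P ⊤) →
    ∀ (A : Subgroup G) [A.Normal], ¬ E ≤ A → ∃ g ∈ E, g ∉ A ∧ (A ⊔ zpowers g).Normal := by
  induction n using Nat.strong_induction_on with
  | _ n ih =>
  intro E _ hE h A hA hEA
  have h0 : Nat.card E ≠ 1 := fun e => hEA (card_eq_one.1 e ▸ bot_le)
  obtain ⟨p, hp⟩ : ∃ p, p = (Nat.card E).minFac := ⟨_, rfl⟩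
  have := Fact.mk (hp ▸ Nat.minFac_prime h0)
  have hmin : ∀ q : ℕ, q.Prime → q ∣ Nat.card E → p ≤ q := fun q h1 h2 =>
    hp ▸ Nat.minFac_le_of_dvd h1.two_le h2
  obtain ⟨P, hP⟩ := exists_sylIn p E
  have h1 : PNil p E := by
    rcases h p P hP with h | ⟨m, h1, h2, h3⟩
    · refine hP.frobenius fun U hU _ _ _ g hg ho => ?_
      obtain ⟨y, rfl⟩ := (Subgroup.isCyclic_iff_exists_zpowers_eq_top U).1 (isCyclic_of_le hU)
      obtain ⟨k, hk⟩ := isPGroup_iff_forall.1 hP.pgrp y (hU (mem_zpowers y))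
      have h8 := cyc (pow_orderOf_eq_one g) (fun q h1 h2 => lt_of_le_of_ne
        (hmin q h1 (h2.trans (orderOf_dvd_natCard E hg.1))) (by
          rintro rfl; exact h1.coprime_iff_not_dvd.1 ho.symm h2)) hk
        ((mem_normalizer_iff.1 hg.2 y).1 (mem_zpowers y))
      exact mem_centralizer_iff.2 fun z ⟨j, hj⟩ =>
        hj ▸ (Commute.zpow_left (mul_inv_eq_iff_eq_mul.1 h8).symm j).eq
    · exact main h1 h2 _ E rfl hP hmin fun E h1 h2 g _ => h3 E h1 h2 g trivial
  have h2 := pNil_iff_card.1 h1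
  by_cases h3 : resOf p E ≤ A
  · obtain ⟨g, h4, h5, h6⟩ := key' hP.pgrp (h p P hP) (A := A) fun h4 =>
      hEA (hP.resOf_sup ▸ sup_le h3 h4)
    refine ⟨g, hP.le h4, h5, H1.normal_of_top_le_normalizer fun x _ => ?_⟩
    obtain ⟨e, he, h7⟩ := hP.frattini (g := x) (le_normalizer_of_normal (mem_top _))
    obtain ⟨k, hk, u, hu, rfl⟩ := hP.exists_resOf_mul he
    rw [show x = k * (u * ((k * u)⁻¹ * x)) by group]
    refine mul_mem (le_normalizer (mem_sup_left (h3 hk))) (mem_normalizer_of_cj_le ?_)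
    rw [cj_sup, cj_eq_of_normal, cj_zpowers]
    exact sup_le le_sup_left (zpowers_le.2 (h6 _ (mul_mem (le_normalizer hu) h7)))
  · obtain ⟨g, h4, h5⟩ := ih _ (hE ▸ card_lt_of_lt (lt_of_le_of_ne (resOf_le p E) fun e =>
      this.1.coprime_iff_not_dvd.1 h2.symm (by rw [e, hp]; exact Nat.minFac_dvd _))) (resOf p E) rfl
      (fun q hq Q hQ => by
        by_cases h4 : q = p
        · subst h4
          rw [hQ.eq_bot_iff.2 (hq.1.coprime_iff_not_dvd.1 h2.symm)]
          exact .inl inferInstance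
        · obtain ⟨k, hk⟩ := relIndex_resOf (p := p) E
          exact h q Q (hQ.trans_of_not_dvd (resOf_le p E) fun h5 => h4
            ((Nat.prime_dvd_prime_iff_eq hq.1 this.1).1 (hq.1.dvd_of_dvd_pow (hk ▸ h5))))) A h3
    exact ⟨g, resOf_le p E h4, h5⟩

end Cfsg.Agent.C3.HS
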