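/-
Groups with a Klein four Sylow subgroup which is normal in the centralizers of its involutions.
-/
import Cfsg.Agent.B.Prin
import Cfsg.Agent.H2.Two
import Cfsg.Agent.H4.Small

set_option autoImplicit false

namespace Cfsg.Agent.C3

open Cfsg H3 H2 B Subgroup Finset

theorem three_recip {a b c : ℤ} (ha : 1 ≤ a ∨ a ≤ -3) (hb : 1 ≤ b ∨ b ≤ -3) (hc : 1 ≤ c ∨ c ≤ -3)
    (h : 1 + (a + (b + c)) = 0) : (4 : ℚ) / 9 < 1 + (1 / (a : ℚ) + (1 / b + 1 / c)) := by
  have k1 : ∀ {a : ℤ}, (1 ≤ a ∨ a ≤ -3) → (a : ℚ) ≠ 0 ∧ (2 : ℚ) / 3 ≤ 1 + 1 / a ∧ (1 ≤ a → (1 : ℚ) < 1 + 1 / a) := by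
    intro a ha
    rcases ha with ha | ha
    · have : (1 : ℚ) ≤ a := by exact_mod_cast ha
      have : (0 : ℚ) < 1 / a := by positivity
      exact ⟨by positivity, by linarith, fun _ => by linarith⟩
    · have h1 : (a : ℚ) ≤ -3 := by exact_mod_cast ha
      refine ⟨by linarith, ?_, fun _ => by omega⟩
      have : -(1 / 3 : ℚ) ≤ 1 / a := by
        rw [le_div_iff_of_neg (by linarith)]; linarith
      linarith
  obtain ⟨a0, a1, a2⟩ := k1 ha
  obtain ⟨b0, b1, b2⟩ := k1 hb
  obtain ⟨c0, c1, c2⟩ := k1 hc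
  have h' : (1 : ℚ) + (a + (b + c)) = 0 := by exact_mod_cast h
  have e : 1 + (1 / (a : ℚ) + (1 / b + 1 / c)) = (1 + 1 / a) * (1 + 1 / b) * (1 + 1 / c) := by
    field_simp
    linear_combination -h'
  rw [e]
  generalize 1 + 1 / (a : ℚ) = x at *
  generalize 1 + 1 / (b : ℚ) = y at *
  generalize 1 + 1 / (c : ℚ) = z at *
  have m : ∀ {x y z : ℚ}, 1 < x → 2 / 3 ≤ y → 2 / 3 ≤ z → 4 / 9 < x * y * z := fun {x y z} h1 h2 h3 => by
    have : 4 / 9 ≤ y * z := by nlinarith
    nlinarith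
  rcases ha with ha | ha
  · exact m (a2 ha) b1 c1
  rcases hb with hb | hb
  · have := m (b2 hb) a1 c1; linarith
  · have := m (c2 (by omega)) a1 b1; linarith

variable {G : Type*} [Group G] [Finite G]

theorem klein_card_lt (P : Sylow 2 G) {t s : G} (hP : K4 (P : Subgroup G) t s)
    (hone : ∀ s t : G, orderOf s = 2 → orderOf t = 2 → IsConj s t)
    (hC : ∀ u : G, orderOf u = 2 → Commute t u → u ∈ (P : Subgroup G)) :
    Nat.card G < 18 * Nat.card (centralizer ({t} : Set G)) := by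
  classical
  have := Fintype.ofFinite G
  obtain ⟨M, hM⟩ := exists_pMod 2
  obtain ⟨δ, hδ, h4⟩ := klein_block M P hP.isKleinFour hone
  have ht : orderOf t = 2 := ord2_of hP.a2 hP.a1
  have hs : orderOf s = 2 := ord2_of hP.b2 hP.b1
  have hts : orderOf (t * s) = 2 := ord2_of (hP.mul_self hP.ab_mem) hP.ab1
  set B := univ.filter (· ∈ principalBlock M G) with hB
  have hδt : ∀ χ ∈ B, (χ : G → ℂ) t = δ χ := fun χ h => (hδ χ (mem_filter.1 h).2).2.1 t ht.symm.dvd
  have hsq : ∀ χ ∈ B, (δ χ : ℂ) * δ χ = 1 := fun χ h => by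
    rcases (hδ χ (mem_filter.1 h).2).1 with e | e <;> simp [e]
  have hth : ∀ g, ∑ χ ∈ B, (δ χ : ℂ) * (χ : G → ℂ) g = if 2 ∣ orderOf g then 4 else 0 := fun g => by
    split_ifs with hg
    · rw [sum_congr rfl fun χ h => by rw [(hδ χ (mem_filter.1 h).2).2.1 g hg, hsq χ h]]
      simp [h4]
    · have := (isPBlock_principal (M := M) (G := G)).closed.weak_orth hg ht.symm.dvd
      rw [← sum_filter] at this
      rw [← this]
      exact sum_congr rfl fun χ h => by rw [hδt χ h, mul_comm]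
  have hev : ∀ u, orderOf u = 2 → (2 ∣ orderOf (u * t) ↔ u = s ∨ u = t * s) := fun u hu => by
    constructor
    · intro h
      obtain ⟨h1, h2, h3⟩ := half_spec (ord2_mul_self hu) hP.a2 (even_iff_two_dvd.2 h)
      generalize (u * t) ^ (orderOf (u * t) / 2) = z at h1 h2 h3
      obtain ⟨c, rfl⟩ := isConj_iff.1 (hone t z ht h1)
      have k : ∀ v, orderOf v = 2 → Commute (c * t * c⁻¹) v → c⁻¹ * v * c ∈ (P : Subgroup G) := fun v hv hc =>
        hC _ (ord2_conj' hv c) (by simpa [mul_assoc] using (Commute.conj_iff c⁻¹).2 hc)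
      have h5 : Commute t u := by
        simpa [mul_assoc] using (Commute.conj_iff c).2 (hP.commute (k t ht h3) (k u hu h2))
      rcases (hP.mem u).1 (hC u hu h5) with e | e | e | e
      · exact absurd e (ord2_ne_one hu)
      · rw [e, hP.a2] at h; simp at h
      · exact Or.inl e
      · exact Or.inr e
    · rintro (rfl | rfl)
      · rw [← hP.comm, hts]
      · rw [mul_assoc, ← hP.comm, ← mul_assoc, hP.a2, one_mul, hs]
  have hcount : ∀ u, orderOf u = 2 → #{x : G | x * t * x⁻¹ = u} = Nat.card (centralizer ({t} : Set G)) := fun u hu => by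
    obtain ⟨c, rfl⟩ := isConj_iff.1 (hone t u ht hu)
    rw [Nat.card_eq_fintype_card, Fintype.card_subtype]
    refine card_nbij' (c⁻¹ * ·) (c * ·) (fun x hx => ?_) (fun x hx => ?_) (fun x _ => by simp) fun x _ => by simp
    · simp only [coe_filter, mem_univ, true_and, Set.mem_setOf_eq, mem_centralizer_singleton_iff] at hx ⊢
      calc c⁻¹ * x * t = c⁻¹ * (x * t * x⁻¹) * x := by group
        _ = _ := by rw [hx]; group
    · simp only [coe_filter, mem_univ, true_and, Set.mem_setOf_eq, mem_centralizer_singleton_iff] at hx ⊢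
      rw [mul_assoc c, hx]; group
  have e1 : ∑ x : G, ∑ χ ∈ B, (δ χ : ℂ) * (χ : G → ℂ) (x * t * x⁻¹ * t) =
      8 * Nat.card (centralizer ({t} : Set G)) := by
    simp only [hth, hev _ (ord2_conj ht _)]
    rw [← sum_filter, sum_const, filter_or, card_union_of_disjoint (disjoint_filter.2 fun x _ h1 h2 =>
      hP.ab_ne_b (h2.symm.trans h1)), hcount _ hs, hcount _ hts, nsmul_eq_mul]
    push_cast; ring
  set a : IrrCharacter G → ℤ := fun χ => δ χ * charDegree (χ : G → ℂ) with ha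
  have e2 : ∑ x : G, ∑ χ ∈ B, (δ χ : ℂ) * (χ : G → ℂ) (x * t * x⁻¹ * t) = Nat.card G * ∑ χ ∈ B, 1 / (a χ : ℂ) := by
    rw [sum_comm, mul_sum]
    refine sum_congr rfl fun χ h => ?_
    have h1 := χ.2.sum_conj_mul t t
    have h2 := hsq χ h
    have h3 : (χ : G → ℂ) 1 ≠ 0 := χ.2.apply_one_ne_zero
    have h5 : (δ χ : ℂ) ≠ 0 := left_ne_zero_of_mul_eq_one h2
    rw [← mul_sum, ha]
    push_cast
    rw [χ.2.cast_charDegree]
    rw [hδt χ h] at h1
    field_simp
    linear_combination (δ χ : ℂ) ^ 2 * h1 + (Nat.card G : ℂ) * (δ χ * δ χ + 1) * h2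
  have e3 : (8 * Nat.card (centralizer ({t} : Set G)) : ℚ) = Nat.card G * ∑ χ ∈ B, 1 / (a χ : ℚ) := by
    have := e1.symm.trans e2
    exact_mod_cast this
  have e4 : ∑ χ ∈ B, a χ = 0 := by
    have := hth 1
    rw [if_neg (by simp)] at this
    simp only [← IsIrrCharacter.cast_charDegree (Subtype.property _)] at this
    exact_mod_cast this
  have h1B : oneIrr G ∈ B := by simpa [hB] using oneIrr_mem
  have a1 : a (oneIrr G) = 1 := by
    have : ((δ (oneIrr G) : ℤ) : ℂ) = 1 := (hδt _ h1B).symm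
    have : δ (oneIrr G) = 1 := by exact_mod_cast this
    simp only [ha, this]
    simp [oneIrr, charDegree]
  have hr : ∀ χ ∈ B, 1 ≤ a χ ∨ a χ ≤ -3 := fun χ h => by
    obtain ⟨h1, -, h2⟩ := hδ χ (mem_filter.1 h).2
    have := χ.2.charDegree_pos
    simp only [ha]
    rcases h1 with e | e <;> rw [e] at h2 ⊢ <;> omega
  obtain ⟨χ₁, χ₂, χ₃, d1, d2, d3, e5⟩ := card_eq_three.1 (by rw [card_erase_of_mem h1B, h4] : #(B.erase (oneIrr G)) = 3)
  have m : ∀ χ ∈ ({χ₁, χ₂, χ₃} : Finset _), χ ∈ B := fun χ h => mem_of_mem_erase (e5 ▸ h)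
  rw [← add_sum_erase _ _ h1B, e5, sum_insert (by simp [d1, d2]), sum_pair d3, a1] at e3 e4
  have := three_recip (hr _ (m χ₁ (by simp))) (hr _ (m χ₂ (by simp))) (hr _ (m χ₃ (by simp))) e4
  have h0 : (0 : ℚ) < Nat.card G := by exact_mod_cast Nat.card_pos
  have h6 : (Nat.card G : ℚ) < 18 * Nat.card (centralizer ({t} : Set G)) := by
    simp only [Int.cast_one, div_one] at e3
    nlinarith
  exact_mod_cast h6

theorem klein_A5 (P : Sylow 2 G) {t s : G} (hP : K4 (P : Subgroup G) t s)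
    (hone : ∀ s t : G, orderOf s = 2 → orderOf t = 2 → IsConj s t)
    (hC : ∀ u : G, orderOf u = 2 → Commute t u → u ∈ (P : Subgroup G))
    (hN : (normalizer ((P : Subgroup G) : Set G)).normalCore = ⊥) : Nonempty (G ≃* alternatingGroup (Fin 5)) := by
  classical
  have h1 := klein_card_lt P hP hone hC
  have ht : orderOf t = 2 := ord2_of hP.a2 hP.a1
  have hs : orderOf s = 2 := ord2_of hP.b2 hP.b1
  have hts : orderOf (t * s) = 2 := ord2_of (hP.mul_self hP.ab_mem) hP.ab1
  set N := normalizer ((P : Subgroup G) : Set G) with hN'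
  have hCN : centralizer ({t} : Set G) ≤ N := fun g hg => mem_normalizer_of_cj_le (cj_le_iff_forall.2 fun x hx => by
    by_cases h : x = 1
    · simp [h]
    · refine hC _ (ord2_conj (ord2_of (hP.mul_self hx) h) g) ?_
      have h2 : g * t * g⁻¹ = t := by rw [mul_inv_eq_iff_eq_mul]; exact mem_centralizer_singleton_iff.1 hg
      have := (Commute.conj_iff g).2 (hP.commute hP.a_mem hx)
      rwa [h2] at this)
  have hcomm : IsMulCommutative (P : Subgroup G) := have := hP.isKleinFour; IsKleinFour.isMulCommutative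
  have hfus : ∀ u ∈ (P : Subgroup G), orderOf u = 2 → ∃ n ∈ N, n * t * n⁻¹ = u := fun u hu h2 => by
    obtain ⟨c, rfl⟩ := isConj_iff.1 (hone t u ht h2)
    obtain ⟨v, hv, e⟩ := (sylIn_top P).control_of_comm hP.a_mem (mem_top c) hu
    exact ⟨v, hv.2, e⟩
  have h3 : 3 ≤ (centralizer ({t} : Set G)).relIndex N := by
    obtain ⟨a, ha, ea⟩ := hfus s hP.b_mem hs
    obtain ⟨b, hb, eb⟩ := hfus _ hP.ab_mem hts
    have := Fintype.ofFinite (N ⧸ (centralizer ({t} : Set G)).subgroupOf N)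
    rw [relIndex, index, Nat.card_eq_fintype_card]
    have hq : ∀ {a b : G} (ha : a ∈ N) (hb : b ∈ N), a * t * a⁻¹ ≠ b * t * b⁻¹ →
        ((⟨a, ha⟩ : N) : N ⧸ (centralizer ({t} : Set G)).subgroupOf N) ≠ (⟨b, hb⟩ : N) := fun {a b} ha hb h e => h (by
      have : a⁻¹ * b * t = t * (a⁻¹ * b) := mem_centralizer_singleton_iff.1 (mem_subgroupOf.1 (QuotientGroup.eq.1 e))
      calc a * t * a⁻¹ = a * (t * (a⁻¹ * b)) * b⁻¹ := by group
        _ = _ := by rw [← this]; group)
    have := card_eq_three.2 ⟨_, _, _, hq (one_mem N) ha (by simpa [ea] using hP.ne),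
      hq (one_mem N) hb (by simpa [eb] using hP.a1 ∘ fun h => absurd h hP.b1), hq ha hb (by rw [ea, eb]; exact hP.ab_ne_b.symm), rfl⟩
    exact this ▸ card_le_univ _
  have h4 : 4 ≤ Nat.card (centralizer ({t} : Set G)) := hP.card ▸ card_le_of_le fun x hx =>
    mem_centralizer_singleton_iff.2 (hP.commute hx hP.a_mem)
  have h5 := H1.card_mul_relIndex hCN
  have h6 := N.card_mul_index
  have h7 : N.index ≤ 5 := by
    by_contra hc
    have : Nat.card (centralizer ({t} : Set G)) * 3 * 6 ≤ Nat.card G := by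
      rw [← h6, ← h5]; exact Nat.mul_le_mul (Nat.mul_le_mul_left _ h3) (by omega)
    omega
  have h8 : 12 * N.index ≤ Nat.card G := by
    rw [← h6, ← h5]; exact Nat.mul_le_mul_right _ (Nat.mul_le_mul h4 h3)
  obtain ⟨f, hf⟩ := H4.exists_hom_perm N hN rfl
  have h9 : Nat.card G ∣ N.index.factorial := by
    have := card_dvd_of_injective f hf
    rwa [Nat.card_eq_fintype_card (α := Equiv.Perm _), Fintype.card_perm, Fintype.card_fin] at this
  have h10 := Nat.le_of_dvd (Nat.factorial_pos _) h9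
  have h11 : N.index ≠ 0 := index_ne_zero_of_finite
  have h12 : N.index = 5 := by
    generalize N.index = m at h7 h8 h10 h11
    interval_cases m <;> simp [Nat.factorial] at h10 h11 ⊢ <;> omega
  have h13 : ¬ 8 ∣ Nat.card G := fun h => by
    have := P.card_eq_multiplicity
    rw [hP.card] at this
    have h2 := (Nat.prime_two.pow_dvd_iff_le_factorization Nat.card_pos.ne').1 (show 2 ^ 3 ∣ _ from h)
    have := Nat.pow_le_pow_right two_pos h2
    omega
  obtain ⟨f, hf⟩ := H4.exists_hom_perm N hN h12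
  refine H4.equiv_alt_of_injective f hf ?_
  rw [h12] at h9 h8
  obtain ⟨k, hk⟩ := h9
  have hk' : 120 = Nat.card G * k := hk
  show _ = 120
  rcases k with _ | _ | _ | k
  · omega
  · exact absurd ⟨15, by omega⟩ h13
  · omega
  · nlinarith

end Cfsg.Agent.C3
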