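/-
Involutions whose centralizer contains at most three involutions.
-/
import Cfsg.Agent.C3.Klein
import Cfsg.Agent.S3276
import Cfsg.Agent.H2.ZS

set_option autoImplicit false

namespace Cfsg.Agent.C3

open Cfsg H2 Subgroup

variable {G : Type*} [Group G] [Finite G]

/-- the centralizer of `x` has at most three involutions -/
def Inv3 (x : G) : Prop :=
  ∀ a u : G, orderOf a = 2 → orderOf u = 2 → Commute x a → Commute x u → a ≠ x → u = x ∨ u = a ∨ u = x * a

omit [Finite G] in
theorem Inv3.of_isConj {x y : G} (h : Inv3 x) (hc : IsConj x y) : Inv3 y := by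
  obtain ⟨g, rfl⟩ := isConj_iff.1 hc
  intro a u ha hu h1 h2 h3
  have k : ∀ {v}, Commute (g * x * g⁻¹) v → Commute x (g⁻¹ * v * g) := fun hv => by
    simpa [mul_assoc] using (Commute.conj_iff g⁻¹).2 hv
  rcases h _ _ (ord2_conj' ha g) (ord2_conj' hu g) (k h1) (k h2) (fun e => h3 (by rw [← e]; group)) with e | e | e
  · exact Or.inl (by rw [← e]; group)
  · exact Or.inr (Or.inl (by simpa using e))
  · exact Or.inr (Or.inr (by
      calc u = g * (g⁻¹ * u * g) * g⁻¹ := by group
        _ = _ := by rw [e]; group))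

omit [Finite G] in
theorem ord2_mul {x a : G} (hx : orderOf x = 2) (ha : orderOf a = 2) (h : Commute x a) (hne : a ≠ x) :
    orderOf (x * a) = 2 :=
  ord2_of (by rw [← sq, h.mul_pow, sq, sq, ord2_mul_self hx, ord2_mul_self ha, one_mul]) fun e =>
    hne (by rw [eq_inv_of_mul_eq_one_right e, ord2_inv hx])

theorem inv3_of_card {x : G} (hx : orderOf x = 2)
    (h3 : Nat.card {u : centralizer ({x} : Set G) // orderOf u = 2} ≤ 3) : Inv3 x := by
  classical
  intro a u ha hu h1 h2 h4
  by_contra hc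
  push Not at hc
  have m : ∀ {v}, orderOf v = 2 → Commute x v → {u : centralizer ({x} : Set G) // orderOf u = 2} := fun {v} h5 h6 =>
    ⟨⟨v, mem_centralizer_singleton_iff.2 h6.symm⟩, by rwa [← orderOf_coe]⟩
  have := Fintype.ofFinite {u : centralizer ({x} : Set G) // orderOf u = 2}
  have h5 := Finset.card_le_card (s := {x, a, x * a, u})
    (t := Finset.univ.image fun v : {u : centralizer ({x} : Set G) // orderOf u = 2} => (v.1 : G)) (by
      have k : ∀ {v}, orderOf v = 2 → Commute x v → v ∈ Finset.univ.image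
          fun v : {u : centralizer ({x} : Set G) // orderOf u = 2} => (v.1 : G) := fun {v} h5 h6 =>
        Finset.mem_image.2 ⟨⟨⟨v, mem_centralizer_singleton_iff.2 h6.symm⟩, by rwa [← orderOf_coe]⟩, Finset.mem_univ _, rfl⟩
      intro v hv
      simp only [Finset.mem_insert, Finset.mem_singleton] at hv
      rcases hv with rfl | rfl | rfl | rfl
      exacts [k hx (Commute.refl _), k ha h1, k (ord2_mul hx ha h1 h4) ((Commute.refl x).mul_right h1), k hu h2])
  have h6 := h5.trans Finset.card_image_le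
  rw [Finset.card_univ, ← Nat.card_eq_fintype_card, Finset.card_insert_of_notMem (by
      simp [h4.symm, ord2_ne_one ha, hc.1.symm]), Finset.card_insert_of_notMem (by
      simp [ord2_ne_one hx, hc.2.1.symm]), Finset.card_pair hc.2.2.symm] at h6
  omega

theorem Inv3.closure {x y : G} (h : Inv3 x) (hx : orderOf x = 2) (hy : orderOf y = 2) (hxy : Commute x y)
    (hnc : ¬ IsConj x y) (hc : IsConj x (x * y)) :
    normalClosure ({y} : Set G) ≠ ⊤ ∧ IsElementaryAbelian 2 (normalClosure ({y} : Set G)) ∧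
      ((∀ u ∈ normalClosure ({y} : Set G), orderOf u = 2 → Commute u x → u = y) →
        Nat.card (normalClosure ({y} : Set G)) ≤ 4) := by
  have hne : y ≠ x := fun e => hnc (e ▸ IsConj.refl _)
  refine S3276.result x y hx hy hxy hnc fun u hu hux g hg => ?_
  have k : IsConj y (g * y * g⁻¹) := isConj_iff.2 ⟨g, rfl⟩
  have k2 := ord2_conj hy g
  generalize g * y * g⁻¹ = w at *
  rcases h y u hy hu hxy hux.symm hne with rfl | rfl | rfl
  · rcases h y w hy k2 hxy hg.symm hne with rfl | rfl | rfl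
    · exact absurd k.symm hnc
    · exact Commute.refl _
    · exact absurd (hc.trans k.symm) hnc
  · exact hg
  · rcases h.of_isConj hc y w hy k2 (hxy.mul_left (Commute.refl y)) hg.symm
      (by simpa using ord2_ne_one hx) with rfl | rfl | rfl
    · exact absurd (hc.trans k.symm) hnc
    · exact Commute.refl _
    · exact (hxy.mul_left (Commute.refl y)).mul_left (Commute.refl y)

theorem Inv3.sylow {x : G} (h : Inv3 x) (hx : orderOf x = 2) :
    (∃ S : Sylow 2 G, (S : Subgroup G) ≤ centralizer {x}) ∨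
      ∃ y, orderOf y = 2 ∧ Commute x y ∧ ¬ IsConj x y ∧ IsConj x (x * y) := by
  obtain ⟨T, hT, hxT⟩ := exists_sylIn_ge (isPGroup_zpowers_ord2 hx) (H := centralizer {x})
    (zpowers_le.2 (mem_centralizer_singleton_iff.2 rfl))
  obtain ⟨S, hS⟩ := hT.pgrp.exists_le_sylow
  rcases hS.eq_or_lt with e | e
  · exact Or.inl ⟨S, e ▸ hT.le⟩
  obtain ⟨g, hg, hgn, hgT⟩ := exists_mem_normalizer_not_mem S.isPGroup' e
  have hST : (S : Subgroup G) ⊓ centralizer {x} ≤ T :=
    (hT.max _ inf_le_right (S.isPGroup'.to_le inf_le_left) (le_inf hS hT.le)).le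
  have hgx : ¬ Commute g x := fun hc => hgT (hST ⟨hg, mem_centralizer_singleton_iff.2 hc⟩)
  have hx' : g * x * g⁻¹ ∈ T := (mem_normalizer_iff.1 hgn x).1 (hxT (mem_zpowers x))
  have hne : g * x * g⁻¹ ≠ x := fun e => hgx (mul_inv_eq_iff_eq_mul.1 e)
  obtain ⟨z, hz, hz2⟩ := exists_central_of_normal S.isPGroup' le_rfl le_normalizer (ne_bot_of_gt e)
  have hzc : ∀ s ∈ (S : Subgroup G), Commute s z := fun s hs => mem_centralizer_iff.1 hz.2 s hs
  have hxz := hzc x (hS (hxT (mem_zpowers x)))
  by_cases hc : IsConj x z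
  · obtain ⟨c, rfl⟩ := isConj_iff.1 hc
    refine Or.inl ⟨c⁻¹ • S, ?_⟩
    rw [coe_smul_sylow, cj_le_iff, inv_inv, cj_centralizer_singleton]
    exact fun s hs => mem_centralizer_singleton_iff.2 (hzc s hs)
  refine Or.inr ⟨z, hz2, hxz, hc, ?_⟩
  rcases h _ z (ord2_conj hx g) hz2 (mem_centralizer_singleton_iff.1 (hT.le hx')).symm hxz hne with e | e | e
  · exact absurd (e ▸ IsConj.refl _) hc
  · exact absurd (isConj_iff.2 ⟨g, e.symm⟩) hc
  · rw [e, ← mul_assoc, ord2_mul_self hx, one_mul]
    exact isConj_iff.2 ⟨g, rfl⟩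

end Cfsg.Agent.C3
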