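/-
Counting classes of `p`-elements through fusion in a Sylow subgroup.
-/
import Cfsg.Agent.GS.Cls
import Cfsg.Agent.H2.Alperin
import Cfsg.Agent.H2.Transfer

namespace Cfsg.Agent.C3

open Subgroup Finset
open Cfsg.Agent.H2 (SylIn PNil resOf cj)
open Cfsg.Agent.GS (kpi piC_mk)
open scoped commutatorElement Classical

universe u
variable {G : Type u} [Group G]

/-- number of elements of `S` conjugate to `x` -/
noncomputable def nfus [Fintype G] (S : Subgroup G) (x : G) : ℕ :=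
  #{y ∈ ({y | y ∈ S} : Finset G) | ConjClasses.mk y = ConjClasses.mk x}

theorem card_image_eq_sum [Fintype G] (S : Subgroup G) :
    (#(({y | y ∈ S} : Finset G).image ConjClasses.mk) : ℚ) = ∑ x ∈ ({y | y ∈ S} : Finset G), (1 : ℚ) / nfus S x := by
  have := Finset.sum_comp (s := ({y | y ∈ S} : Finset G))
    (fun c : ConjClasses G => (1 : ℚ) / (#{y ∈ ({y | y ∈ S} : Finset G) | ConjClasses.mk y = c} : ℕ)) ConjClasses.mk
  unfold nfus
  rw [this, card_eq_sum_ones, Nat.cast_sum]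
  refine sum_congr rfl fun c hc => ?_
  obtain ⟨x, hx, rfl⟩ := mem_image.1 hc
  have h0 : (#{y ∈ ({y | y ∈ S} : Finset G) | ConjClasses.mk y = ConjClasses.mk x} : ℚ) ≠ 0 := by
    exact Nat.cast_ne_zero.2 (card_ne_zero.2 ⟨x, mem_filter.2 ⟨hx, rfl⟩⟩)
  rw [nsmul_eq_mul]; field_simp; simp

theorem le_nfus [Fintype G] {S : Subgroup G} {x : G} (T : Finset G) (h : ∀ y ∈ T, y ∈ S ∧ IsConj x y) :
    #T ≤ nfus S x :=
  card_le_card fun y hy => mem_filter.2 ⟨by simpa using (h y hy).1,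
    ConjClasses.mk_eq_mk_iff_isConj.2 (h y hy).2.symm⟩

theorem one_le_nfus [Fintype G] {S : Subgroup G} {x : G} (hx : x ∈ S) : 1 ≤ nfus S x := by
  simpa using le_nfus (S := S) (x := x) {x} (fun y hy => by rw [mem_singleton.1 hy]; exact ⟨hx, IsConj.refl _⟩)

theorem two_le_nfus [Fintype G] {S : Subgroup G} {x g : G} (hx : x ∈ S) (hg : g * x * g⁻¹ ∈ S)
    (hne : g * x * g⁻¹ ≠ x) : 2 ≤ nfus S x := by
  have := le_nfus (S := S) (x := x) {x, g * x * g⁻¹} (by
    intro y hy
    rcases mem_insert.1 hy with rfl | hy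
    · exact ⟨hx, IsConj.refl _⟩
    · rw [mem_singleton.1 hy]; exact ⟨hg, isConj_iff.2 ⟨g, rfl⟩⟩)
  rwa [card_pair hne.symm] at this

theorem commute_of_sq [Finite G] {g x : G} (ho : Odd (orderOf g)) (h : Commute (g * g) x) : Commute g x := by
  obtain ⟨k, hk⟩ := ho
  have : g = (g * g) ^ (k + 1) := by
    rw [← sq, ← pow_mul, show 2 * (k + 1) = orderOf g + 1 by omega, pow_succ, pow_orderOf_eq_one, one_mul]
  rw [this]; exact h.pow_left _

theorem three_le_nfus [Fintype G] {S : Subgroup G} {x g : G} (hx : x ∈ S) (hg : g * x * g⁻¹ ∈ S)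
    (hg2 : g * (g * x * g⁻¹) * g⁻¹ ∈ S) (ho : Odd (orderOf g)) (hne : ¬ Commute g x) : 3 ≤ nfus S x := by
  have h1 : g * x * g⁻¹ ≠ x := fun e => hne (by rw [Commute, SemiconjBy]; rw [← mul_inv_eq_iff_eq_mul]; exact e)
  have h2 : g * (g * x * g⁻¹) * g⁻¹ ≠ x := fun e => hne (commute_of_sq ho (by
    rw [Commute, SemiconjBy]; conv_rhs => rw [← e]
    group))
  have h3 : g * (g * x * g⁻¹) * g⁻¹ ≠ g * x * g⁻¹ := fun e => h1 (by simpa using e)
  have := le_nfus (S := S) (x := x) {x, g * x * g⁻¹, g * (g * x * g⁻¹) * g⁻¹} (by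
    intro y hy
    simp only [mem_insert, mem_singleton] at hy
    rcases hy with rfl | rfl | rfl
    · exact ⟨hx, IsConj.refl _⟩
    · exact ⟨hg, isConj_iff.2 ⟨g, rfl⟩⟩
    · exact ⟨hg2, isConj_iff.2 ⟨g * g, by group⟩⟩)
  rwa [card_eq_three.2 ⟨_, _, _, h1.symm, h2.symm, h3.symm, rfl⟩] at this

theorem card_filter_mem [Fintype G] (S : Subgroup G) : #({y | y ∈ S} : Finset G) = Nat.card S := by
  rw [Nat.card_eq_fintype_card, Fintype.card_subtype]

/-- three-tier bound -/
theorem card_image_le [Fintype G] {S A B : Subgroup G} (hAB : A ≤ B) (hB : B ≤ S) {a b : ℕ} (ha : 0 < a) (hb : 0 < b)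
    (h1 : ∀ x ∈ B, x ∉ A → a ≤ nfus S x) (h2 : ∀ x ∈ S, x ∉ B → b ≤ nfus S x) :
    (#(({y | y ∈ S} : Finset G).image ConjClasses.mk) : ℚ) ≤
      Nat.card A + ((Nat.card B : ℚ) - Nat.card A) / a + ((Nat.card S : ℚ) - Nat.card B) / b := by
  rw [card_image_eq_sum]
  have hs1 : ({y | y ∈ A} : Finset G) ⊆ ({y | y ∈ B} : Finset G) := fun y hy => by simpa using hAB (by simpa using hy)
  have hs2 : ({y | y ∈ B} : Finset G) ⊆ ({y | y ∈ S} : Finset G) := fun y hy => by simpa using hB (by simpa using hy)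
  rw [← sum_sdiff hs2, ← sum_sdiff hs1, ← card_filter_mem, ← card_filter_mem, ← card_filter_mem,
    ← Nat.cast_sub (card_le_card hs1), ← Nat.cast_sub (card_le_card hs2), ← card_sdiff_of_subset hs1,
    ← card_sdiff_of_subset hs2]
  have key : ∀ (T : Finset G) (c : ℕ), 0 < c → (∀ x ∈ T, c ≤ nfus S x) →
      ∑ x ∈ T, (1 : ℚ) / nfus S x ≤ (#T : ℚ) / c := fun T c hc h => by
    calc _ ≤ ∑ x ∈ T, (1 : ℚ) / c := sum_le_sum fun x hx =>
          one_div_le_one_div_of_le (by exact_mod_cast hc) (by exact_mod_cast h x hx)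
      _ = _ := by rw [sum_const, nsmul_eq_mul]; ring
  have k1 := key ({y | y ∈ A} : Finset G) 1 one_pos fun x hx => one_le_nfus (hB (hAB (by simpa using hx)))
  have k2 := key (({y | y ∈ B} : Finset G) \ ({y | y ∈ A} : Finset G)) a ha fun x hx => h1 x (by simpa using (mem_sdiff.1 hx).1)
    (by simpa using (mem_sdiff.1 hx).2)
  have k3 := key (({y | y ∈ S} : Finset G) \ ({y | y ∈ B} : Finset G)) b hb fun x hx => h2 x (by simpa using (mem_sdiff.1 hx).1)
    (by simpa using (mem_sdiff.1 hx).2)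
  simp only [Nat.cast_one, div_one] at k1
  linarith

theorem kpi_eq_carrier [Finite G] (π : Set ℕ) :
    Nat.card {c : ConjClasses G // ∀ x ∈ c.carrier, ∀ r : ℕ, r.Prime → r ∣ orderOf x → r ∈ π} = kpi π G :=
  Nat.card_congr (Equiv.subtypeEquivRight fun c => ⟨fun h q hq ⟨g, h1, h2⟩ =>
    h g (ConjClasses.mem_carrier_iff_mk_eq.2 h1) q hq h2,
    fun h x hx r hr hd => h r hr ⟨x, ConjClasses.mem_carrier_iff_mk_eq.1 hx, hd⟩⟩)

theorem piE_single [Finite G] {p : ℕ} (hp : p.Prime) {x : G} :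
    (∀ r : ℕ, r.Prime → r ∣ orderOf x → r ∈ ({p} : Set ℕ)) ↔ ∃ k, orderOf x = p ^ k :=
  ⟨fun h => ⟨_, Nat.eq_prime_pow_of_unique_prime_dvd (orderOf_pos x).ne' fun hd hx => h _ hd hx⟩,
    fun ⟨k, hk⟩ r hr hd => (Nat.prime_dvd_prime_iff_eq hr hp).1 (hr.dvd_of_dvd_pow (hk ▸ hd))⟩

theorem kp_eq_carrier [Finite G] {p : ℕ} (hp : p.Prime) :
    Nat.card {c : ConjClasses G // ∀ x ∈ c.carrier, ∃ k : ℕ, orderOf x = p ^ k} = kpi {p} G := by
  rw [← kpi_eq_carrier]
  exact Nat.card_congr (Equiv.subtypeEquivRight fun c => forall₂_congr fun x _ => (piE_single hp).symm)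

theorem kp_eq_image [Fintype G] {p : ℕ} [hp : Fact p.Prime] {S : Subgroup G} (hS : SylIn p S ⊤) :
    kpi {p} G = #(({y | y ∈ S} : Finset G).image ConjClasses.mk) := by
  rw [← Nat.card_eq_finsetCard]
  refine Nat.card_congr (Equiv.subtypeEquivRight fun c => ?_)
  obtain ⟨x, rfl⟩ := ConjClasses.mk_surjective c
  refine piC_mk.trans ((piE_single hp.out).trans ⟨fun ⟨k, hk⟩ => ?_, fun h => ?_⟩)
  · obtain ⟨g, -, hg⟩ := hS.exists_conj_mem (mem_top x) hk
    exact mem_image.2 ⟨_, by simpa using hg, ConjClasses.mk_eq_mk_iff_isConj.2 (isConj_iff.2 ⟨g, rfl⟩).symm⟩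
  · obtain ⟨y, hy, e⟩ := mem_image.1 h
    obtain ⟨k, hk⟩ := H2.orderOf_eq_pow_of_mem hS.pgrp (by simpa using hy : y ∈ S)
    obtain ⟨g, rfl⟩ := isConj_iff.1 (ConjClasses.mk_eq_mk_iff_isConj.1 e)
    exact ⟨k, by rw [← hk]; exact SemiconjBy.orderOf_eq g⁻¹ (by simp [SemiconjBy, mul_assoc])⟩

theorem card_classes_eq_image [Fintype G] :
    Nat.card (ConjClasses G) = #(({y | y ∈ (⊤ : Subgroup G)} : Finset G).image ConjClasses.mk) := by
  rw [← Nat.card_eq_finsetCard]
  refine Nat.card_congr (Equiv.subtypeUnivEquiv fun c => ?_).symm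
  obtain ⟨x, rfl⟩ := ConjClasses.mk_surjective c
  exact mem_image_of_mem _ (by simp)

theorem mul_card_le_of_lt [Finite G] {p : ℕ} [hp : Fact p.Prime] {A S : Subgroup G} (hS : IsPGroup p S) (h : A < S) :
    p * Nat.card A ≤ Nat.card S := by
  obtain ⟨n, hn⟩ := (IsPGroup.iff_card).1 hS
  obtain ⟨m, hm⟩ := (IsPGroup.iff_card).1 (hS.to_le h.le)
  have := H2.card_lt_of_lt h
  rw [hn, hm] at this ⊢
  rw [← pow_succ']
  exact Nat.pow_le_pow_right hp.out.pos ((Nat.pow_lt_pow_iff_right hp.out.one_lt).1 this)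

/-- Many classes of `p`-elements force an abelian Sylow subgroup central in its normalizer. -/
theorem normalizer_le_of_kp [Finite G] {p : ℕ} [hp : Fact p.Prime] {S : Subgroup G} (hS : SylIn p S ⊤)
    (h : (p + 1) * Nat.card S < 2 * p * kpi {p} G) : normalizer (S : Set G) ≤ centralizer (S : Set G) := by
  have := Fintype.ofFinite G
  rw [le_centralizer_iff]
  by_contra hne
  have hlt : S ⊓ centralizer (normalizer (S : Set G) : Set G) < S :=
    lt_of_le_of_ne inf_le_left fun e => hne (e.symm.le.trans inf_le_right)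
  have h1 := card_image_le (S := S) (A := S ⊓ centralizer (normalizer (S : Set G) : Set G)) le_rfl inf_le_left
    one_pos two_pos (fun x h1 h2 => absurd h1 h2) (fun x hx hx' => by
      have : ∃ g ∈ normalizer (S : Set G), g * x ≠ x * g := by
        by_contra hc
        push Not at hc
        exact hx' ⟨hx, mem_centralizer_iff.2 hc⟩
      obtain ⟨g, hg, hgx⟩ := this
      exact two_le_nfus hx ((mem_normalizer_iff.1 hg x).1 hx) fun e => hgx (by rw [← mul_inv_eq_iff_eq_mul]; exact e))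
  rw [← kp_eq_image hS] at h1
  have h2 : (p : ℚ) * Nat.card ↥(S ⊓ centralizer (normalizer (S : Set G) : Set G)) ≤ Nat.card S := by
    exact_mod_cast mul_card_le_of_lt hS.pgrp hlt
  have h3 : ((p : ℚ) + 1) * Nat.card S < 2 * p * kpi {p} G := by exact_mod_cast h
  have h4 : (0 : ℚ) < p := by exact_mod_cast hp.out.pos
  push_cast at h1
  nlinarith

theorem kp_eq_of_pNil [Finite G] {p : ℕ} [hp : Fact p.Prime] {S : Subgroup G} (hS : SylIn p S ⊤)
    (h : PNil p (⊤ : Subgroup G)) : kpi {p} G = Nat.card (ConjClasses S) := by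
  have := Fintype.ofFinite G
  rw [kp_eq_image hS, ← Nat.card_eq_finsetCard]
  symm
  refine Nat.card_eq_of_bijective (fun c => ⟨ConjClasses.map S.subtype c, ?_⟩) ⟨fun c d e => ?_, fun ⟨c, hc⟩ => ?_⟩
  · obtain ⟨x, rfl⟩ := ConjClasses.mk_surjective c
    exact mem_image.2 ⟨x, by simp, rfl⟩
  · obtain ⟨x, rfl⟩ := ConjClasses.mk_surjective c
    obtain ⟨y, rfl⟩ := ConjClasses.mk_surjective d
    have e' : ConjClasses.mk (x : G) = ConjClasses.mk (y : G) := congrArg Subtype.val e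
    obtain ⟨u, hu⟩ := isConj_iff.1 (ConjClasses.mk_eq_mk_iff_isConj.1 e')
    obtain ⟨v, hv, hv'⟩ := h.control hS (mem_top u)
    refine ConjClasses.mk_eq_mk_iff_isConj.2 (isConj_iff.2 ⟨⟨v, hv⟩, Subtype.ext ?_⟩)
    simpa [hu] using hv' x x.2 (hu ▸ y.2)
  · obtain ⟨x, hx, rfl⟩ := mem_image.1 hc
    exact ⟨ConjClasses.mk ⟨x, by simpa using hx⟩, rfl⟩

theorem card_classes_of_comm [Finite G] (h : ∀ x y : G, x * y = y * x) : Nat.card (ConjClasses G) = Nat.card G :=
  (Nat.card_eq_of_bijective ConjClasses.mk ⟨fun x y e => by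
    obtain ⟨u, hu⟩ := isConj_iff.1 (ConjClasses.mk_eq_mk_iff_isConj.1 e)
    rw [← hu, h u x, mul_inv_cancel_right], ConjClasses.mk_surjective⟩).symm

theorem four_mul_card_le [Finite G] {U : Subgroup G} {g x : G} (hg : g ∈ normalizer (U : Set G))
    (hc : (orderOf g).Coprime (Nat.card U)) (ho : Odd (orderOf g)) (hx : x ∈ U) (hne : ¬ Commute g x) :
    4 * Nat.card ↥(U ⊓ centralizer {g}) ≤ Nat.card U := by
  set C := U ⊓ centralizer {g} with hC
  have hmem : ∀ {y}, y ∈ C ↔ y ∈ U ∧ Commute g y := by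
    intro y; simp [hC, mem_centralizer_iff, Commute, SemiconjBy]
  -- no power of `g` moving `y` fixes the coset `y C`
  have key : ∀ a y, a ∈ zpowers g → y ∈ U → y⁻¹ * (a * y * a⁻¹) ∈ C → Commute a y := by
    intro a y ha hy hcm
    set c := y⁻¹ * (a * y * a⁻¹) with hc'
    have hac : Commute a c := by
      obtain ⟨k, rfl⟩ := ha
      exact (hmem.1 hcm).2.zpow_left k
    have e1 : a * y * a⁻¹ = y * c := by rw [hc']; group
    have hn : ∀ n : ℕ, a ^ n * y * (a ^ n)⁻¹ = y * c ^ n := by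
      intro n
      induction n with
      | zero => simp
      | succ n ih =>
        calc a ^ (n + 1) * y * (a ^ (n + 1))⁻¹ = a * (a ^ n * y * (a ^ n)⁻¹) * a⁻¹ := by rw [pow_succ']; group
          _ = a * y * a⁻¹ * (a * c ^ n * a⁻¹) := by rw [ih]; group
          _ = y * c ^ (n + 1) := by rw [e1, (hac.pow_right n).eq, pow_succ']; group
    have h1 : c ^ orderOf g = 1 := by
      have := hn (orderOf g)
      rw [orderOf_dvd_iff_pow_eq_one.1 (orderOf_dvd_of_mem_zpowers ha)] at this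
      simpa using this
    have h2 : c = 1 := by
      rw [← orderOf_eq_one_iff]
      exact Nat.eq_one_of_dvd_coprimes hc (orderOf_dvd_of_pow_eq_one h1)
        (H1.orderOf_dvd_card_of_mem (hmem.1 hcm).1)
    rw [h2, mul_one] at e1
    rw [Commute, SemiconjBy, ← mul_inv_eq_iff_eq_mul]; exact e1
  have hx1 : g * x * g⁻¹ ∈ U := (mem_normalizer_iff.1 hg x).1 hx
  have hx2 : g * (g * x * g⁻¹) * g⁻¹ ∈ U := (mem_normalizer_iff.1 hg _).1 hx1
  have hne1 : ¬ Commute g (g * x * g⁻¹) := fun h => hne (by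
    have := h.eq; rw [Commute, SemiconjBy]
    calc g * x = g⁻¹ * (g * (g * x * g⁻¹)) * g := by group
      _ = x * g := by rw [this]; group)
  have hne2 : ¬ Commute g (g * (g * x * g⁻¹) * g⁻¹) := fun h => hne1 (by
    have := h.eq; rw [Commute, SemiconjBy]
    calc g * (g * x * g⁻¹) = g⁻¹ * (g * (g * (g * x * g⁻¹) * g⁻¹)) * g := by group
      _ = _ := by rw [this]; group)
  rw [← H1.card_mul_relIndex (inf_le_left : C ≤ U), mul_comm]
  refine Nat.mul_le_mul_left _ ?_
  have := Fintype.ofFinite (U ⧸ C.subgroupOf U)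
  rw [relIndex, index, Nat.card_eq_fintype_card]
  have hq : ∀ {a b : G} (ha : a ∈ U) (hb : b ∈ U), a⁻¹ * b ∉ C →
      ((⟨a, ha⟩ : U) : U ⧸ C.subgroupOf U) ≠ (⟨b, hb⟩ : U) := fun ha hb h e => h (mem_subgroupOf.1 (QuotientGroup.eq.1 e))
  have d01 := hq (one_mem U) hx fun h => hne (hmem.1 (by simpa using h)).2
  have d02 := hq (one_mem U) hx1 fun h => hne1 (hmem.1 (by simpa using h)).2
  have d03 := hq (one_mem U) hx2 fun h => hne2 (hmem.1 (by simpa using h)).2
  have d12 := hq hx hx1 fun h => hne (key g x (mem_zpowers g) hx h)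
  have d13 := hq hx hx2 fun h => hne (commute_of_sq ho (key (g * g) x (mul_mem (mem_zpowers g) (mem_zpowers g)) hx
    (by convert h using 1; group)))
  have d23 := hq hx1 hx2 fun h => hne1 (key g _ (mem_zpowers g) hx1 h)
  calc 4 = #({(((⟨1, one_mem U⟩ : U)) : U ⧸ C.subgroupOf U), ((⟨x, hx⟩ : U) : U ⧸ C.subgroupOf U),
        ((⟨_, hx1⟩ : U) : U ⧸ C.subgroupOf U), ((⟨_, hx2⟩ : U) : U ⧸ C.subgroupOf U)} : Finset _) := by
        rw [card_insert_of_notMem (by simp [d01, d02, d03]), card_insert_of_notMem (by simp [d12, d13]), card_pair d23]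
    _ ≤ _ := card_le_univ _

theorem mem_centralizer_of_kp [Finite G] {p : ℕ} [hp : Fact p.Prime] {S U : Subgroup G} (hS : SylIn p S ⊤)
    (h : Nat.card S < 2 * kpi {p} G) (hU : U ≤ S) (hc : S ⊓ centralizer (U : Set G) ≤ U) {g : G}
    (hg : g ∈ normalizer (U : Set G)) (hgp : (orderOf g).Coprime p) (ho : Odd (orderOf g)) :
    g ∈ centralizer (U : Set G) := by
  have := Fintype.ofFinite G
  by_contra hne
  obtain ⟨x, hx, hgx⟩ : ∃ x ∈ U, ¬ Commute g x := by
    by_contra hc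
    push Not at hc
    exact hne (mem_centralizer_iff.2 fun y hy => (hc y hy).eq.symm)
  obtain ⟨k, hk⟩ := IsPGroup.iff_card.1 (hS.pgrp.to_le hU)
  have h4 := four_mul_card_le hg (hk ▸ hgp.pow_right k) ho hx hgx
  have h1 := card_image_le (S := S) (A := U ⊓ centralizer {g}) inf_le_left hU three_pos two_pos
    (fun y hy hy' => three_le_nfus (hU hy) (hU ((mem_normalizer_iff.1 hg _).1 hy))
      (hU ((mem_normalizer_iff.1 hg _).1 ((mem_normalizer_iff.1 hg _).1 hy))) ho fun e =>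
        hy' ⟨hy, by simpa [mem_centralizer_iff] using e.eq⟩)
    (fun y hy hy' => by
      have : ∃ u ∈ U, u * y ≠ y * u := by
        by_contra hc'
        push Not at hc'
        exact hy' (hc ⟨hy, mem_centralizer_iff.2 hc'⟩)
      obtain ⟨u, hu, huy⟩ := this
      exact two_le_nfus (g := u) hy (mul_mem (mul_mem (hU hu) hy) (inv_mem (hU hu)))
        fun e => huy (by rw [← mul_inv_eq_iff_eq_mul]; exact e))
  rw [← kp_eq_image hS] at h1
  have h3 : (Nat.card S : ℚ) < 2 * kpi {p} G := by exact_mod_cast h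
  have h5 : (4 : ℚ) * Nat.card ↥(U ⊓ centralizer {g}) ≤ Nat.card U := by exact_mod_cast h4
  push_cast at h1
  linarith

theorem pNil_two_of_kp [Finite G] {S : Subgroup G} (hS : SylIn 2 S ⊤) (h : Nat.card S < 2 * kpi {2} G) :
    PNil 2 (⊤ : Subgroup G) :=
  hS.frobenius fun _ hU _ _ hc _ hg ho => mem_centralizer_of_kp hS h hU hc hg.2 ho (Nat.coprime_two_right.1 ho)

theorem comm_of_kp [Finite G] {p : ℕ} [hp : Fact p.Prime] (h2 : p ≠ 2) {S : Subgroup G} (hS : SylIn p S ⊤)
    (h : Nat.card S < 2 * kpi {p} G) : S ≤ centralizer (S : Set G) := by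
  have := Fintype.ofFinite G
  by_contra hne
  obtain ⟨x, hx, hx'⟩ := SetLike.not_le_iff_exists.1 hne
  have hodd : ∀ y ∈ S, Odd (orderOf y) := fun y hy => by
    obtain ⟨k, hk⟩ := H2.orderOf_eq_pow_of_mem hS.pgrp hy
    exact hk ▸ (hp.out.odd_of_ne_two h2).pow
  have l1 : S ⊓ centralizer (S : Set G) < S ⊓ centralizer {x} :=
    lt_of_le_of_ne (inf_le_inf_left _ (centralizer_le (by simpa using hx))) fun e => hx'
      (e.symm.le (show x ∈ S ⊓ centralizer {x} from ⟨hx, by simp [mem_centralizer_iff]⟩)).2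
  have l2 : S ⊓ centralizer {x} < S := lt_of_le_of_ne inf_le_left fun e => hx' (mem_centralizer_iff.2 fun y hy => by
    simpa [mem_centralizer_iff, eq_comm] using (e.symm.le hy).2)
  have m1 := mul_card_le_of_lt (hS.pgrp.to_le inf_le_left) l1
  have m2 := mul_card_le_of_lt hS.pgrp l2
  have h1 := card_image_le (S := S) (A := S ⊓ centralizer (S : Set G)) le_rfl inf_le_left one_pos three_pos
    (fun x h1 h2 => absurd h1 h2) (fun y hy hy' => by
      have : ∃ u ∈ S, u * y ≠ y * u := by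
        by_contra hc'
        push Not at hc'
        exact hy' ⟨hy, mem_centralizer_iff.2 hc'⟩
      obtain ⟨u, hu, huy⟩ := this
      have h1 : u * y * u⁻¹ ∈ S := mul_mem (mul_mem hu hy) (inv_mem hu)
      exact three_le_nfus hy h1 (mul_mem (mul_mem hu h1) (inv_mem hu)) (hodd u hu) huy)
  rw [← kp_eq_image hS] at h1
  have h3 : (Nat.card S : ℚ) < 2 * kpi {p} G := by exact_mod_cast h
  have h4 : 4 * Nat.card ↥(S ⊓ centralizer (S : Set G)) ≤ Nat.card S := by
    have := hp.out.two_le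
    nlinarith
  have h5 : (4 : ℚ) * Nat.card ↥(S ⊓ centralizer (S : Set G)) ≤ Nat.card S := by exact_mod_cast h4
  push_cast at h1
  linarith

theorem le_center_of_classes [Finite G] {p : ℕ} [hp : Fact p.Prime] (h2 : p ≠ 2) {Q : Subgroup G} [Q.Normal]
    (hQ : IsPGroup p Q) (hc : Q ≤ centralizer (Q : Set G)) (h : Nat.card G < 2 * Nat.card (ConjClasses G)) :
    Q ≤ center G := by
  have := Fintype.ofFinite G
  by_contra hne
  obtain ⟨x, hx, hx'⟩ := SetLike.not_le_iff_exists.1 hne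
  have hodd : ∀ y ∈ Q, Odd (orderOf y) := fun y hy => by
    obtain ⟨k, hk⟩ := H2.orderOf_eq_pow_of_mem hQ hy
    exact hk ▸ (hp.out.odd_of_ne_two h2).pow
  have hC : centralizer (Q : Set G) ≠ ⊤ := fun e => hx' (mem_center_iff.2 fun g =>
    (mem_centralizer_iff.1 (e.symm.le (mem_top g)) x hx).symm)
  have m1 : 2 * Nat.card (centralizer (Q : Set G)) ≤ Nat.card G := by
    rw [← (centralizer (Q : Set G)).index_mul_card]
    exact Nat.mul_le_mul_right _ (one_lt_index_of_ne_top hC)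
  have m2 : 3 * Nat.card (center G) ≤ Nat.card (centralizer (Q : Set G)) := by
    have hle : center G ≤ centralizer (Q : Set G) := center_le_centralizer _
    rw [← H1.card_mul_relIndex hle, mul_comm]
    refine Nat.mul_le_mul_left _ ?_
    have h3 : (center G).relIndex Q ∣ (center G).relIndex (centralizer (Q : Set G)) :=
      H1.relIndex_dvd_of_le_norm hc (le_normalizer_of_normal)
    have h4 : (center G).relIndex Q ∣ Nat.card Q := relIndex_dvd_card _ _
    obtain ⟨k, hk⟩ := IsPGroup.iff_card.1 hQ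
    rw [hk] at h4
    obtain ⟨j, -, hj⟩ := (Nat.dvd_prime_pow hp.out).1 h4
    have hj0 : j ≠ 0 := by
      rintro rfl
      exact hne (relIndex_eq_one.1 (by simpa using hj))
    have h5 : p ∣ (center G).relIndex (centralizer (Q : Set G)) := (hj ▸ dvd_pow_self p hj0).trans h3
    have h6 : p ≤ (center G).relIndex (centralizer (Q : Set G)) :=
      Nat.le_of_dvd (Nat.pos_of_ne_zero (index_ne_zero_of_finite)) h5
    have := hp.out.two_le
    omega
  have h1 := card_image_le (S := ⊤) (A := center G) (center_le_centralizer (Q : Set G)) le_top two_pos three_pos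
    (fun y _ hy => by
      have : ∃ u, u * y ≠ y * u := by
        by_contra hc'
        push Not at hc'
        exact hy (mem_center_iff.2 hc')
      obtain ⟨u, huy⟩ := this
      exact two_le_nfus (g := u) (mem_top _) (mem_top _) fun e => huy (by rw [← mul_inv_eq_iff_eq_mul]; exact e))
    (fun y _ hy => by
      have : ∃ u ∈ Q, u * y ≠ y * u := by
        by_contra hc'
        push Not at hc'
        exact hy (mem_centralizer_iff.2 hc')
      obtain ⟨u, hu, huy⟩ := this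
      exact three_le_nfus (mem_top _) (mem_top _) (mem_top _) (hodd u hu) huy)
  rw [← card_classes_eq_image, card_top] at h1
  have h3 : (Nat.card G : ℚ) < 2 * Nat.card (ConjClasses G) := by exact_mod_cast h
  have h4 : (2 : ℚ) * Nat.card (centralizer (Q : Set G)) ≤ Nat.card G := by exact_mod_cast m1
  have h5 : (3 : ℚ) * Nat.card (center G) ≤ Nat.card (centralizer (Q : Set G)) := by exact_mod_cast m2
  push_cast at h1
  linarith

/-- dropping primes from `π` -/
theorem kpi_le_drop [Finite G] (ρ : Finset ℕ) (hρ : ∀ r ∈ ρ, r.Prime) (π : Set ℕ) :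
    kpi π G ≤ kpi (π \ ρ) G * ρ.prod (fun r => r ^ (Nat.card G).factorization r) := by
  induction ρ using Finset.induction_on generalizing π with
  | empty => simp
  | insert q ρ hq ih =>
    have := Fact.mk (hρ q (mem_insert_self _ _))
    obtain ⟨S, hS⟩ := H2.exists_sylIn q (⊤ : Subgroup G)
    have h1 := GS.kpi_le_mul_sylIn hS π
    have h2 := ih (fun r hr => hρ r (mem_insert_of_mem hr)) (π \ {q})
    rw [hS.card_eq_pow, card_top] at h1
    rw [prod_insert hq, coe_insert, show π \ insert q (ρ : Set ℕ) = (π \ {q}) \ ρ by ext; simp; tauto]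
    calc _ ≤ _ := h1
      _ ≤ _ := Nat.mul_le_mul_right _ h2
      _ = _ := by ring

theorem kpi_le_keep [Finite G] {π : Finset ℕ} (hπ : ∀ r ∈ π, r.Prime) {ρ : Finset ℕ} (hρ : ρ ⊆ π) {a b : ℕ}
    (h : a * π.prod (fun r => r ^ (Nat.card G).factorization r) < b * kpi π G) :
    a * ρ.prod (fun r => r ^ (Nat.card G).factorization r) < b * kpi ρ G := by
  have h1 := kpi_le_drop (G := G) (π \ ρ) (fun r hr => hπ r (mem_sdiff.1 hr).1) π
  rw [show (π : Set ℕ) \ (π \ ρ : Finset ℕ) = ρ by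
    ext x; have := @hρ x; simp; tauto] at h1
  rw [← prod_sdiff hρ] at h
  by_contra hc
  push Not at hc
  have := (Nat.mul_le_mul_left b h1).trans ((mul_assoc _ _ _).symm.le.trans (Nat.mul_le_mul_right _ hc))
  rw [mul_comm (∏ _ ∈ π \ ρ, _), ← mul_assoc] at h
  omega

theorem exists_pi_complement [Finite G] (π : Finset ℕ) (hπ : ∀ r ∈ π, r.Prime)
    (h : ∀ q ∈ π, PNil q (⊤ : Subgroup G)) : ∃ N : Subgroup G, N.Normal ∧ (∀ r : ℕ, r.Prime → r ∣ Nat.card N → r ∉ π) ∧
      (∀ r : ℕ, r.Prime → r ∣ N.index → r ∈ π) ∧ ∀ x, (∀ q ∈ π, x ∈ pResidual q G) → x ∈ N := by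
  induction π using Finset.induction_on with
  | empty => exact ⟨⊤, inferInstance, by simp, fun r hr hd => absurd (by simpa using hd) hr.one_lt.ne', fun _ _ => trivial⟩
  | insert q π hq ih =>
    have := Fact.mk (hπ q (mem_insert_self _ _))
    obtain ⟨N, hN, h1, h2, h3⟩ := ih (fun r hr => hπ r (mem_insert_of_mem hr)) fun r hr => h r (mem_insert_of_mem hr)
    refine ⟨N ⊓ pResidual q G, inferInstance, fun r hr hd hr' => ?_, fun r hr hd => ?_,
      fun x hx => ⟨h3 x fun r hr => hx r (mem_insert_of_mem hr), hx q (mem_insert_self _ _)⟩⟩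
    · rcases mem_insert.1 hr' with rfl | hr'
      · have h4 := H2.pNil_iff_card.1 (h r (mem_insert_self _ _))
        rw [H2.resOf_top] at h4
        exact hr.one_lt.ne' (Nat.eq_one_of_dvd_coprimes h4 (hd.trans (card_dvd_of_le inf_le_right)) dvd_rfl)
      · exact h1 r hr (hd.trans (card_dvd_of_le inf_le_left)) hr'
    · obtain ⟨k, hk⟩ := H2.index_pResidual q G
      rw [← relIndex_mul_index (inf_le_left : N ⊓ pResidual q G ≤ N), inf_relIndex_left] at hd
      rcases (Nat.Prime.dvd_mul hr).1 hd with hd | hd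
      · have := hd.trans (hk ▸ relIndex_dvd_index_of_normal (pResidual q G) N)
        rw [(Nat.prime_dvd_prime_iff_eq hr Fact.out).1 (hr.dvd_of_dvd_pow this)]
        exact mem_insert_self _ _
      · exact mem_insert_of_mem (h2 r hr hd)

theorem commutator_mem_pResidual [Finite G] {p : ℕ} [hp : Fact p.Prime] {S : Subgroup G} (hS : SylIn p S ⊤)
    (hc : S ≤ centralizer (S : Set G)) (x y : G) : ⁅x, y⁆ ∈ pResidual p G := by
  obtain ⟨a, ha, u, hu, rfl⟩ := hS.exists_resOf_mul (mem_top x)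
  obtain ⟨b, hb, v, hv, rfl⟩ := hS.exists_resOf_mul (mem_top y)
  rw [H2.resOf_top] at ha hb
  rw [← QuotientGroup.eq_one_iff, ← QuotientGroup.mk'_apply, map_commutatorElement, map_mul, map_mul,
    QuotientGroup.mk'_apply _ a, QuotientGroup.mk'_apply _ b, (QuotientGroup.eq_one_iff a).2 ha,
    (QuotientGroup.eq_one_iff b).2 hb, one_mul, one_mul, ← map_commutatorElement,
    commutatorElement_eq_one_iff_mul_comm.2 (mem_centralizer_iff.1 (hc hv) u hu), map_one]

theorem exists_comm_hall [Finite G] (π : Finset ℕ) (hπ : ∀ r ∈ π, r.Prime)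
    (h : ∀ q ∈ π, PNil q (⊤ : Subgroup G)) (hc : ∀ q ∈ π, ∃ S : Subgroup G, SylIn q S ⊤ ∧ S ≤ centralizer (S : Set G)) :
    ∃ H : Subgroup G, IsPiHall (π : Set ℕ) H ∧ IsMulCommutative H := by
  obtain ⟨N, hN, h1, h2, h3⟩ := exists_pi_complement π hπ h
  obtain ⟨H, hH⟩ := exists_right_complement'_of_coprime (N := N)
    (Nat.coprime_of_dvd fun r hr hd hd' => h1 r hr hd (h2 r hr hd'))
  refine ⟨H, ⟨fun r hr hd => h2 r hr (hH.symm.index_eq_card ▸ hd), fun r hr hr' hd => h1 r hr (hH.index_eq_card ▸ hd) hr'⟩,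
    ⟨⟨fun x y => Subtype.ext ?_⟩⟩⟩
  have h4 : ⁅(x : G), (y : G)⁆ ∈ N ⊓ H := ⟨h3 _ fun q hq => by
      have := Fact.mk (hπ q hq)
      obtain ⟨S, hS, hS'⟩ := hc q hq
      exact commutator_mem_pResidual hS hS' _ _,
    H.mul_mem (H.mul_mem (H.mul_mem x.2 y.2) (H.inv_mem x.2)) (H.inv_mem y.2)⟩
  rw [hH.disjoint.eq_bot, mem_bot] at h4
  exact commutatorElement_eq_one_iff_mul_comm.1 h4

/-- the odd primes of `π ∋ 2` -/
theorem pNil_odd_of_kpi [Finite G] {q : ℕ} [hq : Fact q.Prime] (h2 : q ≠ 2) (hG : PNil 2 (⊤ : Subgroup G))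
    {S : Subgroup G} (hS : SylIn q S ⊤) (h : Nat.card S < 2 * kpi {q} G)
    (h' : 2 ^ (Nat.card G).factorization 2 * q ^ (Nat.card G).factorization q < 2 * kpi {2, q} G) :
    PNil q (⊤ : Subgroup G) := by
  have hK : ∀ g ∈ pResidual 2 G, Odd (orderOf g) := fun g hg =>
    Nat.coprime_two_right.1 (hG g (by rwa [H2.resOf_top]))
  have hSK : S ≤ pResidual 2 G := fun x hx => by
    obtain ⟨k, hk⟩ := H2.orderOf_eq_pow_of_mem hS.pgrp hx
    exact H2.mem_pResidual (Nat.coprime_two_right.2 (hk ▸ (hq.out.odd_of_ne_two h2).pow))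
  have hS' := hS.mono hSK le_top
  have hKq : PNil q (pResidual 2 G) := hS'.frobenius fun U hU _ _ hc g hg ho =>
    mem_centralizer_of_kp hS h hU hc hg.2 ho (hK g hg.1)
  set L := resOf q (pResidual 2 G) with hL
  have hLq : (Nat.card L).Coprime q := H2.pNil_iff_card.1 hKq
  have hL2 : (Nat.card L).Coprime 2 := by
    have := H2.pNil_iff_card.1 hG
    rw [H2.resOf_top] at this
    exact this.coprime_dvd_left (card_dvd_of_le (H2.resOf_le _ _))
  have hLn : L.Normal := inferInstance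
  set f := QuotientGroup.mk' L with hf
  refine H2.pNil_of_map f (by rwa [hf, QuotientGroup.ker_mk']) ?_
  have hmap : S.map f = (pResidual 2 G).map f := by
    rw [← hS'.resOf_sup, Subgroup.map_sup, ← hL, (Subgroup.map_eq_bot_iff L).2 (by rw [hf, QuotientGroup.ker_mk']), bot_sup_eq]
  have hn : (S.map f).Normal := hmap ▸ Normal.map inferInstance f (QuotientGroup.mk'_surjective L)
  have hSq := hS.map f
  have hc : S.map f ≤ centralizer (S.map f : Set (G ⧸ L)) := by
    rintro _ ⟨x, hx, rfl⟩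
    refine mem_centralizer_iff.2 ?_
    rintro _ ⟨y, hy, rfl⟩
    rw [← map_mul, ← map_mul, mem_centralizer_iff.1 (comm_of_kp h2 hS h hx) y hy]
  have k1 : kpi {2, q} L ≤ 1 := by
    refine (GS.kpi_mono (ρ := {r | r ∣ 1}) fun r hr hd hr' => ?_).trans (GS.kpi_le 1 (Nat.card L) (one_mul _) (by simp))
    rcases hr' with rfl | rfl
    · exact absurd (Nat.eq_one_of_dvd_coprimes hL2 hd dvd_rfl) (by norm_num)
    · exact absurd (Nat.eq_one_of_dvd_coprimes hLq hd dvd_rfl) hr.one_lt.ne'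
  have k2 : kpi {2, q} (G ⧸ L) ≤ Nat.card (ConjClasses (G ⧸ L)) := by
    rw [← GS.kpi_univ]; exact GS.kpi_mono fun _ _ _ _ => trivial
  have k3 : Nat.card (G ⧸ L) ≤ 2 ^ (Nat.card G).factorization 2 * q ^ (Nat.card G).factorization q := by
    obtain ⟨T, hT⟩ := H2.exists_sylIn 2 (⊤ : Subgroup G)
    obtain ⟨a, ha⟩ := H2.index_pResidual 2 G
    obtain ⟨b, hb⟩ := H2.relIndex_resOf (p := q) (pResidual 2 G)
    have e : Nat.card (G ⧸ L) = 2 ^ a * q ^ b := by
      rw [← ha, ← hb, mul_comm, relIndex_mul_index (H2.resOf_le _ _)]; rfl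
    have hd : 2 ^ a * q ^ b ∣ Nat.card G := e ▸ card_quotient_dvd_card L
    rw [e]
    exact Nat.mul_le_mul (Nat.pow_le_pow_right two_pos ((Nat.prime_two.pow_dvd_iff_le_factorization Nat.card_pos.ne').1
      ((dvd_mul_right _ _).trans hd))) (Nat.pow_le_pow_right hq.out.pos
        ((hq.out.pow_dvd_iff_le_factorization Nat.card_pos.ne').1 ((dvd_mul_left _ _).trans hd)))
  have k4 := GS.kpi_le_mul {2, q} L
  have hZ := le_center_of_classes h2 hSq.pgrp hc (by nlinarith)
  exact hSq.pNil_of_normalizer_le fun g _ => mem_centralizer_iff.2 fun y hy => (mem_center_iff.1 (hZ hy) g).symm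

end Cfsg.Agent.C3
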