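import Mathlib
import Cfsg.Agent.H4.Orth2
import Cfsg.Agent.H4.Lin
import Cfsg.Agent.H4.Bridge2

/-! Laws in alternating and classical groups. -/

namespace Cfsg.Agent.C3.LW

open Module Cfsg.Agent.H4 Cfsg.Agent.H4.CForm Submodule Polynomial

variable {F : Type*} [Field F] {V : Type*} [AddCommGroup V] [Module F V]

/-- `w` has a non-scalar value on `K` -/
def NL (w : FreeGroup ℕ) (K : Subgroup (V ≃ₗ[F] V)) : Prop :=
  ∃ f : ℕ → V ≃ₗ[F] V, (∀ i, f i ∈ K) ∧ ∃ x, FreeGroup.lift f w x ∉ span F {x}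

/-- polynomial vector functions with prescribed leading term -/
def Lead (G : F → V) (n : ℕ) (h : V) : Prop :=
  ∀ ξ : V →ₗ[F] F, ∃ P : F[X], P.natDegree ≤ n ∧ P.coeff n = ξ h ∧ ∀ y, P.eval y = ξ (G y)

theorem Lead.step {G : F → V} {n : ℕ} {h : V} (hG : Lead G n h) {φ : V →ₗ[F] F} {p : V}
    (hp : φ p = 0) : Lead (fun y => dt (y • φ) p (G y)) (n + 1) (φ h • p) := fun ξ => by
  obtain ⟨P, h1, -, h3⟩ := hG ξ
  obtain ⟨Q, h4, h5, h6⟩ := hG φ
  refine ⟨P + C (ξ p) * (Polynomial.X * Q), natDegree_add_le_of_degree_le (by omega)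
    ((natDegree_C_mul_le _ _).trans (natDegree_mul_le.trans (by rw [natDegree_X]; omega))), ?_,
    fun y => ?_⟩
  · rw [coeff_add, coeff_eq_zero_of_natDegree_lt (by omega), coeff_C_mul, coeff_X_mul, h5]
    simp [mul_comm]
  · beta_reduce
    rw [dt_apply (by simp [hp])]
    simp [h3, h6]; ring

theorem lift_cons {G : Type*} [Group G] (f : ℕ → G) (l : ℕ × Bool) (L : List (ℕ × Bool)) :
    FreeGroup.lift f (FreeGroup.mk (l :: L)) =
      cond l.2 (f l.1) (f l.1)⁻¹ * FreeGroup.lift f (FreeGroup.mk L) := by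
  simp only [FreeGroup.lift_mk, List.map_cons, List.prod_cons]

theorem pingpong (p : ℕ → V) (φ : ℕ → V →ₗ[F] F) (v : V) {N : ℕ} (h0 : ∀ i, φ i (p i) = 0)
    (h1 : ∀ i < 2 * N, ∀ j < 2 * N, i ≠ j → φ i (p j) ≠ 0) (h2 : ∀ i, φ i v ≠ 0)
    (L : List (ℕ × Bool)) (hN : ∀ x ∈ L, x.1 < N) (hr : FreeGroup.IsReduced L) :
    ∃ c : F, c ≠ 0 ∧ Lead (fun y : F => (FreeGroup.lift (fun i => dt (y • φ (2 * i)) (p (2 * i)) *
      dt (y • φ (2 * i + 1)) (p (2 * i + 1))) (FreeGroup.mk L) : V ≃ₗ[F] V) v) (2 * L.length)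
      (c • L.head?.elim v fun l => p (cond l.2 (2 * l.1) (2 * l.1 + 1))) := by
  induction L with
  | nil => exact ⟨1, one_ne_zero, fun ξ => ⟨C (ξ v), by simp, by simp, by simp [← FreeGroup.one_eq_mk]⟩⟩
  | cons l L ih =>
    obtain ⟨c, hc, h⟩ := ih (fun x hx => hN x (List.mem_cons_of_mem _ hx)) hr.tail
    have hl := hN l List.mem_cons_self
    have key : φ (cond l.2 (2 * l.1 + 1) (2 * l.1))
        (L.head?.elim v fun l => p (cond l.2 (2 * l.1) (2 * l.1 + 1))) ≠ 0 := by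
      cases L with
      | nil => exact h2 _
      | cons k L =>
        have h3 := (FreeGroup.isReduced_cons_cons.1 hr).1
        have h4 := hN k (by simp)
        obtain ⟨i, _ | _⟩ := l <;> obtain ⟨j, _ | _⟩ := k <;>
          exact h1 _ (by simp at hl ⊢; omega) _ (by simp at h4 ⊢; omega) (by simp at h3 ⊢; omega)
    generalize (L.head?.elim v fun l => p (cond l.2 (2 * l.1) (2 * l.1 + 1))) = z at h key
    obtain ⟨i, _ | _⟩ := l
    · have h5 := (h.step (φ := -φ (2 * i)) (p := p (2 * i)) (by simp [h0])).step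
        (φ := -φ (2 * i + 1)) (p := p (2 * i + 1)) (by simp [h0])
      refine ⟨_, ?_, by
        convert h5 using 2 with y
        · rw [lift_cons, smul_neg, smul_neg,
            dt_neg_left (by simp [h0]), dt_neg_left (by simp [h0])]
          simp
        all_goals rfl⟩
      have := h1 (2 * i + 1) (by simp at hl; omega) (2 * i) (by simp at hl; omega) (by omega)
      simp only [cond_false] at key
      simp [hc, key, this]
    · have h5 := (h.step (h0 (2 * i + 1))).step (h0 (2 * i))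
      refine ⟨_, ?_, by
        convert h5 using 2 with y
        · rw [lift_cons]
          simp
        all_goals rfl⟩
      have := h1 (2 * i) (by simp at hl; omega) (2 * i + 1) (by simp at hl; omega) (by omega)
      simp only [cond_true] at key
      simp [hc, key, this]

theorem exists_bound {w : FreeGroup ℕ} (hw : w ≠ 1) : ∃ M : ℕ, ∀ (F : Type*) [Field F] (V : Type*)
    [AddCommGroup V] [Module F V] (K : Subgroup (V ≃ₗ[F] V)) (Y : Finset F) (p : F → V)
    (φ : F → V →ₗ[F] F) (v : V) (θ : V →ₗ[F] F), M ≤ Y.card → (∀ a ∈ Y, φ a (p a) = 0) →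
    (∀ a ∈ Y, ∀ b ∈ Y, a ≠ b → φ a (p b) ≠ 0) → (∀ a ∈ Y, φ a v ≠ 0) → θ v = 0 →
    (∀ a ∈ Y, θ (p a) ≠ 0) → (∀ a ∈ Y, ∀ y ∈ Y, dt (y • φ a) (p a) ∈ K) → NL w K := by
  classical
  obtain ⟨N, hN⟩ : ∃ N, ∀ x ∈ w.toWord, x.1 < N := by
    obtain ⟨N, hN⟩ := (w.toWord.map Prod.fst).toFinset.exists_le
    exact ⟨N + 1, fun x hx => Nat.lt_succ_of_le (hN _ (List.mem_toFinset.2 (List.mem_map_of_mem hx)))⟩
  refine ⟨2 * N + 2 * w.toWord.length + 1, fun F _ V _ _ K Y p φ v θ hY h0 h1 h2 h3 h4 h5 => ?_⟩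
  let β : ℕ → Y := fun i => Y.equivFin.symm ⟨i % Y.card, Nat.mod_lt _ (by omega)⟩
  obtain ⟨c, hc, h⟩ := pingpong (fun i => p (β i)) (fun i => φ (β i)) v (N := N)
    (fun i => h0 _ (β i).2) (fun i hi j hj hij => h1 _ (β i).2 _ (β j).2 fun e => hij (by
      have := Y.equivFin.symm.injective (Subtype.ext e)
      rwa [Fin.mk.injEq, Nat.mod_eq_of_lt (by omega), Nat.mod_eq_of_lt (by omega)] at this))
    (fun i => h2 _ (β i).2) w.toWord hN FreeGroup.isReduced_toWord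
  obtain ⟨P, hP1, hP2, hP3⟩ := h θ
  have hP : P ≠ 0 := by
    rintro rfl
    obtain ⟨l, L, hL⟩ := List.exists_cons_of_ne_nil (FreeGroup.toWord_eq_nil_iff.not.2 hw)
    rw [hL] at hP2
    simp [hc, h4 _ (β _).2] at hP2
  obtain ⟨y, hy, hy0⟩ : ∃ y ∈ Y, P.eval y ≠ 0 := by
    by_contra hc
    push Not at hc
    exact hP (eq_zero_of_natDegree_lt_card_of_eval_eq_zero' P Y hc (by omega))
  rw [hP3, FreeGroup.mk_toWord] at hy0
  refine ⟨_, fun i => mul_mem (h5 _ (β (2 * i)).2 y hy) (h5 _ (β (2 * i + 1)).2 y hy), v, fun hm => hy0 ?_⟩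
  obtain ⟨a, ha⟩ := mem_span_singleton.1 hm
  beta_reduce
  rw [← ha, map_smul, h3, smul_zero]

theorem sl_field {w : FreeGroup ℕ} (hw : w ≠ 1) : ∃ M : ℕ, ∀ (F : Type*) [Field F] [Fintype F]
    (V : Type*) [AddCommGroup V] [Module F V] [FiniteDimensional F V], M ≤ Fintype.card F →
    2 ≤ finrank F V → NL w (SLg F V) := by
  obtain ⟨M, hM⟩ := exists_bound hw
  refine ⟨M, fun F _ _ V _ _ _ h1 h2 => ?_⟩
  let b := Module.finBasis F V
  let i0 : Fin (finrank F V) := ⟨0, by omega⟩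
  let i1 : Fin (finrank F V) := ⟨1, by omega⟩
  have h01 : i0 ≠ i1 := by simp [i0, i1]
  refine hM F V _ Finset.univ (fun a => a • b i0 + b i1) (fun a => b.coord i0 - a • b.coord i1)
    (b i0) (b.coord i1) h1 ?_ ?_ ?_ ?_ ?_ fun a _ y _ => dt_mem_SLg ?_
  all_goals simp [h01, h01.symm, Finsupp.single_apply, sub_eq_zero, eq_comm]

theorem unit_field {w : FreeGroup ℕ} (hw : w ≠ 1) : ∃ M : ℕ, ∀ (F : Type*) [Field F] [Fintype F]
    (q : ℕ) (hF : Fintype.card F = q ^ 2) (V : Type*) [AddCommGroup V] [Module F V]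
    [FiniteDimensional F V] (f : CForm (unT hF) V), f.Nondeg → M ≤ q → 2 ≤ finrank F V →
    NL w f.E := by
  classical
  obtain ⟨M, hM⟩ := exists_bound hw
  refine ⟨M, fun F _ _ q hF V _ _ _ f hf h1 h2 => ?_⟩
  obtain ⟨u, hu0, hu⟩ := not_aniso.1 (Nondeg.unT_not_aniso hF (f := f) h2)
  obtain ⟨v, hv, hB⟩ := hf.exists_pair hu0 hu
  obtain ⟨c, hc0, hc⟩ := unit_tau (hσσ := frobq_frobq hF) (frobq_ne hF)
  have hc' : frobq hF c = -c := by rw [FType.unit_τ] at hc; linear_combination hc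
  have hB' : f.B v u = 1 := by rw [f.symm u v, hB]; simp
  have h3 := f.B_self_of_Q hu
  have h4 := f.B_self_of_Q hv
  have hY : ∀ a ∈ Finset.univ.filter fun x : F => x ^ q = x, frobq hF a = a := fun a ha =>
    (Finset.mem_filter.1 ha).2
  refine hM F V _ (Finset.univ.filter fun x => x ^ q = x) (fun a => v + (c * a) • u)
    (fun a => c • f.fn (v + (c * a) • u)) u (f.fn u) ?_ (fun a ha => ?_) (fun a ha b hb hab => ?_)
    (fun a ha => ?_) h3 (fun a ha => ?_) fun a ha y hy => ?_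
  · have := card_fixed_frobq hF
    rw [Nat.card_eq_fintype_card, Fintype.card_subtype] at this
    omega
  · simp [fn, h3, h4, hB, hB', hc', hY a ha, -frobq_apply]
  · simp [fn, h3, h4, hB, hB', hc', hY a ha, -frobq_apply, hc0, add_neg_eq_zero, hab.symm]
  · simp [fn, h3, hB, hc0, -frobq_apply]
  · simp [fn, h3, hB', -frobq_apply]
  · rw [smul_smul, ← tv_eq_dt]
    refine tv_mem_E ?_ (by simp [hc', hY y hy, -frobq_apply])
    rw [f.Q_add_smul hu, hv, hB']
    simp [hc', hY a ha, -frobq_apply, frobq_frobq]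

theorem lift_comp {G H : Type*} [Group G] [Group H] (ψ : G →* H) (f : ℕ → G) (w : FreeGroup ℕ) :
    FreeGroup.lift (fun i => ψ (f i)) w = ψ (FreeGroup.lift f w) :=
  (FreeGroup.lift_unique (ψ.comp (FreeGroup.lift f)) fun x => by simp).symm

theorem NL.exists_ne {w : FreeGroup ℕ} {K : Subgroup (V ≃ₗ[F] V)} (h : NL w K) :
    ∃ f : ℕ → K, ∃ x, (FreeGroup.lift f w).1 x ∉ span F {x} := by
  obtain ⟨f, hf, x, hx⟩ := h
  exact ⟨fun i => ⟨f i, hf i⟩, x, by
    rwa [show (FreeGroup.lift (fun i => (⟨f i, hf i⟩ : K)) w).1 = FreeGroup.lift f w from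
      (lift_comp K.subtype _ w).symm]⟩

theorem alt_large {w : FreeGroup ℕ} (hw : w ≠ 1) : ∃ N : ℕ, ∀ n : ℕ, N ≤ n →
    ∃ f : ℕ → alternatingGroup (Fin n), FreeGroup.lift f w ≠ 1 := by
  classical
  obtain ⟨M, hM⟩ := sl_field.{0, 0} hw
  obtain ⟨p, hp, hp'⟩ := Nat.exists_infinite_primes M
  have := Fact.mk hp'
  obtain ⟨f, x, hx⟩ := (hM (ZMod p) (Fin 2 → ZMod p) (by simpa using hp) (by simp)).exists_ne
  have hne : FreeGroup.lift f w ≠ 1 := fun h => hx (by rw [h]; exact mem_span_singleton_self x)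
  have : Finite ((Fin 2 → ZMod p) ≃ₗ[ZMod p] (Fin 2 → ZMod p)) := DFunLike.finite _
  generalize (SLg (ZMod p) (Fin 2 → ZMod p)) = H at f hne
  have := Fintype.ofFinite H
  refine ⟨Fintype.card (H ⊕ H), fun n hn => ?_⟩
  obtain ⟨e⟩ := Function.Embedding.nonempty_of_card_le (α := H ⊕ H) (β := Fin n) (by simpa using hn)
  let π : H →* Equiv.Perm (Fin n) := (Equiv.Perm.viaEmbeddingHom e).comp
    ((Equiv.Perm.sumCongrHom H H).comp
      ((MulAction.toPermHom H H).prod (MulAction.toPermHom H H)))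
  have hπ : Function.Injective π := (Equiv.Perm.viaEmbeddingHom_injective e).comp
    (Equiv.Perm.sumCongrHom_injective.comp fun a b h =>
      MulAction.toPerm_injective (congrArg Prod.fst h))
  have hs : ∀ g, π g ∈ alternatingGroup (Fin n) := fun g => by
    simp [π, Equiv.Perm.viaEmbeddingHom_apply, Equiv.Perm.viaEmbedding]
    rw [← Int.units_mul_self (Equiv.Perm.sign (MulAction.toPerm g : Equiv.Perm H)),
      ← Equiv.Perm.sign_sumCongr]
    congr!
  refine ⟨fun i => π.codRestrict _ hs (f i), fun h => hne (hπ ?_)⟩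
  rw [lift_comp] at h
  rw [map_one]; exact congrArg Subtype.val h

theorem sl_dim {w : FreeGroup ℕ} (hw : w ≠ 1) : ∃ M : ℕ, ∀ (F : Type*) [Field F]
    (V : Type*) [AddCommGroup V] [Module F V] [FiniteDimensional F V], M ≤ finrank F V →
    NL w (SLg F V) := by
  obtain ⟨M, hM⟩ := alt_large hw
  refine ⟨M, fun F _ V _ _ _ h1 => ?_⟩
  obtain ⟨f, hf⟩ := hM _ h1
  let b := Module.finBasis F V
  let ψ : Equiv.Perm (Fin (finrank F V)) →* (V ≃ₗ[F] V) := MonoidHom.mk' (fun σ => b.equiv b σ)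
    fun σ τ => b.ext' fun i => by simp
  have hψ : ∀ σ i, ψ σ (b i) = b (σ i) := fun σ i => b.equiv_apply i b σ
  obtain ⟨i, hi⟩ := DFunLike.ne_iff.1 (fun h => hf (Subtype.ext h))
  refine ⟨fun i => (ψ.comp (alternatingGroup _).subtype) (f i), fun i => ?_, b i, ?_⟩
  · have h2 := b.det_comp (ψ (f i).1).toLinearMap b
    have h3 := b.det.map_perm b (f i).1
    rw [show (ψ (f i).1).toLinearMap ∘ b = b ∘ (f i).1 from funext (hψ _), h3,
      Equiv.Perm.mem_alternatingGroup.1 (f i).2, b.det_self] at h2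
    exact mem_SLg.2 (Units.ext (by simpa using h2.symm))
  · rw [lift_comp, MonoidHom.comp_apply, hψ]
    simpa using b.linearIndependent.notMem_span_image (s := {i}) hi

theorem NL.lift_E [FiniteDimensional F V] {T : FType F} {f : CForm T V} (hf : f.Nondeg)
    {U : Submodule F V} (hU : f.TS U) {w : FreeGroup ℕ} (h : NL w (SLg F U)) : NL w f.E := by
  let M : Subgroup (f.E × (U ≃ₗ[F] U)) :=
    { carrier := {g | ∀ x : U, g.1.1 x = g.2 x}
      one_mem' := fun _ => rfl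
      mul_mem' := fun {a b} ha hb x => by simp [hb x, ha (b.2 x)]
      inv_mem' := fun {a} ha x => by
        have := ha (a.2⁻¹ x)
        simp only [LinearEquiv.coe_inv, LinearEquiv.apply_symm_apply] at this
        simp [← this] }
  have h1 : SLg F U ≤ M.map (MonoidHom.snd _ _) := SLg_le_of_tr fun φ a ha => by
    obtain ⟨φ', hφ'⟩ := LinearMap.exists_extend φ
    obtain ⟨z, hz⟩ := hf.exists_rep φ'
    have hz' : ∀ x : U, f.B x z = φ x := fun x => by rw [← hz, ← hφ']; rfl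
    obtain ⟨c, hc⟩ := f.Q_range z
    have ok : f.EichOk a z c := ⟨hU.1 _ a.2, f.B_zero_symm (by rw [hz', ha]), hc⟩
    exact ⟨(⟨_, ok.mem_E⟩, dt φ a), fun x => by
      simp [ok.apply, dt_apply ha, hz', hU.2 _ x.2 _ a.2], rfl⟩
  obtain ⟨g, hg, x, hx⟩ := h
  choose k hk hk' using fun i => h1 (hg i)
  have h2 := (FreeGroup.lift fun i => (⟨k i, hk i⟩ : M)) w
  refine ⟨fun i => (k i).1.1, fun i => (k i).1.2, x, fun hm => hx ?_⟩
  have h3 := ((FreeGroup.lift fun i => (⟨k i, hk i⟩ : M)) w).2 x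
  have h4 := lift_comp (f.E.subtype.comp ((MonoidHom.fst _ _).comp M.subtype)) (fun i => ⟨k i, hk i⟩) w
  have h5 := lift_comp ((MonoidHom.snd _ _).comp M.subtype) (fun i => ⟨k i, hk i⟩) w
  simp only [MonoidHom.comp_apply, Subgroup.coe_subtype, MonoidHom.coe_fst, hk'] at h4 h5
  rw [h4, h3] at hm
  obtain ⟨a, ha⟩ := mem_span_singleton.1 hm
  rw [h5]
  exact mem_span_singleton.2 ⟨a, Subtype.ext ha⟩

theorem NL.not_law {w : FreeGroup ℕ} {K : Subgroup (V ≃ₗ[F] V)} (h : NL w K)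
    (hc : ∀ g ∈ Subgroup.center K, ∀ x, g.1 x ∈ span F {x}) {G : Type*} [Group G]
    (e : G ≃* K ⧸ Subgroup.center K) : ∃ f : ℕ → G, FreeGroup.lift f w ≠ 1 := by
  obtain ⟨f, x, hx⟩ := h.exists_ne
  refine ⟨fun i => (e.symm.toMonoidHom.comp (QuotientGroup.mk' _)) (f i), fun h1 => hx (hc _ ?_ x)⟩
  rw [lift_comp] at h1
  simpa using h1

theorem center_SLg [FiniteDimensional F V] : ∀ g ∈ Subgroup.center (SLg F V), ∀ x,
    g.1 x ∈ span F {x} := fun g hg x => by
  by_contra h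
  obtain ⟨φ, h1, h2⟩ := exists_dual_pair h (1 : F)
  have h3 := congrArg (fun k : SLg F V => k.1 x) (Subgroup.mem_center_iff.1 hg ⟨_, dt_mem_SLg h1⟩)
  simp [dt_apply h1, h1, h2] at h3
  exact h (by simp [h3])

theorem card_le [Finite F] [FiniteDimensional F V] (K : Subgroup (V ≃ₗ[F] V)) {G : Type*} [Group G]
    (e : G ≃* K ⧸ Subgroup.center K) {M : ℕ} (h1 : Nat.card F ≤ M) (h2 : finrank F V ≤ M) :
    Nat.card G ≤ (M ^ M) ^ (M ^ M) := by
  have : Finite V := Module.finite_of_finite F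
  have : Finite (V ≃ₗ[F] V) := DFunLike.finite _
  have h0 : 0 < M := Nat.card_pos.trans_le h1
  have h3 : Nat.card V ≤ M ^ M := by
    rw [Module.natCard_eq_pow_finrank (K := F)]
    exact (Nat.pow_le_pow_left h1 _).trans (Nat.pow_le_pow_right h0 h2)
  calc Nat.card G = _ := Nat.card_congr e.toEquiv
    _ ≤ Nat.card K := Nat.card_le_card_of_surjective _ QuotientGroup.mk_surjective
    _ ≤ Nat.card (V → V) := Nat.card_le_card_of_injective (fun g => g.1)
      (DFunLike.coe_injective.comp Subtype.val_injective)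
    _ = Nat.card V ^ Nat.card V := Nat.card_fun
    _ ≤ _ := (Nat.pow_le_pow_left h3 _).trans (Nat.pow_le_pow_right (pow_pos h0 _) h3)

theorem form_bound {w : FreeGroup ℕ} (hw : w ≠ 1) : ∃ N : ℕ, ∀ (F : Type) [Field F] [Fintype F]
    (T : FType F) (V : Type) [AddCommGroup V] [Module F V] [FiniteDimensional F V] (f : CForm T V)
    (G : Type*) [Group G], f.Nondeg → 3 ≤ finrank F V → finrank F V ≤ 2 * f.wi + 2 →
    (2 ≤ f.wi ∨ ∃ (q : ℕ) (hF : Fintype.card F = q ^ 2), T = unT hF) →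
    Nonempty (G ≃* f.E ⧸ Subgroup.center f.E) → (∀ g : ℕ → G, FreeGroup.lift g w = 1) →
    Nat.card G ≤ N := by
  obtain ⟨M1, h1⟩ := sl_field.{0, 0} hw
  obtain ⟨M2, h2⟩ := sl_dim.{0, 0} hw
  obtain ⟨M3, h3⟩ := unit_field.{0, 0} hw
  refine ⟨_, fun F _ _ T V _ _ _ f G _ hf hV hwi h ⟨e⟩ hl => card_le _ e
    (M := M1 + 2 * M2 + M3 ^ 2) ?_ ?_⟩
  all_goals
    have hN : ¬ NL w f.E := fun hN => by
      obtain ⟨u, hu0, hu⟩ := not_aniso.1 (wi_eq_zero_iff.not.1 (by omega : f.wi ≠ 0))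
      obtain ⟨g, hg⟩ := hN.not_law (fun g hg x => by
        obtain ⟨a, ha⟩ := (hf.mem_center_E_iff (hf.thick_top hV) hu0 hu).1 hg
        exact mem_span_singleton.2 ⟨a, (ha x).symm⟩) e
      exact hg (hl g)
    obtain ⟨U, hU, hUd⟩ := exists_TS_wi (f := f)
    by_contra hc
  · rw [Nat.card_eq_fintype_card] at hc
    rcases h with h | ⟨q, hF, rfl⟩
    · exact hN ((h1 F U (by omega) (by omega)).lift_E hf hU)
    · exact hN (h3 F q hF V f hf ((Nat.pow_le_pow_iff_left two_ne_zero).1 (by omega)) (by omega))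
  · exact hN ((h2 F U (by omega)).lift_E hf hU)

end Cfsg.Agent.C3.LW
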