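/-
Systems of transvections (McLaughlin's theorem in odd characteristic).
-/
import Mathlib

set_option autoImplicit false

namespace Cfsg.Agent.C3

open Module

variable {k V : Type*} [Field k] [AddCommGroup V] [Module k V] {T : Dual k V → V → Prop} {φ φ' ψ χ : Dual k V} {u v w : V}

/-- Proper members. -/
structure Nz (T : Dual k V → V → Prop) (φ : Dual k V) (v : V) : Prop where
  t : T φ v
  l : φ ≠ 0
  r : v ≠ 0

/-- The incident pairs belonging to the transvection subgroups of a linear group without unipotent normal subgroups. -/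
structure TS (T : Dual k V → V → Prop) : Prop where
  inc : ∀ {φ v}, T φ v → φ v = 0
  zl : ∀ v, T 0 v
  zr : ∀ φ, T φ 0
  sl : ∀ {φ v} (c : k), T φ v → T (c • φ) v
  sr : ∀ {φ v} (c : k), T φ v → T φ (c • v)
  al : ∀ {φ ψ v}, T φ v → T ψ v → T (φ + ψ) v
  ar : ∀ {φ v w}, T φ v → T φ w → T φ (v + w)
  cj : ∀ {φ v ψ w}, T φ v → T ψ w → T (ψ - ψ v • φ) (w + φ w • v)
  part : ∀ {φ v}, Nz T φ v → ∃ ψ w, T ψ w ∧ φ w ≠ 0 ∧ ψ v ≠ 0

/-- Adjacency of proper members. -/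
def Adj (T : Dual k V → V → Prop) (a b : Dual k V × V) : Prop := Nz T a.1 a.2 ∧ Nz T b.1 b.2 ∧ (a.1 b.2 ≠ 0 ∨ b.1 a.2 ≠ 0)

theorem Adj.re_symm {a b : Dual k V × V} (h : Relation.ReflTransGen (Adj T) a b) : Relation.ReflTransGen (Adj T) b a :=
  Relation.ReflTransGen.mono (fun _ _ h => ⟨h.2.1, h.1, h.2.2.symm⟩) _ _ h.swap

/-- The component of `a`. -/
def TC (T : Dual k V → V → Prop) (a : Dual k V × V) (φ : Dual k V) (v : V) : Prop :=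
  T φ v ∧ (φ ≠ 0 → v ≠ 0 → Nz T a.1 a.2 ∧ Relation.ReflTransGen (Adj T) a (φ, v))

theorem Nz.of (h : T φ v) (h1 : φ w ≠ 0) (h2 : ψ v ≠ 0) : Nz T φ v := ⟨h, fun e => h1 (by simp [e]), fun e => h2 (by simp [e])⟩

theorem TC.nz {a : Dual k V × V} : Nz (TC T a) φ v ↔ Nz T φ v ∧ Nz T a.1 a.2 ∧ Relation.ReflTransGen (Adj T) a (φ, v) :=
  ⟨fun h => ⟨⟨h.t.1, h.l, h.r⟩, h.t.2 h.l h.r⟩, fun h => ⟨⟨h.1.t, fun _ _ => h.2⟩, h.1.l, h.1.r⟩⟩

theorem TC.step {a : Dual k V × V} (h : Nz (TC T a) φ v) (h' : T ψ w) (e : φ w ≠ 0 ∨ ψ v ≠ 0) : TC T a ψ w :=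
  ⟨h', fun h1 h2 => ⟨(TC.nz.1 h).2.1, (TC.nz.1 h).2.2.tail ⟨(TC.nz.1 h).1, ⟨h', h1, h2⟩, e⟩⟩⟩

theorem TC.conn {a : Dual k V × V} (P : Dual k V → V → Prop) (h : Nz (TC T a) φ v) (h0 : P φ v)
    (hs : ∀ φ v ψ w, Nz (TC T a) φ v → Nz (TC T a) ψ w → φ w ≠ 0 ∨ ψ v ≠ 0 → P φ v → P ψ w) (h' : Nz (TC T a) ψ w) : P ψ w := by
  have : ∀ b, Relation.ReflTransGen (Adj T) (φ, v) b → Nz (TC T a) b.1 b.2 ∧ P b.1 b.2 := fun b e => by
    induction e with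
    | refl => exact ⟨h, h0⟩
    | tail _ e ih => exact have := ⟨TC.step ih.1 e.2.1.t e.2.2, e.2.1.l, e.2.1.r⟩; ⟨this, hs _ _ _ _ ih.1 this e.2.2 ih.2⟩
  exact (this _ ((Adj.re_symm (TC.nz.1 h).2.2).trans (TC.nz.1 h').2.2)).2

namespace TS

variable (h : TS T)
include h

theorem comp (a : Dual k V × V) : TS (TC T a) := by
  have l : ∀ {φ v ψ w}, TC T a φ v → T ψ w → (ψ ≠ 0 → w ≠ 0 → φ ≠ 0 → v ≠ 0 → ∀ (χ : Dual k V) u, φ u ≠ 0 → χ v ≠ 0 → χ w ≠ 0 ∨ ψ u ≠ 0) →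
      (φ = 0 ∨ v = 0 → TC T a ψ w) → TC T a ψ w := fun {φ v ψ w} h1 h2 h3 h4 => by
    by_cases e : φ = 0 ∨ v = 0
    · exact h4 e
    push Not at e
    obtain ⟨χ, u, e1, e2, e3⟩ := h.part ⟨h1.1, e.1, e.2⟩
    exact ⟨h2, fun e4 e5 => (TC.step (.of (TC.step ⟨h1, e.1, e.2⟩ e1 (.inl e2)) e3 e2) h2 (h3 e4 e5 e.1 e.2 χ u e2 e3)).2 e4 e5⟩
  have z1 : ∀ v, TC T a 0 v := fun v => ⟨h.zl v, fun e => absurd rfl e⟩
  have z2 : ∀ φ, TC T a φ 0 := fun v => ⟨h.zr v, fun _ e => absurd rfl e⟩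
  refine ⟨fun e => h.inc e.1, z1, z2, fun c e => l e (h.sl c e.1) (fun _ _ _ _ _ _ _ e => .inl e) ?_,
    fun c e => l e (h.sr c e.1) (fun _ _ _ _ _ _ e _ => .inr e) ?_, fun e e' => l e (h.al e.1 e'.1) (fun _ _ _ _ _ _ _ e => .inl e) ?_,
    fun e e' => l e (h.ar e.1 e'.1) (fun _ _ _ _ _ _ e _ => .inr e) ?_, fun {φ v ψ w} e e' => ?_, fun e => ?_⟩
  any_goals rintro (rfl | rfl) <;> simp [*]
  · by_cases e1 : φ w = 0 ∧ ψ v = 0
    · simpa [e1] using e'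
    by_cases e2 : φ = 0 ∨ v = 0
    · obtain rfl | rfl := e2 <;> simpa using e'
    push Not at e2
    exact TC.step ⟨e, e2.1, e2.2⟩ (h.cj e.1 e'.1) (by simpa [h.inc e.1, ← not_and_or] using e1)
  · obtain ⟨χ, u, e1, e2, e3⟩ := h.part (TC.nz.1 e).1
    exact ⟨χ, u, TC.step e e1 (.inl e2), e2, e3⟩

theorem cj' (h1 : T φ v) (h2 : T ψ w) (c : k) : T (ψ - (c * ψ v) • φ) (w + (c * φ w) • v) := by
  simpa [smul_smul, mul_comm] using h.cj (h.sl c h1) h2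

theorem cj_nz (h1 : T φ v) (h2 : Nz T ψ w) (c : k) : Nz T (ψ - (c * ψ v) • φ) (w + (c * φ w) • v) := by
  refine ⟨h.cj' h1 h2.t c, fun e => h2.l ?_, fun e => h2.r ?_⟩
  · simpa [show ψ v = 0 by simpa [h.inc h1] using LinearMap.congr_fun e v] using e
  · simpa [show φ w = 0 by simpa [h.inc h1] using congrArg φ e] using e

theorem comm (h1 : T φ v) (h2 : T ψ w) (e : φ w ≠ 0) (e' : ψ v = 0) : T ψ v := by
  have := h.ar (h.cj' h1 h2 (φ w)⁻¹) (by simpa [e'] using h.sr (-1) h2)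
  simpa [e', e, add_comm w] using this

theorem B1 (h1 : Nz T ψ v) (h2 : T ψ w) (h3 : T φ v) (e : φ w = 0) : T φ w := by
  obtain ⟨χ, x, e1, e2, e3⟩ := h.part h1
  have h4 := h.comm (h.ar h2 (h.sr (-(χ w / χ v)) h1.t)) e1 e2 (by simp [e3])
  simpa using h.ar (h.comm h4 h3 e3 (by simp [e, h.inc h3])) (h.sr (χ w / χ v) h3)

/-- At least two axes through `v`. -/
def Big (T : Dual k V → V → Prop) (v : V) : Prop := ∀ w, ∃ φ ≠ 0, T φ v ∧ φ w = 0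

theorem big_of (h1 : T φ v) (h2 : T ψ v) (h3 : ψ ≠ 0) (e : φ u ≠ 0) (e' : ψ u = 0) : Big T v := fun w => by
  by_cases e1 : ψ w = 0
  · exact ⟨ψ, h3, h2, e1⟩
  · exact ⟨_, fun e2 => e (by simpa [e'] using LinearMap.congr_fun e2 u), h.al h1 (h.sl (-(φ w / ψ w)) h2), by simp [e1]⟩

theorem big_ps (h1 : Nz T φ v) (h2 : Nz T ψ w) (e : φ w ≠ 0) (e' : ψ v = 0) : Big T w := by
  have h3 := h.comm h1.t h2.t e e'
  obtain ⟨χ, x, e1, e2, e3⟩ := h.part ⟨h3, h2.l, h1.r⟩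
  have h4 := h.cj' h1.t (h.comm (h.ar h2.t (h.sr (-(χ w / χ v)) h3)) e1 e2 (by simp [e3])) (χ w / χ v / φ w)
  simp only [map_add, map_smul, h.inc h1.t, smul_zero, add_zero, div_mul_cancel₀ _ e, neg_smul, map_neg, neg_zero, neg_add_cancel_right] at h4
  exact h.big_of h4 h2.t h2.l (by simpa [h.inc h1.t] using e3) e'

theorem col (h0 : T χ u) (h0' : χ ≠ 0) (h1 : Nz T φ' v) (h2 : T φ v) (e : φ' u = 0 → T φ' u) (e' : φ u = 0) : T φ u := by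
  by_cases e1 : φ' u = 0
  · exact h.B1 h1 (e e1) h2 e'
  by_cases e2 : χ v = 0
  · exact h.B1 ⟨h.comm h1.t h0 e1 e2, h0', h1.r⟩ h0 h2 e'
  · exact h.comm h0 h2 e2 e'

section Conn

variable (hc : ∀ (P : Dual k V → V → Prop) {φ v ψ w}, Nz T φ v → P φ v →
  (∀ φ v ψ w, Nz T φ v → Nz T ψ w → φ w ≠ 0 ∨ ψ v ≠ 0 → P φ v → P ψ w) → Nz T ψ w → P ψ w)
include hc

theorem caseB (hs : ¬ ∀ φ v ψ w, Nz T φ v → Nz T ψ w → ψ v = 0 → φ w = 0) (h1 : Nz T φ v) (h2 : Nz T χ u) : φ u = 0 → T φ u := by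
  push Not at hs
  obtain ⟨φ₀, v₀, ψ₀, w₀, e1, e2, e3, e4⟩ := hs
  have hb : ∀ {ψ w}, Nz T ψ w → Big T w := hc (fun _ w => Big T w) e2 (h.big_ps e1 e2 e4 e3) fun φ v ψ w h1 h2 e hb => by
    by_cases e' : ψ v = 0
    · exact h.big_ps h1 h2 (e.resolve_right (not_not.2 e')) e'
    · obtain ⟨ρ, r1, r2, r3⟩ := hb w
      exact h.big_of h2.t (h.comm h2.t r2 e' r3) r1 e' (h.inc r2)
  refine hc (fun φ _ => φ u = 0 → T φ u) h2 (fun _ => h2.t) (fun φ v ψ w h1 h3 e hg => ?_) h1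
  by_cases e' : ψ v = 0
  · exact h.col h2.t h2.l h1 (h.comm h1.t h3.t (e.resolve_right (not_not.2 e')) e') hg
  · obtain ⟨ρ, r1, r2, r3⟩ := hb h1 w
    exact h.col h2.t h2.l ⟨h.comm h3.t r2 e' r3, r1, h3.r⟩ h3.t (h.col h2.t h2.l h1 r2 hg)

variable (hs : ∀ φ v ψ w, Nz T φ v → Nz T ψ w → ψ v = 0 → φ w = 0)
include hs

theorem nbr (h1 : Nz T φ v) (h2 : Nz T ψ w) : ∃ χ u, Nz T χ u ∧ φ u ≠ 0 ∧ ψ u ≠ 0 := by
  refine hc (fun ψ _ => ∃ χ u, Nz T χ u ∧ φ u ≠ 0 ∧ ψ u ≠ 0) h1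
    (let ⟨χ, u, e1, e2, e3⟩ := h.part h1; ⟨χ, u, .of e1 e3 e2, e2, e2⟩) (fun ψ w ψ' w' h3 h4 e ⟨χ, u, e1, e2, e3⟩ => ?_) h2
  have e4 : ψ' w ≠ 0 := e.elim (mt (hs _ _ _ _ h3 h4)) id
  by_cases e5 : ψ' u = 0
  · by_cases e6 : φ w = 0
    · exact ⟨_, _, h.cj_nz h3.t e1 1, by simpa [e6] using e2, by simp [e5, e3, e4]⟩
    · exact ⟨ψ, w, h3, e6, e4⟩
  · exact ⟨χ, u, e1, e2, e5⟩

omit hc in
theorem uniq (h1 : Nz T φ v) (h2 : T ψ v) : ∃ c : k, ψ = c • φ := by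
  obtain ⟨χ, u, e1, e2, e3⟩ := h.part h1
  refine ⟨ψ u / φ u, sub_eq_zero.1 (by_contra fun e => e3 (hs _ _ _ _ (.of e1 e3 e2) ⟨?_, e, h1.r⟩ (by simp [e2])))⟩
  convert h.al h2 (h.sl (-(ψ u / φ u)) h1.t) using 1
  module

theorem caseA (h2 : (2 : k) ≠ 0) (hr : ∀ {φ v ψ w}, T φ v → T ψ w → φ w = 0 → ψ v = 0 →
    (∀ χ x, Nz T χ x → χ v = χ w ∧ φ x = ψ x) → ∀ y, φ y • v = ψ y • w) : ∃ L : Submodule k (Dual k V × V),
    (∀ a ∈ L, Nz T a.1 a.2 ∨ a = 0) ∧ (∀ a ∈ L, ∀ b ∈ L, a.1 b.2 = -b.1 a.2) ∧ ∀ ψ w, Nz T ψ w → ∃ c : k, c ≠ 0 ∧ (c • ψ, w) ∈ L := by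
  by_cases h0 : ∃ φ v, Nz T φ v
  swap
  · exact ⟨⊥, fun _ e => .inr e, fun a e b e' => by simp [show a = 0 from e, show b = 0 from e'], fun _ _ e => absurd ⟨_, _, e⟩ h0⟩
  obtain ⟨φ, v, h0⟩ := h0
  let L := Submodule.span k {a : Dual k V × V | Nz T a.1 a.2 ∧ a.1 v = -φ a.2 ∧ φ a.2 ≠ 0}
  have iso : ∀ a ∈ L, ∀ b ∈ L, a.1 b.2 = -b.1 a.2 := fun a ha b hb => by
    induction ha, hb using Submodule.span_induction₂ with
    | mem_mem a b ha hb =>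
      have e := hs _ _ _ _ (h.cj_nz h0.t ha.1 (b.1 a.2 / (φ a.2 * φ b.2))) hb.1 (by
        simp only [map_add, map_smul, hb.2.1, smul_eq_mul]
        field_simp [ha.2.2, hb.2.2]; ring)
      simp only [LinearMap.sub_apply, LinearMap.smul_apply, ha.2.1, smul_eq_mul] at e
      have e1 := ha.2.2
      have e2 := hb.2.2
      field_simp at e
      linear_combination e
    | zero_left => simp
    | zero_right => simp
    | add_left _ _ _ _ _ _ e e' => simp [e, e', add_comm]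
    | add_right _ _ _ _ _ _ e e' => simp [e, e', add_comm]
    | smul_left _ _ _ _ _ e => simp [e]
    | smul_right _ _ _ _ _ e => simp [e]
  let O : Dual k V × V → Prop := fun a => a ∈ L ∧ (Nz T a.1 a.2 ∨ a = 0)
  have o0 : ∀ {a : Dual k V × V} {x}, O a → a.1 x ≠ 0 → Nz T a.1 a.2 := fun ha e => ha.2.resolve_right fun e' => e (by simp [e'])
  have o1 : ∀ (c : k) {a}, O a → O (c • a) := fun c a ha => ⟨L.smul_mem c ha.1, (eq_or_ne c 0).elim (fun e => .inr (by simp [e])) fun e =>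
    ha.2.imp (fun e' => ⟨h.sl c (h.sr c e'.t), smul_ne_zero e e'.l, smul_ne_zero e e'.r⟩) fun e' => by simp [e']⟩
  have o2 : ∀ {a b}, O a → O b → a.1 b.2 ≠ 0 → O (a + b) := fun {a b} ha hb e => ⟨L.add_mem ha.1 hb.1, .inl (by
    have e' := iso b hb.1 a ha.1
    convert h.cj_nz (o0 ha e).t (o0 hb (e' ▸ neg_ne_zero.2 e)) (a.1 b.2)⁻¹ using 1 <;> (try ext) <;> simp [e, e', add_comm])⟩
  have o3 : ∀ ψ w, Nz T ψ w → φ w ≠ 0 → ∃ c : k, c ≠ 0 ∧ O (c • ψ, w) := fun ψ w h1 e =>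
    have e' := mt (hs _ _ _ _ h0 h1) e
    have e1 := div_ne_zero (neg_ne_zero.2 e) e'
    have e2 : Nz T ((-φ w / ψ v) • ψ) w := ⟨h.sl _ h1.t, smul_ne_zero e1 h1.l, h1.r⟩
    ⟨_, e1, Submodule.subset_span ⟨e2, by simp [e'], e⟩, .inl e2⟩
  have o4 : ∀ ψ w, Nz T ψ w → ∃ c : k, c ≠ 0 ∧ O (c • ψ, w) := fun ψ w h1 => by
    by_cases e : φ w = 0
    swap
    · exact o3 ψ w h1 e
    obtain ⟨χ, u, e1, e2, e3⟩ := h.nbr hc hs h0 h1
    have e4 := mt (hs _ _ _ _ h1 e1) e3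
    obtain ⟨c, c0, e5⟩ := o3 χ u e1 e2
    obtain ⟨d, -, e6⟩ := o3 _ _ (h.cj_nz e1.t h1 (χ w)⁻¹) (by simpa [e, e4] using e2)
    have e7 := o2 (o1 (-1) e5) e6 (by simp [h.inc e1.t, c0, e4])
    simp only [Prod.smul_mk, Prod.mk_add_mk, inv_mul_cancel₀ e4, neg_smul, one_smul, neg_add_cancel_comm_assoc] at e7
    have e8 := e7.2.resolve_right fun e => h1.r (congrArg Prod.snd e)
    obtain ⟨c', e9⟩ := h.uniq hs h1 e8.t
    exact ⟨c', fun e => e8.l (by rw [e9, e, zero_smul]), e9 ▸ e7⟩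
  have o5 : ∀ {a b y}, O a → O b → O y → b.1 a.2 = 0 → y.1 a.2 ≠ 0 → y.1 b.2 ≠ 0 → y.1 (a.2 + b.2) ≠ 0 → O (a + b) :=
    fun {a b y} ha hb hy e e1 e2 e3 => by
      have := o2 (o1 (-1) hy) (o2 hb (o2 hy ha e1) (by simpa [e, iso b hb.1 y hy.1] using e2))
        fun l => e3 (by
          simp only [Prod.smul_fst, Prod.snd_add, map_add, LinearMap.smul_apply, smul_eq_mul, h.inc (o0 hy e1).t] at l ⊢
          linear_combination -l)
      convert this using 1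
      module
  have o6 : ∀ {a b}, O a → O b → O (a + b) := fun {a b} ha hb => by
    obtain ⟨-, h3 | rfl⟩ := id ha
    swap
    · rwa [zero_add]
    obtain ⟨-, h4 | rfl⟩ := id hb
    swap
    · rwa [add_zero]
    by_cases e : a.1 b.2 = 0
    swap
    · exact o2 ha hb e
    have e' : b.1 a.2 = 0 := by rw [iso b hb.1 a ha.1, e, neg_zero]
    by_cases e1 : ∃ y, O y ∧ y.1 (a.2 + b.2) ≠ 0
    · obtain ⟨y, hy, e1⟩ := e1
      obtain ⟨χ, u, e2, e3, e4⟩ := h.nbr hc hs h3 h4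
      obtain ⟨c, -, e5⟩ := o4 χ u e2
      have e6 : (c • χ) a.2 ≠ 0 := (iso _ e5.1 a ha.1).trans_ne (neg_ne_zero.2 e3)
      have e7 : (c • χ) b.2 ≠ 0 := (iso _ e5.1 b hb.1).trans_ne (neg_ne_zero.2 e4)
      by_cases e8 : (c • χ) (a.2 + b.2) = 0
      swap
      · exact o5 ha hb e5 e' e6 e7 e8
      have hx := o5 ha (o1 (-1) hb) e5 (by simp [e']) e6 (by simpa using e7) fun l => mul_ne_zero h2 e6 (by
        simp only [map_add, Prod.smul_snd, map_smul, smul_eq_mul] at l e8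
        linear_combination l + e8)
      rw [map_add] at e1
      by_cases e9 : y.1 a.2 = 0
      · convert o5 (o1 2 hb) hx hy (by simp [e, h.inc h4.t]) (by simpa [e9, h2] using e1) (by simpa [e9] using e1)
          (by simpa [e9, two_smul] using e1) using 1
        module
      by_cases e10 : y.1 b.2 = 0
      · convert o5 (o1 2 ha) (o1 (-1) hx) hy (by simp [e', h.inc h3.t]) (by simp [e9, h2]) (by simp [e9, e10])
          (by simp [e9, e10, two_smul]) using 1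
        module
      · exact o5 ha hb hy e' e9 e10 (map_add y.1 _ _ ▸ e1)
    push Not at e1
    have e2 : ∀ χ x, Nz T χ x → χ a.2 = χ ((-1 : k) • b.2) ∧ a.1 x = ((-1 : k) • b.1) x := fun χ x l => by
      obtain ⟨c, c0, l'⟩ := o4 χ x l
      have l1 := e1 _ l'
      have l2 := iso _ ha.1 _ l'.1
      have l3 := iso _ hb.1 _ l'.1
      simp only [map_add, LinearMap.smul_apply, smul_eq_mul, map_smul] at l1 l2 l3 ⊢
      exact ⟨mul_left_cancel₀ c0 (by linear_combination l1), by linear_combination l2 + l3 - l1⟩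
    have e3 := hr h3.t (h.sl (-1) (h.sr (-1) h4.t)) (by simp [e]) (by simp [e']) e2
    obtain ⟨χ, x, l1, l2, l3⟩ := h.part h3
    have e4 := e3 x
    rw [← (e2 χ x (.of l1 l3 l2)).2, smul_right_inj l2] at e4
    rw [show a + b = 0 from Prod.ext (LinearMap.ext fun y => by
      have := e3 y
      rw [← e4, smul_left_inj h3.r] at this
      simp [this]) (by simp [e4])]
    exact ⟨L.zero_mem, .inr rfl⟩
  refine ⟨L, fun a ha => (show O a from ?_).2, iso, fun ψ w e => let ⟨c, c0, e'⟩ := o4 ψ w e; ⟨c, c0, e'.1⟩⟩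
  induction ha using Submodule.span_induction with
  | mem a ha => exact ⟨Submodule.subset_span ha, .inl ha.1⟩
  | zero => exact ⟨L.zero_mem, .inr rfl⟩
  | add _ _ _ _ e e' => exact o6 e e'
  | smul c _ _ e => exact o1 c e

end Conn

end TS

end Cfsg.Agent.C3
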