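/-
Subgroups of `SL₂(R)` generated by `x(k z)` and `y(k)` over a finite-dimensional commutative algebra `R = k[z]`.
-/
import Cfsg.Agent.H4.Dick4
import Cfsg.Agent.H2.Syl

set_option autoImplicit false

namespace Cfsg.Agent.C3.QP

open Matrix Polynomial Subgroup
open scoped MatrixGroups

variable {k R : Type*} [Field k] [CommRing R] [Algebra k R]

def xx (r : R) : SL(2, R) := ⟨!![1, r; 0, 1], by simp [det_fin_two_of]⟩

def yy (r : R) : SL(2, R) := ⟨!![1, 0; r, 1], by simp [det_fin_two_of]⟩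

@[simp] theorem xx00 (r : R) : xx r 0 0 = 1 := rfl
@[simp] theorem xx01 (r : R) : xx r 0 1 = r := rfl
@[simp] theorem xx10 (r : R) : xx r 1 0 = 0 := rfl
@[simp] theorem xx11 (r : R) : xx r 1 1 = 1 := rfl
@[simp] theorem yy00 (r : R) : yy r 0 0 = 1 := rfl
@[simp] theorem yy01 (r : R) : yy r 0 1 = 0 := rfl
@[simp] theorem yy10 (r : R) : yy r 1 0 = r := rfl
@[simp] theorem yy11 (r : R) : yy r 1 1 = 1 := rfl

theorem mulE (g h : SL(2, R)) (i j : Fin 2) : (g * h) i j = g i 0 * h 0 j + g i 1 * h 1 j := by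
  simp [Matrix.mul_apply, Fin.sum_univ_two]

theorem inv00 (g : SL(2, R)) : g⁻¹ 0 0 = g 1 1 := by rw [SpecialLinearGroup.SL2_inv_expl]; rfl
theorem inv01 (g : SL(2, R)) : g⁻¹ 0 1 = -g 0 1 := by rw [SpecialLinearGroup.SL2_inv_expl]; rfl
theorem inv10 (g : SL(2, R)) : g⁻¹ 1 0 = -g 1 0 := by rw [SpecialLinearGroup.SL2_inv_expl]; rfl
theorem inv11 (g : SL(2, R)) : g⁻¹ 1 1 = g 0 0 := by rw [SpecialLinearGroup.SL2_inv_expl]; rfl

theorem detE (g : SL(2, R)) : g 0 0 * g 1 1 - g 0 1 * g 1 0 = 1 := by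
  have := g.det_coe
  rwa [det_fin_two] at this

theorem extE {g h : SL(2, R)} (h1 : g 0 0 = h 0 0) (h2 : g 0 1 = h 0 1) (h3 : g 1 0 = h 1 0) (h4 : g 1 1 = h 1 1) : g = h :=
  (Matrix.SpecialLinearGroup.ext_iff g h).2 fun i j => by fin_cases i <;> fin_cases j <;> assumption

theorem xx_add (r s : R) : xx (r + s) = xx r * xx s := by apply extE <;> simp [mulE, add_comm]

theorem yy_add (r s : R) : yy (r + s) = yy r * yy s := by apply extE <;> simp [mulE]

theorem xx_zero : xx (0 : R) = 1 := by apply extE <;> rfl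

theorem xx_pow (r : R) (n : ℕ) : xx r ^ n = xx (n * r) := by
  induction n with
  | zero => simp [xx_zero]
  | succ n ih => rw [pow_succ, ih, ← xx_add, Nat.cast_succ, add_one_mul]

theorem cj00 (g : SL(2, R)) (r : R) : (g * xx r * g⁻¹) 0 0 = 1 - r * g 0 0 * g 1 0 := by
  simp only [mulE, inv00, inv10, xx00, xx01, xx10, xx11]; linear_combination detE g

theorem cj10 (g : SL(2, R)) (r : R) : (g * xx r * g⁻¹) 1 0 = -(r * g 1 0 ^ 2) := by
  simp only [mulE, inv00, inv10, xx00, xx01, xx10, xx11]; ring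

theorem cj_xx {g : SL(2, R)} (h : g 1 0 = 0) (r : R) : g * xx r * g⁻¹ = xx (g 0 0 ^ 2 * r) := by
  have := detE g
  apply extE <;> simp only [mulE, inv00, inv10, inv01, inv11, xx00, xx01, xx10, xx11, h] at this ⊢
  exacts [by linear_combination this, by ring, by ring, by linear_combination this]

theorem pow_upper {g : SL(2, R)} (h : g 1 0 = 0) (n : ℕ) : (g ^ n) 1 0 = 0 ∧ (g ^ n) 0 0 = g 0 0 ^ n := by
  induction n with
  | zero => exact ⟨rfl, by rw [pow_zero, pow_zero]; rfl⟩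
  | succ n ih => simp only [pow_succ, mulE, ih, h]; constructor <;> ring

theorem mapE {S : Type*} [CommRing S] (f : R →+* S) (g : SL(2, R)) (i j : Fin 2) :
    SpecialLinearGroup.map f g i j = f (g i j) := rfl

theorem map_xx {S : Type*} [CommRing S] (f : R →+* S) (r : R) : SpecialLinearGroup.map f (xx r) = xx (f r) := by
  apply extE <;> simp [mapE]

theorem map_yy {S : Type*} [CommRing S] (f : R →+* S) (r : R) : SpecialLinearGroup.map f (yy r) = yy (f r) := by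
  apply extE <;> simp [mapE]

theorem exists_c (h2 : ringChar k ≠ 2) (h3 : Nat.card k ≠ 3) : ∃ c : k, c ≠ 0 ∧ c ^ 2 ≠ 1 := by
  by_contra! h
  have h4 : (1 : k) ≠ -1 := fun e => Ring.neg_one_ne_one_of_char_ne_two h2 e.symm
  refine h3 ?_
  rw [← Set.ncard_univ, show (Set.univ : Set k) = {0, 1, -1} from (Set.eq_univ_of_forall fun c => ?_).symm,
    Set.ncard_eq_three.2 ⟨0, 1, -1, zero_ne_one, by simp, h4, rfl⟩]
  obtain rfl | e := eq_or_ne c 0
  exacts [.inl rfl, .inr (mul_self_eq_one_iff.1 (sq c ▸ h c e))]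

theorem isUnit_two (h2 : ringChar k ≠ 2) : IsUnit (2 : R) := by
  simpa only [map_ofNat] using (Ring.two_ne_zero h2 : (2 : k) ≠ 0).isUnit.map (algebraMap k R)

/-! ### Infinite ground field: generic continued fractions -/

/-- The fraction-free Euclidean remainder sequence: product of the leading coefficients. -/
noncomputable def Dt {D : Type*} [CommRing D] : ℕ → D[X] → D[X] → D
  | 0, _, _ => 1
  | j + 1, a, d => d.coeff j * (C (d.coeff j) * a - C (a.coeff (j + 1)) * (X * d)).coeff j *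
      Dt j (C (d.coeff j) * a - C (a.coeff (j + 1)) * (X * d))
        (C ((C (d.coeff j) * a - C (a.coeff (j + 1)) * (X * d)).coeff j) * d -
          C (d.coeff j) * (C (d.coeff j) * a - C (a.coeff (j + 1)) * (X * d)))

theorem Dt_map {D D' : Type*} [CommRing D] [CommRing D'] (f : D →+* D') (j : ℕ) :
    ∀ a d : D[X], Dt j (a.map f) (d.map f) = f (Dt j a d) := by
  induction j with
  | zero => exact fun _ _ => (map_one f).symm
  | succ j ih =>
    intro a d
    simp only [Dt, map_mul, ← ih, ← coeff_map f, Polynomial.map_sub, Polynomial.map_mul, map_C, map_X]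

theorem exists_good (j : ℕ) : ∃ a d : k[X], (∀ i, j < i → a.coeff i = 0) ∧ (∀ i, j ≤ i → d.coeff i = 0) ∧ a.coeff j = 1 ∧
    a.coeff 0 = 1 ∧ Dt j a d ≠ 0 := by
  induction j with
  | zero => exact ⟨1, 0, fun i hi => by rw [coeff_one, if_neg hi.ne'], fun _ _ => rfl, by simp, by simp, one_ne_zero⟩
  | succ j ih =>
    obtain ⟨a, d, h1, h2, h3, h4, h5⟩ := ih
    have h6 : (d + a).coeff j = 1 := by rw [coeff_add, h2 j le_rfl, h3, zero_add]
    have h7 : (a + X * (d + a)).coeff (j + 1) = 1 := by rw [coeff_add, h1 _ j.lt_succ_self, coeff_X_mul, h6, zero_add]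
    refine ⟨a + X * (d + a), d + a, fun i hi => ?_, fun i hi => by rw [coeff_add, h1 i hi, h2 i (by omega), add_zero], h7,
      by simp [h4], by simpa [Dt, h6, h7, h3] using h5⟩
    obtain ⟨i, rfl⟩ : ∃ i', i = i' + 1 := ⟨i - 1, by omega⟩
    rw [coeff_add, coeff_X_mul, coeff_add, h1 _ (by omega), h1 _ (by omega), h2 _ (by omega), add_zero, add_zero]

variable {z : R} {Γ : Subgroup SL(2, R)}

theorem reach (hx : ∀ c : k, xx (c • z) ∈ Γ) (hy : ∀ c : k, yy (algebraMap k R c) ∈ Γ) (j : ℕ) : ∀ a d : k[X],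
    (∀ i, j < i → a.coeff i = 0) → (∀ i, j ≤ i → d.coeff i = 0) → Dt j a d ≠ 0 → ∀ l m : k, l * a.coeff 0 = 1 → m ≠ 0 →
    ∃ g ∈ Γ, g 0 0 = l • aeval z a ∧ g 1 0 = m • aeval z d := by
  induction j with
  | zero =>
    intro a d h1 h2 _ l m h3 _
    rw [show a = C (a.coeff 0) from eq_C_of_degree_le_zero ((degree_le_iff_coeff_zero _ _).2 fun i hi => h1 i (by simpa using hi)),
      show d = 0 from Polynomial.ext fun i => h2 i i.zero_le, aeval_C, Algebra.smul_def, ← map_mul, h3]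
    exact ⟨1, one_mem _, by simp, by simp⟩
  | succ j ih =>
    intro a d h1 h2 h3 l m h4 h5
    simp only [Dt, ne_eq, mul_eq_zero, not_or] at h3
    obtain ⟨⟨h6, h7⟩, h8⟩ := h3
    generalize ha : C (d.coeff j) * a - C (a.coeff (j + 1)) * (X * d) = a' at h7 h8
    have h9 : ∀ i, j < i → a'.coeff i = 0 := fun i hi => by
      obtain ⟨i, rfl⟩ : ∃ i', i = i' + 1 := ⟨i - 1, by omega⟩
      rw [← ha, coeff_sub, coeff_C_mul, coeff_C_mul, coeff_X_mul]
      obtain rfl | e := eq_or_ne i j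
      · ring
      · rw [h1 _ (by omega), h2 i (by omega)]; ring
    obtain ⟨g, hg, e1, e2⟩ := ih _ _ h9 (fun i hi => by
      rw [coeff_sub, coeff_C_mul, coeff_C_mul]
      obtain rfl | e := eq_or_ne i j
      · ring
      · rw [h9 i (by omega), h2 i (by omega)]; ring) h8 (l / d.coeff j) (m / a'.coeff j) (by
      rw [← ha, coeff_sub, coeff_C_mul, coeff_C_mul, coeff_X_mul_zero]; field_simp; linear_combination d.coeff j * h4) (div_ne_zero h5 h7)
    have hl : l ≠ 0 := left_ne_zero_of_mul_eq_one h4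
    have e3 : (yy (algebraMap k R (m * d.coeff j ^ 2 / (a'.coeff j * l))) * g) 1 0 = m • aeval z d := by
      simp only [mulE, yy10, yy11, e1, e2, map_sub, map_mul, aeval_C, ← Algebra.smul_def, smul_smul, smul_sub, one_mul]
      rw [add_sub_left_comm, ← sub_smul, show _ - _ = (0 : k) by field_simp; ring, zero_smul, add_zero, div_mul_cancel₀ _ h7]
    refine ⟨_, mul_mem (hx (l * a.coeff (j + 1) / (d.coeff j * m))) (mul_mem (hy _) hg), ?_, by rw [mulE, e3]; simp⟩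
    rw [mulE, e3, mulE, e1, ← ha]
    simp only [xx00, xx01, yy00, yy01, map_sub, map_mul, aeval_C, aeval_X, ← Algebra.smul_def, smul_smul, smul_sub, one_mul,
      zero_mul, add_zero, smul_mul_smul]
    rw [div_mul_cancel₀ _ h6, sub_add, ← sub_smul, show _ - _ = (0 : k) by field_simp; ring, zero_smul, sub_zero]

theorem exists_rep (hz : IsIntegral k z) (hg : Algebra.adjoin k {z} = ⊤) (r : R) :
    ∃ q : k[X], (∀ i, (minpoly k z).natDegree ≤ i → q.coeff i = 0) ∧ aeval z q = r := by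
  obtain ⟨q, rfl⟩ : r ∈ (aeval z : k[X] →ₐ[k] R).range := by rw [← Algebra.adjoin_singleton_eq_range_aeval, hg]; trivial
  refine ⟨q %ₘ minpoly k z, fun i hi => coeff_eq_zero_of_degree_lt ((degree_modByMonic_lt q (minpoly.monic hz)).trans_le ?_),
    aeval_modByMonic_eq_self_of_root (minpoly.aeval k z)⟩
  exact degree_le_natDegree.trans (by exact_mod_cast hi)

theorem generic [Infinite k] (hz : IsIntegral k z) (hg : Algebra.adjoin k {z} = ⊤) (hx : ∀ c : k, xx (c • z) ∈ Γ)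
    (hy : ∀ c : k, yy (algebraMap k R c) ∈ Γ) {u : R} (hu : IsUnit u) (h1 : z ∣ u - 1) : ∃ g ∈ Γ, g 0 0 = u ∧ g 1 0 = 0 := by
  obtain ⟨a, d, a1, d1, -, a2, h⟩ := exists_good (k := k) (minpoly k z).natDegree
  have k1 : ∀ v : R, z ∣ v - 1 → ∃ a' d' : k[X], (∀ i, (minpoly k z).natDegree < i → a'.coeff i = 0) ∧
      (∀ i, (minpoly k z).natDegree ≤ i → d'.coeff i = 0) ∧ a'.coeff 0 = 1 ∧ aeval z a' = v * aeval z a ∧
      aeval z d' = v * aeval z d := fun v ⟨w, hw⟩ => by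
    obtain ⟨b, b1, b2⟩ := exists_rep hz hg (w * aeval z a + aeval z a.divX)
    obtain ⟨d', b3, b4⟩ := exists_rep hz hg (v * aeval z d)
    refine ⟨1 + X * b, d', fun i hi => ?_, b3, by simp, ?_, b4⟩
    · obtain ⟨i, rfl⟩ : ∃ i', i = i' + 1 := ⟨i - 1, by omega⟩
      rw [coeff_add, coeff_X_mul, b1 i (by omega), coeff_one, if_neg i.succ_ne_zero, add_zero]
    · have := congrArg (aeval z) (X_mul_divX_add a)
      simp only [map_add, map_mul, aeval_X, a2, map_one, b2] at this ⊢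
      linear_combination this - aeval z a * hw
  obtain ⟨u, rfl⟩ := hu
  obtain ⟨a', d', b1, b2, b3, b4, b5⟩ := k1 ↑u⁻¹ (by
    simpa [mul_sub, dvd_sub_comm] using h1.mul_left ↑u⁻¹)
  obtain ⟨a'', d'', c1, c2, c3, c4, c5⟩ := k1 u h1
  have k2 : ∀ (p q p' q' : k[X]) (s : k), (Dt (minpoly k z).natDegree (C (1 - X) * p.map C + C X * p'.map C)
      (C (1 - X) * q.map C + C X * q'.map C)).eval s = Dt (minpoly k z).natDegree ((1 - s) • p + s • p') ((1 - s) • q + s • q') :=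
    fun p q p' q' s => by
      rw [← coe_evalRingHom, ← Dt_map]
      simp [Polynomial.map_map, smul_eq_C_mul, show (evalRingHom s).comp C = RingHom.id k from RingHom.ext fun _ => eval_C]
  have k3 := k2 a d a' d' 0
  have k4 := k2 a'' d'' a d 1
  simp only [sub_zero, sub_self, one_smul, zero_smul, add_zero, zero_add] at k3 k4
  have k5 : ∀ {P : k[X]} {x y : k}, P.eval x = y → y ≠ 0 → P ≠ 0 := fun e e' e'' => e' (by rw [← e, e'', eval_zero])
  obtain ⟨s, hs⟩ := (finite_setOfPred_isRoot (mul_ne_zero (k5 k3 h) (k5 k4 h))).exists_notMem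
  simp only [Set.mem_setOf_eq, IsRoot.def, eval_mul, k2, mul_eq_zero, not_or] at hs
  obtain ⟨g, g1, g2, g3⟩ := reach hx hy _ _ _ (fun i hi => by simp [a1 i hi, b1 i hi]) (fun i hi => by simp [d1 i hi, b2 i hi]) hs.1 1 1
    (by simp [a2, b3]) one_ne_zero
  obtain ⟨g', g1', g2', g3'⟩ := reach hx hy _ _ _ (fun i hi => by simp [a1 i hi, c1 i hi]) (fun i hi => by simp [d1 i hi, c2 i hi])
    hs.2 1 1 (by simp [a2, c3]) one_ne_zero
  have e1 : g' 0 0 = u * g 0 0 := by simp [g2, g2', b4, c4, mul_add]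
  have e2 : g' 1 0 = u * g 1 0 := by simp [g3, g3', b5, c5, mul_add]
  refine ⟨_, mul_mem (inv_mem g1) g1', ?_, ?_⟩ <;> simp only [mulE, inv00, inv01, inv10, inv11, e1, e2]
  exacts [by linear_combination (u : R) * detE g, by ring]

/-- An element of a subalgebra which contains the squares of `1 + c z`. -/
theorem mem_of_sq [Infinite k] (h2 : ringChar k ≠ 2) (hz : IsIntegral k z) (F : Subalgebra k R)
    (h : ∀ u : R, IsUnit u → z ∣ u - 1 → u ^ 2 ∈ F) : z ∈ F := by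
  have h1 : ∀ c : k, c ≠ 0 → ¬ (minpoly k z).IsRoot c → (2 * c) • z - z ^ 2 ∈ F := fun c h0 hc => by
    obtain ⟨q, hq⟩ := X_sub_C_dvd_sub_C_eval (p := minpoly k z) (a := c)
    have h3 := congrArg (aeval z) hq
    simp only [map_sub, map_mul, aeval_X, aeval_C, minpoly.aeval, zero_sub] at h3
    have h4 : IsUnit (z - algebraMap k R c) := isUnit_of_mul_isUnit_left (h3 ▸ ((Ne.isUnit hc).map (algebraMap k R)).neg)
    have h5 := h _ (h4.mul (((inv_ne_zero h0).isUnit.map (algebraMap k R)).neg)) ⟨-algebraMap k R c⁻¹, by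
      rw [sub_mul, mul_neg (algebraMap k R c), ← map_mul, mul_inv_cancel₀ h0, map_one]; ring⟩
    convert F.sub_mem (F.algebraMap_mem (c ^ 2)) (F.mul_mem (F.algebraMap_mem (c ^ 2)) h5) using 1
    have h6 : algebraMap k R c * algebraMap k R c⁻¹ = 1 := by rw [← map_mul, mul_inv_cancel₀ h0, map_one]
    simp only [Algebra.smul_def, map_mul, map_pow, map_ofNat]
    linear_combination (z - algebraMap k R c) ^ 2 * (algebraMap k R c * algebraMap k R c⁻¹ + 1) * h6
  have h3 := (finite_setOfPred_isRoot (minpoly.ne_zero hz)).insert 0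
  obtain ⟨c, hc⟩ := h3.exists_notMem
  obtain ⟨d, hd⟩ := (h3.insert c).exists_notMem
  simp only [Set.mem_insert_iff, not_or, Set.mem_setOf_eq] at hc hd
  have h4 := F.smul_mem (F.sub_mem (h1 d hd.2.1 hd.2.2) (h1 c hc.1 hc.2)) (2 * d - 2 * c)⁻¹
  rwa [sub_sub_sub_cancel_right, ← sub_smul, smul_smul, inv_mul_cancel₀ (by
    rw [← mul_sub]; exact mul_ne_zero (Ring.two_ne_zero h2) (sub_ne_zero.2 hd.1)), one_smul] at h4

/-- The multipliers of the additive group `{p | x(k p) ≤ Γ}`. -/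
def mult (k : Type*) [Field k] [Algebra k R] (Γ : Subgroup SL(2, R)) : Subalgebra k R where
  carrier := {r | ∀ p : R, (∀ c : k, xx (c • p) ∈ Γ) → ∀ c : k, xx (c • (r * p)) ∈ Γ}
  mul_mem' := fun h h' p hp => by rw [mul_assoc]; exact h _ (h' p hp)
  add_mem' := fun h h' p hp c => by rw [add_mul, smul_add, xx_add]; exact mul_mem (h p hp c) (h' p hp c)
  algebraMap_mem' := fun r p hp c => by rw [← Algebra.smul_def, smul_smul]; exact hp _

theorem sq_mem_mult {g : SL(2, R)} (hg : g ∈ Γ) (h : g 1 0 = 0) : g 0 0 ^ 2 ∈ mult k Γ := fun p hp c => by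
  rw [← mul_smul_comm, ← cj_xx h]
  exact mul_mem (mul_mem hg (hp c)) (inv_mem hg)

theorem mem_of_sq' (h2 : ringChar k ≠ 2) (F : Subalgebra k R) {r : R} (h : (r + 1) ^ 2 ∈ F) (h' : (r - 1) ^ 2 ∈ F) : r ∈ F := by
  have h4 : (4 : k) ≠ 0 := by
    rw [show (4 : k) = 2 * 2 by norm_num]
    exact mul_ne_zero (Ring.two_ne_zero h2) (Ring.two_ne_zero h2)
  have := F.smul_mem (F.sub_mem h h') (4 : k)⁻¹
  rwa [show (r + 1) ^ 2 - (r - 1) ^ 2 = (4 : k) • r by rw [Algebra.smul_def, map_ofNat]; ring, smul_smul, inv_mul_cancel₀ h4,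
    one_smul] at this

theorem dick {F : Type*} [Field F] [Finite F] (f : F →+* R) (h2 : (2 : F) ≠ 0) {l : F} (h0 : l ≠ 0) (h1 : l ^ 2 ≠ -1)
    (hg : Subfield.closure {l} = ⊤) (hx : xx (f l) ∈ Γ) (hy : yy 1 ∈ Γ) (s : F) : f s ^ 2 ∈ mult k Γ := by
  haveI := Fintype.ofFinite F
  have h4 := ((H4.dickson_lemma h2 l h0 hg).resolve_right fun e => h1 e.2.1).1
  have h5 : ⊤ ≤ Γ.comap (SpecialLinearGroup.map f) := h4.ge.trans ((closure_le _).2 (by
    rintro _ (rfl | rfl)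
    · change SpecialLinearGroup.map f (yy 1) ∈ Γ
      rwa [map_yy, map_one]
    · change SpecialLinearGroup.map f (xx l) ∈ Γ
      rwa [map_xx]))
  obtain rfl | e := eq_or_ne s 0
  · simp
  have h6 : SpecialLinearGroup.map f (H4.sm s 0 0 s⁻¹ (by simp [e])) ∈ Γ := h5 (mem_top _)
  have h7 := sq_mem_mult (k := k) h6 (by rw [mapE]; exact map_zero f)
  rwa [mapE] at h7

/-- Dickson's lemma, for an arbitrary ground field. -/
theorem field_gen {K : Type*} [Field K] [Algebra k K] (h2 : ringChar k ≠ 2) (h3 : Nat.card k ≠ 3) {z : K} (h0 : z ≠ 0)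
    (hz : IsIntegral k z) (hg : Algebra.adjoin k {z} = ⊤) {Γ : Subgroup SL(2, K)} (hx : ∀ c : k, xx (c • z) ∈ Γ)
    (hy : ∀ c : k, yy (algebraMap k K c) ∈ Γ) : Γ = ⊤ := by
  have h1 : z ∈ mult k Γ := by
    cases finite_or_infinite k
    swap
    · exact mem_of_sq h2 hz _ fun u hu e => let ⟨g, hg, e1, e2⟩ := generic hz hg hx hy hu e; e1 ▸ sq_mem_mult hg e2
    obtain ⟨c, c0, c1⟩ : ∃ c : k, c ≠ 0 ∧ (c • z) ^ 2 ≠ -1 := by
      by_cases e : z ^ 2 = -1
      · obtain ⟨c, c0, c1⟩ := exists_c h2 h3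
        exact ⟨c, c0, fun e' => c1 ((algebraMap k K).injective (by
          rwa [_root_.smul_pow, e, smul_neg, neg_inj, Algebra.smul_def, mul_one, ← map_one (algebraMap k K)] at e'))⟩
      · exact ⟨1, one_ne_zero, by rwa [one_smul]⟩
    haveI : Module.Finite k K := ⟨by
      rw [← Algebra.top_toSubmodule, ← hg]; exact hz.fg_adjoin_singleton⟩
    haveI : Finite K := Module.finite_of_finite k
    have hw : c • z ∈ Subfield.closure {c • z} := Subfield.subset_closure rfl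
    have h6 := dick (k := k) (Subfield.subtype (Subfield.closure {c • z})) (l := ⟨_, hw⟩)
      (fun e => (isUnit_two (R := K) h2).ne_zero (congrArg Subtype.val e)) (fun e => smul_ne_zero c0 h0 (congrArg Subtype.val e))
      (fun e => c1 (congrArg Subtype.val e)) (top_unique fun x _ => by
        obtain ⟨y, hy, e⟩ : (x : K) ∈ (Subfield.closure {(⟨_, hw⟩ : Subfield.closure {c • z})}).map (Subfield.subtype _) := by
          rw [RingHom.map_field_closure, Set.image_singleton]; exact x.2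
        exact (show y = x from Subtype.ext e) ▸ hy) (hx c) (map_one (algebraMap k K) ▸ hy 1)
    have h7 := h6 (⟨_, hw⟩ + 1)
    have h8 := h6 (⟨_, hw⟩ - 1)
    rw [map_add, map_one] at h7
    rw [map_sub, map_one] at h8
    simpa [c0] using (mult k Γ).smul_mem (mem_of_sq' h2 _ h7 h8) c⁻¹
  have h4 : ∀ r, xx r ∈ Γ := fun r => by
    simpa [h0] using (hg.ge.trans (Algebra.adjoin_le (Set.singleton_subset_iff.2 h1)) (Algebra.mem_top (x := r * z⁻¹))) z hx 1
  refine H4.SL2_eq_top h4 fun r => ?_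
  have h5 := mul_mem (mul_mem (h4 (-1)) (map_one (algebraMap k K) ▸ hy 1)) (h4 (-1))
  convert mul_mem (mul_mem h5 (h4 (-r))) (inv_mem h5) using 1
  apply extE <;> simp [mulE, inv00, inv01, inv10, inv11, H4.sm]

/-- The abstract situation of a minimal quadratic element `a` and a second quadratic element. -/
structure Ctx (k : Type*) [Field k] [Algebra k R] (z : R) (Γ : Subgroup SL(2, R)) (A : Submodule k R) : Prop where
  h2 : ringChar k ≠ 2
  h3 : Nat.card k ≠ 3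
  int : IsIntegral k z
  gen : Algebra.adjoin k {z} = ⊤
  hx : ∀ p ∈ A, xx (p * z) ∈ Γ
  hy : ∀ c : k, yy (algebraMap k R c) ∈ Γ
  one : 1 ∈ A
  hD : ∀ g ∈ Γ, ∀ g' ∈ Γ, g 1 0 = g' 1 0 → z * g 1 0 = 0 → g 0 0 * g 1 0 = g' 0 0 * g 1 0 → g 0 0 ^ 2 - g' 0 0 ^ 2 ∈ A
  hU : ∀ p ∈ A, p = 0 ∨ IsUnit p

/-- The algebra spanned by the squares of the diagonal entries of upper triangular members. -/
def sqF (k : Type*) [Field k] [Algebra k R] (Γ : Subgroup SL(2, R)) : Subalgebra k R :=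
  Algebra.adjoin k {r | ∃ g ∈ Γ, g 1 0 = 0 ∧ r = g 0 0 ^ 2}

namespace Ctx

variable {A : Submodule k R} (h : Ctx k z Γ A) {g g' : SL(2, R)}
include h

theorem hx' (c : k) : xx (c • z) ∈ Γ := by simpa using h.hx _ (A.smul_mem c h.one)

theorem sq_mem (hg : g ∈ Γ) (e : g 1 0 = 0) : g 0 0 ^ 2 - 1 ∈ A := by
  simpa using h.hD g hg 1 (one_mem _) (by simpa using e) (by rw [e, mul_zero]) (by rw [e, mul_zero, mul_zero])

theorem sqF_le {r : R} (hr : r ∈ sqF k Γ) : r ∈ A := by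
  rw [sqF, ← Subalgebra.mem_toSubmodule, Algebra.adjoin_eq_span] at hr
  refine (Submodule.span_le.2 fun x hx => ?_) hr
  obtain ⟨g, hg, e, rfl⟩ : ∃ g ∈ Γ, g 1 0 = 0 ∧ x = g 0 0 ^ 2 := by
    induction hx using Submonoid.closure_induction with
    | mem x hx => exact hx
    | one => exact ⟨1, one_mem _, rfl, by simp⟩
    | mul x y _ _ hx hy =>
      obtain ⟨g, hg, e, rfl⟩ := hx
      obtain ⟨g', hg', e', rfl⟩ := hy
      exact ⟨g * g', mul_mem hg hg', by simp [mulE, e, e'], by simp [mulE, e', mul_pow]⟩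
  simpa using A.add_mem (h.sq_mem hg e) h.one

theorem nil_zero {p u : R} (hp : p * u ∈ A) (hn : IsNilpotent p) (hu : IsUnit u) : p = 0 := by
  obtain e | e := h.hU _ hp
  · exact hu.mul_left_eq_zero.1 e
  · nontriviality R
    exact absurd (isUnit_of_mul_isUnit_left e) hn.not_isUnit

theorem cj_mem (hg : g ∈ Γ) (c : k) : g * xx (c • z) * g⁻¹ ∈ Γ := mul_mem (mul_mem hg (h.hx' c)) (inv_mem hg)

theorem pair_zero (n : ℕ) : ∀ {g g' : SL(2, R)}, g ∈ Γ → g' ∈ Γ → g' 1 0 = -g 1 0 → IsUnit (g 0 0 + g' 0 0) →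
    (z * g 1 0) ^ (n + 2) = 0 → z * g 1 0 = 0 := by
  have k0 : ∀ {g g' : SL(2, R)}, g ∈ Γ → g' ∈ Γ → g' 1 0 = -g 1 0 → IsUnit (g 0 0 + g' 0 0) →
      (z * g 1 0) ^ 2 = 0 → z * g 1 0 = 0 := fun {g g'} hg hg' e hu e' => by
    have h1 := h.hD _ (h.cj_mem hg 1) _ (h.cj_mem hg' 1) (by simp [cj10, e]) (by
      rw [cj10, one_smul]; linear_combination -e') (by
      rw [cj10, cj00, cj00, one_smul, e]; linear_combination (g 0 0 + g' 0 0) * g 1 0 * e')
    refine h.nil_zero (u := -((g 0 0 + g' 0 0) * (2 + z * g 1 0 * (g' 0 0 - g 0 0)))) ?_ ⟨2, e'⟩ (hu.mul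
      (IsNilpotent.isUnit_add_left_of_commute ⟨2, by rw [mul_pow, e', zero_mul]⟩ (isUnit_two h.h2) (.all _ _))).neg
    convert h1 using 1
    rw [cj00, cj00, one_smul, e]; ring
  induction n with
  | zero => exact k0
  | succ n ih =>
    intro g g' hg hg' e hu e'
    refine k0 hg hg' e hu ?_
    have := ih (h.cj_mem hg 1) (h.cj_mem hg (-1)) (by simp [cj10]) (by
      convert isUnit_two (R := R) h.h2 using 1
      simp only [cj00, neg_smul, one_smul]; ring) (by
      rw [cj10, one_smul, show z * -(z * g 1 0 ^ 2) = -(z * g 1 0) ^ 2 by ring, neg_pow, ← pow_mul,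
        show 2 * (n + 2) = n + 1 + 2 + (n + 1) by ring, pow_add (z * _), e', zero_mul, mul_zero])
    rw [cj10, one_smul] at this
    linear_combination -this

theorem gam_zero (hg : g ∈ Γ) (hn : IsNilpotent (z * g 1 0)) {w : R} (hw : g 1 0 = z * w * g 1 0) : g 1 0 = 0 := by
  obtain ⟨n, e⟩ := hn
  have h1 := h.pair_zero n (h.cj_mem hg 1) (h.cj_mem hg (-1)) (by simp [cj10]) (by
      convert isUnit_two (R := R) h.h2 using 1
      simp only [cj00, neg_smul, one_smul]; ring) (by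
      rw [cj10, one_smul, show z * -(z * g 1 0 ^ 2) = -(z * g 1 0) ^ 2 by ring, neg_pow, ← pow_mul,
        show 2 * (n + 2) = n + (n + 4) by ring, pow_add (z * _), e, zero_mul, mul_zero])
  rw [cj10, one_smul] at h1
  have h2 : z * g 1 0 ^ 2 = 0 := by linear_combination z * g 1 0 * hw - w * h1
  have h3 := h.nil_zero (p := z * g 0 0 * g 1 0) (u := -(2 + -(z * g 0 0 * g 1 0))) (by
    convert h.sq_mem (h.cj_mem hg 1) (by rw [cj10, one_smul, h2, neg_zero]) using 1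
    rw [cj00, one_smul]; ring) ⟨2, by linear_combination z * g 0 0 ^ 2 * h2⟩ (IsNilpotent.isUnit_add_left_of_commute
      ⟨2, by linear_combination z * g 0 0 ^ 2 * h2⟩ (isUnit_two h.h2) (.all _ _)).neg
  linear_combination hw + w * g 1 1 * h3 - w * g 0 1 * h2 - z * w * g 1 0 * detE g

theorem nil (hn : IsNilpotent z) : z = 0 := by
  obtain ⟨n, e⟩ := hn
  simpa using h.pair_zero n (h.hy 1) (h.hy (-1)) (by simp) (by simpa [one_add_one_eq_two] using isUnit_two (R := R) h.h2)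
    (by simp [pow_add, e])

theorem finite [Finite k] : Finite R := by
  haveI : Module.Finite k R := ⟨by rw [← Algebra.top_toSubmodule, ← h.gen]; exact h.int.fg_adjoin_singleton⟩
  exact Module.finite_of_finite k

theorem torus [Finite k] (m : Ideal R) [hm : m.IsMaximal] (hz : z ∉ m) (s : R ⧸ m) (hs : s ≠ 0) :
    ∃ g ∈ Γ, g 1 0 = 0 ∧ Ideal.Quotient.mk m (g 0 0) = s ∧ z ∣ g 0 0 - 1 := by
  letI := Ideal.Quotient.field m
  haveI := h.finite
  haveI : Nontrivial R := (Ideal.Quotient.mk m).domain_nontrivial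
  obtain ⟨p, hp, hc⟩ := H4.exists_char k
  haveI := charP_of_injective_algebraMap (algebraMap k R).injective p
  haveI := charP_of_injective_algebraMap (algebraMap k (R ⧸ m)).injective p
  obtain ⟨N, w, hN⟩ : ∃ N w, z ^ (N + 1) = z * w * z ^ (N + 1) := by
    obtain ⟨a, b, e, e'⟩ := Finite.exists_ne_map_eq_of_infinite fun n : ℕ => z ^ n
    wlog hab : a < b generalizing a b
    · exact this b a e.symm e'.symm (by omega)
    obtain ⟨c, rfl⟩ := Nat.exists_eq_add_of_lt hab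
    exact ⟨a, z ^ c, by linear_combination z * e'⟩
  haveI : Finite (R ⧸ m) := Finite.of_surjective _ Ideal.Quotient.mk_surjective
  haveI := PerfectRing.ofFiniteOfIsReduced p (R ⧸ m)
  obtain ⟨s, rfl⟩ := (iterateFrobeniusEquiv (R ⧸ m) p (2 * (N + 1))).surjective s
  have hs' : s ≠ 0 := fun e => hs (by rw [e, map_zero])
  let L : Subgroup SL(2, R) :=
    { carrier := {g | z ∣ g 0 0 - 1 ∧ z ∣ g 0 1 ∧ z ∣ g 1 1 - 1}
      one_mem' := ⟨by simp, by simp, by simp⟩
      mul_mem' := fun {g g'} ⟨⟨a, ha⟩, ⟨b, hb⟩, ⟨c, hc⟩⟩ ⟨⟨a', ha'⟩, ⟨b', hb'⟩, ⟨c', hc'⟩⟩ =>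
        ⟨⟨a * g' 0 0 + a' + b * g' 1 0, by rw [mulE]; linear_combination g' 0 0 * ha + ha' + g' 1 0 * hb⟩,
          ⟨g 0 0 * b' + b * g' 1 1, by rw [mulE]; linear_combination g 0 0 * hb' + g' 1 1 * hb⟩,
          ⟨g 1 0 * b' + c * g' 1 1 + c', by rw [mulE]; linear_combination g 1 0 * hb' + g' 1 1 * hc + hc'⟩⟩
      inv_mem' := fun {g} hg => ⟨inv00 g ▸ hg.2.2, inv01 g ▸ hg.2.1.neg_right, inv11 g ▸ hg.1⟩ }
  let π := SpecialLinearGroup.map (n := Fin 2) (Ideal.Quotient.mk m)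
  have hz' : Ideal.Quotient.mk m z ≠ 0 := mt Ideal.Quotient.eq_zero_iff_mem.1 hz
  have h1 : (Γ ⊓ L).map π = ⊤ := field_gen h.h2 h.h3 hz' (h.int.map (Ideal.Quotient.mkₐ k m)) (by
      have := congrArg (Subalgebra.map (Ideal.Quotient.mkₐ k m)) h.gen
      rwa [AlgHom.map_adjoin_singleton, Algebra.map_top, (AlgHom.range_eq_top _).2 (Ideal.Quotient.mkₐ_surjective k m)] at this)
    (fun c => ⟨_, ⟨h.hx' c, by simp, by simp [Algebra.smul_def], by simp⟩, (map_xx _ _).trans (congrArg _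
      (map_smul (Ideal.Quotient.mkₐ k m) c z))⟩) fun c => ⟨_, ⟨h.hy c, by simp, by simp, by simp⟩, map_yy _ _⟩
  have hx1 : xx z ∈ Γ ⊓ L := ⟨by simpa using h.hx' 1, by simp, by simp, by simp⟩
  obtain ⟨S, hS, h2⟩ := H2.exists_sylIn_ge (p := p) (H2.isPGroup_zpowers_iff.2 ⟨1, by rw [xx_pow]; simp [xx_zero]⟩) (zpowers_le.2 hx1)
  have h3 : ∀ g ∈ S, IsNilpotent (g 0 0 + g 1 1 - 2) := fun g hg => by
    obtain ⟨j, e⟩ := H2.isPGroup_iff_forall.1 hS.pgrp g hg
    have := Matrix.isNilpotent_trace_of_isNilpotent (M := (g : Matrix (Fin 2) (Fin 2) R) - 1) ⟨p ^ j, by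
      rw [sub_pow_char_pow_of_commute p j (Commute.one_right _), one_pow, ← Matrix.SpecialLinearGroup.coe_pow, e]; simp⟩
    simpa [trace_fin_two, one_add_one_eq_two] using this
  have h4 : ∀ g ∈ S, IsNilpotent (z * g 1 0) := fun g hg => by
    convert (Commute.all _ _).isNilpotent_sub (h3 _ (mul_mem (h2 (mem_zpowers _)) hg)) (h3 g hg) using 1
    simp only [mulE, xx00, xx01, xx10, xx11]; ring
  let U : Subgroup SL(2, R ⧸ m) :=
    { carrier := {g | g 1 0 = 0 ∧ g 0 0 = 1}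
      one_mem' := ⟨rfl, rfl⟩
      mul_mem' := fun hg hg' => ⟨by simp [mulE, hg.1, hg'.1], by simp [mulE, hg'.1, hg.2, hg'.2]⟩
      inv_mem' := fun {g} hg => ⟨by simp [inv10, hg.1], by simpa [inv00, hg.1, hg.2] using detE g⟩ }
  have h5 : S ≤ U.comap π := fun g hg => by
    have e1 := ((h4 g hg).map (Ideal.Quotient.mk m)).eq_zero
    have e2 := ((h3 g hg).map (Ideal.Quotient.mk m)).eq_zero
    have e3 := congrArg (Ideal.Quotient.mk m) (detE g)
    simp only [map_mul, map_sub, map_add, map_ofNat, map_one, mul_eq_zero, hz', false_or] at e1 e2 e3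
    refine ⟨e1, sub_eq_zero.1 (pow_eq_zero_iff two_ne_zero |>.1 ?_)⟩
    rw [mapE]
    linear_combination Ideal.Quotient.mk m (g 0 0) * e2 - e3 - Ideal.Quotient.mk m (g 0 1) * e1
  obtain ⟨g, hg, e⟩ := mem_map.1 (h1.ge (mem_top (H4.sm s 0 0 s⁻¹ (by simp [hs']))))
  have e0 : π g 0 0 = s := by rw [e]; rfl
  have e1 : π g 1 0 = 0 := by rw [e]; rfl
  obtain ⟨n, hn, h6⟩ := (hS.mono (le_inf hS.le h5) inf_le_left).frattini (g := g) (by
    refine H2.mem_normalizer_of_cj_le (H2.cj_le_iff_forall.2 fun x hx => mem_inf.2 ⟨mul_mem (mul_mem hg (mem_inf.1 hx).1) (inv_mem hg), ?_⟩)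
    have := detE (π g)
    change π _ ∈ U
    rw [map_mul, map_mul, map_inv]
    refine ⟨?_, ?_⟩ <;> simp only [mulE, inv00, inv10, e1, show π x 1 0 = 0 from hx.2.1, show π x 0 0 = 1 from hx.2.2] at this ⊢
    exacts [by ring, by linear_combination this])
  have h7 := mul_mem (inv_mem (mem_inf.1 hn).1) hg
  have h8 : π (n⁻¹ * g) 1 0 = 0 ∧ π (n⁻¹ * g) 0 0 = s := by
    have : π n⁻¹ ∈ U := inv_mem (mem_inf.1 hn).2
    rw [map_mul]
    simp only [mulE, e0, e1, show π n⁻¹ 1 0 = 0 from this.1, show π n⁻¹ 0 0 = 1 from this.2]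
    constructor <;> ring
  generalize n⁻¹ * g = x at h6 h7 h8
  obtain ⟨M, hM⟩ : ∃ M : Matrix (Fin 2) (Fin 2) R, ((x ^ p ^ (2 * (N + 1)) : SL(2, R)) : Matrix (Fin 2) (Fin 2) R) =
      1 + z ^ (N + 1) • M := by
    obtain ⟨⟨a, ha⟩, ⟨b, hb⟩, ⟨c, hc⟩⟩ := h7.2
    obtain ⟨r, hr⟩ := Nat.exists_eq_add_of_le (Nat.lt_pow_self (n := 2 * (N + 1)) hp.out.one_lt).le
    have e : ((x : Matrix (Fin 2) (Fin 2) R) - 1) ^ 2 = z • !![z * a * a + b * x 1 0, z * a * b + z * b * c; x 1 0 * a + c * x 1 0,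
        x 1 0 * b + z * c * c] := by
      ext i j
      fin_cases i <;> fin_cases j <;> simp [sq, Matrix.mul_apply, Fin.sum_univ_two, ha, hb, hc] <;> ring
    exact ⟨_, by
      rw [Matrix.SpecialLinearGroup.coe_pow, ← add_sub_cancel 1 (x : Matrix (Fin 2) (Fin 2) R),
        add_pow_char_pow_of_commute p _ (Commute.one_left _), one_pow, hr, pow_add, pow_mul, e, _root_.smul_pow, smul_mul_assoc]⟩
  have h9 := pow_mem h7 (p ^ (2 * (N + 1)))
  have h10 := pow_mem h6 (p ^ (2 * (N + 1)))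
  have h11 := pow_upper h8.1 (p ^ (2 * (N + 1)))
  rw [← map_pow, h8.2] at h11
  generalize x ^ p ^ (2 * (N + 1)) = y at hM h9 h10 h11
  refine ⟨y, h9.1, h.gam_zero h9.1 (w := w) (IsNilpotent.of_pow (m := 2) ?_) ?_, h11.2, h9.2.1⟩
  · convert (h4 _ ((mem_normalizer_iff.1 h10 _).1 (h2 (mem_zpowers _)))).neg using 1
    rw [cj10]; ring
  · have : y 1 0 = z ^ (N + 1) * M 1 0 := by simpa using congrFun (congrFun hM 1) 0
    rw [this, ← mul_assoc, ← hN]

theorem inf [Infinite k] : z ∈ sqF k Γ := mem_of_sq h.h2 h.int _ fun u hu e =>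
  let ⟨g, hg, e1, e2⟩ := generic h.int h.gen h.hx' h.hy hu e; Algebra.subset_adjoin ⟨g, hg, e2, e1 ▸ rfl⟩

theorem stepA : z = 0 ∨ IsUnit z := by
  cases finite_or_infinite k
  swap
  · exact h.hU _ (h.sqF_le h.inf)
  refine or_iff_not_imp_left.2 fun h0 => ?_
  obtain ⟨m, hm, hz⟩ : ∃ m : Ideal R, m.IsPrime ∧ z ∉ m := by simpa using mt (fun e => h.nil (nilpotent_iff_mem_prime.2 e)) h0
  haveI := h.finite
  haveI := IsArtinianRing.isMaximal_of_isPrime m
  letI := Ideal.Quotient.field m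
  obtain ⟨c, c0, c1⟩ := exists_c h.h2 h.h3
  obtain ⟨g, hg, e1, e2, w, e3⟩ := h.torus m hz (algebraMap k _ c) (by simpa using c0)
  obtain e | e := h.hU _ (h.sq_mem hg e1)
  · refine absurd ((algebraMap k (R ⧸ m)).injective ?_) c1
    rw [map_pow, ← e2, ← map_pow, sub_eq_zero.1 e, map_one, map_one]
  · exact isUnit_of_mul_isUnit_left (y := w * (g 0 0 + 1)) (by convert e using 1; linear_combination -(g 0 0 + 1) * e3)

theorem stepB (hγ : ∀ g ∈ Γ, IsNilpotent (z * g 1 0) ∨ IsUnit (g 1 0)) : A = ⊤ := by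
  suffices z ∈ sqF k Γ from top_unique fun r _ =>
    h.sqF_le ((h.gen.ge.trans (Algebra.adjoin_le (Set.singleton_subset_iff.2 this))) (Algebra.mem_top (x := r)))
  cases finite_or_infinite k
  swap
  · exact h.inf
  obtain rfl | ⟨z, rfl⟩ := h.stepA
  · exact zero_mem _
  nontriviality R
  obtain ⟨m, hm⟩ := Ideal.exists_maximal R
  have hz : (z : R) ∉ m := fun e => hm.ne_top (m.eq_top_of_isUnit_mem e z.isUnit)
  haveI := h.finite
  have h1 : ∀ s : R ⧸ m, ∃ u, u ^ 2 ∈ sqF k Γ ∧ Ideal.Quotient.mk m u = s := fun s => by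
    obtain rfl | e := eq_or_ne s 0
    · exact ⟨0, by simp, rfl⟩
    obtain ⟨g, hg, e1, e2, -⟩ := h.torus m hz s e
    exact ⟨_, Algebra.subset_adjoin ⟨g, hg, e1, rfl⟩, e2⟩
  obtain ⟨t, ht⟩ := (isUnit_two (R := R) h.h2).exists_left_inv
  obtain ⟨c, hc⟩ := (Ring.two_ne_zero h.h2 : (2 : k) ≠ 0).isUnit.exists_left_inv
  have hc' : algebraMap k R c * 2 = 1 := by simpa only [map_mul, map_ofNat, map_one] using congrArg (algebraMap k R) hc
  obtain ⟨u, hu, e⟩ := h1 (Ideal.Quotient.mk m (1 - ↑z⁻¹))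
  obtain ⟨v, hv, e'⟩ := h1 (Ideal.Quotient.mk m (1 + ↑z⁻¹))
  have hf := mul_mem (Subalgebra.algebraMap_mem _ c) (sub_mem hu hv)
  have h2 : 2 + algebraMap k R c * (u ^ 2 - v ^ 2) * z ∈ m := by
    rw [← Ideal.Quotient.eq_zero_iff_mem]
    simp only [map_add, map_mul, map_sub, map_pow, e, e']
    simp only [← map_add, ← map_mul, ← map_sub, ← map_pow]
    convert map_zero (Ideal.Quotient.mk m) using 2
    linear_combination (-2 : R) * hc' - 4 * algebraMap k R c * z.inv_mul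
  generalize algebraMap k R c * (u ^ 2 - v ^ 2) = f at hf h2
  have h3 := mul_mem (mul_mem (h.hy 1) (h.hx f (h.sqF_le hf))) (h.hy 1)
  have h4 : (yy (algebraMap k R 1) * xx (f * z) * yy (algebraMap k R 1)) 1 0 = 2 + f * z := by simp [mulE]; ring
  have h5 := h.gam_zero h3 ((hγ _ h3).resolve_right fun e => hm.ne_top (m.eq_top_of_isUnit_mem (h4 ▸ h2) e)) (w := ↑z⁻¹) (by simp)
  rw [h4] at h5
  obtain ⟨n, hn, h6⟩ := (IsUnit.of_mul_eq_one (a := f) (-(t * z)) (by linear_combination ht - t * h5)).isOfFinOrder.exists_pow_eq_one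
  obtain ⟨n, rfl⟩ := Nat.exists_eq_add_of_lt hn
  convert mul_mem (neg_mem (ofNat_mem (sqF k Γ) 2)) (pow_mem hf (0 + n)) using 1
  linear_combination f ^ (0 + n) * h5 - z * h6

end Ctx

end Cfsg.Agent.C3.QP
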