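/-
Quadratic elements of a linear group: the structure of a pair `a`, `b` with `a` of minimal rank.
-/
import Cfsg.Agent.C3.QP1
import Cfsg.Prelude.Def_RootSubgroups

set_option autoImplicit false

namespace Cfsg.Agent.C3.QP

open Matrix Subgroup Module LinearMap
open scoped MatrixGroups

universe u v

variable {k : Type u} [Field k] {M : Type v} [AddCommGroup M] [Module k M]
  {G H : Subgroup (LinearMap.GeneralLinearGroup k M)} {a b c n m r : End k M}

/-- Square zero endomorphisms whose scalar family lies in `G`. -/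
def QN (G : Subgroup (LinearMap.GeneralLinearGroup k M)) (n : End k M) : Prop :=
  n * n = 0 ∧ ∀ c : k, ∃ g ∈ G, (g : End k M) = 1 + c • n

theorem QN.zero : QN G 0 := ⟨mul_zero _, fun _ => ⟨1, one_mem _, by simp⟩⟩

theorem QN.mono (h : QN H n) (e : H ≤ G) : QN G n := ⟨h.1, fun c => let ⟨g, hg, e'⟩ := h.2 c; ⟨g, e hg, e'⟩⟩

theorem QN.smul (h : QN G n) (c : k) : QN G (c • n) :=
  ⟨by rw [smul_mul_smul_comm, h.1, smul_zero], fun d => by rw [smul_smul]; exact h.2 _⟩

theorem QN.neg (h : QN G n) : QN G (-n) := neg_one_smul k n ▸ h.smul (-1)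

theorem QN.add (h : QN G n) (h' : QN G m) (e : n * m = 0) (e' : m * n = 0) : QN G (n + m) := by
  refine ⟨by simp [mul_add, add_mul, h.1, h'.1, e, e'], fun c => ?_⟩
  obtain ⟨g, hg, e1⟩ := h.2 c
  obtain ⟨g', hg', e2⟩ := h'.2 c
  exact ⟨g * g', mul_mem hg hg', by simp [e1, e2, mul_add, add_mul, e, add_assoc]⟩

theorem QN.sub (h : QN G n) (h' : QN G m) (e : n * m = 0) (e' : m * n = 0) : QN G (n - m) :=
  sub_eq_add_neg n m ▸ h.add h'.neg (by simp [e]) (by simp [e'])

theorem QN.conj (h : QN G n) {g : LinearMap.GeneralLinearGroup k M} (hg : g ∈ G) (e : (g : End k M) * n = m * g) : QN G m := by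
  obtain rfl : m = g * n * ↑g⁻¹ := by rw [e, Units.mul_inv_cancel_right]
  refine ⟨by rw [mul_assoc, mul_assoc, ← mul_assoc _ (g * n), ← mul_assoc _ _ n, Units.inv_mul, one_mul, ← mul_assoc n, h.1]; simp,
    fun c => ?_⟩
  obtain ⟨x, hx, e1⟩ := h.2 c
  exact ⟨g * x * g⁻¹, mul_mem (mul_mem hg hx) (inv_mem hg), by simp [e1, mul_add, add_mul]⟩

theorem QN.conj' (h : QN G n) (h' : QN G m) : QN G ((1 + m) * n * (1 - m)) := by
  obtain ⟨g, hg, e⟩ := h'.2 1
  exact h.conj hg (by rw [e, one_smul, mul_assoc, show (1 - m) * (1 + m) = 1 by simp [mul_add, sub_mul, h'.1], mul_one])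

/-- The rank of an endomorphism. -/
noncomputable abbrev rk (n : End k M) : ℕ := finrank k (range n)

/-- Quadratic elements of minimal rank. -/
structure Min (G : Subgroup (LinearMap.GeneralLinearGroup k M)) (a : End k M) : Prop where
  q : QN G a
  ne : a ≠ 0
  le : ∀ n, QN G n → n ≠ 0 → rk a ≤ rk n

/-- The commutative algebra generated by `a b` acting on the image of `a`. -/
structure Th (R : Type*) [CommRing R] [Algebra k R] (a b : End k M) where
  z : R
  θ : R →ₗ[k] End k M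
  int : IsIntegral k z
  gen : Algebra.adjoin k {z} = ⊤
  one : θ 1 = a
  inj : ∀ p, θ p = 0 → p = 0
  ran : ∀ p, range (θ p) ≤ range a
  ker : ∀ p, ker a ≤ ker (θ p)
  mul : ∀ p q, θ p * b * θ q = θ (p * z * q)
  unit : ∀ p, range (θ p) = range a → IsUnit p

theorem exists_th [FiniteDimensional k M] (a b : End k M) :
    ∃ (R : Type v) (_ : CommRing R) (_ : Algebra k R), Nonempty (Th R a b) := by
  let z : End k (range a) := a.rangeRestrict ∘ₗ b ∘ₗ (range a).subtype
  have hs := a.surjective_rangeRestrict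
  refine ⟨Algebra.adjoin k {z}, inferInstance, inferInstance, ⟨⟨⟨z, Algebra.self_mem_adjoin_singleton k z⟩,
    ⟨⟨fun p => (range a).subtype ∘ₗ p.1 ∘ₗ a.rangeRestrict, fun p q => by ext; simp⟩, fun c p => by ext; simp⟩,
    Algebra.IsIntegral.isIntegral _, ?_, rfl, fun p e => Subtype.ext (LinearMap.ext fun x => ?_), ?_, fun p x hx => ?_,
    fun _ _ => rfl, fun p e => ?_⟩⟩⟩
  · exact (congrArg (Algebra.adjoin k) (Set.ext fun x => Subtype.ext_iff)).trans
      (Algebra.adjoin_adjoin_coe_preimage (R := k) (s := {z}))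
  · obtain ⟨x, rfl⟩ := hs x
    exact Subtype.ext (LinearMap.congr_fun e x)
  · rintro p _ ⟨x, rfl⟩
    exact (p.1 (a.rangeRestrict x)).2
  · have : a.rangeRestrict x = 0 := Subtype.ext hx
    simp [this]
  · haveI := IsArtinianRing.of_finite k (Algebra.adjoin k {z})
    have h1 : IsUnit p.1 := (isUnit_iff_range_eq_top _).2 (range_eq_top.2 fun y => by
      obtain ⟨x, hx⟩ := e.ge y.2
      exact ⟨_, Subtype.ext hx⟩)
    exact IsArtinianRing.isUnit_iff_mem_nonZeroDivisors.2 (mem_nonZeroDivisors_iff_right.2 fun q hq =>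
      Subtype.ext (h1.mul_left_eq_zero.1 (congrArg Subtype.val hq)))

theorem mul_eq_zero_of_range (h : range n ≤ range a) {x : End k M} (e : x * a = 0) : x * n = 0 :=
  LinearMap.ext fun y => let ⟨w, hw⟩ := h ⟨y, rfl⟩; (congrArg x hw.symm).trans (LinearMap.congr_fun e w)

theorem mul_eq_zero_of_ker (h : ker a ≤ ker n) {x : End k M} (e : a * x = 0) : n * x = 0 :=
  LinearMap.ext fun y => h (LinearMap.congr_fun e y)

namespace Th

variable {R : Type*} [CommRing R] [Algebra k R] (T : Th R a b)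

theorem mul0 (ha : a * a = 0) (p q : R) : T.θ p * T.θ q = 0 := mul_eq_zero_of_ker (T.ker p) (mul_eq_zero_of_range (T.ran q) ha)

/-- The conjugates of `a` have this shape. -/
def N4 (p q r s : R) : End k M := T.θ p - b * T.θ q * b + b * T.θ r - T.θ s * b

theorem N4_mul (ha : a * a = 0) (hb : b * b = 0) (p q r s p' q' r' s' : R) : T.N4 p q r s * T.N4 p' q' r' s' =
    T.N4 (p * T.z * r' - s * T.z * p') (r * T.z * q' - q * T.z * s') (r * T.z * r' - q * T.z * p') (p * T.z * q' - s * T.z * s') := by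
  have h1 : ∀ p q x, T.θ p * (T.θ q * x) = 0 := fun p q x => by rw [← mul_assoc, T.mul0 ha, zero_mul]
  have h2 : ∀ x, b * (b * x) = 0 := fun x => by rw [← mul_assoc, hb, zero_mul]
  simp only [N4, map_sub, ← T.mul]
  simp only [mul_add, add_mul, mul_sub, sub_mul, mul_assoc, h1, h2, T.mul0 ha, mul_zero]
  abel

theorem N4_b (hb : b * b = 0) (c : k) (p q r s : R) : (1 + c • b) * T.N4 p q r s = T.N4 p (q + c • s) (r + c • p) s ∧
    T.N4 p q r s * (1 + c • b) = T.N4 p (q - c • r) r (s - c • p) := by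
  have h2 : ∀ x, b * (b * x) = 0 := fun x => by rw [← mul_assoc, hb, zero_mul]
  constructor <;> simp only [N4, map_sub, map_add, map_smul, mul_add, add_mul, mul_sub, sub_mul, mul_assoc, h2, hb, mul_zero, one_mul,
    mul_one, smul_mul_assoc, mul_smul_comm, smul_zero, smul_sub, smul_add] <;> abel

theorem N4_zero (p : R) : T.N4 p 0 0 0 = T.θ p := by simp [N4]

theorem N4_add (p q r s p' q' r' s' : R) : T.N4 p q r s + T.N4 p' q' r' s' = T.N4 (p + p') (q + q') (r + r') (s + s') := by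
  simp only [N4, map_add, mul_add, add_mul]; abel

/-- The conjugate of `a` attached to a column vector. -/
def N (x y : R) : End k M := T.N4 (x ^ 2) (y ^ 2) (x * y) (x * y)

/-- The matrices realized by conjugation with members of `H`. -/
def Gam (H : Subgroup (LinearMap.GeneralLinearGroup k M)) : Subgroup SL(2, R) where
  carrier := {g | ∃ h ∈ H, ∀ x y, (h : End k M) * T.N x y = T.N (g 0 0 * x + g 0 1 * y) (g 1 0 * x + g 1 1 * y) * h}
  one_mem' := ⟨1, one_mem _, fun x y => by simp⟩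
  mul_mem' := fun {g g'} ⟨h, hh, e⟩ ⟨h', hh', e'⟩ => ⟨h * h', mul_mem hh hh', fun x y => by
    rw [Units.val_mul, mul_assoc, e', ← mul_assoc, e, mul_assoc]
    simp only [mulE]
    congr 2 <;> ring⟩
  inv_mem' := fun {g} ⟨h, hh, e⟩ => ⟨h⁻¹, inv_mem hh, fun x y => by
    rw [Units.inv_mul_eq_iff_eq_mul, ← mul_assoc, e, Units.mul_inv_cancel_right, inv00, inv01, inv10, inv11]
    congr 1
    exacts [by linear_combination -x * detE g, by linear_combination -y * detE g]⟩

/-- The multipliers `p` with `θ p` quadratic in `H`. -/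
def A (ha : a * a = 0) (H : Subgroup (LinearMap.GeneralLinearGroup k M)) : Submodule k R where
  carrier := {p | QN H (T.θ p)}
  zero_mem' := by simpa using QN.zero
  add_mem' := fun h h' => by simpa using QN.add h h' (T.mul0 ha _ _) (T.mul0 ha _ _)
  smul_mem' := fun c p h => by simpa using QN.smul h c

theorem qn_N (ha : QN H a) {g : SL(2, R)} (hg : g ∈ T.Gam H) : QN H (T.N (g 0 0) (g 1 0)) := by
  obtain ⟨h, hh, e⟩ := hg
  exact ha.conj hh (by simpa [N, N4_zero, T.one] using e 1 0)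

variable [FiniteDimensional k M] (h2 : ringChar k ≠ 2) (h3 : Nat.card k ≠ 3)
include h2 h3

theorem ctx (hm : Min G a) (hH : H ≤ G) (ha : QN H a) (hb : QN H b) : Ctx k T.z (T.Gam H) (T.A ha.1 H) where
  h2 := h2
  h3 := h3
  int := T.int
  gen := T.gen
  hx p hp := by
    obtain ⟨h, hh, e⟩ := hp.2 1
    refine ⟨h, hh, fun x y => ?_⟩
    rw [e, one_smul, add_mul, mul_add, one_mul, mul_one, ← T.N4_zero, N, N, T.N4_mul ha.1 hb.1, T.N4_mul ha.1 hb.1, N4_add, N4_add]
    simp only [xx00, xx01, xx10, xx11]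
    congr 1 <;> ring
  hy c := by
    obtain ⟨h, hh, e⟩ := hb.2 c
    refine ⟨h, hh, fun x y => ?_⟩
    rw [e, N, N, (T.N4_b hb.1 ..).1, (T.N4_b hb.1 ..).2]
    simp only [yy00, yy01, yy10, yy11, Algebra.smul_def]
    congr 1 <;> ring
  one := show QN H (T.θ 1) from T.one.symm ▸ ha
  hD g hg g' hg' e1 e2 e3 := by
    have h1 : ∀ x x' : R, T.N x (g 1 0) * T.N x' (g 1 0) = 0 := fun x x' => by
      rw [N, N, T.N4_mul ha.1 hb.1, ← map_zero T.θ, ← T.N4_zero]
      congr 1
      exacts [by ring_nf; linear_combination 0 * e2 + (x ^ 2 * x' - x * x' ^ 2) * e2,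
        by linear_combination (x * g 1 0 ^ 2 - x' * g 1 0 ^ 2) * e2, by linear_combination (x * x' * g 1 0 - g 1 0 * x' ^ 2) * e2,
        by linear_combination (x ^ 2 * g 1 0 - x * x' * g 1 0) * e2]
    have h4 := (T.qn_N ha hg).sub (e1 ▸ T.qn_N ha hg') (h1 _ _) (h1 _ _)
    change QN H _
    convert h4 using 1
    simp only [N, N4, e3, map_sub]
    abel
  hU p hp := or_iff_not_imp_left.2 fun e => T.unit p
    (Submodule.eq_of_le_of_finrank_le (T.ran p) (hm.le _ (QN.mono hp hH) (mt (T.inj p) e)))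

end Th

variable [FiniteDimensional k M] (h2 : ringChar k ≠ 2) (h3 : Nat.card k ≠ 3)
include h2 h3

theorem Min.stepA (hm : Min G a) (hb : QN G b) : a * b * a = 0 ∨ ∀ x : End k M, range x ≤ range a → a * b * x = 0 → x = 0 := by
  obtain ⟨R, _, _, ⟨T⟩⟩ := exists_th a b
  refine (T.ctx h2 h3 hm le_rfl hm.q hb).stepA.imp (fun e => by simpa [T.one, e] using T.mul 1 1) fun e x hx e' => ?_
  obtain ⟨w, hw⟩ := e.exists_left_inv
  have h1 := mul_eq_zero_of_ker (T.ker w) (mul_assoc a b x ▸ e')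
  refine LinearMap.ext fun y => ?_
  obtain ⟨v, hv⟩ := hx ⟨y, rfl⟩
  have h4 := LinearMap.congr_fun (T.mul w 1) v
  have h5 := LinearMap.congr_fun h1 y
  simp only [mul_one, hw, T.one, End.mul_apply, hv] at h4 h5
  exact h4.symm.trans h5

/-- The structure theorem for a minimal quadratic element and a second quadratic element. -/
theorem Th.st {R : Type*} [CommRing R] [Algebra k R] (T : Th R a b) (hm : Min G a) (hH : H ≤ G) (ha : QN H a) (hb : QN H b) :
    (∀ p, QN H (T.θ p)) ∧ ∀ p : R, p = 0 ∨ IsUnit p := by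
  have h := T.ctx h2 h3 hm hH ha hb
  have h1 := h.stepB fun g hg => ?_
  · exact ⟨fun p => h1.ge (Submodule.mem_top (x := p)), fun p => h.hU p (h1.ge Submodule.mem_top)⟩
  have h4 : ∀ q, a * T.N (g 0 0) (g 1 0) * T.θ q = T.θ (-(T.z * g 1 0) ^ 2 * q) := fun q => by
    refine (congrArg (· * _ * _) T.one.symm).trans ?_
    simp only [← T.N4_zero, Th.N, T.N4_mul ha.1 hb.1]
    congr 1 <;> ring
  refine (hm.stepA h2 h3 ((T.qn_N ha hg).mono hH)).imp (fun e => ⟨2, ?_⟩) fun e => ?_
  · simpa using T.inj _ ((h4 1).symm.trans (T.one.symm ▸ e))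
  · haveI : Module.Finite k R := ⟨by rw [← Algebra.top_toSubmodule, ← T.gen]; exact T.int.fg_adjoin_singleton⟩
    haveI := IsArtinianRing.of_finite k R
    exact IsArtinianRing.isUnit_iff_mem_nonZeroDivisors.2 (mem_nonZeroDivisors_iff_right.2 fun q hq => T.inj _ (e _ (T.ran q) (by
      rw [h4, show -(T.z * g 1 0) ^ 2 * q = 0 by linear_combination -(T.z ^ 2 * g 1 0) * hq, map_zero])))

theorem Min.st (hm : Min G a) (hH : H ≤ G) (ha : QN H a) (hb : QN H b) (e : a * b * a ≠ 0) :
    ∃ n, QN H n ∧ range n ≤ range a ∧ ker a ≤ ker n ∧ a * b * n = a ∧ n * b * a = a ∧ n * b * n = n := by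
  obtain ⟨R, _, _, ⟨T⟩⟩ := exists_th a b
  obtain ⟨h1, h4⟩ := T.st h2 h3 hm hH ha hb
  obtain ⟨w, hw⟩ := ((h4 T.z).resolve_left fun e' => e (by simpa [T.one, e'] using T.mul 1 1)).exists_left_inv
  exact ⟨T.θ w, h1 w, T.ran w, T.ker w, by simpa [T.one, mul_comm, hw] using T.mul 1 w, by simpa [T.one, hw] using T.mul w 1,
    by simpa [hw] using T.mul w w⟩

end Cfsg.Agent.C3.QP
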