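/-
Rank one groups (Timmesfeld, Chapter I): double transitivity on the unipotent subgroups, normal subgroups,
special rank one groups with abelian unipotent subgroups.
-/
import Cfsg.Prelude.Def_RootSubgroups
import Cfsg.Agent.BG.Defs
import Cfsg.Agent.H2.Section
import Cfsg.Agent.H8.Comp

set_option autoImplicit false

namespace Cfsg

open Subgroup Cfsg.Agent Cfsg.Agent.H2 Cfsg.Agent.BG

variable {G : Type*} [Group G] {A B C D N : Subgroup G} {a b c x : G}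

theorem Agent.C3.cj_of_comm (h : ⁅A, B⁆ = ⊥) (ha : a ∈ A) : a ⋆ B = B :=
  cj_eq_of_mem_normalizer (H8.le_normalizer_of_commutator_eq_bot h ha)

theorem Agent.C3.cj_of_cent (h : a ∈ 𝒞 B) : a ⋆ B = B := cj_eq_of_mem_normalizer (centralizer_le_normalizer _ h)

theorem Agent.C3.comm_iff : ⁅A, B⁆ = ⊥ ↔ A ≤ 𝒞 B := commutator_eq_bot_iff_le_centralizer

theorem Agent.C3.comm_iff' : ⁅A, B⁆ = ⊥ ↔ B ≤ 𝒞 A := commutator_comm A B ▸ commutator_eq_bot_iff_le_centralizer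

theorem Agent.C3.cj_comm (h : ⁅A, B⁆ = ⊥) (g : G) : ⁅g ⋆ A, g ⋆ B⁆ = ⊥ := by rw [← cj_commutator, h, cj_bot]

theorem Agent.C3.cent_sup : x ∈ 𝒞 (A ⊔ B) ↔ x ∈ 𝒞 A ∧ x ∈ 𝒞 B := by
  simp only [← zpowers_le (H := 𝒞 _), ← le_centralizer_iff (K := zpowers x), sup_le_iff]

theorem Agent.C3.sup_ind {P : G → Prop} (hx : x ∈ A ⊔ B) (hA : ∀ a ∈ A, P a) (hB : ∀ b ∈ B, P b)
    (hm : ∀ x y, P x → P y → P (x * y)) : P x :=
  iSup_induction (fun i => cond i A B) (C := P) (by rwa [← sup_eq_iSup]) (by rintro (_ | _); exacts [hB, hA]) (hA 1 (one_mem _)) hm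

open Agent.C3

namespace IsRankOnePair

variable (h : IsRankOnePair A B)
include h

theorem symm : IsRankOnePair B A := RankOnePair_symm h

theorem left (ha : a ∈ A) (h1 : a ≠ 1) : ∃ b ∈ B, b ≠ 1 ∧ a ⋆ B = b ⋆ A := by
  obtain ⟨b, hb, h2, h3⟩ := h.cond_left a⁻¹ (inv_mem ha) (inv_ne_one.2 h1)
  exact ⟨b⁻¹, inv_mem hb, inv_ne_one.2 h2, by rw [← inv_inv a]; exact h3.symm⟩

theorem eq_one (ha : a ∈ A) (hn : a ⋆ B = B) : a = 1 := by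
  by_contra h1
  obtain ⟨b, hb, -, h3⟩ := h.left ha h1
  exact h.ne (by rw [← cj_inv_cj b A, ← h3, hn, cj_eq_of_mem (inv_mem hb)])

theorem eq_of_cj {a' : G} (ha : a ∈ A) (ha' : a' ∈ A) (e : a ⋆ B = a' ⋆ B) : a = a' :=
  (inv_mul_eq_one.1 (h.eq_one (mul_mem (inv_mem ha') ha) (by rw [cj_mul, e, cj_inv_cj]))).symm

theorem exists_ne : ∃ a ∈ A, a ≠ 1 := by
  by_contra! e
  have hA : A = ⊥ := (eq_bot_iff_forall _).2 e
  refine h.ne (hA.trans ((eq_bot_iff_forall _).2 fun b hb => by_contra fun h1 => ?_).symm)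
  obtain ⟨a, ha, h2, -⟩ := h.symm.left hb h1
  exact h2 (e a ha)

theorem not_comm : ⁅A, B⁆ ≠ ⊥ := fun e => by
  obtain ⟨a, ha, h1⟩ := h.exists_ne
  exact h1 (h.eq_one ha (cj_of_comm e ha))

theorem map {G' : Type*} [Group G'] (f : G →* G') (hA : ∀ a ∈ A, f a = 1 → a = 1) (hB : ∀ b ∈ B, f b = 1 → b = 1)
    (hne : A.map f ≠ B.map f) : IsRankOnePair (A.map f) (B.map f) := by
  have k : ∀ {A B : Subgroup G}, RankOneCondition A B → (∀ b ∈ B, f b = 1 → b = 1) →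
      RankOneCondition (A.map f) (B.map f) := by
    rintro A B h hB _ ⟨a, ha, rfl⟩ h1
    obtain ⟨b, hb, h2, h3⟩ := h a ha (mt (fun e => e ▸ f.map_one) h1)
    exact ⟨f b, ⟨b, hb, rfl⟩, mt (hB b hb) h2, by simpa only [map_cj, map_inv] using congrArg (Subgroup.map f) h3⟩
  exact ⟨hne, H1.isNilpotent_map f h.nilpotent_left, H1.isNilpotent_map f h.nilpotent_right, k h.cond_left hB,
    k h.cond_right hA⟩

theorem cj (g : G) : IsRankOnePair (g ⋆ A) (g ⋆ B) :=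
  h.map _ (fun _ _ => (map_eq_one_iff _ (MulAut.conj g).injective).1)
    (fun _ _ => (map_eq_one_iff _ (MulAut.conj g).injective).1) (mt cj_inj.1 h.ne)

theorem exists_swap : ∃ w ∈ A ⊔ B, w ⋆ A = B ∧ w ⋆ B = A := by
  obtain ⟨a, ha, h1⟩ := h.exists_ne
  obtain ⟨b, hb, h2, h3⟩ := h.left ha h1
  obtain ⟨c, hc, -, h4⟩ := h.symm.left (inv_mem hb) (inv_ne_one.2 h2)
  refine ⟨c⁻¹ * b⁻¹ * a, mul_mem (mul_mem (mem_sup_left (inv_mem hc)) (mem_sup_right (inv_mem hb))) (mem_sup_left ha), ?_, ?_⟩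
  · rw [cj_mul, cj_mul, cj_eq_of_mem ha, h4, cj_inv_cj]
  · rw [cj_mul, cj_mul, h3, cj_inv_cj, cj_eq_of_mem (inv_mem hc)]

theorem mem_iff : C ∈ unipotentSubgroups A B ↔ C = A ∨ ∃ a ∈ A, C = a ⋆ B := by
  obtain ⟨w, hw, w1, -⟩ := h.exists_swap
  refine ⟨?_, ?_⟩
  · rintro ⟨x, hx, rfl⟩
    have k : ∀ C, (C = A ∨ ∃ a ∈ A, C = a ⋆ B) ↔ (C = B ∨ ∃ b ∈ B, C = b ⋆ A) := by
      have k : ∀ {A B : Subgroup G}, IsRankOnePair A B → ∀ C, (C = A ∨ ∃ a ∈ A, C = a ⋆ B) →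
          (C = B ∨ ∃ b ∈ B, C = b ⋆ A) := by
        rintro A B h C (rfl | ⟨a, ha, rfl⟩)
        · exact .inr ⟨1, one_mem _, (cj_one _).symm⟩
        obtain rfl | h1 := eq_or_ne a 1
        · exact .inl (cj_one _)
        obtain ⟨b, hb, -, e⟩ := h.left ha h1
        exact .inr ⟨b, hb, e⟩
      exact fun C => ⟨k h C, k h.symm C⟩
    have l : ∀ {A B : Subgroup G} {a : G}, a ∈ A → ∀ C, (C = A ∨ ∃ a ∈ A, C = a ⋆ B) →
        (a ⋆ C = A ∨ ∃ a' ∈ A, a ⋆ C = a' ⋆ B) := by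
      rintro A B a ha C (rfl | ⟨a', ha', rfl⟩)
      exacts [.inl (cj_eq_of_mem ha), .inr ⟨a * a', mul_mem ha ha', (cj_mul _ _ _).symm⟩]
    exact sup_ind (P := fun x => ∀ C, (C = A ∨ ∃ a ∈ A, C = a ⋆ B) → (x ⋆ C = A ∨ ∃ a ∈ A, x ⋆ C = a ⋆ B)) hx
      (fun _ => l) (fun x hx C hC => (k _).2 (l hx C ((k C).1 hC)))
      (fun x y hx hy C hC => (cj_mul x y C).symm ▸ hx _ (hy C hC)) A (.inl rfl)
  · rintro (rfl | ⟨a, ha, rfl⟩)
    exacts [⟨1, one_mem _, (cj_one _).symm⟩, ⟨a * w, mul_mem (mem_sup_left ha) hw, by rw [← w1]; exact (cj_mul _ _ _).symm⟩]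

omit h in
theorem _root_.Cfsg.Agent.C3.un_left : A ∈ unipotentSubgroups A B := ⟨1, one_mem _, (cj_one _).symm⟩

omit h in
theorem _root_.Cfsg.Agent.C3.un_cj (hC : C ∈ unipotentSubgroups A B) (hx : x ∈ A ⊔ B) :
    x ⋆ C ∈ unipotentSubgroups A B := by
  obtain ⟨y, hy, rfl⟩ := hC
  exact ⟨x * y, mul_mem hx hy, (cj_mul _ _ _).symm⟩

omit h in
theorem _root_.Cfsg.Agent.C3.un_le (hC : C ∈ unipotentSubgroups A B) : C ≤ A ⊔ B := by
  obtain ⟨y, hy, rfl⟩ := hC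
  exact cj_le_of_le le_sup_left hy

theorem un_right : B ∈ unipotentSubgroups A B := h.mem_iff.2 (.inr ⟨1, one_mem _, (cj_one _).symm⟩)

theorem pair (hC : C ∈ unipotentSubgroups A B) (hD : D ∈ unipotentSubgroups A B) (hne : C ≠ D) :
    ∃ x ∈ A ⊔ B, x ⋆ A = C ∧ x ⋆ B = D := by
  obtain ⟨x, hx, rfl⟩ := hC
  obtain e | ⟨a, ha, e⟩ := h.mem_iff.1 (un_cj hD (inv_mem hx))
  · exact absurd (by rw [← e]; exact cj_cj_inv _ _) hne
  · exact ⟨x * a, mul_mem hx (mem_sup_left ha), by rw [cj_mul, cj_eq_of_mem ha], by rw [cj_mul, ← e, cj_cj_inv]⟩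

theorem of_un (hC : C ∈ unipotentSubgroups A B) (hD : D ∈ unipotentSubgroups A B) (hne : C ≠ D) :
    IsRankOnePair C D ∧ C ⊔ D = A ⊔ B := by
  obtain ⟨x, hx, rfl, rfl⟩ := h.pair hC hD hne
  exact ⟨h.cj x, by rw [← cj_sup, cj_eq_of_mem hx]⟩

theorem un_eq (hC : C ∈ unipotentSubgroups A B) (e : C ⊔ D = A ⊔ B) :
    unipotentSubgroups C D = unipotentSubgroups A B := by
  obtain ⟨x, hx, rfl⟩ := hC
  refine Set.ext fun E => ⟨?_, ?_⟩ <;> rintro ⟨y, hy, rfl⟩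
  · exact ⟨y * x, mul_mem (e ▸ hy) hx, (cj_mul _ _ _).symm⟩
  · exact ⟨y * x⁻¹, e ▸ mul_mem hy (inv_mem hx), show y ⋆ A = (y * x⁻¹) ⋆ x ⋆ A by rw [cj_mul, cj_inv_cj]⟩

theorem fix (hC : C ∈ unipotentSubgroups A B) (hD : D ∈ unipotentSubgroups A B) (hc : c ∈ C) (h1 : c ≠ 1)
    (e : c ⋆ D = D) : C = D := by_contra fun hne => h1 ((h.of_un hC hD hne).1.eq_one hc e)

theorem sup_cj (ha : a ∈ A) (h1 : a ≠ 1) : IsRankOnePair B (a ⋆ B) ∧ B ⊔ a ⋆ B = A ⊔ B :=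
  h.of_un h.un_right (un_cj h.un_right (mem_sup_left ha)) fun e => h1 (h.eq_one ha e.symm)

theorem not_nilp : ¬ Group.IsNilpotent ↥(A ⊔ B) := fun hn => by
  obtain ⟨w, hw, w1, -⟩ := h.exists_swap
  obtain ⟨g, h1, h2⟩ := SetLike.exists_of_lt (normalizerCondition_of_isNilpotent ((𝒩 A).subgroupOf (A ⊔ B))
    (lt_top_iff_ne_top.2 fun e => h.ne (by rw [← w1, cj_eq_of_mem_normalizer (subgroupOf_eq_top.1 e hw)])))
  obtain ⟨a, ha, h3⟩ := h.exists_ne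
  refine h2 (mem_normalizer_iff_cj.2 (h.fix un_left (un_cj un_left g.2) ha h3 ?_).symm)
  have := (mem_normalizer_iff''.1 h1 ⟨a, mem_sup_left ha⟩).1 (le_normalizer (H := A) ha)
  rw [← cj_mul, ← mul_inv_cancel_left (g : G) (a * g), cj_mul, ← mul_assoc]
  exact congrArg _ (cj_eq_of_mem_normalizer this)

theorem normal_cases (hN : A ⊔ B ≤ 𝒩 N) : (∃ n ∈ N ⊓ (A ⊔ B), n ⋆ A = B) ∨ N ⊓ (A ⊔ B) ≤ 𝒞 (A ⊔ B) := by
  refine or_iff_not_imp_left.2 fun e n hn => ?_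
  have k : ∀ C ∈ unipotentSubgroups A B, ∀ n ∈ N ⊓ (A ⊔ B), n ⋆ C = C := fun C hC n hn => by_contra fun e' => by
    obtain ⟨x, hx, h1, h2⟩ := h.pair hC (un_cj hC hn.2) (Ne.symm e')
    exact e ⟨x⁻¹ * n * x, mem_inf.2 ⟨H8.conj_mem_of_mem_normalizer' (hN hx) hn.1, mul_mem (mul_mem (inv_mem hx) hn.2) hx⟩, by
      rw [cj_mul, cj_mul, h1, ← h2, cj_inv_cj]⟩
  have l : ∀ {C D}, C ∈ unipotentSubgroups A B → D ∈ unipotentSubgroups A B → IsRankOnePair C D → n ∈ 𝒞 C :=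
    fun {C D} hC hD h' c hc => by
      have h1 := h'.eq_one (a := c * (n * c⁻¹ * n⁻¹)) (mul_mem hc (k C hC n hn ▸ conj_mem_cj n (inv_mem hc))) (k D hD _ (by
        rw [← mul_assoc, ← mul_assoc]
        exact mul_mem (mem_inf.2 ⟨H8.conj_mem_of_mem_normalizer (hN (un_le hC hc)) hn.1, mul_mem (mul_mem (un_le hC hc) hn.2)
          (inv_mem (un_le hC hc))⟩) (inv_mem hn)))
      rwa [← mul_assoc, ← mul_assoc, mul_inv_eq_one, mul_inv_eq_iff_eq_mul] at h1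
  exact cent_sup.2 ⟨l un_left h.un_right h, l h.un_right un_left h.symm⟩

theorem eq_of_inf (hC : C ∈ unipotentSubgroups A B) (hD : D ∈ unipotentSubgroups A B) (hc : c ∈ C) (hd : c ∈ D)
    (h1 : c ≠ 1) : C = D := h.fix hC hD hc h1 (cj_eq_of_mem hd)

theorem le_sup_of_cj {n : G} (hn : n ∈ N) (hN : A ≤ 𝒩 N) (e : n ⋆ A = B) : A ⊔ B ≤ N ⊔ A :=
  sup_le le_sup_right (e ▸ cj_le_of_le le_sup_right (mem_sup_left hn))

theorem quasisimple (hp : ⁅A ⊔ B, A ⊔ B⁆ = A ⊔ B) : IsQuasisimple ↥(A ⊔ B) := by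
  refine H8.qs_iff.2 ⟨hp, fun e => h.ne ((sup_eq_bot_iff.1 e).1.trans (sup_eq_bot_iff.1 e).2.symm), fun N h1 h2 => ?_⟩
  refine (h.normal_cases h2).imp (fun ⟨n, hn, e⟩ => h1.antisymm ?_) fun e => comm_iff.2 ((le_inf le_rfl h1).trans e)
  have := normal_subgroupOf_of_le_normalizer h2
  have h3 := H8.perfect_eq_bot_of_solvable (K := ((A ⊔ B).subgroupOf (A ⊔ B)).map (QuotientGroup.mk' (N.subgroupOf (A ⊔ B))))
    (by rw [← map_commutator]; exact congrArg _ (map_subtype_inj.1 (by rw [map_commutator, subgroupOf_map_subtype, inf_idem, hp]))) (by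
      have := H1.isNilpotent_map (QuotientGroup.mk' (N.subgroupOf (A ⊔ B))) (H1.isNilpotent_subgroupOf (K := A ⊔ B) h.nilpotent_left)
      have := H1.isNilpotent_of_le (K := (A.subgroupOf (A ⊔ B)).map (QuotientGroup.mk' (N.subgroupOf (A ⊔ B))))
        (H := ((A ⊔ B).subgroupOf (A ⊔ B)).map (QuotientGroup.mk' (N.subgroupOf (A ⊔ B)))) (by
        rw [map_le_iff_le_comap, QuotientGroup.comap_map_mk', ← subgroupOf_sup h1 le_sup_left]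
        exact subgroupOf_mono _ (h.le_sup_of_cj hn.1 (le_sup_left.trans h2) e)) this
      exact IsNilpotent.to_isSolvable)
  rwa [Subgroup.map_eq_bot_iff, QuotientGroup.ker_mk', subgroupOf_self, top_le_iff, subgroupOf_eq_top] at h3

/-- The special condition follows from its consequence for the point stabilizers. -/
theorem special (hs : ∀ a ∈ A, ∀ b ∈ B, b ≠ 1 → b ⋆ A = a ⋆ B → b⁻¹ ⋆ A = a⁻¹ ⋆ B) : IsSpecialRankOnePair A B := by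
  refine ⟨h, fun a ha h1 b hb h2 e => ?_⟩
  have e' := hs a⁻¹ (inv_mem ha) b⁻¹ (inv_mem hb) (inv_ne_one.2 h2) e
  rw [inv_inv, inv_inv] at e'
  refine (h.sup_cj (inv_mem ha) (inv_ne_one.2 h1)).1.symm.eq_of_cj ((show b⁻¹ ⋆ A = a⁻¹ ⋆ B from e) ▸ by
    simpa using conj_mem_cj b⁻¹ ha) (by simpa using conj_mem_cj a⁻¹ (inv_mem hb)) ?_
  rw [cj_mul, cj_mul, cj_mul, cj_mul, cj_eq_of_mem hb, ← e', cj_inv_cj, cj_eq_of_mem (inv_mem ha)]

/-- Quadratic modules: a vector fixed by `B` and moved by `A` makes the pair special. -/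
theorem quad {V : Type*} [AddCommGroup V] [DistribMulAction G V] (hA : ∀ a ∈ A, ∀ a' ∈ A, ∀ v : V, a' • (a • v - v) = a • v - v) :
    (∀ b ∈ B, ∀ b' ∈ B, ∀ v : V, b' • (b • v - v) = b • v - v) ∧ ∀ a ∈ A, ∀ b ∈ B, b ⋆ A = a ⋆ B → ∀ w : V, (∀ b ∈ B, b • w = w) →
      ∃ u c : V, (∀ a ∈ A, a • u = u) ∧ (∀ x ∈ A ⊔ B, x • c = c) ∧ w = c + (b • u - u) ∧ u = c + (a • w - w) := by
  obtain ⟨n, -, n1, -⟩ := h.exists_swap
  have hB : ∀ b ∈ B, ∀ b' ∈ B, ∀ v : V, b' • (b • v - v) = b • v - v := by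
    subst n1
    rintro _ ⟨a, ha, rfl⟩ _ ⟨a', ha', rfl⟩ v
    simpa [mul_smul, smul_sub] using congrArg (n • ·) (hA a ha a' ha' (n⁻¹ • v))
  refine ⟨hB, fun a ha b hb e w hw => ?_⟩
  have h1 : ∀ a' ∈ A, a' • b⁻¹ • a • w = b⁻¹ • a • w := fun a' ha' => by
    have := hw _ (mem_cj.1 (e ▸ conj_mem_cj b ha'))
    rw [mul_smul, mul_smul, mul_smul, mul_smul, inv_smul_eq_iff, ← eq_inv_smul_iff] at this
    exact this
  refine ⟨_, w - (b • b⁻¹ • a • w - b⁻¹ • a • w), h1, fun x hx => sup_ind (P := fun x => x • _ = _) hx (fun a' ha' => ?_)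
    (fun b' hb' => by rw [smul_sub, hw b' hb', hB b hb b' hb']) fun x y hx hy => by rw [mul_smul, hy, hx], by abel, by
      rw [smul_inv_smul]; abel⟩
  rw [smul_inv_smul, show w - (a • w - b⁻¹ • a • w) = b⁻¹ • a • w - (a • w - w) by abel, smul_sub, h1 a' ha', hA a ha a' ha']

theorem quad_special {V : Type*} [AddCommGroup V] [DistribMulAction G V]
    (hA : ∀ a ∈ A, ∀ a' ∈ A, ∀ v : V, a' • (a • v - v) = a • v - v) {w : V} (hw : ∀ b ∈ B, b • w = w) (hw' : ¬ ∀ a ∈ A, a • w = w) :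
    IsSpecialRankOnePair A B := by
  obtain ⟨hB, hq⟩ := h.quad hA
  refine h.special fun a ha b hb h1 e => ?_
  obtain ⟨b', hb', -, e'⟩ := h.left (inv_mem ha) fun e' => h.ne (by
    rw [inv_eq_one.1 e', cj_one] at e
    rw [← cj_inv_cj b A, e, cj_eq_of_mem (inv_mem hb)])
  obtain ⟨u, c, h2, h3, h4, h5⟩ := hq a ha b hb e w hw
  obtain ⟨u', c', -, h3', h4', h5'⟩ := hq a⁻¹ (inv_mem ha) b' hb' e'.symm w hw
  rw [e', show b⁻¹ = b' from inv_eq_of_mul_eq_one_right (by_contra fun h6 => hw' fun a' ha' => ?_)]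
  have h7 : a⁻¹ • w - w = -(a • w - w) := by rw [← hA a⁻¹ (inv_mem ha) a ha, smul_sub, smul_inv_smul, neg_sub]
  have h8 : u' = c + c' - u := by rw [h5', h5, h7]; abel
  have h9 : (b * b') • u = u + (c' - c) := by
    rw [h8, smul_sub, smul_add, h3 b' (mem_sup_right hb'), h3' b' (mem_sup_right hb')] at h4'
    rw [mul_smul, ← sub_add_cancel (b' • u) u, smul_add, hB b' hb' b hb, ← sub_add_cancel (b • u) u, ← sub_eq_iff_eq_add'.2 h4, h4']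
    abel
  have h10 : ∀ x ∈ A ⊔ B, x • u = u := fun x hx => by
    rw [sup_comm, ← (h.symm.sup_cj (inv_mem (mul_mem hb hb')) (inv_ne_one.2 h6)).2] at hx
    refine sup_ind (P := fun x => x • u = u) hx h2 ?_ fun x y hx hy => by rw [mul_smul, hy, hx]
    rintro _ ⟨y, hy, rfl⟩
    change ((b * b')⁻¹ * y * (b * b')⁻¹⁻¹) • u = u
    rw [mul_smul, mul_smul, inv_inv, inv_smul_eq_iff, h9, smul_add, smul_sub, h2 y hy, h3 y (mem_sup_left hy), h3' y (mem_sup_left hy)]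
  rw [h4, h10 b (mem_sup_right hb), sub_self, add_zero, h3 a' (mem_sup_left ha')]

theorem quad_special' {V : Type*} [AddCommGroup V] [DistribMulAction G V]
    (hA : ∀ a ∈ A, ∀ a' ∈ A, ∀ v : V, a' • (a • v - v) = a • v - v) :
    IsSpecialRankOnePair A B ∨ ∀ x ∈ A ⊔ B, ∀ v : V, ∀ y ∈ A ⊔ B, y • (x • v - v) = x • v - v := by
  have hB := (h.quad hA).1
  by_cases h1 : ∃ w : V, (∀ b ∈ B, b • w = w) ∧ ¬ ∀ a ∈ A, a • w = w
  · exact .inl (h.quad_special hA h1.choose_spec.1 h1.choose_spec.2)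
  obtain ⟨n, -, n1, n2⟩ := h.exists_swap
  have h2 : ∀ w : V, (∀ b ∈ B, b • w = w) → ∀ y ∈ A ⊔ B, y • w = w := fun w hw y hy =>
    sup_ind (P := fun x => x • w = w) hy (not_not.1 fun e => h1 ⟨w, hw, e⟩) hw fun x y hx hy => by rw [mul_smul, hy, hx]
  have h3 : ∀ w : V, (∀ a ∈ A, a • w = w) → ∀ b ∈ B, b • w = w := fun w hw b hb => by
    have := h2 (n • w) (fun b hb => by
      simpa only [mul_smul, inv_smul_eq_iff] using hw _ (mem_cj.1 (n1.symm ▸ hb))) _ (mem_sup_left (n2 ▸ conj_mem_cj n hb))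
    simpa [mul_smul] using this
  exact .inr fun x hx => sup_ind (P := fun x => ∀ v : V, ∀ y ∈ A ⊔ B, y • (x • v - v) = x • v - v) hx
    (fun a ha v => h2 _ (h3 _ fun a' ha' => hA a ha a' ha' v)) (fun b hb v => h2 _ fun b' hb' => hB b hb b' hb' v)
    fun x z hx hz v y hy => by
      rw [mul_smul, ← sub_add_sub_cancel _ (z • v) v, smul_add, hx _ y hy, hz v y hy]

end IsRankOnePair

theorem Agent.C3.comm_calc {M : Type*} [CommGroup M] (a x y z : M) :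
    a * x * x = a⁻¹ * z * (a * x) * (z * (a⁻¹ * y))⁻¹ * (y * x) ∧ a * x * x * (a * x⁻¹ * x⁻¹) = a * a := by
  constructor <;> apply Additive.ofMul.injective <;> simp only [ofMul_mul, ofMul_inv] <;> abel

/-- `w` interchanges `A` and `B`. -/
def Agent.C3.Swap (A B : Subgroup G) (w : G) : Prop := w ⋆ A = B ∧ w ⋆ B = A

/-- The permutation of `A#` induced by an element interchanging `A` and `B`. -/
def Agent.C3.Tr (A B : Subgroup G) (w x y : G) : Prop := y ∈ A ∧ (w * x) ⋆ B = y ⋆ B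

namespace IsSpecialRankOnePair

variable (h : IsSpecialRankOnePair A B) {w ρ y z u v : G}
include h

theorem braid (ha : a ∈ A) (h1 : a ≠ 1) (hb : b ∈ B) (e : b ⋆ A = a⁻¹ ⋆ B) : a * b * a = b * a * b := by
  have h2 : b⁻¹ ≠ 1 := fun e' => h.1.ne (by
    rw [inv_eq_one.1 e', cj_one] at e
    rw [← cj_eq_of_mem ha, e, cj_cj_inv])
  have := h.2 a ha h1 b⁻¹ (inv_mem hb) h2 (by rw [inv_inv]; exact e)
  rw [inv_inv, mul_inv_eq_iff_eq_mul, mul_assoc, mul_assoc, eq_inv_mul_iff_mul_eq] at this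
  simpa [mul_assoc] using this

theorem inv (ha : a ∈ A) (h1 : a ≠ 1) (hb : b ∈ B) (e : b ⋆ A = a⁻¹ ⋆ B) : b⁻¹ ⋆ A = a ⋆ B := by
  have h2 := h.braid ha h1 hb e
  refine h.1.eq_of_inf (un_cj un_left (mem_sup_right (inv_mem hb))) (un_cj h.1.un_right (mem_sup_left ha))
    (conj_mem_cj b⁻¹ ha) ?_ (by simpa [mul_assoc, inv_mul_eq_one] using h1)
  rw [show b⁻¹ * a * b⁻¹⁻¹ = a * b * a⁻¹ by rw [eq_mul_inv_iff_mul_eq, inv_inv, mul_assoc, mul_assoc, ← mul_assoc a, h2]; group]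
  exact conj_mem_cj a hb

theorem symm : IsSpecialRankOnePair B A := h.1.symm.special fun b hb a ha h1 e => by
  simpa using (h.inv (inv_mem ha) (inv_ne_one.2 h1) hb (by rw [inv_inv]; exact e.symm)).symm

theorem exists_tr (hρ : Swap A B ρ) (hx : x ∈ A) (h1 : x ≠ 1) : ∃ y, y ≠ 1 ∧ IsConj x⁻¹ y ∧ Tr A B ρ x y := by
  obtain ⟨b, hb, h2, e⟩ := h.1.left hx h1
  have h3 := h.braid (inv_mem hx) (inv_ne_one.2 h1) hb (by rw [inv_inv, e])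
  refine ⟨ρ * b * ρ⁻¹, by simpa [mul_inv_eq_one] using h2, IsConj.trans (isConj_iff.2 ⟨x⁻¹ * b, ?_⟩) (isConj_iff.2 ⟨ρ, rfl⟩),
    hρ.2 ▸ conj_mem_cj ρ hb, by rw [cj_mul, e, cj_mul, cj_mul, (cj_eq_iff.1 hρ.1).symm]⟩
  rw [h3, mul_assoc b, mul_inv_cancel_right]

theorem tr_unique (h1 : Tr A B ρ x y) (h2 : Tr A B ρ x z) : y = z := h.1.eq_of_cj h1.1 h2.1 (h1.2.symm.trans h2.2)

theorem tr_inj (hx : x ∈ A) (ha : a ∈ A) (h1 : Tr A B ρ x y) (h2 : Tr A B ρ a y) : x = a :=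
  h.1.eq_of_cj hx ha (cj_inj.1 (by rw [← cj_mul, ← cj_mul, h1.2, h2.2]))

theorem tr_of (hρ : Swap A B ρ) (hb : b ∈ B) (e : b ⋆ A = x ⋆ B) : Tr A B ρ x (ρ * b * ρ⁻¹) :=
  ⟨hρ.2 ▸ conj_mem_cj ρ hb, by rw [cj_mul, ← e, cj_mul, cj_mul, (cj_eq_iff.1 hρ.1).symm]⟩

theorem tr_inv (hρ : Swap A B ρ) (hx : x ∈ A) (h1 : x ≠ 1) (ht : Tr A B ρ x y) : Tr A B ρ x⁻¹ y⁻¹ := by
  obtain ⟨b, hb, -, e⟩ := h.1.left hx h1
  rw [h.tr_unique ht (h.tr_of hρ hb e.symm), conj_inv]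
  exact h.tr_of hρ (inv_mem hb) (h.inv (inv_mem hx) (inv_ne_one.2 h1) hb (by rw [inv_inv, e]))

theorem swap (ha : a ∈ A) (h1 : a ≠ 1) (hb : b ∈ B) (e : b ⋆ A = a⁻¹ ⋆ B) :
    Swap A B (a * b * a) ∧ Tr A B (a * b * a) a a⁻¹ := by
  have h2 : (a * b * a) ⋆ B = A := by rw [h.braid ha h1 hb e, cj_mul, cj_mul, cj_eq_of_mem hb, ← h.inv ha h1 hb e, cj_cj_inv]
  refine ⟨⟨by rw [cj_mul, cj_mul, cj_eq_of_mem ha, e, cj_cj_inv], h2⟩, inv_mem ha, ?_⟩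
  rw [← e, ← h2, ← cj_mul, ← mul_assoc, ← mul_assoc, ← h.braid ha h1 hb e]

theorem tr_mul (hρ : Swap A B ρ) (ha : a ∈ A) (h1 : a ≠ 1) (hb : b ∈ B) (e : b ⋆ A = a⁻¹ ⋆ B) (t1 : Tr A B (a * b * a) x y)
    (t2 : Tr A B ρ (a⁻¹ * y) z) (t3 : Tr A B ρ a v) : Tr A B ρ (a * x) (v * z) := by
  rw [h.tr_unique t3 (h.tr_of hρ (inv_mem hb) (h.inv ha h1 hb e))]
  refine ⟨mul_mem (hρ.2 ▸ conj_mem_cj ρ (inv_mem hb)) t2.1, ?_⟩
  rw [cj_mul _ z, ← t2.2, ← mul_assoc ρ a⁻¹, cj_mul _ y, ← t1.2, ← cj_mul, ← cj_mul]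
  congr 1
  group

theorem exists_b (ha : a ∈ A) (h1 : a ≠ 1) : ∃ b ∈ B, b ⋆ A = a⁻¹ ⋆ B :=
  let ⟨b, hb, _, e⟩ := h.1.left (inv_mem ha) (inv_ne_one.2 h1); ⟨b, hb, e.symm⟩

variable [IsMulCommutative A]

theorem tr_pow (n : ℕ) : ∀ {ρ a u v : G}, Swap A B ρ → a ∈ A → a ^ n ≠ 1 → Tr A B ρ a v → Tr A B ρ (a ^ n) u → u ^ n = v := by
  induction n with
  | zero => exact fun _ _ e => absurd (pow_zero _) e
  | succ n ih =>
    intro ρ a u v hρ ha h1 t1 t2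
    have h2 : a ≠ 1 := fun e => h1 (by rw [e, one_pow])
    by_cases h3 : a ^ n = 1
    · obtain ⟨y, -, h4, t3⟩ := h.exists_tr hρ ha h2
      rw [pow_succ, h3, one_mul] at t2
      rw [h.tr_unique t2 t3, h.tr_unique t1 t3, pow_succ, ← show 1 = y ^ n by simpa [h3] using h4.pow n, one_mul]
    have hd := pow_mem ha n
    obtain ⟨b, hb, e⟩ := h.exists_b hd h3
    obtain ⟨h4, t3⟩ := h.swap hd h3 hb e
    obtain ⟨y, -, -, t4⟩ := h.exists_tr h4 ha h2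
    have h5 := ih h4 ha h3 t4 t3
    have h6 : (a ^ n)⁻¹ * y ≠ 1 := fun e' => h1 (by
      rw [pow_succ, mul_eq_one_iff_inv_eq, ← h.tr_inj ha (inv_mem hd) t4 (by
        simpa [← inv_mul_eq_one.1 e'] using h.tr_inv h4 hd h3 t3)])
    obtain ⟨z, -, -, t5⟩ := h.exists_tr hρ (mul_mem (inv_mem hd) t4.1) h6
    obtain ⟨v', -, -, t6⟩ := h.exists_tr hρ hd h3
    have h7 := h.tr_unique t2 (pow_succ a n ▸ h.tr_mul hρ hd h3 hb e t4 t5 t6)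
    have h8 : (a ^ n)⁻¹ * y = (a ^ (n + 1))⁻¹ ^ n := by rw [← h5]; group
    have h9 := ih hρ (inv_mem (pow_mem ha _)) (h8 ▸ h6) (h.tr_inv hρ (pow_mem ha _) h1 t2) (h8 ▸ t5)
    rw [pow_succ, ← eq_mul_inv_iff_mul_eq, ← h9, ← ih hρ ha h3 t1 t6, h7]
    exact Commute.mul_pow (mul_comm_of_mem_isMulCommutative A t6.1 t5.1) n

theorem exists_root (ha : a ∈ A) {n : ℕ} (h1 : a ^ n ≠ 1) : ∃ c ∈ A, c ^ n = a := by
  have h2 : a ≠ 1 := fun e => h1 (by rw [e, one_pow])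
  obtain ⟨b, hb, e⟩ := h.exists_b ha h2
  obtain ⟨h4, t1⟩ := h.swap ha h2 hb e
  obtain ⟨u, -, -, t2⟩ := h.exists_tr h4 (pow_mem ha n) h1
  exact ⟨u⁻¹, inv_mem t2.1, by rw [inv_pow, h.tr_pow n h4 ha h1 t1 t2, inv_inv]⟩

theorem root_unique (ha : a ∈ A) (hc : c ∈ A) {n : ℕ} (h1 : a ^ n ≠ 1) (e : a ^ n = c ^ n) : a = c := by
  obtain ⟨w, -, hw⟩ := h.1.exists_swap
  obtain ⟨u, -, -, t1⟩ := h.exists_tr hw (pow_mem ha n) h1
  obtain ⟨v, -, -, t2⟩ := h.exists_tr hw ha fun e => h1 (by rw [e, one_pow])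
  obtain ⟨v', -, -, t3⟩ := h.exists_tr hw hc fun e' => h1 (by rw [e, e', one_pow])
  exact h.tr_inj ha hc t2 (h.tr_pow n hw ha h1 t2 t1 ▸ (h.tr_pow n hw hc (e ▸ h1) t3 (e ▸ t1)).symm ▸ t3)

theorem dichotomy : (∃ p : ℕ, p.Prime ∧ IsElementaryAbelian p A) ∨
    ((∀ a ∈ A, a ≠ 1 → ¬ IsOfFinOrder a) ∧ ∀ a ∈ A, ∀ n : ℕ, 0 < n → ∃ c ∈ A, c ^ n = a) := by
  by_cases h1 : ∀ a ∈ A, a ≠ 1 → ¬ IsOfFinOrder a
  · refine .inr ⟨h1, fun a ha n hn => ?_⟩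
    obtain rfl | h2 := eq_or_ne a 1
    exacts [⟨1, ha, one_pow _⟩, h.exists_root ha fun e => h1 a ha h2 (isOfFinOrder_iff_pow_eq_one.2 ⟨n, hn, e⟩)]
  push Not at h1
  obtain ⟨a, ha, h2, h3⟩ := h1
  obtain ⟨p, hp, h4⟩ := Nat.exists_prime_and_dvd (mt orderOf_eq_one_iff.1 h2)
  have h5 := orderOf_pow_orderOf_div h3.orderOf_pos.ne' h4
  refine .inl ⟨p, hp, inferInstance, fun x hx => by_contra fun h6 => hp.ne_one (h5 ▸ orderOf_eq_one_iff.2 (left_eq_mul.1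
    (h.root_unique hx (mul_mem hx (pow_mem ha _)) h6 ?_)))⟩
  rw [Commute.mul_pow (mul_comm_of_mem_isMulCommutative A hx (pow_mem ha _)), left_eq_mul]
  exact h5.subst (motive := fun n => (a ^ (orderOf a / p)) ^ n = 1) (pow_orderOf_eq_one _)

omit [IsMulCommutative A] in
theorem tr_mem (hρ : Swap A B ρ) (hX : ρ ∈ A ⊔ B) (hx : x ∈ A) (h1 : x ≠ 1) (t : Tr A B ρ x y) :
    y * x ∈ ⁅A, rankOneDiagonal A B⁆ := by
  obtain ⟨b, hb, e⟩ := h.exists_b hx h1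
  obtain ⟨h2, t1⟩ := h.swap hx h1 hb e
  have h3 : (ρ * (x * b * x)⁻¹) ⋆ A = A := by rw [cj_mul, (cj_eq_iff.1 h2.2).symm, hρ.2]
  have h4 : (ρ * (x * b * x)⁻¹) ⋆ B = B := by rw [cj_mul, (cj_eq_iff.1 h2.1).symm, hρ.1]
  have h5 : ρ * (x * b * x)⁻¹ ∈ rankOneDiagonal A B := ⟨⟨mul_mem (S := Subgroup G) hX (inv_mem (mul_mem (mul_mem (mem_sup_left hx)
    (mem_sup_right hb)) (mem_sup_left hx))), mem_normalizer_iff_cj.2 h3⟩, mem_normalizer_iff_cj.2 h4⟩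
  generalize hk : ρ * (x * b * x)⁻¹ = k at *
  rw [h.tr_unique t ⟨h3 ▸ conj_mem_cj k (inv_mem hx), by
    rw [cj_mul _ k⁻¹, (cj_eq_iff.1 h4).symm, cj_mul k, ← t1.2, ← cj_mul, ← hk, ← mul_assoc, inv_mul_cancel_right]⟩, commutator_comm]
  simpa [commutatorElement_def] using commutator_mem_commutator h5 (inv_mem hx)

theorem le_commutator (h3 : 3 < ENat.card A) : A ≤ ⁅A, rankOneDiagonal A B⁆ := by
  have k : ∀ a ∈ A, ∀ x ∈ A, a ≠ 1 → x ≠ 1 → a * x ≠ 1 → a * x * x ∈ ⁅A, rankOneDiagonal A B⁆ := fun a ha x hx h1 h2 h4 => by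
    obtain ⟨b, hb, e⟩ := h.exists_b ha h1
    obtain ⟨h5, t1⟩ := h.swap ha h1 hb e
    have hw := mul_mem (mul_mem (mem_sup_left (T := B) ha) (mem_sup_right hb)) (mem_sup_left ha)
    obtain ⟨y, -, -, t2⟩ := h.exists_tr h5 hx h2
    have h6 : a⁻¹ * y ≠ 1 := fun e' => h4 (by
      rw [h.tr_inj hx (inv_mem ha) t2 (by simpa [← inv_mul_eq_one.1 e'] using h.tr_inv h5 ha h1 t1), mul_inv_cancel])
    obtain ⟨z, -, -, t3⟩ := h.exists_tr h5 (mul_mem (inv_mem ha) t2.1) h6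
    have := mul_mem (mul_mem (h.tr_mem h5 hw (mul_mem ha hx) h4 (h.tr_mul h5 ha h1 hb e t2 t3 t1))
      (inv_mem (h.tr_mem h5 hw (mul_mem (inv_mem ha) t2.1) h6 t3))) (h.tr_mem h5 hw hx h2 t2)
    convert this using 1
    exact open scoped IsMulCommutative in congrArg A.subtype (comm_calc (⟨a, ha⟩ : A) ⟨x, hx⟩ ⟨y, t2.1⟩ ⟨z, t3.1⟩).1
  intro a ha
  obtain rfl | h1 := eq_or_ne a 1
  · exact one_mem _
  obtain ⟨⟨x, hx⟩, h4⟩ : ∃ x : A, x ∉ ({1, ⟨a, ha⟩, ⟨a, ha⟩⁻¹} : Set A) := by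
    by_contra! e
    refine h3.not_ge ?_
    rw [← Set.encard_univ, ← Set.eq_univ_of_forall e]
    exact (Set.encard_insert_le _ _).trans ((add_le_add_left (Set.encard_insert_le _ _) _).trans (by simp; norm_num))
  simp only [Set.mem_insert_iff, Set.mem_singleton_iff, Subtype.ext_iff, not_or] at h4
  have h5 := mul_mem (k a ha x hx h1 h4.1 fun e => h4.2.2 (eq_inv_of_mul_eq_one_right e))
    (k a ha x⁻¹ (inv_mem hx) h1 (inv_ne_one.2 h4.1) fun e => h4.2.1 (mul_inv_eq_one.1 e).symm)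
  have h6 := k x hx a ha h4.1 h1 fun e => h4.2.2 (eq_inv_of_mul_eq_one_left e)
  have h7 := k a ha x hx h1 h4.1 fun e => h4.2.2 (eq_inv_of_mul_eq_one_right e)
  rw [show a * x * x * (a * x⁻¹ * x⁻¹) = a * a from open scoped IsMulCommutative in
    congrArg A.subtype (comm_calc (⟨a, ha⟩ : A) ⟨x, hx⟩ 1 1).2] at h5
  rw [mul_assoc, mul_mem_cancel_right h5] at h6
  rwa [mul_mem_cancel_right h6, mul_mem_cancel_right h6] at h7

theorem perfect (h3 : 3 < ENat.card A) : ⁅A ⊔ B, A ⊔ B⁆ = A ⊔ B := by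
  have h1 : A ≤ ⁅A ⊔ B, A ⊔ B⁆ := (h.le_commutator h3).trans (commutator_mono le_sup_left fun _ hx => hx.1.1)
  obtain ⟨w, hw, e, -⟩ := h.1.exists_swap
  refine (commutator_le_self _).antisymm (sup_le h1 (e.symm.le.trans ((cj_mono w h1).trans_eq ?_)))
  rw [cj_commutator, cj_eq_of_mem hw]

end IsSpecialRankOnePair

end Cfsg
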