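/-
Unipotent subgroups of linear groups and the analogue of Baer's theorem.
-/
import Cfsg.Prelude.Def_RootSubgroups
import Cfsg.Agent.C3.RO

set_option autoImplicit false

namespace Cfsg.Agent.C3.QP

open Subgroup Module LinearMap Cfsg.Agent.H2 Cfsg.Agent.BG

variable {k : Type*} [Field k] {M : Type*} [AddCommGroup M] [Module k M]
  {G H U V : Subgroup (LinearMap.GeneralLinearGroup k M)} {J K : Submodule k (End k M)} {g : LinearMap.GeneralLinearGroup k M}

/-- The span of the endomorphisms `g - 1`, `g ∈ H`. -/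
def aug (H : Subgroup (LinearMap.GeneralLinearGroup k M)) : Submodule k (End k M) :=
  Submodule.span k ((fun g : LinearMap.GeneralLinearGroup k M => (g : End k M) - 1) '' H)

theorem aug_le : aug H ≤ J ↔ ∀ g ∈ H, (g : End k M) - 1 ∈ J := Submodule.span_le.trans Set.forall_mem_image

theorem mem_aug (h : g ∈ H) : (g : End k M) - 1 ∈ aug H := aug_le.1 le_rfl g h

theorem aug_mono (h : U ≤ V) : aug U ≤ aug V := aug_le.2 fun _ hg => mem_aug (h hg)

theorem sub_one_mul_mem (hJ : J * J ≤ J) {x y : End k M} (hx : x - 1 ∈ J) (hy : y - 1 ∈ J) : x * y - 1 ∈ J := by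
  convert J.add_mem (hJ (Submodule.mul_mem_mul hx hy)) (J.add_mem hx hy) using 1
  noncomm_ring

theorem aug_mul (H : Subgroup (LinearMap.GeneralLinearGroup k M)) : aug H * aug H ≤ aug H := by
  rw [aug, Submodule.span_mul_span, Submodule.span_le]
  rintro _ ⟨_, ⟨x, hx, rfl⟩, _, ⟨y, hy, rfl⟩, rfl⟩
  change _ * _ ∈ aug H
  convert (aug H).sub_mem (mem_aug (mul_mem hx hy)) ((aug H).add_mem (mem_aug hx) (mem_aug hy)) using 1
  rw [Units.val_mul]
  noncomm_ring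

theorem unip_iff : IsUnipotentOn H ↔ IsNilpotent (aug H) := by
  have k : ∀ l : List (LinearMap.GeneralLinearGroup k M), (l.map fun g => (g : M →ₗ[k] M) - 1) =
      l.map fun g : LinearMap.GeneralLinearGroup k M => (g : End k M) - 1 := fun l => by
    induction l <;> simp_all
  refine exists_congr fun n => ?_
  simp only [k]
  rw [aug, Submodule.span_pow, Submodule.zero_eq_bot, Submodule.span_eq_bot]
  refine ⟨fun h x hx => ?_, fun h l hl e => h _ (Set.mem_pow.2 ⟨fun i => ⟨_, l.get (i.cast e.symm), hl _ (l.get_mem _), rfl⟩, ?_⟩)⟩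
  · obtain ⟨f, rfl⟩ := Set.mem_pow.1 hx
    choose g h1 h2 using fun i => (f i).2
    simpa [List.map_ofFn, Function.comp_def, h2] using h (List.ofFn g) (by simpa using h1) (by simp)
  · subst e
    congr 1
    conv_rhs => rw [← List.ofFn_get l, List.map_ofFn]
    rfl

theorem nil_mono (h : J ≤ K) (hK : IsNilpotent K) : IsNilpotent J :=
  let ⟨n, e⟩ := hK; ⟨n, le_bot_iff.1 ((pow_le_pow_left' h n).trans_eq e)⟩

theorem unip_mono (h : U ≤ V) (hV : IsUnipotentOn V) : IsUnipotentOn U := unip_iff.2 (nil_mono (aug_mono h) (unip_iff.1 hV))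

/-- The group `1 + J` of a nilpotent subalgebra. -/
def grp (J : Submodule k (End k M)) (h1 : J * J ≤ J) (h2 : IsNilpotent J) : Subgroup (LinearMap.GeneralLinearGroup k M) where
  carrier := {g | (g : End k M) - 1 ∈ J}
  one_mem' := by simp
  mul_mem' := sub_one_mul_mem h1
  inv_mem' := fun {g} hg => by
    obtain ⟨n, e⟩ := h2
    have h3 : ∀ i, (1 - (g : End k M)) ^ (i + 1) ∈ J := fun i => by
      induction i with
      | zero => simpa using J.neg_mem hg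
      | succ i ih => exact pow_succ (1 - (g : End k M)) _ ▸ h1 (Submodule.mul_mem_mul ih (by simpa using J.neg_mem hg))
    have h4 : ∀ i, (↑g⁻¹ - 1 : End k M) - (1 - (g : End k M)) ^ i * (↑g⁻¹ - 1) ∈ J := fun i => by
      induction i with
      | zero => simp
      | succ i ih =>
        convert J.add_mem ih (h3 i) using 1
        simp only [pow_succ, mul_assoc, sub_mul, mul_sub, one_mul, mul_one, Units.mul_inv]
        abel
    have h5 : (1 - (g : End k M)) ^ n = 0 := e.le (Submodule.pow_mem_pow J (by simpa using J.neg_mem hg) n)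
    simpa [h5] using h4 n

theorem aug_sup_le (h1 : J * J ≤ J) (h2 : IsNilpotent J) (hU : aug U ≤ J) (hV : aug V ≤ J) : aug (U ⊔ V) ≤ J :=
  aug_le.2 (sup_le (a := U) (c := grp J h1 h2) (aug_le.1 hU) (aug_le.1 hV))

theorem aug_iSup_le (h1 : J * J ≤ J) (h2 : IsNilpotent J) {T : Set (Subgroup (LinearMap.GeneralLinearGroup k M))}
    (h : ∀ A ∈ T, aug A ≤ J) : aug (⨆ A ∈ T, A) ≤ J :=
  aug_le.2 (iSup₂_le (a := grp J h1 h2) fun A hA => aug_le.1 (h A hA))

theorem unip_of_le (h1 : J * J ≤ J) (h2 : IsNilpotent J) (hU : aug U ≤ J) (hV : aug V ≤ J) : IsUnipotentOn (U ⊔ V) :=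
  unip_iff.2 (nil_mono (aug_sup_le h1 h2 hU hV) h2)

theorem unip_sup (hU : IsUnipotentOn U) (hV : IsUnipotentOn V) (h : V ≤ 𝒩 U) : IsUnipotentOn (U ⊔ V) := by
  obtain ⟨n, hn⟩ := unip_iff.1 hU
  obtain ⟨m, hm⟩ := unip_iff.1 hV
  have h1 : (1 + aug V) * (1 + aug V) ≤ 1 + aug V := by
    simp only [mul_add, add_mul, one_mul, mul_one]
    simp only [Submodule.add_eq_sup, sup_le_iff]
    exact ⟨⟨le_sup_left, le_sup_right⟩, le_sup_right, (aug_mul V).trans le_sup_right⟩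
  have h2 : (1 + aug V) * aug U ≤ aug U * (1 + aug V) := by
    rw [add_mul, mul_add, one_mul, mul_one]
    refine sup_le le_sup_left ?_
    rw [aug, aug, Submodule.span_mul_span, Submodule.span_le]
    rintro _ ⟨_, ⟨x, hx, rfl⟩, _, ⟨y, hy, rfl⟩, rfl⟩
    have h3 := mem_aug (H8.conj_mem_of_le_normalizer h hx hy)
    change _ * _ ∈ aug U ⊔ aug U * aug V
    convert Submodule.add_mem_sup ((aug U).sub_mem h3 (mem_aug hy)) (Submodule.mul_mem_mul h3 (mem_aug hx)) using 1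
    simp only [Units.val_mul, sub_mul, mul_sub, mul_assoc, Units.inv_mul, one_mul, mul_one]
    abel
  have hK : aug V ≤ 1 + aug V := le_sup_right
  have hK1 : 1 ≤ 1 + aug V := le_sup_left
  generalize 1 + aug V = B at *
  have h3 : ∀ i, (aug U * B) ^ i ≤ aug U ^ i * B := fun i => by
    induction i with
    | zero => rwa [pow_zero, pow_zero, one_mul]
    | succ i ih =>
      calc _ ≤ aug U ^ i * (B * aug U) * B := by rw [pow_succ, ← mul_assoc, ← mul_assoc]; gcongr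
        _ ≤ aug U ^ i * (aug U * B) * B := by gcongr
        _ ≤ _ := by rw [pow_succ, ← mul_assoc, mul_assoc _ B]; gcongr
  have h4 : B * (aug U * B) ≤ aug U * B := by
    calc _ ≤ aug U * B * B := by rw [← mul_assoc]; gcongr
      _ ≤ _ := by rw [mul_assoc]; gcongr
  have h5 : aug U * B * B ≤ aug U * B := by rw [mul_assoc]; gcongr
  have h6 : aug U * B * (aug U * B) ≤ aug U * B := by
    calc _ ≤ aug U * (aug U * B) := by rw [mul_assoc]; gcongr
      _ ≤ _ := by rw [← mul_assoc]; gcongr; exact aug_mul U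
  have h7 : aug U ≤ aug U * B := (mul_one _).ge.trans (by gcongr)
  generalize aug U * B = I at *
  have h8 : aug V * I ≤ I := le_trans (by gcongr) h4
  have h9 : I * aug V ≤ I := le_trans (by gcongr) h5
  have h10 : ∀ i, (I + aug V) ^ i ≤ I + aug V ^ i := fun i => by
    induction i with
    | zero => exact (pow_zero _).trans_le ((pow_zero _).ge.trans le_sup_right)
    | succ i ih =>
      refine (pow_succ' _ _).trans_le ((mul_le_mul_right ih _).trans ?_)
      have : I * aug V ^ i ≤ I := by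
        clear ih
        induction i with
        | zero => simp
        | succ i ih => rw [pow_succ, ← mul_assoc]; exact le_trans (by gcongr) h9
      simp only [mul_add, add_mul, ← pow_succ']
      simp only [Submodule.add_eq_sup, sup_le_iff]
      exact ⟨⟨h6.trans le_sup_left, h8.trans le_sup_left⟩, this.trans le_sup_left, le_sup_right⟩
  refine unip_of_le (J := I + aug V) ?_ (IsNilpotent.of_pow (m := m) (nil_mono (by simpa [hm] using h10 m)
    ⟨n, le_bot_iff.1 (by simpa [hn] using h3 n)⟩)) (h7.trans le_sup_left) le_sup_right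
  simp only [mul_add, add_mul]
  simp only [Submodule.add_eq_sup, sup_le_iff]
  exact ⟨⟨h6.trans le_sup_left, h8.trans le_sup_left⟩, h9.trans le_sup_left, (aug_mul V).trans le_sup_right⟩

theorem aug_cj (hK : K * J ≤ J) (hK' : J * K ≤ J) (h1 : (g : End k M) - 1 ∈ K) (h2 : (↑g⁻¹ : End k M) - 1 ∈ K) (h : aug U ≤ J) :
    aug (g ⋆ U) ≤ J := aug_le.2 (by
  rintro _ ⟨u, hu, rfl⟩
  have h3 := h (mem_aug hu)
  have h4 := J.add_mem h3 (hK (Submodule.mul_mem_mul h1 h3))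
  convert J.add_mem h4 (hK' (Submodule.mul_mem_mul h4 h2)) using 1
  change ((g * u * g⁻¹ : LinearMap.GeneralLinearGroup k M) : End k M) - 1 = _
  simp only [Units.val_mul, sub_mul, mul_sub, add_mul, one_mul, mul_one, Units.mul_inv]
  abel)

section Baer

variable {W : Set (Subgroup (LinearMap.GeneralLinearGroup k M))} (hWG : ∀ A ∈ W, A ≤ G) (hc : ∀ A ∈ W, ∀ g ∈ G, g ⋆ A ∈ W)
include hWG hc

theorem exists_norm (h1 : J * J ≤ J) (h2 : IsNilpotent J) {T : Set (Subgroup (LinearMap.GeneralLinearGroup k M))} (hT : T ⊆ W)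
    (h3 : aug (⨆ A ∈ T, A) ≤ J) (h4 : ∀ A ∈ W, aug A ≤ aug (⨆ A ∈ T, A) → A ∈ T) (h5 : ∃ A ∈ W, aug A ≤ J ∧ A ∉ T) :
    ∃ A ∈ W, aug A ≤ J ∧ A ∉ T ∧ A ≤ 𝒩 (⨆ A ∈ T, A) := by
  by_contra! h
  have hS := aug_mul (⨆ A ∈ T, A)
  have hp : ∀ i, J ^ (i + 1 + 1) ≤ J ^ (i + 1) := fun i => by
    rw [pow_succ, pow_succ, mul_assoc]; gcongr
  have k : ∀ i, ∃ A ∈ W, aug A ≤ aug (⨆ A ∈ T, A) ⊔ J ^ (i + 1) ∧ A ∉ T := fun i => by
    induction i with
    | zero => exact let ⟨A, hA, e, e'⟩ := h5; ⟨A, hA, e.trans ((pow_one J).ge.trans le_sup_right), e'⟩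
    | succ i ih =>
      obtain ⟨A, hA, e, e'⟩ := ih
      by_contra! k
      have l1 : J ^ (i + 1) ≤ J := by
        clear e k
        induction i with
        | zero => simp
        | succ i ih => exact (hp i).trans ih
      refine h A hA (e.trans (sup_le h3 l1)) e' (H8.le_normalizer_iff_cj.2 fun a ha => ?_)
      rw [H8.cj_iSup]
      refine iSup_le fun B => (H8.cj_iSup _ _).trans_le (iSup_le fun hB => le_biSup (fun A => A) (k _ (hc B (hT hB) a (hWG A hA ha))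
        (aug_cj ?_ ?_ (e (mem_aug ha)) (e (mem_aug (inv_mem ha))) ((aug_mono (le_biSup (fun A => A) hB)).trans le_sup_left))))
      · simp only [Submodule.mul_sup, Submodule.sup_mul, sup_le_iff]
        exact ⟨⟨hS.trans le_sup_left, le_sup_of_le_right (by rw [pow_succ _ (i + 1)]; gcongr)⟩,
          le_sup_of_le_right (le_trans (by rw [pow_succ' _ (i + 1 + 1)]; gcongr) (hp _)),
          le_sup_of_le_right (le_trans (by rw [pow_succ' _ (i + 1 + 1)]; gcongr) (hp _))⟩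
      · simp only [Submodule.mul_sup, Submodule.sup_mul, sup_le_iff]
        exact ⟨⟨hS.trans le_sup_left, le_sup_of_le_right (le_trans (by rw [pow_succ _ (i + 1 + 1)]; gcongr) (hp _))⟩,
          le_sup_of_le_right (by rw [pow_succ' _ (i + 1)]; gcongr),
          le_sup_of_le_right (le_trans (by rw [pow_succ _ (i + 1 + 1)]; gcongr) (hp _))⟩
  obtain ⟨n, hn⟩ := h2
  obtain ⟨A, hA, e, e'⟩ := k n
  exact e' (h4 A hA (by simpa [pow_succ, hn] using e))

theorem baer [FiniteDimensional k M] (hW : ∀ A ∈ W, ∀ B ∈ W, IsUnipotentOn (A ⊔ B)) : IsUnipotentOn (⨆ A ∈ W, A) := by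
  obtain ⟨_, ⟨T₀, ⟨t1, t2⟩, rfl⟩, t3⟩ := (wellFounded_gt (α := Submodule k (End k M))).has_min
    ((fun T => aug (⨆ A ∈ T, A)) '' {T | T ⊆ W ∧ IsUnipotentOn (⨆ A ∈ T, A)})
    ⟨_, ∅, ⟨Set.empty_subset _, 1, fun l hl e => by
      obtain ⟨g, rfl⟩ := List.length_eq_one_iff.1 e
      simp [show g = 1 by simpa using hl g]⟩, rfl⟩
  have t4 := aug_mul (⨆ A ∈ T₀, A)
  have t5 := unip_iff.1 t2
  have t6 : ∀ A ∈ T₀, aug A ≤ aug (⨆ A ∈ T₀, A) := fun A hA => aug_mono (le_biSup (fun A => A) hA)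
  have t7 : ∀ T ⊆ W, IsUnipotentOn (⨆ A ∈ T, A) → (∀ A ∈ T₀, aug A ≤ aug (⨆ A ∈ T, A)) → aug (⨆ A ∈ T, A) ≤ aug (⨆ A ∈ T₀, A) :=
    fun T h1 h2 h3 => (eq_of_le_of_not_lt (aug_iSup_le (aug_mul _) (unip_iff.1 h2) h3) (t3 _ ⟨T, ⟨h1, h2⟩, rfl⟩)).ge
  beta_reduce at t3
  generalize aug (⨆ A ∈ T₀, A) = J at *
  refine unip_iff.2 (nil_mono (aug_iSup_le t4 t5 fun A₀ hA₀ => by_contra fun h0 => ?_) t5)
  obtain ⟨_, ⟨T, ⟨s1, s2, s3⟩, rfl⟩, s4⟩ := (wellFounded_gt (α := Submodule k (End k M))).has_min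
    ((fun T => aug (⨆ A ∈ {A ∈ W | aug A ≤ J ∧ aug A ≤ aug (⨆ A ∈ T, A)}, A)) ''
      {T | T ⊆ W ∧ IsUnipotentOn (⨆ A ∈ T, A) ∧ ¬ aug (⨆ A ∈ T, A) ≤ J})
    ⟨_, {A₀}, ⟨by simpa, by simpa using hW A₀ hA₀ A₀ hA₀, by simpa⟩, rfl⟩
  beta_reduce at s4
  have s5 := aug_mul (⨆ A ∈ T, A)
  have s6 := unip_iff.1 s2
  have l1 := aug_iSup_le (T := {A ∈ W | aug A ≤ J ∧ aug A ≤ aug (⨆ A ∈ T, A)}) t4 t5 fun A hA => hA.2.1
  have l2 := aug_iSup_le (T := {A ∈ W | aug A ≤ J ∧ aug A ≤ aug (⨆ A ∈ T, A)}) s5 s6 fun A hA => hA.2.2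
  have l3 : ∀ A ∈ W, aug A ≤ _ → A ∈ {A ∈ W | aug A ≤ J ∧ aug A ≤ aug (⨆ A ∈ T, A)} := fun A hA e => ⟨hA, e.trans l1, e.trans l2⟩
  obtain ⟨A, hA, a1, a2, a3⟩ := exists_norm hWG hc t4 t5 (fun _ h => h.1) l1 l3 (by
    by_contra! e
    exact s3 (t7 T s1 s2 fun A hA => (e A (t1 hA) (t6 A hA)).2.2))
  obtain ⟨B, hB, b1, b2, b3⟩ := exists_norm hWG hc s5 s6 (fun _ h => h.1) l2 l3 (by
    by_contra! e
    exact s3 (aug_iSup_le t4 t5 fun A hA => (e A (s1 hA) (aug_mono (le_biSup (fun A => A) hA))).2.1))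
  have l4 := unip_sup (unip_iff.2 (nil_mono l1 t5)) (hW A hA B hB) (sup_le a3 b3)
  generalize hT : {A ∈ W | aug A ≤ J ∧ aug A ≤ aug (⨆ A ∈ T, A)} = T' at *
  have l5 : T' ⊆ W := hT ▸ fun _ h => h.1
  have l6 : ∀ C ∈ insert A (insert B T'), aug C ≤ aug (⨆ C ∈ insert A (insert B T'), C) := fun C hC => aug_mono (le_biSup (fun A => A) hC)
  refine s4 _ ⟨insert A (insert B T'), ⟨Set.insert_subset hA (Set.insert_subset hB l5), unip_mono (by
    rw [iSup_insert, iSup_insert, ← sup_assoc, sup_comm]) l4, fun e => b2 (hT ▸ ⟨hB, (l6 B (.inr (.inl rfl))).trans e, b1⟩)⟩, rfl⟩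
    (lt_of_le_of_ne (aug_mono (iSup₂_le fun C hC => le_biSup (fun A => A) ⟨l5 hC, (aug_mono (le_biSup (fun A => A) hC)).trans l1,
      l6 C (.inr (.inr hC))⟩)) fun e => a2 (l3 A hA (le_trans (aug_mono (le_biSup (fun A => A) (by exact ⟨hA, a1, l6 A (.inl rfl)⟩))) e.ge)))

end Baer

theorem cj_biSup {X : Type*} [Group X] {W : Set (Subgroup X)} {g : X} (h : ∀ A ∈ W, g ⋆ A ∈ W) (h' : ∀ A ∈ W, g⁻¹ ⋆ A ∈ W) :
    g ⋆ (⨆ A ∈ W, A) = ⨆ A ∈ W, A := by
  have k : ∀ g : X, (∀ A ∈ W, g ⋆ A ∈ W) → g ⋆ (⨆ A ∈ W, A) ≤ ⨆ A ∈ W, A := fun g h =>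
    cj_le_iff.2 (iSup₂_le fun A hA => cj_le_iff.1 (le_biSup (fun A => A) (h A hA)))
  exact (k g h).antisymm (le_cj_iff.2 (k _ h'))

end Cfsg.Agent.C3.QP
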