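/-
Sets of abstract root subgroups (Timmesfeld, Chapter II): the three cases, lines, connectivity.
-/
import Cfsg.Agent.C3.RO

set_option autoImplicit false

namespace Cfsg

open Subgroup Cfsg.Agent Cfsg.Agent.H2 Cfsg.Agent.BG Cfsg.Agent.C3
open scoped commutatorElement

variable {G : Type*} [Group G] {S : Set (Subgroup G)} {A B C D E F P Q : Subgroup G} {a b c d e f g x z : G}

namespace Agent.C3

theorem cm (h : ⁅A, B⁆ = ⊥) (ha : a ∈ A) (hb : b ∈ B) : a * b = b * a := H8.commute_of_commutator_eq_bot h ha hb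

theorem cs (h : ⁅A, B⁆ = ⊥) : ⁅B, A⁆ = ⊥ := H8.commutator_eq_bot_symm h

theorem cmono (h : ⁅A, B⁆ = ⊥) (h1 : C ≤ A) (h2 : D ≤ B) : ⁅C, D⁆ = ⊥ := H8.commutator_eq_bot_mono h h1 h2

theorem csup (h1 : ⁅A, C⁆ = ⊥) (h2 : ⁅B, C⁆ = ⊥) : ⁅A ⊔ B, C⁆ = ⊥ := H8.commutator_sup_eq_bot h1 h2

theorem csup' (h1 : ⁅C, A⁆ = ⊥) (h2 : ⁅C, B⁆ = ⊥) : ⁅C, A ⊔ B⁆ = ⊥ := cs (csup (cs h1) (cs h2))

theorem ccomm (h1 : ⁅C, A⁆ = ⊥) (h2 : ⁅C, B⁆ = ⊥) : ⁅C, ⁅A, B⁆⁆ = ⊥ := cmono (csup' h1 h2) le_rfl (commutator_le_sup _ _)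

theorem cj_le_sup (ha : a ∈ A) : a ⋆ B ≤ ⁅A, B⁆ ⊔ B := cj_le_iff_forall.2 fun b hb => by
  rw [← inv_mul_cancel_right (a * b * a⁻¹) b]
  exact mul_mem (mem_sup_left (commutator_mem_commutator ha hb)) (mem_sup_right hb)

theorem mem_sup_comm (h : ⁅A, B⁆ = ⊥) (hx : x ∈ A ⊔ B) : ∃ a ∈ A, ∃ b ∈ B, x = a * b :=
  H8.mem_sup_of_norm_right (H8.le_normalizer_of_commutator_eq_bot h) hx

theorem comm_le_of_sup (h1 : ⁅B, A⁆ = ⊥) (h2 : ⁅B, D⁆ = ⊥) (h3 : C ≤ B ⊔ D) : ⁅C, A⁆ ≤ ⁅D, A⁆ :=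
  (commutator_mono h3 le_rfl).trans (H8.commutator_sup_le_of_norm (h1.trans_le bot_le) le_rfl
    (sup_le (H8.le_normalizer_of_commutator_eq_bot (ccomm h2 h1)) (normalizer_commutator_ge_left _ _)))

theorem cent_cj (h1 : z ∈ 𝒞 A) (h2 : g * z = z * g) : z ∈ 𝒞 (g ⋆ A) := by
  rw [← cj_centralizer, mem_cj, mul_assoc, ← h2, inv_mul_cancel_left]
  exact h1

/-- A rank one pair of members of a set of root subgroups. -/
structure Om (S : Set (Subgroup G)) (A B : Subgroup G) : Prop where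
  rs : IsRootSubgroupSet S
  l : A ∈ S
  r : B ∈ S
  o : IsRankOnePair A B

/-- A pair of members of a set of root subgroups whose commutator is a member. -/
structure Ps (S : Set (Subgroup G)) (A B : Subgroup G) : Prop where
  rs : IsRootSubgroupSet S
  l : A ∈ S
  r : B ∈ S
  m : ⁅A, B⁆ ∈ S

/-- Two members spanning a line. -/
structure Ln (S : Set (Subgroup G)) (A B : Subgroup G) : Prop where
  rs : IsRootSubgroupSet S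
  l : A ∈ S
  m : B ∈ linePartners S A

/-- `A` has a rank one partner. -/
def NI (S : Set (Subgroup G)) (A : Subgroup G) : Prop := ∃ B, Om S A B

end Agent.C3

theorem IsRankOnePair.cent_of_fix (h : IsRankOnePair A B) (hn : ∀ E ∈ unipotentSubgroups A B, x ⋆ E = E) : x ∈ 𝒞 (A ⊔ B) := by
  have l : ∀ {C D}, C ∈ unipotentSubgroups A B → D ∈ unipotentSubgroups A B → IsRankOnePair C D → x ∈ 𝒞 C :=
    fun {C D} hC hD h' c hc => commutatorElement_eq_one_iff_mul_comm.1 (h'.eq_one (by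
      rw [commutatorElement_def, mul_assoc, mul_assoc, ← mul_assoc x]
      exact mul_mem hc (hn C hC ▸ conj_mem_cj x (inv_mem hc))) (by
      rw [commutatorElement_def, cj_mul, cj_mul, cj_mul, ← cj_eq_iff.1 (hn D hD), hn _ (un_cj hD (un_le hC (inv_mem hc))), cj_cj_inv]))
  exact cent_sup.2 ⟨l un_left h.un_right h, l h.un_right un_left h.symm⟩

theorem IsRankOnePair.cent_of_norm (h : IsRankOnePair A B) (h1 : z ∈ 𝒞 A) (h2 : z ⋆ B = B) : z ∈ 𝒞 (A ⊔ B) :=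
  h.cent_of_fix fun E hE => by
    obtain rfl | ⟨a, ha, rfl⟩ := h.mem_iff.1 hE
    exacts [cj_of_cent h1, by rw [← cj_mul, ← h1 a ha, cj_mul, h2]]

theorem IsRankOnePair.eq_of_comm (h : IsRankOnePair A B) (hC : C ∈ unipotentSubgroups A B) (hD : D ∈ unipotentSubgroups A B)
    (e : ⁅C, D⁆ = ⊥) : C = D := by_contra fun hne => (h.of_un hC hD hne).1.not_comm e

namespace IsRootSubgroupSet

variable (hS : IsRootSubgroupSet S)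
include hS

theorem cj (hA : A ∈ S) (g : G) : g ⋆ A ∈ S := hS.conj_mem A hA g

theorem ab (hA : A ∈ S) : ⁅A, A⁆ = ⊥ := commutator_self_eq_bot_iff.2 (hS.commutative A hA)

theorem exists_ne (hA : A ∈ S) : ∃ a ∈ A, a ≠ 1 := (bot_or_exists_ne_one A).resolve_left (hS.ne_bot A hA)

theorem ind {p : G → Prop} (h1 : ∀ A ∈ S, ∀ a ∈ A, p a) (h0 : p 1) (h2 : ∀ x y, p x → p y → p (x * y)) (g : G) : p g :=
  iSup_induction (fun A : S => (A : Subgroup G)) (C := p) (by rw [iSup_subtype'' S fun A => A, hS.generates]; trivial)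
    (fun A => h1 A A.2) h0 h2

theorem eq_top {K : Subgroup G} (h : ∀ A ∈ S, A ≤ K) : K = ⊤ := top_unique (hS.generates ▸ iSup₂_le h)

theorem cent_of_not (hA : A ∈ S) (hB : B ∈ S) (h : ¬ IsRankOnePair A B) : ⁅⁅A, B⁆, A ⊔ B⁆ = ⊥ := by
  obtain e | e | e := hS.pair A hA B hB
  exacts [by rw [e, commutator_bot_left], absurd e h, H8.commutator_eq_bot_iff_forall.2 e.2.1]

theorem comm_cj (hA : A ∈ S) (hB : B ∈ S) (h : ¬ IsRankOnePair A B) (ha : a ∈ A) : ⁅a ⋆ B, B⁆ = ⊥ :=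
  cmono (csup (cmono (hS.cent_of_not hA hB h) le_rfl le_sup_right) (hS.ab hB)) (cj_le_sup ha) le_rfl

theorem om_of_cj (hA : A ∈ S) (hB : B ∈ S) (ha : a ∈ A) (h : IsRankOnePair B (a ⋆ B)) : Om S A B :=
  ⟨hS, hA, hB, by_contra fun e => h.not_comm (cs (hS.comm_cj hA hB e ha))⟩

theorem tri (hA : A ∈ S) (hB : B ∈ S) : ⁅A, B⁆ = ⊥ ∨ Om S A B ∨ Ps S A B :=
  (hS.pair A hA B hB).imp_right (Or.imp (fun h => ⟨hS, hA, hB, h⟩) fun h => ⟨hS, hA, hB, h.1⟩)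

end IsRootSubgroupSet

namespace Agent.C3

namespace Ps

variable (h : Ps S A B)
include h

theorem symm : Ps S B A := ⟨h.rs, h.r, h.l, commutator_comm A B ▸ h.m⟩

theorem cj (g : G) : Ps S (g ⋆ A) (g ⋆ B) := ⟨h.rs, h.rs.cj h.l g, h.rs.cj h.r g, cj_commutator g A B ▸ h.rs.cj h.m g⟩

theorem not_comm : ⁅A, B⁆ ≠ ⊥ := h.rs.ne_bot _ h.m

theorem not_om : ¬ IsRankOnePair A B := fun ho => by
  have h1 := sup_le (normalizer_commutator_ge_left A B) (normalizer_commutator_ge_right A B)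
  obtain ⟨n, hn, e⟩ | e := ho.normal_cases h1
  · obtain ⟨a, ha, h2⟩ := ho.exists_ne
    exact h2 ((h.rs.om_of_cj h.m h.l hn.1 (e ▸ ho)).o.symm.eq_one ha (cj_eq_of_mem_normalizer (h1 (mem_sup_left ha))))
  · obtain ⟨a, ha, h2⟩ := ho.exists_ne
    exact (ho.sup_cj ha h2).1.not_comm (cs (cmono (csup (cmono (comm_iff.2 ((le_inf le_rfl (commutator_le_sup A B)).trans e))
      le_rfl le_sup_right) (h.rs.ab h.r)) (cj_le_sup ha) le_rfl))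

theorem rcc : RootCommutatorCase S A B := ((h.rs.pair A h.l B h.r).resolve_left h.not_comm).resolve_left h.not_om

theorem cent : ⁅⁅A, B⁆, A ⊔ B⁆ = ⊥ := h.rs.cent_of_not h.l h.r h.not_om

theorem cl : ⁅A, ⁅A, B⁆⁆ = ⊥ := cs (cmono h.cent le_rfl le_sup_left)

theorem cr : ⁅B, ⁅A, B⁆⁆ = ⊥ := cs (cmono h.cent le_rfl le_sup_right)

theorem mul (ha : a ∈ A) (hb : b ∈ B) (hc : c ∈ B) : ⁅a, b * c⁆ = ⁅a, b⁆ * ⁅a, c⁆ := by
  rw [commutatorElement_mul_right_eq_mul_conj, mul_assoc ⁅a, b⁆, cm h.cr hb (commutator_mem_commutator ha hc), ← mul_assoc,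
    mul_inv_cancel_right]

theorem left (ha : a ∈ A) (h1 : a ≠ 1) (hc : c ∈ ⁅A, B⁆) : ∃ b ∈ B, c = ⁅a, b⁆ := by
  obtain ⟨b, rfl⟩ : c ∈ (MonoidHom.mk' (fun b : B => ⁅a, (b : G)⁆) fun b c => h.mul ha b.2 c.2).range := by
    rw [← h.rcc.2.2.1 a ha h1] at hc
    exact (closure_le _).2 (by rintro _ ⟨b, hb, rfl⟩; exact ⟨⟨b, hb⟩, rfl⟩) hc
  exact ⟨b, b.2, rfl⟩

theorem right (hb : b ∈ B) (h1 : b ≠ 1) (hc : c ∈ ⁅A, B⁆) : ∃ a ∈ A, c = ⁅a, b⁆ := by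
  obtain ⟨a, ha, e⟩ := h.symm.left hb h1 (commutator_comm A B ▸ inv_mem hc)
  exact ⟨a, ha, by rw [← commutatorElement_inv, ← e, inv_inv]⟩

theorem not_cent (ha : a ∈ A) (hc : a ∈ 𝒞 B) : a = 1 := by_contra fun h1 => by
  obtain ⟨c, hc', h2⟩ := h.rs.exists_ne h.m
  obtain ⟨b, hb, rfl⟩ := h.left ha h1 hc'
  exact h2 (commutatorElement_eq_one_iff_mul_comm.2 (hc b hb).symm)

theorem eq_one (ha : a ∈ A) (hc : a ∈ ⁅A, B⁆) : a = 1 := h.not_cent ha (comm_iff'.1 h.cr hc)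

theorem ne : A ≠ ⁅A, B⁆ := fun e => let ⟨_, ha, h1⟩ := h.rs.exists_ne h.l; h1 (h.eq_one ha (e ▸ ha))

theorem cj_le (hb : b ∈ B) : b ⋆ A ≤ A ⊔ ⁅A, B⁆ := by rw [sup_comm, commutator_comm]; exact cj_le_sup hb

theorem sup_cj (hb : b ∈ B) (h1 : b ≠ 1) : A ⊔ b ⋆ A = A ⊔ ⁅A, B⁆ := by
  refine le_antisymm (sup_le le_sup_left (h.cj_le hb)) (sup_le le_sup_left fun c hc => ?_)
  obtain ⟨a, ha, rfl⟩ := h.right hb h1 hc
  rw [commutatorElement_def, mul_assoc, mul_assoc, ← mul_assoc b]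
  exact mul_mem (mem_sup_left ha) (mem_sup_right (conj_mem_cj b (inv_mem ha)))

theorem mem_cj (hx : x ∈ A ⊔ ⁅A, B⁆) : x ∈ ⁅A, B⁆ ∨ ∃ b ∈ B, x ∈ b ⋆ A := by
  obtain ⟨a, ha, c, hc, rfl⟩ := mem_sup_comm h.cl hx
  obtain rfl | h1 := eq_or_ne a 1
  · exact .inl (by rwa [one_mul])
  obtain ⟨b, hb, rfl⟩ := h.symm.right ha h1 (commutator_comm A B ▸ hc)
  refine .inr ⟨b, hb, ?_⟩
  rw [cm h.cl ha hc, commutatorElement_def, inv_mul_cancel_right]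
  exact conj_mem_cj b ha

theorem norm : B ≤ 𝒩 (A ⊔ ⁅A, B⁆) :=
  le_normalizer_iff_commutator_le_left.2 (H8.commutator_sup_le_of_norm le_sup_right ((cs h.cr).trans_le bot_le) le_normalizer)

end Ps

namespace Om

variable (h : Om S A B)
include h

theorem symm : Om S B A := ⟨h.rs, h.r, h.l, h.o.symm⟩

theorem cj (g : G) : Om S (g ⋆ A) (g ⋆ B) := ⟨h.rs, h.rs.cj h.l g, h.rs.cj h.r g, h.o.cj g⟩

theorem ni : NI S A := ⟨B, h⟩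

theorem un_mem (hE : E ∈ unipotentSubgroups A B) : E ∈ S := by
  obtain ⟨x, -, rfl⟩ := hE
  exact h.rs.cj h.l x

theorem mem_or_cent (hE : E ∈ S) (hle : E ≤ A ⊔ B) : E ∈ unipotentSubgroups A B ∨ ⁅E, A ⊔ B⁆ = ⊥ := by
  by_cases h1 : ∃ F ∈ unipotentSubgroups A B, IsRankOnePair E F
  · obtain ⟨F, hF, h1⟩ := h1
    obtain ⟨e, he, h2⟩ := h1.exists_ne
    have h3 := (h1.sup_cj he h2).2.symm.trans (h.o.of_un hF (un_cj hF (hle he)) (h1.sup_cj he h2).1.ne).2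
    exact .inl (h.o.un_eq hF ((sup_comm _ _).trans h3) ▸ h1.symm.un_right)
  · exact .inr (comm_iff.2 fun e he => h.o.cent_of_fix fun F hF => h.o.eq_of_comm (un_cj hF (hle he)) hF
      (h.rs.comm_cj hE (h.un_mem hF) (fun k => h1 ⟨F, hF, k⟩) he))

theorem mem_of_cj (hE : E ∈ S) (he : e ∈ E) (ha : a ∈ A) (h1 : a ≠ 1) (h2 : e ⋆ B = a ⋆ B) : E ∈ unipotentSubgroups A B := by
  have h3 := (h.rs.om_of_cj hE h.r he (h2 ▸ (h.o.sup_cj ha h1).1)).o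
  have h4 := h3.sup_cj he fun k => h1 (h.o.eq_one ha (by rw [← h2, k, cj_one]))
  exact (h.mem_or_cent hE (le_sup_left.trans_eq (h4.2.symm.trans (h2 ▸ (h.o.sup_cj ha h1).2)))).resolve_right
    fun k => h3.not_comm (cmono k le_rfl le_sup_right)

theorem eq_of_cj (hE : E ∈ S) (he : e ∈ E) (ha : a ∈ A) (h1 : a ≠ 1) (h2 : e ⋆ B = a ⋆ B) (h3 : e ⋆ A = A) : E = A :=
  h.o.fix (h.mem_of_cj hE he ha h1 h2) un_left he (fun k => h1 (h.o.eq_one ha (by rw [← h2, k, cj_one]))) h3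

theorem eq_one (hE : E ∈ S) (hz : z ∈ 𝒞 (A ⊔ B)) (ha : a ∈ A) (h1 : a ≠ 1) (he : z * a ∈ E) : z = 1 := by
  obtain ⟨h2, h3⟩ := cent_sup.1 hz
  obtain rfl := h.eq_of_cj hE he ha h1 (by rw [← h2 a ha, cj_mul, cj_of_cent h3]) (by rw [cj_mul, cj_eq_of_mem ha, cj_of_cent h2])
  exact h.o.eq_one ((mul_mem_cancel_right ha).1 he) (cj_of_cent h3)

end Om

theorem NI.mem (h : NI S A) : A ∈ S := h.choose_spec.l

theorem NI.cj (h : NI S A) (g : G) : NI S (g ⋆ A) := ⟨_, h.choose_spec.cj g⟩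

theorem NI.eq (h : NI S A) (hE : E ∈ S) (ha : a ∈ A) (he : a ∈ E) (h1 : a ≠ 1) : E = A :=
  h.choose_spec.eq_of_cj hE he ha h1 rfl (cj_eq_of_mem ha)

theorem ni_of (hS : IsRootSubgroupSet S) (hA : A ∈ S) (h : ¬ IsIsolatedIn (FAdj S) S A) : NI S A := by
  by_contra e
  exact h ⟨hA, fun B => ⟨fun k => e ⟨B, hS, k.1, k.2.1, k.2.2⟩, fun k => e ⟨B, hS, k.2.1, k.1, k.2.2.symm⟩⟩⟩

theorem NI.not_iso (h : NI S A) : ¬ IsIsolatedIn (FAdj S) S A := fun e =>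
  let ⟨B, h⟩ := h; (e.2 B).1 ⟨h.l, h.r, h.o⟩

namespace Ps

theorem inj (h : Ps S A B) (hB : NI S B) (ha : a ∈ A) (hb : b ∈ B) (e : a * b = b * a) (h1 : b ≠ 1) : a = 1 := by
  by_contra h2
  have h3 := hB.eq (h.rs.cj h.r a) hb (by simpa [e] using conj_mem_cj a hb) h1
  obtain ⟨c, hc, h4⟩ := h.rs.exists_ne h.m
  obtain ⟨d, hd, rfl⟩ := h.left ha h2 hc
  exact h4 (h.symm.eq_one (mul_mem (h3 ▸ conj_mem_cj a hd) (inv_mem hd)) (commutator_comm A B ▸ hc))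

theorem comm_eq (h1 : ⁅a, b⁆ = ⁅c, b⁆) : c⁻¹ * a * b = b * (c⁻¹ * a) := by
  rw [commutatorElement_def, commutatorElement_def, mul_left_inj, mul_inv_eq_iff_eq_mul] at h1
  rw [mul_assoc, h1]
  group

theorem eq_of_le (h : Ps S A B) (hB : NI S B) (hE : E ∈ S) (hle : E ≤ A) : E = A := by
  obtain ⟨e, he, h1⟩ := h.rs.exists_ne hE
  have h2 : ⁅E, B⁆ = ⁅A, B⁆ := le_antisymm (commutator_mono hle le_rfl) fun c hc => by
    obtain ⟨b, hb, rfl⟩ := h.left (hle he) h1 hc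
    exact commutator_mem_commutator he hb
  refine hle.antisymm fun a ha => ?_
  obtain ⟨b, hb, h3⟩ := h.rs.exists_ne h.r
  obtain ⟨c, hc, h4⟩ := Ps.right ⟨h.rs, hE, h.r, h2 ▸ h.m⟩ hb h3 (h2 ▸ commutator_mem_commutator ha hb)
  exact inv_mul_eq_one.1 (h.inj hB (mul_mem (inv_mem (hle hc)) ha) hb (comm_eq h4) h3) ▸ hc

variable (h : Ps S A B) (hA : NI S A)
include h hA

theorem eq_of_le' (hE : E ∈ S) (hle : E ≤ ⁅A, B⁆) : E = ⁅A, B⁆ := by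
  obtain ⟨D, hD⟩ := hA
  obtain ⟨c, hc, h1⟩ := h.rs.exists_ne h.m
  obtain k | k | k := h.rs.tri h.m hD.r
  · obtain ⟨a, ha, h2⟩ := h.rs.exists_ne h.l
    obtain k' | ⟨b, -, k'⟩ := h.mem_cj (mul_mem (mem_sup_right hc) (mem_sup_left ha))
    · exact absurd (h.eq_one ha ((mul_mem_cancel_left hc).1 k')) h2
    · exact absurd (hD.eq_one (h.rs.cj h.l b) (comm_iff.1 (csup' (cs h.cl) k) hc) ha h2 k') h1
  · obtain ⟨e, he, h2⟩ := h.rs.exists_ne hE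
    exact k.ni.eq hE (hle he) he h2
  · exact k.eq_of_le hD.symm.ni hE hle

theorem line (hE : E ∈ S) (hle : E ≤ A ⊔ ⁅A, B⁆) : E = ⁅A, B⁆ ∨ ∃ b ∈ B, E = b ⋆ A := by
  refine or_iff_not_imp_left.2 fun h1 => ?_
  obtain ⟨e, he, h2⟩ := SetLike.not_le_iff_exists.1 (mt (h.eq_of_le' hA hE) h1)
  obtain ⟨b, hb, h3⟩ := (h.mem_cj (hle he)).resolve_left h2
  exact ⟨b, hb, (hA.cj b).eq hE h3 he fun k => h2 (k ▸ one_mem _)⟩

theorem part : IsSubgroupPartition (A ⊔ ⁅A, B⁆) (membersIn S (A ⊔ ⁅A, B⁆)) := by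
  refine ⟨fun _ k => k.2, fun x hx _ => ?_, fun C hC D hD h1 => (eq_bot_iff_forall _).2 fun x hx => by_contra fun h2 => h1 ?_⟩
  · obtain k | ⟨b, hb, k⟩ := h.mem_cj hx
    exacts [⟨_, ⟨h.m, le_sup_right⟩, k⟩, ⟨_, ⟨h.rs.cj h.l b, h.cj_le hb⟩, k⟩]
  · obtain k | ⟨b, -, rfl⟩ := h.line hA hC.1 hC.2
    · obtain k' | ⟨b, -, rfl⟩ := h.line hA hD.1 hD.2
      exacts [k.trans k'.symm, (hA.cj b).eq hC.1 hx.2 hx.1 h2]
    · exact ((hA.cj b).eq hD.1 hx.1 hx.2 h2).symm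

theorem ln : Ln S A ⁅A, B⁆ := ⟨h.rs, h.l, ⟨h.m, h.ne.symm, h.cl⟩, h.part hA⟩

end Ps

namespace Ln

variable (h : Ln S A B)
include h

theorem r : B ∈ S := h.m.1.1

theorem ne : A ≠ B := h.m.1.2.1.symm

theorem comm : ⁅A, B⁆ = ⊥ := h.m.1.2.2

theorem ab (hP : P ≤ A ⊔ B) (hQ : Q ≤ A ⊔ B) : ⁅P, Q⁆ = ⊥ :=
  cmono (csup (csup' (h.rs.ab h.l) h.comm) (csup' (cs h.comm) (h.rs.ab h.r))) hP hQ

theorem point (hx : x ∈ A ⊔ B) (h1 : x ≠ 1) : ∃ P ∈ S, P ≤ A ⊔ B ∧ x ∈ P :=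
  let ⟨P, hP, k⟩ := h.m.2.2.1 x hx h1; ⟨P, hP.1, hP.2, k⟩

theorem eq (hP : P ∈ S) (hQ : Q ∈ S) (h1 : P ≤ A ⊔ B) (h2 : Q ≤ A ⊔ B) (h3 : x ∈ P) (h4 : x ∈ Q) (h5 : x ≠ 1) : P = Q :=
  by_contra fun k => h5 ((eq_bot_iff_forall _).1 (h.m.2.2.2 P ⟨hP, h1⟩ Q ⟨hQ, h2⟩ k) x ⟨h3, h4⟩)

theorem of_eq (hP : P ∈ S) (hQ : Q ∈ S) (h1 : P ≠ Q) (h2 : P ⊔ Q = A ⊔ B) : Ln S P Q :=
  ⟨h.rs, hP, ⟨hQ, h1.symm, h.ab (le_sup_left.trans_eq h2) (le_sup_right.trans_eq h2)⟩, h2 ▸ h.m.2⟩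

theorem symm : Ln S B A := h.of_eq h.r h.l h.ne.symm (sup_comm _ _)

theorem third : ∃ P ∈ S, P ≤ A ⊔ B ∧ P ≠ A ∧ P ≠ B := by
  obtain ⟨a, ha, h1⟩ := h.rs.exists_ne h.l
  obtain ⟨b, hb, h2⟩ := h.rs.exists_ne h.r
  obtain ⟨P, hP, h3, h4⟩ := h.point (mul_mem (mem_sup_left ha) (mem_sup_right hb)) fun e =>
    h.ne (h.eq h.l h.r le_sup_left le_sup_right ha (eq_inv_of_mul_eq_one_left e ▸ inv_mem hb) h1)
  refine ⟨P, hP, h3, ?_, ?_⟩ <;> rintro rfl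
  exacts [h.ne (h.eq h.l h.r le_sup_left le_sup_right ((mul_mem_cancel_left ha).1 h4) hb h2),
    h.ne (h.eq h.l h.r le_sup_left le_sup_right ha ((mul_mem_cancel_right hb).1 h4) h1)]

end Ln

end Agent.C3

end Cfsg
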