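/-
Quadratic pairs: the root subgroups `E(σ)` and the structure of a pair of them.
-/
import Cfsg.Agent.C3.QP2
import Cfsg.Agent.C3.QP3
import Cfsg.Agent.C3.RS

set_option autoImplicit false

namespace Cfsg.Agent.C3.QP

open Matrix Subgroup Module LinearMap Cfsg.Agent.H2 Cfsg.Agent.BG
open scoped MatrixGroups commutatorElement

universe u v

variable {k : Type u} [Field k] {M : Type v} [AddCommGroup M] [Module k M]
  {G H A B D U : Subgroup (LinearMap.GeneralLinearGroup k M)} {a a' b b' c n n' m r : End k M}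
  {g x σ : LinearMap.GeneralLinearGroup k M}

/-- The unit `1 + n`. -/
def un (h : n * n = 0) : LinearMap.GeneralLinearGroup k M :=
  ⟨1 + n, 1 - n, by simp [mul_sub, add_mul, h], by simp [mul_add, sub_mul, h]⟩

theorem un_val (h : n * n = 0) : (un h : End k M) = 1 + n := rfl

theorem un_inv (h : n * n = 0) : (↑(un h)⁻¹ : End k M) = 1 - n := rfl

theorem un_sub (h : n * n = 0) : (un h : End k M) - 1 = n := add_sub_cancel_left 1 n

theorem QN.mem (h : QN G n) (e : (g : End k M) = 1 + n) : g ∈ G :=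
  let ⟨_, h1, h2⟩ := h.2 1; Units.ext (h2.trans (by rw [one_smul, e])) ▸ h1

theorem sub_ne_iff : (g : End k M) - 1 ≠ 0 ↔ g ≠ 1 := sub_ne_zero.trans Units.val_eq_one.not

theorem inv_val (h : ((g : End k M) - 1) * (g - 1) = 0) : (↑g⁻¹ : End k M) = 1 - (g - 1) :=
  Units.inv_eq_of_mul_eq_one_right (by linear_combination (norm := noncomm_ring) -h)

theorem quad_iff : σ ∈ quadraticElements G ↔ QN G ((σ : End k M) - 1) ∧ (σ : End k M) - 1 ≠ 0 :=
  ⟨fun ⟨_, ⟨h1, h2⟩, h3⟩ => ⟨⟨h1, fun c => ⟨un (n := c • ((σ : End k M) - 1)) (by rw [smul_mul_smul_comm, h1, smul_zero]),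
    h3 ⟨c, rfl⟩, rfl⟩⟩, h2⟩, fun ⟨h1, h2⟩ => ⟨h1.mem (by simp), ⟨h1.1, h2⟩, fun _ ⟨c, e⟩ => (h1.smul c).mem e⟩⟩

theorem min_iff : σ ∈ minimalQuadraticElements G ↔ Min G ((σ : End k M) - 1) :=
  ⟨fun ⟨h1, h2⟩ => ⟨(quad_iff.1 h1).1, (quad_iff.1 h1).2, fun n h3 h4 =>
    (h2 (un h3.1) (quad_iff.2 (by rw [un_sub]; exact ⟨h3, h4⟩))).trans_eq (congrArg rk (un_sub h3.1))⟩,
    fun h => ⟨quad_iff.2 ⟨h.q, h.ne⟩, fun _ h1 => h.le _ (quad_iff.1 h1).1 (quad_iff.1 h1).2⟩⟩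

/-- Quadratic elements acting like `a`. -/
structure InE (G : Subgroup (LinearMap.GeneralLinearGroup k M)) (a n : End k M) : Prop where
  q : QN G n
  ran : range n ≤ range a
  ker : ker a ≤ ker n

theorem InE.mul0 (ha : a * a = 0) (h : InE G a n) (h' : InE G a m) : n * m = 0 :=
  mul_eq_zero_of_ker h.ker (mul_eq_zero_of_range h'.ran ha)

theorem InE.conj (h : InE G a n) (hg : g ∈ G) (e : (g : End k M) * a = a' * g) (e' : (g : End k M) * n = n' * g) : InE G a' n' := by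
  have h1 := g.isUnit
  refine ⟨h.q.conj hg e', ?_, fun y hy => ?_⟩
  · rintro _ ⟨y, rfl⟩
    obtain ⟨y, rfl⟩ := ((End.isUnit_iff _).1 h1).2 y
    obtain ⟨w, hw⟩ := h.ran ⟨y, rfl⟩
    exact ⟨_, (LinearMap.congr_fun e w).symm.trans ((congrArg _ hw).trans (LinearMap.congr_fun e' y))⟩
  · obtain ⟨y, rfl⟩ := ((End.isUnit_iff _).1 h1).2 y
    have h2 : n y = 0 := h.ker (((End.isUnit_iff _).1 h1).1 ((LinearMap.congr_fun e y).trans (hy.trans (map_zero _).symm)))
    exact (LinearMap.congr_fun e' y).symm.trans ((congrArg (g : End k M) h2).trans (map_zero _))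

/-- The space of the quadratic elements acting like `a`. -/
def ES (G : Subgroup (LinearMap.GeneralLinearGroup k M)) (ha : a * a = 0) : Submodule k (End k M) where
  carrier := {n | InE G a n}
  zero_mem' := ⟨QN.zero, by simp, by simp⟩
  add_mem' := fun h h' => ⟨h.q.add h'.q (h.mul0 ha h') (h'.mul0 ha h), (range_add_le _ _).trans (sup_le h.ran h'.ran),
    fun y hy => by rw [mem_ker, LinearMap.add_apply, h.ker hy, h'.ker hy, add_zero]⟩
  smul_mem' := fun c _ h => ⟨h.q.smul c, (range_smul_le_range _ _).trans h.ran, h.ker.trans (ker_le_ker_smul _ _)⟩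

theorem mem_aug_cj (h : a ∈ aug A) (e : (g : End k M) * a = m * g) : m ∈ aug (g ⋆ A) := by
  obtain rfl : m = g * a * ↑g⁻¹ := by rw [e, Units.mul_inv_cancel_right]
  refine (aug_le (J := (aug (g ⋆ A)).comap ((mulRight k (↑g⁻¹ : End k M)).comp (mulLeft k (g : End k M))))).2 (fun x hx => ?_) h
  simpa [mul_sub, sub_mul] using mem_aug (conj_mem_cj g hx)

theorem unip_triple {S : Set (End k M)} (hS : ∀ x ∈ S, ∀ y ∈ S, ∀ z ∈ S, x * y * z = 0) (hA : aug A ≤ Submodule.span k S)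
    (hB : aug B ≤ Submodule.span k S) : IsUnipotentOn (A ⊔ B) := by
  have h1 : Submodule.span k S * Submodule.span k S * Submodule.span k S = 0 := by
    rw [Submodule.span_mul_span, Submodule.span_mul_span, Submodule.zero_eq_bot, Submodule.span_eq_bot]
    rintro _ ⟨_, ⟨x, hx, y, hy, rfl⟩, z, hz, rfl⟩
    exact hS x hx y hy z hz
  generalize Submodule.span k S = K at *
  have h2 : (K + K * K) * (K + K * K) = K * K := by simp only [mul_add, add_mul, ← mul_assoc, h1, zero_mul, add_zero]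
  exact unip_of_le (J := K + K * K) (h2.trans_le le_sup_right) ⟨3, by
    rw [pow_succ, sq, h2, mul_add, ← mul_assoc, h1, zero_mul, add_zero]⟩ (hA.trans le_sup_left) (hB.trans le_sup_left)

theorem unip_not (h : IsUnipotentOn U) (hb : b ∈ aug U) (hn : n ∈ aug U) (e : a * b * n = a) : a = 0 := by
  obtain ⟨j, hj⟩ := unip_iff.1 h
  have h1 : ∀ i, a * (b * n) ^ i = a := fun i => by
    induction i with
    | zero => simp
    | succ i ih => rw [pow_succ, ← mul_assoc, ih, ← mul_assoc, e]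
  rw [← h1 j, show (b * n) ^ j = 0 from hj.le (Submodule.pow_mem_pow _ (aug_mul U (Submodule.mul_mem_mul hb hn)) j), mul_zero]

theorem aug_zpowers (h : ((g : End k M) - 1) * (g - 1) = 0) : aug (zpowers g) ≤ Submodule.span k {(g : End k M) - 1} := by
  have h1 : Submodule.span k {(g : End k M) - 1} * Submodule.span k {(g : End k M) - 1} = ⊥ := by
    rw [Submodule.span_mul_span, Set.singleton_mul_singleton, h, Submodule.span_zero_singleton]
  exact aug_le.2 (zpowers_le (H := grp _ (h1.trans_le bot_le) ⟨2, (sq _).trans h1⟩).2 (Submodule.mem_span_singleton_self _))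

/-- No nontrivial normal unipotent subgroups. -/
def NU (G : Subgroup (LinearMap.GeneralLinearGroup k M)) : Prop := ∀ U ≤ G, G ≤ 𝒩 U → IsUnipotentOn U → U = ⊥

theorem nu_of_irr (h : IsIrreducibleFor G) : NU G := fun U _ h2 h3 => by
  obtain ⟨⟨v, hv⟩, h⟩ := h
  have h1 : ∃ j, aug U ^ j = 0 := unip_iff.1 h3
  classical
  have h4 := Nat.find_spec h1
  have h5 := @Nat.find_min _ _ h1
  obtain h6 | h6 := h (fixedSubmodule U) fun g hg w hw => (Submodule.mem_iInf _).2 fun u => (Submodule.mem_iInf _).2 fun hu => by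
    have := (Submodule.mem_iInf _).1 ((Submodule.mem_iInf _).1 hw _) (H8.conj_mem_of_mem_normalizer' (h2 hg) hu)
    simp only [mem_ker, LinearMap.sub_apply, End.one_apply, sub_eq_zero] at this ⊢
    simpa [← End.mul_apply, ← mul_assoc] using congrArg (g : End k M) this
  · generalize Nat.find h1 = j at h4 h5
    obtain _ | j := j
    · exact absurd (LinearMap.congr_fun (show (1 : End k M) = 0 from h4.le (Submodule.one_le.1 (pow_zero _).ge)) v) hv
    refine absurd (eq_bot_iff.2 fun x hx => LinearMap.ext fun w => h6.le ((Submodule.mem_iInf _).2 fun u =>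
      (Submodule.mem_iInf _).2 fun hu => ?_)) (h5 j.lt_succ_self)
    exact LinearMap.congr_fun (show _ * x = 0 from h4.le (pow_succ' (aug U) j ▸ Submodule.mul_mem_mul (mem_aug hu) hx)) w
  · exact eq_bot_iff.2 fun u hu => Units.val_eq_one.1 (sub_eq_zero.1 (LinearMap.ext fun w =>
      (Submodule.mem_iInf _).1 ((Submodule.mem_iInf _).1 (h6.ge (Submodule.mem_top (x := w))) u) hu))

theorem unip_cj (h : IsUnipotentOn U) (g : LinearMap.GeneralLinearGroup k M) : IsUnipotentOn (g ⋆ U) := by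
  obtain ⟨j, hj⟩ := unip_iff.1 h
  let f : End k M ≃ₐ[k] End k M := MulSemiringAction.toAlgAut (ConjAct (End k M)ˣ) k (End k M) (ConjAct.toConjAct g)
  refine unip_iff.2 (nil_mono (K := (aug U).map f.toLinearMap) (aug_le.2 ?_) ⟨j, ?_⟩)
  · rintro _ ⟨x, hx, rfl⟩
    exact ⟨_, mem_aug hx, (map_sub f _ _).trans (by rw [map_one]; rfl)⟩
  · exact (Submodule.map_pow (aug U) (f : End k M →ₐ[k] End k M) j).symm.trans (by rw [hj]; exact Submodule.map_bot _)

section FD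

variable [FiniteDimensional k M]

theorem rk_mul (a b : End k M) : rk (a * b) + finrank k ↥(range b ⊓ ker a) = rk b := by
  rw [rk, rk, ← (a.domRestrict (range b)).finrank_range_add_finrank_ker, range_domRestrict, ker_domRestrict,
    ← Submodule.finrank_map_subtype_eq (range b) (Submodule.comap _ _), Submodule.map_comap_subtype, End.mul_eq_comp, range_comp]

theorem rk_mul_le (a b : End k M) : rk (a * b) ≤ rk a := Submodule.finrank_mono (range_comp_le_range b a)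

theorem rk_ker (a : End k M) : rk a + finrank k (ker a) = finrank k M := a.finrank_range_add_finrank_ker

theorem rk_pos (h : a ≠ 0) : 0 < rk a := Nat.pos_of_ne_zero fun e => h (range_eq_bot.1 (Submodule.finrank_eq_zero.1 e))

theorem Min.rk_eq (h : Min G a) (h' : Min G b) : rk a = rk b := (h.le _ h'.q h'.ne).antisymm (h'.le _ h.q h.ne)

theorem Min.of_le (h : Min G a) (h1 : QN G n) (h2 : n ≠ 0) (h3 : rk n ≤ rk a) : Min G n := ⟨h1, h2, fun m e e' => h3.trans (h.le m e e')⟩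

theorem Min.conj (h : Min G a) (hg : g ∈ G) (e : (g : End k M) * a = m * g) : Min G m :=
  h.of_le (h.q.conj hg e) (fun e' => h.ne (g.isUnit.mul_right_eq_zero.1 (by rw [e, e', zero_mul]))) (by
    have := rk_mul (g : End k M) a
    have := rk_mul_le ((g : End k M) * a) (g⁻¹ :)
    rw [e, Units.mul_inv_cancel_right, ← e] at this
    omega)

theorem Min.conj' (h : Min G n) (h' : QN G m) : Min G ((1 + m) * n * (1 - m)) :=
  h.conj (h'.mem (un_val h'.1)) (by rw [← un_inv h'.1, ← un_val h'.1, Units.inv_mul_cancel_right])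

theorem InE.min (hm : Min G a) (h : InE G a n) (h0 : n ≠ 0) : Min G n ∧ range n = range a ∧ LinearMap.ker n = LinearMap.ker a := by
  have h1 := hm.of_le h.q h0 (Submodule.finrank_mono h.ran)
  have := hm.rk_eq h1
  have := rk_ker a
  have := rk_ker n
  exact ⟨h1, Submodule.eq_of_le_of_finrank_le h.ran (hm.le _ h.q h0), (Submodule.eq_of_le_of_finrank_le h.ker (by omega)).symm⟩

theorem mem_sas (hm : Min G ((σ : End k M) - 1)) : g ∈ sameActionSubgroup G σ ↔ InE G ((σ : End k M) - 1) ((g : End k M) - 1) := by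
  have h1 : ES G hm.q.1 * ES G hm.q.1 = ⊥ := eq_bot_iff.2 (Submodule.mul_le.2 fun _ h _ h' => InE.mul0 hm.q.1 h h')
  refine ⟨fun h => (closure_le (grp _ (h1.trans_le bot_le) ⟨2, (sq _).trans h1⟩)).2 (fun τ h => ?_) h, fun h => ?_⟩
  · exact ⟨(min_iff.1 h.1).q, h.2.2.le, h.2.1.ge⟩
  obtain rfl | e := eq_or_ne g 1
  · exact one_mem _
  · have := h.min hm (sub_ne_iff.2 e)
    exact subset_closure ⟨min_iff.2 this.1, this.2.2, this.2.1⟩

/-- Membership in `Σ(G)`. -/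
def Rt (G A : Subgroup (LinearMap.GeneralLinearGroup k M)) : Prop := A ∈ quadraticRootSubgroups G

theorem aug_sas (hm : Min G ((σ : End k M) - 1)) : n ∈ aug (sameActionSubgroup G σ) ↔ InE G ((σ : End k M) - 1) n :=
  ⟨fun h => (aug_le (J := ES G hm.q.1)).2 (fun _ => (mem_sas hm).1) h, fun h => un_sub h.q.1 ▸ mem_aug ((mem_sas hm).2 ((un_sub h.q.1).symm ▸ h))⟩

theorem Min.rt (h : Min G a) : ∃ A, Rt G A ∧ a ∈ aug A := by
  have h1 : Min G ((un h.q.1 : End k M) - 1) := (un_sub h.q.1).symm ▸ h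
  exact ⟨_, ⟨_, min_iff.2 h1, rfl⟩, (aug_sas h1).2 ((un_sub h.q.1).symm ▸ ⟨h.q, le_rfl, le_rfl⟩)⟩

namespace Rt

variable (hA : Rt G A)
include hA

theorem mem_iff : g ∈ A ↔ (g : End k M) - 1 ∈ aug A := by
  obtain ⟨σ, h, rfl⟩ := hA
  rw [aug_sas (min_iff.1 h), mem_sas (min_iff.1 h)]

theorem ex : ∃ a ∈ aug A, a ≠ 0 := by
  obtain ⟨σ, h, rfl⟩ := hA
  exact ⟨_, (aug_sas (min_iff.1 h)).2 ⟨(min_iff.1 h).q, le_rfl, le_rfl⟩, (min_iff.1 h).ne⟩

theorem min (ha : a ∈ aug A) (h0 : a ≠ 0) : Min G a := by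
  obtain ⟨σ, h, rfl⟩ := hA
  exact (((aug_sas (min_iff.1 h)).1 ha).min (min_iff.1 h) h0).1

theorem aug_iff (ha : a ∈ aug A) (h0 : a ≠ 0) : n ∈ aug A ↔ InE G a n := by
  obtain ⟨σ, h, rfl⟩ := hA
  obtain ⟨-, h1, h2⟩ := ((aug_sas (min_iff.1 h)).1 ha).min (min_iff.1 h) h0
  rw [aug_sas (min_iff.1 h)]
  exact ⟨fun e => ⟨e.q, h1 ▸ e.ran, h2 ▸ e.ker⟩, fun e => ⟨e.q, h1 ▸ e.ran, h2 ▸ e.ker⟩⟩

theorem qn (ha : a ∈ aug A) : QN G a := let ⟨_, h1, h2⟩ := hA.ex; ((hA.aug_iff h1 h2).1 ha).q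

theorem mul0 (ha : a ∈ aug A) (ha' : a' ∈ aug A) : a * a' = 0 :=
  let ⟨_, h1, h2⟩ := hA.ex; ((hA.aug_iff h1 h2).1 ha).mul0 (hA.qn h1).1 ((hA.aug_iff h1 h2).1 ha')

theorem mem (ha : a ∈ aug A) (e : (g : End k M) = 1 + a) : g ∈ A := hA.mem_iff.2 (by rwa [e, add_sub_cancel_left])

theorem qn' (ha : a ∈ aug A) : QN A a := ⟨hA.mul0 ha ha, fun c =>
  ⟨_, hA.mem ((aug A).smul_mem c ha) rfl, un_val (hA.mul0 ((aug A).smul_mem c ha) ((aug A).smul_mem c ha))⟩⟩

theorem le : A ≤ G := fun _ h => (hA.qn (mem_aug h)).mem (by simp)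

theorem ext (hB : Rt G B) (ha : a ∈ aug A) (hb : a ∈ aug B) (h0 : a ≠ 0) : A = B :=
  Subgroup.ext fun _ => by rw [hA.mem_iff, hB.mem_iff, hA.aug_iff ha h0, hB.aug_iff hb h0]

theorem left (ha : a ∈ aug A) (h0 : a ≠ 0) (ha' : a' ∈ aug A) (e : r * a = 0) : r * a' = 0 :=
  mul_eq_zero_of_range ((hA.aug_iff ha h0).1 ha').ran e

theorem right (ha : a ∈ aug A) (h0 : a ≠ 0) (ha' : a' ∈ aug A) (e : a * r = 0) : a' * r = 0 :=
  mul_eq_zero_of_ker ((hA.aug_iff ha h0).1 ha').ker e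

theorem cj (hg : g ∈ G) : Rt G (g ⋆ A) := by
  have l : ∀ {A B g a m}, Rt G A → Rt G B → g ∈ G → a ∈ aug A → m ∈ aug B → a ≠ 0 → (g : End k M) * a = m * g → g ⋆ A ≤ B :=
    fun {A B g a m} hA hB hg ha hm h0 e => cj_le_iff_forall.2 fun x hx => hB.mem_iff.2 ((hB.aug_iff hm ((hA.min ha h0).conj hg e).ne).2
      (((hA.aug_iff ha h0).1 (mem_aug hx)).conj hg e (by simp [mul_sub, sub_mul])))
  obtain ⟨a, ha, h0⟩ := hA.ex
  have e : (g : End k M) * a = g * a * ↑g⁻¹ * g := by simp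
  have h1 := (hA.min ha h0).conj hg e
  obtain ⟨B, hB, hb⟩ := h1.rt
  rwa [(l hA hB hg ha hb h0 e).antisymm (le_cj_iff.2 (l hB hA (inv_mem hg) hb ha h1.ne (by simp [← mul_assoc])))]

theorem cm (hg : g ∈ A) (hx : x ∈ A) : g * x = x * g := Units.ext (by
  have h1 := hA.mul0 (mem_aug hg) (mem_aug hx)
  have h2 := hA.mul0 (mem_aug hx) (mem_aug hg)
  simp only [Units.val_mul]
  linear_combination (norm := noncomm_ring) h1 - h2)

theorem ab : ⁅A, A⁆ = ⊥ := H8.commutator_eq_bot_iff_forall.2 fun _ h _ h' => hA.cm h h'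

theorem exists_ne : ∃ g ∈ A, g ≠ 1 :=
  let ⟨_, h1, h2⟩ := hA.ex; ⟨un (hA.qn h1).1, hA.mem h1 rfl, sub_ne_iff.1 (by rwa [un_sub])⟩

theorem ne_bot : A ≠ ⊥ := fun e => let ⟨_, h1, h2⟩ := hA.exists_ne; h2 (e.le h1)

theorem fixed (ha : a ∈ aug A) (h0 : a ≠ 0) : fixedSubmodule A = ker a ∧ commutatorSubmodule A = range a := by
  have h1 := hA.mem ha (un_val (hA.qn ha).1)
  exact ⟨(iInf₂_le_of_le _ h1 (by rw [un_sub])).antisymm (le_iInf₂ fun g hg => ((hA.aug_iff ha h0).1 (mem_aug hg)).ker),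
    (iSup₂_le fun g hg => ((hA.aug_iff ha h0).1 (mem_aug hg)).ran).antisymm (le_iSup₂_of_le _ h1 (by rw [un_sub]))⟩

end Rt

theorem finrank_aug_cj (g : LinearMap.GeneralLinearGroup k M) (A : Subgroup (LinearMap.GeneralLinearGroup k M)) :
    finrank k (aug (g ⋆ A)) ≤ finrank k (aug A) :=
  (Submodule.finrank_mono (aug_le.2 (by
    rintro _ ⟨x, hx, rfl⟩
    exact ⟨_, mem_aug hx, by simp [mul_sub, sub_mul]⟩))).trans
    (Submodule.finrank_map_le ((mulRight k (↑g⁻¹ : End k M)).comp (mulLeft k (g : End k M))) (aug A))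

theorem NU.baer (h : NU G) {W : Set (Subgroup (LinearMap.GeneralLinearGroup k M))} (hWG : ∀ A ∈ W, A ≤ G)
    (hc : ∀ A ∈ W, ∀ g ∈ G, g ⋆ A ∈ W) (hW : ∀ A ∈ W, ∀ B ∈ W, IsUnipotentOn (A ⊔ B)) (hA : A ∈ W) : A = ⊥ :=
  le_bot_iff.1 ((le_biSup (fun A => A) hA).trans_eq (h _ (iSup₂_le hWG) (fun g hg => mem_normalizer_iff_cj.2
    (cj_biSup (fun A hA => hc A hA g hg) fun A hA => hc A hA _ (inv_mem hg))) (QP.baer hWG hc hW)))

theorem NU.of_norm (h : NU G) (h1 : H ≤ G) (h2 : G ≤ 𝒩 H) : NU H := fun U h3 h4 h5 =>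
  h.baer (W := {U | U ≤ H ∧ H ≤ 𝒩 U ∧ IsUnipotentOn U}) (fun _ e => e.1.trans h1) (fun _ e g hg =>
    ⟨(cj_mono g e.1).trans_eq (cj_eq_of_mem_normalizer (h2 hg)),
      (cj_eq_of_mem_normalizer (h2 hg)).ge.trans ((cj_mono g e.2.1).trans_eq (cj_normalizer g _)), unip_cj e.2.2 g⟩)
    (fun _ e _ e' => unip_sup e.2.2 e'.2.2 (e'.1.trans e.2.1)) ⟨h3, h4, h5⟩

theorem NU.zero (h : NU G) {P : Set (End k M)} (h1 : ∀ s ∈ P, QN G s) (h2 : ∀ s ∈ P, ∀ g ∈ G, (g : End k M) * s * ↑g⁻¹ ∈ P)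
    (h3 : ∀ s ∈ P, ∀ t ∈ P, s * t * s = 0) (ha : a ∈ P) : a = 0 := by
  have := h.baer (W := zpowers '' {g | (g : End k M) - 1 ∈ P}) (A := zpowers (un (h1 a ha).1)) ?_ ?_ ?_ ⟨_, by simpa [un_sub], rfl⟩
  · rw [← un_sub (h1 a ha).1, zpowers_eq_bot.1 this, Units.val_one, sub_self]
  · rintro _ ⟨x, hx, rfl⟩
    exact zpowers_le.2 ((h1 _ hx).mem (by simp))
  · rintro _ ⟨x, hx, rfl⟩ g hg
    exact ⟨_, by simpa [mul_sub, sub_mul] using h2 _ hx g hg, (cj_zpowers g x).symm⟩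
  · rintro _ ⟨x, hx, rfl⟩ _ ⟨y, hy, rfl⟩
    refine unip_triple (S := {(x : End k M) - 1, (y : End k M) - 1}) ?_ ((aug_zpowers (h1 _ hx).1).trans (Submodule.span_mono (by simp)))
      ((aug_zpowers (h1 _ hy).1).trans (Submodule.span_mono (by simp)))
    rintro _ (rfl | rfl) _ (rfl | rfl) _ (rfl | rfl) <;> first
      | exact h3 _ ‹_› _ ‹_› | exact h3 _ hx _ hy | simp only [(h1 _ hx).1, (h1 _ hy).1, zero_mul]
      | simp only [mul_assoc, (h1 _ hx).1, (h1 _ hy).1, mul_zero]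

end FD

end Cfsg.Agent.C3.QP
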