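/-
McLaughlin's theorem: the components of the system of transvections of a linear group.
-/
import Cfsg.Agent.C3.McL
import Cfsg.Agent.C3.QP4
import Cfsg.Agent.H4.Lin
import Cfsg.Agent.H4.Symp

set_option autoImplicit false

namespace Cfsg.Agent.C3

open Module Cfsg.Agent.H4 Cfsg.Agent.C3.QP

variable {k V : Type*} [Field k] [AddCommGroup V] [Module k V] {T : Dual k V → V → Prop} {φ φ' ψ χ : Dual k V} {u v w x : V}
  {a b : Dual k V × V}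

/-- The span of the centres. -/
def WT (T : Dual k V → V → Prop) : Submodule k V := .span k {v | ∃ φ, Nz T φ v}

/-- The span of the axes. -/
def FT (T : Dual k V → V → Prop) : Submodule k (Dual k V) := .span k {φ | ∃ v, Nz T φ v}

/-- The group generated by the transvections. -/
noncomputable def KT (T : Dual k V → V → Prop) : Subgroup (V ≃ₗ[k] V) := .closure {g | ∃ φ v, Nz T φ v ∧ g = dt φ v}

theorem Nz.mw (h : Nz T φ v) : v ∈ WT T := Submodule.subset_span ⟨φ, h⟩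

theorem Nz.mf (h : Nz T φ v) : φ ∈ FT T := Submodule.subset_span ⟨v, h⟩

theorem Nz.mk' (h : Nz T φ v) : dt φ v ∈ KT T := Subgroup.subset_closure ⟨φ, v, h, rfl⟩

theorem KT_le {M : Subgroup (V ≃ₗ[k] V)} (h : ∀ φ v, Nz T φ v → dt φ v ∈ M) : KT T ≤ M :=
  (Subgroup.closure_le _).2 fun _ ⟨φ, v, e, e'⟩ => e' ▸ h φ v e

theorem WT_zero (h : ∀ χ u, Nz T χ u → φ u = 0) (hx : x ∈ WT T) : φ x = 0 :=
  (Submodule.span_le (p := LinearMap.ker φ)).2 (fun _ e => e.elim fun _ e => h _ _ e) hx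

theorem mem_co : x ∈ (FT T).dualCoannihilator ↔ ∀ χ u, Nz T χ u → χ x = 0 :=
  (Submodule.mem_dualCoannihilator x).trans ⟨fun h _ _ e => h _ e.mf, fun h _ e =>
    (Submodule.span_le (p := LinearMap.ker (Dual.eval k V x))).2 (fun _ e => e.elim fun _ e => h _ _ e) e⟩

theorem nz_or (h : T φ v) : Nz T φ v ∨ φ = 0 ∨ v = 0 := by
  by_contra! e
  exact e.1 ⟨h, e.2.1, e.2.2⟩

theorem KT_fix : KT T ≤ fixSub (FT T).dualCoannihilator := KT_le fun _ v h _ hx => dt_fix v (mem_co.1 hx _ _ h)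

theorem TC.dich (a : Dual k V × V) (h : Nz T ψ w) :
    Nz (TC T a) ψ w ∨ (∀ x ∈ WT (TC T a), ψ x = 0) ∧ w ∈ (FT (TC T a)).dualCoannihilator :=
  or_iff_not_imp_left.2 fun e => ⟨fun _ => WT_zero fun _ _ l => by_contra fun l' => e ⟨TC.step l h.t (.inr l'), h.l, h.r⟩,
    mem_co.2 fun _ _ l => by_contra fun l' => e ⟨TC.step l h.t (.inl l'), h.l, h.r⟩⟩

theorem TC.eq (h : Nz (TC T a) φ v) (h' : Nz (TC T b) φ v) : TC T a = TC T b := by
  have l : ∀ {a b ψ w}, Nz (TC T a) φ v → Nz (TC T b) φ v → TC T a ψ w → TC T b ψ w := fun h h' e =>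
    ⟨e.1, fun e1 e2 => ⟨(TC.nz.1 h').2.1, ((TC.nz.1 h').2.2.trans (Adj.re_symm (TC.nz.1 h).2.2)).trans (e.2 e1 e2).2⟩⟩
  exact funext₂ fun _ _ => propext ⟨l h h', l h' h⟩

theorem TC.perp (h : TC T a ≠ TC T b) : WT (TC T a) ≤ (FT (TC T b)).dualCoannihilator :=
  Submodule.span_le.2 fun _ ⟨_, e⟩ => ((TC.dich b (TC.nz.1 e).1).resolve_left fun e' => h (TC.eq e e')).2

theorem TC.self (h : Nz T φ v) : Nz (TC T (φ, v)) φ v := TC.nz.2 ⟨h, h, .refl⟩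

namespace TS

variable (h : TS T) (hc : ∀ (P : Dual k V → V → Prop) {φ v ψ w}, Nz T φ v → P φ v →
  (∀ φ v ψ w, Nz T φ v → Nz T ψ w → φ w ≠ 0 ∨ ψ v ≠ 0 → P φ v → P ψ w) → Nz T ψ w → P ψ w) (h2 : (2 : k) ≠ 0)
  (hr : ∀ {φ v ψ w}, T φ v → T ψ w → φ w = 0 → ψ v = 0 → (∀ χ x, Nz T χ x → χ v = χ w ∧ φ x = ψ x) → ∀ y, φ y • v = ψ y • w)
include h hc h2 hr

theorem struct : (∀ v ∈ WT T, v ≠ 0 → ∃ φ, Nz T φ v) ∧ (∀ φ ∈ FT T, φ ≠ 0 → ∃ v, Nz T φ v) ∧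
    ((∀ φ ∈ FT T, ∀ v ∈ WT T, φ v = 0 → T φ v) ∨ ∃ σ : WT T →ₗ[k] Dual k V, (∀ v w : WT T, σ v w = -σ w v) ∧
      (∀ v : WT T, T (σ v) v) ∧ ∀ ψ w (e : Nz T ψ w), ∃ c : k, ψ = c • σ ⟨w, e.mw⟩) := by
  by_cases hs : ∀ φ v ψ w, Nz T φ v → Nz T ψ w → ψ v = 0 → φ w = 0
  · obtain ⟨L, h3, h4, h5⟩ := h.caseA hc hs h2 hr
    have l1 : WT T ≤ LinearMap.range (LinearMap.snd k _ _ ∘ₗ L.subtype) := Submodule.span_le.2 fun w ⟨ψ, e⟩ =>
      let ⟨_, _, e'⟩ := h5 ψ w e; ⟨⟨_, e'⟩, rfl⟩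
    have l2 : FT T ≤ L.map (LinearMap.fst k _ _) := Submodule.span_le.2 fun ψ ⟨w, e⟩ =>
      let ⟨c, c0, e'⟩ := h5 ψ w e; ⟨_, L.smul_mem c⁻¹ e', by simp [c0]⟩
    have l3 : Function.Injective (LinearMap.snd k _ _ ∘ₗ L.subtype) := (injective_iff_map_eq_zero _).2 fun a e =>
      Subtype.ext ((h3 _ a.2).resolve_left fun e' => e'.r e)
    let τ := (LinearEquiv.ofInjective _ l3).symm.toLinearMap ∘ₗ Submodule.inclusion l1
    have l4 : ∀ v : WT T, (τ v).1.2 = v := fun v => congrArg Subtype.val ((LinearEquiv.ofInjective _ l3).apply_symm_apply ⟨v, l1 v.2⟩)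
    refine ⟨fun v hv e => ⟨_, l4 ⟨v, hv⟩ ▸ (h3 _ (τ ⟨v, hv⟩).2).resolve_right fun e' => e ((l4 ⟨v, hv⟩).symm.trans (congrArg Prod.snd e'))⟩,
      fun φ hφ e => ?_, .inr ⟨LinearMap.fst k _ _ ∘ₗ L.subtype ∘ₗ τ, fun v w => l4 v ▸ l4 w ▸ h4 _ (τ v).2 _ (τ w).2,
      fun v => l4 v ▸ (h3 _ (τ v).2).elim (·.t) fun e => ?_, fun ψ w e => ?_⟩⟩
    · obtain ⟨a, ha, rfl⟩ := l2 hφ
      exact ⟨_, (h3 a ha).resolve_right fun e' => e (congrArg Prod.fst e')⟩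
    · exact (congrArg Prod.snd e).symm ▸ h.zr _
    · obtain ⟨c, c0, e'⟩ := h5 ψ w e
      refine ⟨c⁻¹, (eq_inv_smul_iff₀ c0).2 (congrArg (·.1.1) (l3 (a₁ := ⟨_, e'⟩) (l4 ⟨w, e.mw⟩).symm))⟩
  have h3 := fun φ v χ u => h.caseB hc (φ := φ) (v := v) (χ := χ) (u := u) hs
  have l1 : ∀ v ∈ WT T, v ≠ 0 → ∃ φ, Nz T φ v := fun v hv => by
    induction hv using Submodule.span_induction with
    | mem v e => exact fun _ => e
    | zero => exact fun e => absurd rfl e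
    | smul c v _ e => exact fun e' => let ⟨φ, l⟩ := e (right_ne_zero_of_smul e'); ⟨φ, h.sr c l.t, l.l, e'⟩
    | add v w _ _ e e' =>
      intro l
      obtain rfl | hv := eq_or_ne v 0
      · simpa using e' (by simpa using l)
      obtain rfl | hw := eq_or_ne w 0
      · simpa using e hv
      obtain ⟨φ, e⟩ := e hv
      obtain ⟨ψ, e'⟩ := e' hw
      by_cases l' : φ w = 0
      · exact ⟨φ, h.ar e.t (h3 _ _ _ _ e e' l'), e.l, l⟩
      · exact ⟨_, by simpa [l', add_comm] using h.cj_nz e.t e' (φ w)⁻¹⟩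
  have l2 : ∀ φ ∈ FT T, φ ≠ 0 → ∃ v, Nz T φ v := fun φ hφ => by
    induction hφ using Submodule.span_induction with
    | mem v e => exact fun _ => e
    | zero => exact fun e => absurd rfl e
    | smul c v _ e => exact fun e' => let ⟨φ, l⟩ := e (right_ne_zero_of_smul e'); ⟨φ, h.sl c l.t, e', l.r⟩
    | add φ ψ _ _ e e' =>
      intro l
      obtain rfl | hv := eq_or_ne φ 0
      · simpa using e' (by simpa using l)
      obtain rfl | hw := eq_or_ne ψ 0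
      · simpa using e hv
      obtain ⟨v, e⟩ := e hv
      obtain ⟨w, e'⟩ := e' hw
      by_cases l' : ψ v = 0
      · exact ⟨v, h.al e.t (h3 _ _ _ _ e' e l'), l, e.r⟩
      · refine ⟨w + (-(ψ v)⁻¹ * φ w) • v, ?_⟩
        convert h.cj_nz e.t e' (-(ψ v)⁻¹) using 1
        ext
        simp [l', add_comm]
  refine ⟨l1, l2, .inl fun φ hφ v hv e => ?_⟩
  obtain rfl | e1 := eq_or_ne φ 0
  · exact h.zl v
  obtain rfl | e2 := eq_or_ne v 0
  · exact h.zr φ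
  obtain ⟨_, e3⟩ := l1 v hv e2
  obtain ⟨_, e4⟩ := l2 φ hφ e1
  exact h3 _ _ _ _ e4 e3 e

variable [FiniteDimensional k V]

theorem induce : IsCompl (WT T) (FT T).dualCoannihilator ∧ ∃ ρ : KT T →* (WT T ≃ₗ[k] WT T), (∀ g v, (ρ g v : V) = (g : V ≃ₗ[k] V) v) ∧
    ((ρ.range : Set (WT T ≃ₗ[k] WT T)) = {f : WT T ≃ₗ[k] WT T | LinearMap.det (f : WT T →ₗ[k] WT T) = 1} ∨
      ∃ B : LinearMap.BilinForm k (WT T), B.IsAlt ∧ B.Nondegenerate ∧
        (ρ.range : Set (WT T ≃ₗ[k] WT T)) = {f : WT T ≃ₗ[k] WT T | ∀ x y, B (f x) (f y) = B x y}) := by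
  obtain ⟨h3, h4, h5⟩ := h.struct hc h2 hr
  have l1 : ∀ v ∈ WT T, v ∈ (FT T).dualCoannihilator → v = 0 := fun v hv e => by_contra fun e' =>
    let ⟨_, l⟩ := h3 v hv e'; let ⟨_, _, l1, l2, l3⟩ := h.part l; l3 (mem_co.1 e _ _ (.of l1 l3 l2))
  let β : FT T →ₗ[k] WT T →ₗ[k] k := (WT T).dualRestrict ∘ₗ (FT T).subtype
  have l2 : Function.Injective β := (injective_iff_map_eq_zero _).2 fun φ e => Subtype.ext (by_contra fun e' =>
    let ⟨_, l⟩ := h4 _ φ.2 e'; let ⟨_, w, l1, l2, l3⟩ := h.part l; l2 (LinearMap.congr_fun e ⟨w, (Nz.of l1 l3 l2).mw⟩))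
  have l3 : Function.Surjective β := (LinearMap.flip_injective_iff₂ (V₁ := FT T) (V₂ := WT T)).1 ((injective_iff_map_eq_zero β.flip).2 fun v e => Subtype.ext
    (l1 _ v.2 ((Submodule.mem_dualCoannihilator _).2 fun φ hφ => LinearMap.congr_fun e ⟨φ, hφ⟩)))
  have l4 : KT T ≤ stab (WT T) := KT_le fun _ _ e => dt_mem_stab_of_mem _ e.mw
  let ρ := (resHom (WT T)).comp (Subgroup.inclusion l4)
  have l5 : ∀ {φ} {v : WT T}, T φ v → ∃ g : KT T, g.1 = dt φ v ∧ ρ g = dt (φ ∘ₗ (WT T).subtype) v := fun {φ v} e => by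
    have e1 : dt φ v.1 ∈ KT T := by
      obtain e | rfl | e := nz_or e
      exacts [e.mk', (show 1 = dt (0 : Dual k V) v.1 by ext; simp [dt_apply]) ▸ one_mem _, (show 1 = dt φ v.1 by ext; simp [dt_apply, e]) ▸ one_mem _]
    exact ⟨⟨_, e1⟩, rfl, LinearEquiv.ext fun x => Subtype.ext ((dt_apply (h.inc e) _).trans (by rw [dt_apply (by exact h.inc e)]; rfl))⟩
  have l6 : ∀ M : Subgroup (WT T ≃ₗ[k] WT T), (∀ φ v (e : Nz T φ v), dt (φ ∘ₗ (WT T).subtype) ⟨v, e.mw⟩ ∈ M) → ρ.range ≤ M := fun M hM => by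
    rintro _ ⟨g, rfl⟩
    obtain ⟨g', e, e'⟩ := KT_le (M := (M.comap ρ).map (KT T).subtype) (fun φ v e => let ⟨g, e1, e2⟩ := l5 (v := ⟨v, e.mw⟩) e.t
      ⟨g, show ρ g ∈ M from e2 ▸ hM φ v e, e1⟩) g.2
    exact Subtype.ext e' ▸ e
  refine ⟨⟨Submodule.disjoint_def.2 l1, codisjoint_iff_le_sup.2 fun x _ => ?_⟩, ρ, fun _ _ => rfl, h5.imp (fun h5 => ?_) ?_⟩
  · obtain ⟨w, e⟩ := (LinearMap.flip_surjective_iff₁ (V₁ := FT T) (V₂ := WT T)).2 l2 (Dual.eval k V x ∘ₗ (FT T).subtype)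
    exact add_sub_cancel w.1 x ▸ Submodule.add_mem_sup w.2 ((Submodule.mem_dualCoannihilator _).2 fun φ hφ =>
      (map_sub φ _ _).trans (sub_eq_zero.2 (LinearMap.congr_fun e ⟨φ, hφ⟩).symm))
  · rw [(l6 _ fun φ v e => dt_mem_SLg (h.inc e.t)).antisymm (SLg_le_of_tr fun φ v e => ?_)]
    · exact Set.ext fun f => mem_SLg.trans (Units.ext_iff.trans (by simp))
    · obtain ⟨φ, rfl⟩ := l3 φ
      exact let ⟨g, _, e⟩ := l5 (h5 _ φ.2 _ v.2 e); ⟨g, e⟩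
  rintro ⟨σ, s1, s2, s3⟩
  let f : CForm (FType.symp k) (WT T) := ⟨((WT T).dualRestrict ∘ₗ σ).flip, fun _ => 0, fun x y => (s1 x y).trans (neg_one_mul _).symm,
    fun _ _ => by simp, fun _ _ => by simp, fun x => (h.inc (s2 x)).trans (zero_mul _).symm, fun _ => ⟨0, rfl⟩⟩
  have hf : f.Nondeg := fun x e => Subtype.ext (l1 _ x.2 (mem_co.2 fun χ u l => let ⟨c, e'⟩ := s3 χ u l; by
    rw [e', LinearMap.smul_apply, show σ ⟨u, l.mw⟩ x = 0 from e _, smul_zero]))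
  refine ⟨((WT T).dualRestrict ∘ₗ σ).flip, fun x => h.inc (s2 x), ⟨hf, fun x e => hf x fun y => f.B_zero_symm (e y)⟩, ?_⟩
  rw [(l6 f.iso fun φ v e => ?_).antisymm (hf.symp_iso_le fun p c => ?_)]
  · exact Set.ext fun g => ⟨fun e => e.1, fun e => ⟨e, fun _ => rfl⟩⟩
  · obtain ⟨c, e'⟩ := s3 φ v e
    have := CForm.symp_tv_mem_iso (f := f) ⟨v, e.mw⟩ c
    rw [f.tv_eq_dt] at this
    exact (congrArg (fun φ => dt (φ ∘ₗ (WT T).subtype) ⟨v, e.mw⟩) e').symm ▸ this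
  · exact let ⟨g, _, e⟩ := l5 (h.sl c (s2 p)); ⟨g, e.trans (f.tv_eq_dt p c).symm⟩

end TS

/-- The transvections of a linear group. -/
def TH (H : Subgroup (V ≃ₗ[k] V)) (φ : Dual k V) (v : V) : Prop := φ v = 0 ∧ dt φ v ∈ H

variable {H : Subgroup (V ≃ₗ[k] V)} (hs : ∀ {φ v} (c : k), TH H φ v → TH H (c • φ) v)
include hs

theorem TH.qn (h : TH H φ v) : QN (H.comap (LinearMap.GeneralLinearGroup.generalLinearEquiv k V).toMonoidHom) (φ.smulRight v) :=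
  ⟨LinearMap.ext fun x => by simp [h.1], fun c => ⟨(LinearMap.GeneralLinearGroup.generalLinearEquiv k V).symm (dt (c • φ) v),
    by simpa using (hs c h).2, LinearMap.ext fun x => (dt_apply (hs c h).1 x).trans (by simp [smul_smul])⟩⟩

variable [FiniteDimensional k V] (hn : NU (H.comap (LinearMap.GeneralLinearGroup.generalLinearEquiv k V).toMonoidHom))
include hn

theorem ts_TH : TS (TH H) := by
  have l : ∀ {φ : Dual k V} {v : V} {g : V ≃ₗ[k] V}, g ∈ H → TH H φ v → TH H (φ ∘ₗ (g⁻¹ : V ≃ₗ[k] V).toLinearMap) (g v) := fun hg e => ⟨by simpa using e.1, dt_mem_of_conj hg e.2⟩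
  refine ⟨fun e => e.1, fun v => ⟨rfl, (show 1 = dt (0 : Dual k V) v by ext; simp [dt_apply]) ▸ one_mem _⟩,
    fun φ => ⟨map_zero _, (show 1 = dt φ 0 by ext; simp [dt_apply]) ▸ one_mem _⟩, hs, fun {φ v} c e => ⟨by simp [e.1], dt_smul c φ v ▸ (hs c e).2⟩,
    fun e e' => ⟨by simp [e.1, e'.1], dt_add_left e.1 e'.1 ▸ mul_mem e.2 e'.2⟩,
    fun e e' => ⟨by simp [e.1, e'.1], dt_add_right e.1 e'.1 ▸ mul_mem e.2 e'.2⟩, fun {φ v ψ w} e e' => ?_, fun {φ v} e => ?_⟩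
  · convert l e.2 e' using 1
    exacts [LinearMap.ext fun x => (congrArg ψ (dt_inv_apply e.1 x)).trans (by simp [mul_comm]) |>.symm, (dt_apply e.1 w).symm]
  by_contra! e'
  have := hn.zero (P := {s | ∃ φ v, TH H φ v ∧ s = φ.smulRight v ∧ ∀ ψ w, TH H ψ w → φ w ≠ 0 → ψ v = 0})
    (fun _ ⟨_, _, e, e', _⟩ => e' ▸ e.qn hs) (fun _ ⟨φ, v, e1, e2, e3⟩ g hg => ⟨_, _, l hg e1, by rw [e2]; ext; simp; rfl, fun ψ w e e' =>
      e3 _ _ (l (inv_mem hg) e) e'⟩) (fun _ ⟨φ, v, _, e2, e3⟩ _ ⟨ψ, w, e4, e5, _⟩ => LinearMap.ext fun x => by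
        by_cases e : φ w = 0 <;> simp [e2, e5, e, e3 ψ w e4]) ⟨φ, v, e.t, rfl, e'⟩
  exact e.l (LinearMap.ext fun x => (smul_eq_zero.1 (LinearMap.congr_fun this x)).resolve_right e.r)

omit hs hn in
theorem KT_le_stab (a : Dual k V × V) : KT T ≤ stab (WT (TC T a)) := KT_le fun _ _ e =>
  (TC.dich a e).elim (fun e => dt_mem_stab_of_mem _ e.mw) fun e => dt_mem_stab_of_ker _ e.1

theorem rad_TH (hH : H ≤ KT (TH H)) (a : Dual k V × V) (h1 : TC (TH H) a φ v) (h2 : TC (TH H) a ψ w) (e1 : φ w = 0) (e2 : ψ v = 0)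
    (e : ∀ χ x, Nz (TC (TH H) a) χ x → χ v = χ w ∧ φ x = ψ x) (y : V) : φ y • v = ψ y • w := by
  have l : ∀ {φ v} y, TC (TH H) a φ v → φ y • v ∈ WT (TC (TH H) a) := fun y e => by
    obtain e | rfl | rfl := nz_or e
    exacts [Submodule.smul_mem _ _ e.mw, by simp, by simp]
  have l' := fun g hg => mem_stab.1 (KT_le_stab a (hH (x := g) hg))
  refine sub_eq_zero.1 (LinearMap.congr_fun (hn.zero (P := {s | QN _ s ∧ (∀ x, s x ∈ WT (TC (TH H) a)) ∧ ∀ x ∈ WT (TC (TH H) a),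
    ∀ g ∈ H, g (s x) = s x}) (fun _ h => h.1) (fun s h g hg => ⟨h.1.conj hg (by simp), fun x => (l' _ hg _).1 (h.2.1 _), fun x hx g' hg' => ?_⟩)
    (fun s h t h' => LinearMap.ext fun x => ?_) (a := φ.smulRight v - ψ.smulRight w) ⟨(h1.1.qn hs).sub (h2.1.qn hs)
      (LinearMap.ext fun _ => by simp [e1]) (LinearMap.ext fun _ => by simp [e2]), fun x => Submodule.sub_mem _ (l x h1) (l x h2),
      fun x hx g hg => KT_fix (hH hg) _ (mem_co.2 fun χ u hχ => ?_)⟩) y)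
  · have h3 := h.2.2 _ ((l' _ (inv_mem hg) x).1 hx)
    exact (congrArg g' (h3 _ hg)).trans ((h3 g' hg').trans (h3 _ hg).symm)
  · obtain ⟨g, hg, e'⟩ := h.1.2 1
    have := (LinearMap.congr_fun e' _).symm.trans (h'.2.2 _ (h.2.1 x) _ hg)
    simpa using this
  · obtain l1 | l1 := TC.dich a hχ
    · have := WT_zero (φ := φ - ψ) (fun χ u l => sub_eq_zero.2 (e χ u l).2) hx
      simp [sub_eq_zero.1 this, (e χ u l1).1]
    · exact l1.1 _ (Submodule.sub_mem _ (l x h1) (l x h2))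

theorem induce_TH (h2 : (2 : k) ≠ 0) (hH : H ≤ KT (TH H)) (a : Dual k V × V) {T : Dual k V → V → Prop} (e : TC (TH H) a = T) :
    IsCompl (WT T) (FT T).dualCoannihilator ∧ ∃ ρ : KT T →* (WT T ≃ₗ[k] WT T), (∀ g v, (ρ g v : V) = (g : V ≃ₗ[k] V) v) ∧
    ((ρ.range : Set (WT T ≃ₗ[k] WT T)) = {f : WT T ≃ₗ[k] WT T | LinearMap.det (f : WT T →ₗ[k] WT T) = 1} ∨
      ∃ B : LinearMap.BilinForm k (WT T), B.IsAlt ∧ B.Nondegenerate ∧
        (ρ.range : Set (WT T ≃ₗ[k] WT T)) = {f : WT T ≃ₗ[k] WT T | ∀ x y, B (f x) (f y) = B x y}) :=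
  e ▸ ((ts_TH hs hn).comp a).induce (fun P _ _ _ _ h h0 hs h' => TC.conn P h h0 hs h') h2 (rad_TH hs hn hH a)

end Cfsg.Agent.C3
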