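import Mathlib

/-! Linear algebra for groups with three automorphism orbits. -/

namespace Cfsg.Agent.C3.OR

open Polynomial

variable {p q : ℕ} [hp : Fact p.Prime] [hq : Fact q.Prime] {V : Type*} [AddCommGroup V]
  [Module (ZMod p) V] [Finite V] {T : Module.End (ZMod p) V}

omit [Finite V] in
theorem semi_aeval {Φ T' : Module.End (ZMod p) V} (h : Φ * T = T' * Φ) (f : (ZMod p)[X]) :
    Φ * aeval T f = aeval T' f * Φ := by
  induction f using Polynomial.induction_on' with
  | add f g h1 h2 => simp [mul_add, add_mul, h1, h2]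
  | monomial n a =>
    simp only [aeval_monomial, ← Algebra.smul_def, mul_smul_comm, smul_mul_assoc,
      (SemiconjBy.pow_right h n).eq]

omit [Finite V] in
theorem cyc_zero (h0 : T ^ q = 1) (h1 : ∀ v, T v = v → v = 0) :
    aeval T (cyclotomic q (ZMod p)) = 0 := by
  have h2 := congrArg (aeval T) (cyclotomic_prime_mul_X_sub_one (ZMod p) q)
  rw [mul_comm] at h2
  simp only [map_mul, map_sub, aeval_X, map_one, map_pow, h0, sub_self] at h2
  exact LinearMap.ext fun v => h1 _ (by simpa [sub_eq_zero] using LinearMap.congr_fun h2 v)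

theorem star (h1 : ∀ v w : V, v ≠ 0 → w ≠ 0 → ∃ (Φ : Module.End (ZMod p) V) (k : ℕ),
    Function.Injective Φ ∧ Φ v = w ∧ Φ * T = T ^ k * Φ) (g : (ZMod p)[X]) {v : V} (hv : v ≠ 0)
    (hg : aeval T g v = 0) : aeval T g = 0 := by
  let S : V → Set V := fun v => Set.range fun f : (ZMod p)[X] => aeval T f v
  have h2 : ∀ v w, v ≠ 0 → w ≠ 0 → w ∈ S v → S w = S v := by
    rintro v _ hv hw ⟨f, rfl⟩
    obtain ⟨Φ, k, h2, h3, h4⟩ := h1 _ _ hv hw
    refine Set.eq_of_subset_of_ncard_le ?_ (Set.ncard_le_ncard_of_injOn Φ ?_ h2.injOn)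
    · rintro _ ⟨f', rfl⟩
      exact ⟨f' * f, by simp⟩
    · rintro _ ⟨f', rfl⟩
      refine ⟨f'.comp (X ^ k), ?_⟩
      have := LinearMap.congr_fun (semi_aeval h4 f') v
      simp only [Module.End.mul_apply, h3] at this
      simp [aeval_comp, this]
  refine LinearMap.ext fun u => by_contra fun hu => ?_
  have h3 : aeval T g (u + v) = aeval T g u := by simp [hg]
  have h4 := h2 u _ (by rintro rfl; simp at hu) hu ⟨g, rfl⟩
  have h5 := h2 (u + v) _ (fun e => hu (by rw [← h3, e]; simp)) hu ⟨g, h3⟩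
  obtain ⟨f, hf⟩ : u + v ∈ S u := by rw [← h4, h5]; exact ⟨1, by simp⟩
  obtain ⟨b, hb⟩ : u ∈ S v := by
    rw [h2 u v (by rintro rfl; simp at hu) hv ⟨f - 1, by simp [hf]⟩]; exact ⟨1, by simp⟩
  refine hu ?_
  rw [← hb, ← Module.End.mul_apply, ← map_mul, mul_comm, map_mul, Module.End.mul_apply, hg]
  simp

theorem order_eq [Nontrivial V] (hpq : p ≠ q) (h0 : T ^ q = 1) (h0' : ∀ v, T v = v → v = 0)
    (h1 : ∀ v w : V, v ≠ 0 → w ≠ 0 → ∃ (Φ : Module.End (ZMod p) V) (k : ℕ),
      Function.Injective Φ ∧ Φ v = w ∧ Φ * T = T ^ k * Φ)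
    (h2 : ∀ k, k.Coprime q → ∃ Φ : Module.End (ZMod p) V, Function.Injective Φ ∧ Φ * T = T ^ k * Φ) :
    orderOf (p : ZMod q) = q - 1 := by
  have h3 : ∀ g : (ZMod p)[X], g ≠ 0 → aeval T g = 0 → ∃ f, Irreducible f ∧ f ∣ g ∧ aeval T f = 0 := by
    intro g
    induction g using WfDvdMonoid.induction_on_irreducible with
    | zero => simp
    | unit u hu => exact fun _ h => absurd h (hu.map (aeval T)).ne_zero
    | mul a i ha hi ih =>
      intro _ h
      by_cases h3 : aeval T i = 0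
      · exact ⟨i, hi, dvd_mul_right _ _, h3⟩
      · obtain ⟨f, h4, h5, h6⟩ := ih ha (LinearMap.ext fun v => by_contra fun hv => h3
          (star h1 i hv (by simpa using LinearMap.congr_fun h v)))
        exact ⟨f, h4, h5.mul_left _, h6⟩
  obtain ⟨f, h4, h5, h6⟩ := h3 _ (cyclotomic_ne_zero q _) (cyc_zero h0 h0')
  have hc : p.Coprime q := (Nat.coprime_primes hp.1 hq.1).2 hpq
  have h7 := natDegree_of_dvd_cyclotomic_of_irreducible (f := 1) (p := p) (by simp) hc h5 h4
  rw [← orderOf_units, ZMod.coe_unitOfCoprime, pow_one] at h7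
  rw [← h7, ← Nat.totient_prime hq.1]
  refine le_antisymm (natDegree_cyclotomic q (ZMod p) ▸ natDegree_le_of_dvd h5 (cyclotomic_ne_zero q _)) ?_
  have := Fact.mk h4
  have : CharP (AdjoinRoot f) p := charP_of_injective_algebraMap (algebraMap (ZMod p) _).injective p
  have : NeZero (q : AdjoinRoot f) := ⟨fun h => hp.1.coprime_iff_not_dvd.1 hc
    ((CharP.cast_eq_zero_iff _ p q).1 h)⟩
  have h8 : IsPrimitiveRoot (AdjoinRoot.root f) q := by
    rw [← isRoot_cyclotomic_iff, ← map_cyclotomic q (algebraMap (ZMod p) _), IsRoot.def, eval_map_algebraMap,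
      AdjoinRoot.aeval_eq, AdjoinRoot.mk_eq_zero]
    exact h5
  rw [← h8.card_primitiveRoots, ← natDegree_map (algebraMap (ZMod p) (AdjoinRoot f))]
  refine card_le_degree_of_subset_roots fun z hz => ?_
  obtain ⟨k, -, hk, rfl⟩ := h8.isPrimitiveRoot_iff.1
    ((mem_primitiveRoots hq.1.pos).1 hz)
  obtain ⟨Φ, h9, h10⟩ := h2 k hk
  obtain ⟨v, hv⟩ := exists_ne (0 : V)
  have h11 := star h1 (f.comp (X ^ k)) (v := Φ v) (by simpa [map_eq_zero_iff Φ h9] using hv) (by
    have := LinearMap.congr_fun (semi_aeval h10 f) v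
    simpa [aeval_comp, h6] using this.symm)
  have h12 : f ∣ f.comp (X ^ k) := by
    by_contra h12
    obtain ⟨a, b, h13⟩ := (h4.coprime_iff_not_dvd).2 h12
    simpa [h6, h11] using congrArg (aeval T) h13
  rw [mem_roots (map_ne_zero h4.ne_zero), IsRoot.def, eval_map_algebraMap]
  have := AdjoinRoot.mk_eq_zero.2 h12
  rwa [← AdjoinRoot.aeval_eq, aeval_comp, map_pow, aeval_X] at this

theorem exists_equiv (hpq : p ≠ q) (h0 : T ^ q = 1) (h0' : ∀ v, T v = v → v = 0)
    (h : orderOf (p : ZMod q) = q - 1) :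
    (∀ v w : V, v ≠ 0 → w ≠ 0 → ∃ Φ : V ≃+ V, Φ v = w ∧ ∀ u, Φ (T u) = T (Φ u)) ∧
      ∃ Φ : V ≃+ V, ∀ u, Φ (T u) = (T ^ p) (Φ u) := by
  have hc : ¬ p ∣ q := fun h => hpq ((Nat.prime_dvd_prime_iff_eq hp.1 hq.1).1 h)
  have := Fact.mk (ZMod.irreducible_of_dvd_cyclotomic_of_natDegree hc dvd_rfl (by
    rw [← orderOf_units, ZMod.coe_unitOfCoprime, h, natDegree_cyclotomic, Nat.totient_prime hq.1]))
  let K := AdjoinRoot (cyclotomic q (ZMod p))
  let ψ : K →+* Module.End (ZMod p) V := Ideal.Quotient.lift _ (aeval T).toRingHom fun a ha => by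
    obtain ⟨b, rfl⟩ := Ideal.mem_span_singleton.1 ha
    simp [cyc_zero h0 h0']
  letI : Module K V := Module.compHom V ψ
  have h1 : ∀ u : V, T u = (AdjoinRoot.root _ : K) • u := fun u => by
    change _ = aeval T (X : (ZMod p)[X]) u
    simp
  have h2 : ∀ u : V, (T ^ p) u = (AdjoinRoot.root _ : K) ^ p • u := fun u => by
    change _ = ψ (_ ^ p) u
    rw [map_pow]
    change _ = (aeval T (X : (ZMod p)[X]) ^ p) u
    simp
  have : Module.Finite K V := Module.Finite.of_finite
  refine ⟨fun v w hv hw => ?_, ?_⟩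
  · obtain ⟨g, hg⟩ := Submodule.exists_linearEquiv_restrict_eq
      ((LinearEquiv.toSpanNonzeroSingleton K V v hv).symm.trans
        (LinearEquiv.toSpanNonzeroSingleton K V w hw))
    refine ⟨g.toAddEquiv, ?_, fun u => by simp [h1]⟩
    have := hg (LinearEquiv.toSpanNonzeroSingleton K V v hv 1)
    rw [LinearEquiv.trans_apply, LinearEquiv.symm_apply_apply] at this
    simpa using this.symm
  · have : CharP K p := charP_of_injective_algebraMap (algebraMap (ZMod p) _).injective p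
    have := (cyclotomic.monic q (ZMod p)).finite_adjoinRoot
    have : Finite K := Module.finite_of_finite (ZMod p)
    let e := (Module.finBasis K V).equivFun
    refine ⟨e.toAddEquiv.trans ((AddEquiv.piCongrRight fun _ =>
      (frobeniusEquiv K p).toAddEquiv).trans e.symm.toAddEquiv), fun u => ?_⟩
    rw [h1, h2]
    change e.symm _ = _ • e.symm _
    rw [← map_smul]
    congr 1
    ext i
    simp [frobenius_def, mul_pow]

end Cfsg.Agent.C3.OR
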