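import Cfsg.Agent.C3.OR1
import Cfsg.Agent.L.Frob2
import Cfsg.Agent.H1.Frattini
import Cfsg.Agent.H3.Mackey

/-! Groups with three automorphism orbits. -/

namespace Cfsg.Agent.C3.OR

open Subgroup

variable {p q : ℕ} [hp : Fact p.Prime] [hq : Fact q.Prime]

theorem grp {P : Type*} [Group P] [Finite P] (hc : ∀ x y : P, x * y = y * x) (he : ∀ x : P, x ^ p = 1)
    (hpq : p ≠ q) {t : MulAut P} (h0 : t ^ q = 1) (h0' : ∀ v, t v = v → v = 1) :
    (Nontrivial P → (∀ v w : P, v ≠ 1 → w ≠ 1 → ∃ (Φ : MulAut P) (k : ℕ), Φ v = w ∧ Φ * t = t ^ k * Φ) →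
      (∀ k, k.Coprime q → ∃ Φ : MulAut P, Φ * t = t ^ k * Φ) → orderOf (p : ZMod q) = q - 1) ∧
    (orderOf (p : ZMod q) = q - 1 →
      (∀ v w : P, v ≠ 1 → w ≠ 1 → ∃ Φ : MulAut P, Φ v = w ∧ Φ * t = t * Φ) ∧
        ∃ Φ : MulAut P, Φ * t = t ^ p * Φ) := by
  letI : AddCommGroup (Additive P) := { (inferInstance : AddGroup (Additive P)) with add_comm := hc }
  obtain ⟨_⟩ : Nonempty (Module (ZMod p) (Additive P)) := ⟨AddCommGroup.zmodModule he⟩
  let l : MulAut P →* Module.End (ZMod p) (Additive P) :=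
    { toFun := fun s => (MonoidHom.toAdditive s.toMonoidHom).toZModLinearMap p
      map_one' := rfl
      map_mul' := fun _ _ => rfl }
  have h1 : l t ^ q = 1 := by rw [← map_pow, h0, map_one]
  refine ⟨fun _ h2 h3 => order_eq hpq h1 h0' (fun v w hv hw => ?_) fun k hk => ?_, fun h => ?_⟩
  · obtain ⟨Φ, k, h4, h5⟩ := h2 v w hv hw
    exact ⟨l Φ, k, Φ.injective, h4, by rw [← map_pow, ← map_mul, h5, map_mul]⟩
  · obtain ⟨Φ, h5⟩ := h3 k hk
    exact ⟨l Φ, Φ.injective, by rw [← map_pow, ← map_mul, h5, map_mul]⟩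
  · obtain ⟨h2, Φ, h3⟩ := exists_equiv hpq h1 h0' h
    refine ⟨fun v w hv hw => ?_, AddEquiv.toMultiplicative Φ, MulEquiv.ext fun u => ?_⟩
    · obtain ⟨Φ, h4, h5⟩ := h2 v w hv hw
      exact ⟨AddEquiv.toMultiplicative Φ, h4, MulEquiv.ext h5⟩
    · rw [← map_pow] at h3
      exact h3 u

variable {G : Type*} [Group G] [Finite G] {P : Subgroup G} [P.Normal]

theorem decomp (hi : P.index = q) {g : G} (hg : g ∉ P) (h : G) : ∃ k : ℕ, ∃ v ∈ P, h = v * g ^ k := by
  obtain ⟨k, hk⟩ := mem_powers_of_prime_card (G := G ⧸ P) hi (g := g)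
    (by rwa [Ne, QuotientGroup.eq_one_iff]) (g' := h)
  exact ⟨k, h / g ^ k, QuotientGroup.eq_iff_div_mem.1 hk.symm, by simp⟩

omit [Finite G] in
theorem conj_decomp (hc : IsMulCommutative P) {v : G} (hv : v ∈ P) (g : G) (k : ℕ) :
    MulAut.conjNormal (H := P) (v * g ^ k) = MulAut.conjNormal g ^ k := by
  rw [map_mul, map_pow, show MulAut.conjNormal (H := P) v = 1 from MulEquiv.ext fun u => Subtype.ext
    (mul_inv_eq_iff_eq_mul.2 (congrArg Subtype.val (hc.is_comm.comm ⟨v, hv⟩ u))), one_mul]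

theorem ext_aut (hi : P.index = q) {x y : G} (hx : x ∉ P) (hx' : orderOf x = q) (hy : y ∉ P)
    (hy' : orderOf y = q) (Φ : MulAut P) (h : Φ * MulAut.conjNormal x = MulAut.conjNormal y * Φ) :
    ∃ φ : MulAut G, (∀ u : P, φ u = Φ u) ∧ φ x = y := by
  have h1 : IsComplement' P (zpowers x) := isComplement'_of_card_mul_and_disjoint
    (by rw [Nat.card_zpowers, hx', ← hi, card_mul_index]) (by
      rcases (P.subgroupOf (zpowers x)).eq_bot_or_eq_top_of_prime_card
        (hp := ⟨by rw [Nat.card_zpowers, hx']; exact hq.1⟩) with h | h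
      · exact subgroupOf_eq_bot.1 h
      · exact absurd (subgroupOf_eq_top.1 h (mem_zpowers x)) hx)
  have h2 : ∀ g : zpowers x, g ∈ zpowers (⟨x, mem_zpowers x⟩ : zpowers x) := by
    rintro ⟨_, k, rfl⟩; exact ⟨k, rfl⟩
  let fg := monoidHomOfForallMemZpowers h2 (g' := y) (by rw [orderOf_mk, hx', hy'])
  have h3 : fg ⟨x, mem_zpowers x⟩ = y := monoidHomOfForallMemZpowers_apply_gen _ _
  let f := (SemidirectProduct.lift (P.subtype.comp Φ.toMonoidHom) fg (φ :=
    (P.normalizerMonoidHom).comp (inclusion (P.normalizer_eq_top ▸ le_top))) fun g => by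
      obtain ⟨k, rfl⟩ := h2 g
      have h4 := (SemiconjBy.zpow_right h k).eq
      rw [← map_zpow, ← map_zpow] at h4
      ext u
      simp only [map_zpow fg, h3]
      exact congrArg Subtype.val (DFunLike.congr_fun h4 u)).comp
    (SemidirectProduct.mulEquivSubgroup h1).symm.toMonoidHom
  have h4 : ∀ u : P, f u = Φ u := fun u => by
    have : (SemidirectProduct.mulEquivSubgroup h1).symm u = .inl u := by
      rw [MulEquiv.symm_apply_eq]; simp
    simp [f, this]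
  have h5 : f x = y := by
    have : (SemidirectProduct.mulEquivSubgroup h1).symm x = .inr ⟨x, mem_zpowers x⟩ := by
      rw [MulEquiv.symm_apply_eq]; simp
    simp [f, this, h3]
  refine ⟨MulEquiv.ofBijective f (Finite.surjective_iff_bijective.1 fun g => ?_), h4, h5⟩
  obtain ⟨k, v, hv, rfl⟩ := decomp hi hy g
  exact ⟨Φ.symm ⟨v, hv⟩ * x ^ k, by simp [h4, h5]⟩

/-- the structure in the theorem -/
def Str (p q : ℕ) [Fact p.Prime] [Fact q.Prime] (G : Type*) [Group G] : Prop :=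
  ∃ n, 1 ≤ n ∧ Nat.card G = p ^ n * q ∧
    (∀ P : Sylow p G, (P : Subgroup G).Normal ∧ IsElementaryAbelian p (P : Subgroup G)) ∧
    orderOf (p : ZMod q) = q - 1 ∧ ∀ x y : G, orderOf x = q → orderOf y = p → x * y * x⁻¹ ≠ y

omit [P.Normal] in
theorem fwd (hpq : p ≠ q) {a b : G} (ha : orderOf a = p) (hb : orderOf b = q)
    (tri : ∀ g, g = 1 ∨ (∃ φ : MulAut G, φ a = g) ∨ ∃ φ : MulAut G, φ b = g)
    (hO : pCore p G ≠ ⊥) : Str p q G := by
  have hP := H1.isPGroup_pCore p G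
  obtain ⟨V, hV⟩ : ∃ V, V = (center (pCore p G)).map (pCore p G).subtype := ⟨_, rfl⟩
  have : V.Characteristic := hV ▸ inferInstance
  have hc : IsMulCommutative V := hV ▸ inferInstance
  have hVp : IsPGroup p V := hV ▸ (hP.to_subgroup _).map _
  have hne : ∀ {g : G} {k}, orderOf g = q → g ^ p ^ k ≠ 1 := fun h1 h2 => hpq
    ((Nat.prime_dvd_prime_iff_eq hq.1 hp.1).1
      (hq.1.dvd_of_dvd_pow (h1 ▸ orderOf_dvd_of_pow_eq_one h2))).symm
  have hb' : ∀ {g : G}, orderOf g = q → g ∉ V := fun h1 h2 => by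
    obtain ⟨k, hk⟩ := hVp ⟨_, h2⟩
    exact hne h1 (congrArg Subtype.val hk)
  have hV1 : ∀ v ∈ V, v ≠ 1 → ∃ φ : MulAut G, φ a = v := fun v hv h1 => by
    rcases tri v with h | h | ⟨φ, rfl⟩
    exacts [absurd h h1, h, absurd hv (hb' (by rw [MulEquiv.orderOf_eq, hb]))]
  have hV0 : V ≠ ⊥ := by
    have := (nontrivial_iff_ne_bot _).2 hO
    rw [hV, Ne, Subgroup.map_eq_bot_iff_of_injective _ (subtype_injective _), ← Ne, ← nontrivial_iff_ne_bot]
    exact hP.center_nontrivial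
  have hV2 : ∀ g, g ∉ V → orderOf g = q := fun g hg => by
    obtain ⟨⟨v, hv⟩, h1⟩ := ne_bot_iff_exists_ne_one.1 hV0
    obtain ⟨ψ, rfl⟩ := hV1 v hv (by simpa using h1)
    rcases tri g with rfl | ⟨φ, rfl⟩ | ⟨φ, rfl⟩
    · exact absurd (one_mem _) hg
    · exact absurd (by simpa using characteristic_iff_le_comap.1 this (φ * ψ⁻¹) hv) hg
    · rw [MulEquiv.orderOf_eq, hb]
  have hV3 : ∀ v ∈ V, v ^ p = 1 := fun v hv => by
    by_cases h : v = 1
    · simp [h]
    · obtain ⟨φ, rfl⟩ := hV1 v hv h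
      rw [← map_pow, ← ha, pow_orderOf_eq_one, map_one]
  have hF : ∀ x, orderOf x = q → ∀ y ∈ V, x * y = y * x → y = 1 := fun x hx y hy h => by
    have h1 := hV2 (x * y) fun h1 => hb' hx ((mul_mem_cancel_right hy).1 h1)
    have h2 := pow_orderOf_eq_one (x * y)
    rw [h1, Commute.mul_pow h, ← hx, pow_orderOf_eq_one, one_mul, hx] at h2
    by_contra h3
    exact hb' (orderOf_eq_prime h2 h3) hy
  have hi : V.index = q := by
    obtain ⟨m, hm⟩ := IsPGroup.iff_card.1 (show IsPGroup q (G ⧸ V) from fun g => by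
      obtain ⟨g, rfl⟩ := QuotientGroup.mk_surjective g
      by_cases h : g ∈ V
      · exact ⟨0, by simpa using h⟩
      · exact ⟨1, by rw [pow_one, ← hV2 g h, ← QuotientGroup.mk_pow, pow_orderOf_eq_one]; rfl⟩)
    change V.index = _ at hm
    rcases m with _ | _ | m
    · exact absurd (index_eq_one.1 hm ▸ mem_top b) (hb' hb)
    · simpa using hm
    obtain ⟨A, hA⟩ := Sylow.exists_subgroup_card_pow_prime q (n := 2)
      ((pow_dvd_pow q (by omega)).trans (hm ▸ V.index_dvd_card))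
    have := IsPGroup.isMulCommutative_of_card_eq_prime_sq hA
    have h1 : ∀ x ∈ A, x ≠ 1 → orderOf x = q := fun x hx h => hV2 x fun h2 => by
      have h3 := orderOf_dvd_natCard A hx
      rw [orderOf_eq_prime (hV3 x h2) h, hA] at h3
      exact hpq ((Nat.prime_dvd_prime_iff_eq hp.1 hq.1).1 (hp.1.dvd_of_dvd_pow h3))
    obtain ⟨g, hg⟩ := (L.FPF.isCyclic_of_isMulCommutative (K := V) (A := A) (fun x hx h => eq_bot_iff.2
      fun y hy => hF x (h1 x hx h) y hy.1 (mem_centralizer_singleton_iff.1 hy.2).symm)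
      le_normalizer_of_normal hV0).exists_ofOrder_eq_natCard
    have h2 := hq.1.one_lt
    rw [hA, ← orderOf_coe] at hg
    by_cases h3 : g.1 = 1
    · rw [h3, orderOf_one] at hg; nlinarith
    · rw [h1 _ g.2 h3] at hg; nlinarith
  obtain ⟨n, hn⟩ := IsPGroup.iff_card.1 hVp
  refine ⟨n, Nat.one_le_iff_ne_zero.2 fun h => hV0 (card_eq_one.1 (by rw [hn, h, pow_zero])),
    by rw [← hn, ← hi, card_mul_index], fun S => ?_, ?_, fun x y hx hy h => ?_⟩
  · have : S = V := le_antisymm (fun g hg => by_contra fun h => by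
      obtain ⟨k, hk⟩ := S.2 ⟨g, hg⟩
      exact hne (hV2 g h) (congrArg Subtype.val hk)) (hVp.le_sylow_of_normal S)
    rw [this]; exact ⟨inferInstance, hc, hV3⟩
  · have e : ∀ φ : MulAut G, MulAut.characteristic V φ * MulAut.conjNormal b =
        MulAut.conjNormal (φ b) * MulAut.characteristic V φ := fun φ => by ext; simp
    refine (grp hc.is_comm.comm (fun x => Subtype.ext (hV3 _ x.2)) hpq (t := MulAut.conjNormal b)
      (by rw [← map_pow, ← hb, pow_orderOf_eq_one, map_one]) fun v h => Subtype.ext (hF b hb v v.2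
        (mul_inv_eq_iff_eq_mul.1 (congrArg Subtype.val h)))).1 ((nontrivial_iff_ne_bot _).2 hV0)
      (fun v w hv hw => ?_) fun k hk => ?_
    · obtain ⟨φ, h1⟩ := hV1 v v.2 (by simpa using hv)
      obtain ⟨ψ, h2⟩ := hV1 w w.2 (by simpa using hw)
      obtain ⟨k, u, hu, h3⟩ := decomp hi (hb' hb) ((ψ * φ⁻¹) b)
      exact ⟨MulAut.characteristic V (ψ * φ⁻¹), k, Subtype.ext (by simp [← h1, h2]),
        by rw [e, h3, conj_decomp hc hu]⟩
    · have h1 : orderOf (b ^ k) = q := by rw [← hb, Nat.Coprime.orderOf_pow (hb ▸ hk.symm)]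
      rcases tri (b ^ k) with h | ⟨φ, h⟩ | ⟨φ, h⟩
      · exact absurd (h ▸ one_mem V) (hb' h1)
      · exact absurd (by rw [← h1, ← h, MulEquiv.orderOf_eq, ha]) hpq
      · exact ⟨_, by rw [e φ, h, map_pow]⟩
  · have h1 : y ∈ V := by_contra fun h1 => hpq (hy.symm.trans (hV2 y h1))
    rw [hF x hx y h1 (mul_inv_eq_iff_eq_mul.1 h), orderOf_one] at hy
    exact hp.1.one_lt.ne hy

omit [P.Normal] in
theorem bwd (hpq : p ≠ q) (h : Str p q G) : ∃ a b : G, orderOf a = p ∧ orderOf b = q ∧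
    ∀ g, g = 1 ∨ (∃ φ : MulAut G, φ a = g) ∨ ∃ φ : MulAut G, φ b = g := by
  obtain ⟨n, h1, h2, h3, h4, h5⟩ := h
  obtain ⟨S⟩ : Nonempty (Sylow p G) := inferInstance
  obtain ⟨_, hc, he⟩ := h3 S
  have h6 : Nat.card S = p ^ n := by
    rw [S.card_eq_multiplicity, h2, Nat.factorization_mul (pow_ne_zero _ hp.1.ne_zero) hq.1.ne_zero]
    simp [hp.1.factorization, hq.1.factorization, hpq]
  have hi : (S : Subgroup G).index = q := by
    have := card_mul_index (S : Subgroup G)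
    rw [h2, h6] at this
    exact Nat.eq_of_mul_eq_mul_left (pow_pos hp.1.pos n) this
  generalize (S : Subgroup G) = V at *
  obtain ⟨a, ha⟩ := exists_prime_orderOf_dvd_card' (G := V) p (h6 ▸ dvd_pow_self p (by omega))
  obtain ⟨b, hb⟩ := exists_prime_orderOf_dvd_card' (G := G) q (h2 ▸ dvd_mul_left _ _)
  have hne : ∀ {g : G}, g ^ p = 1 → g ^ q ∈ V → g ∈ V := fun {g} h1 h2 =>
    H1.mem_of_pow_mem_of_coprime h2 (Nat.Coprime.coprime_dvd_right (orderOf_dvd_of_pow_eq_one h1)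
      ((Nat.coprime_primes hq.1 hp.1).2 hpq.symm))
  have hV2 : ∀ g, g ∉ V → orderOf g = q := fun g hg => by
    have h7 : g ^ q ∈ V := hi ▸ V.pow_index_mem g
    refine orderOf_eq_prime (by_contra fun h8 => h5 (g ^ p) (g ^ q) (orderOf_eq_prime ?_ fun h9 =>
      hg (hne h9 h7)) (orderOf_eq_prime (he _ h7) h8) (by group)) (by rintro rfl; exact hg (one_mem _))
    rw [← pow_mul, mul_comm, pow_mul, he _ h7]
  have hb' : b ∉ V := fun h => hpq ((Nat.prime_dvd_prime_iff_eq hq.1 hp.1).1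
    (hb ▸ orderOf_dvd_of_pow_eq_one (he b h))).symm
  have h7 : MulAut.conjNormal (H := V) b ^ q = 1 := by rw [← map_pow, ← hb, pow_orderOf_eq_one, map_one]
  obtain ⟨h8, Ψ, h9⟩ := (grp hc.is_comm.comm (fun x => Subtype.ext (he _ x.2)) hpq h7
    fun v h => by_contra fun h' => h5 b v hb (orderOf_eq_prime (he _ v.2) (by simpa using h'))
      (congrArg Subtype.val h)).2 h4
  refine ⟨a, b, by rw [orderOf_coe, ha], hb, fun g => ?_⟩
  by_cases hg : g ∈ V
  · by_cases hg1 : g = 1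
    · exact .inl hg1
    obtain ⟨Φ, h10, h11⟩ := h8 a ⟨g, hg⟩ (by rintro rfl; simp [← ha] at hp; exact hp.1.one_lt.ne rfl)
      (by simpa using hg1)
    obtain ⟨φ, h12, -⟩ := ext_aut hi hb' hb hb' hb Φ h11
    exact .inr (.inl ⟨φ, by rw [h12, h10]⟩)
  · obtain ⟨k, v, hv, rfl⟩ := decomp hi hb' g
    have h10 : (k : ZMod q) ≠ 0 := fun h => hg (by
      rw [orderOf_dvd_iff_pow_eq_one.1 (hb ▸ (ZMod.natCast_eq_zero_iff k q).1 h), mul_one]; exact hv)
    have : NeZero (q - 1) := ⟨by have := hq.1.one_lt; omega⟩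
    obtain ⟨j, -, hj⟩ := (h4 ▸ IsPrimitiveRoot.orderOf (p : ZMod q)).eq_pow_of_pow_eq_one
      (ZMod.pow_card_sub_one_eq_one h10)
    rw [← Nat.cast_pow, ZMod.natCast_eq_natCast_iff'] at hj
    have h11 : ∀ j, Ψ ^ j * MulAut.conjNormal b = MulAut.conjNormal b ^ p ^ j * Ψ ^ j := by
      intro j
      induction j with
      | zero => simp
      | succ j ih =>
        rw [pow_succ', mul_assoc, ih, ← mul_assoc, (SemiconjBy.pow_right h9 _).eq, ← pow_mul,
          ← pow_succ', mul_assoc]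
    obtain ⟨φ, -, h12⟩ := ext_aut hi hb' hb hg (hV2 _ hg) (Ψ ^ j) (by
      rw [h11, conj_decomp hc hv, pow_eq_pow_mod _ h7, hj, ← pow_eq_pow_mod _ h7])
    exact .inr (.inr ⟨φ, h12⟩)

omit [P.Normal] in
theorem three_iff (hpq : p ≠ q) {a b : G} (ha : orderOf a = p) (hb : orderOf b = q) :
    Nat.card (MulAction.orbitRel.Quotient (MulAut G) G) = 3 ↔
      ∀ g, g = 1 ∨ (∃ φ : MulAut G, φ a = g) ∨ ∃ φ : MulAut G, φ b = g := by
  let c : G → MulAction.orbitRel.Quotient (MulAut G) G := Quotient.mk''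
  have h1 : ∀ x y, c x = c y ↔ ∃ φ : MulAut G, φ y = x := fun x y => Quotient.eq''
  have h2 : ∀ x y, orderOf x ≠ orderOf y → c x ≠ c y := fun x y h h' => by
    obtain ⟨φ, rfl⟩ := (h1 _ _).1 h'
    exact h (φ.orderOf_eq y)
  have h3 : ({c 1, c a, c b} : Set _).ncard = 3 := Set.ncard_eq_three.2 ⟨_, _, _,
    h2 _ _ (by simpa [ha] using hp.1.one_lt.ne), h2 _ _ (by simpa [hb] using hq.1.one_lt.ne),
    h2 _ _ (by rwa [ha, hb]), rfl⟩
  rw [← Set.ncard_univ]
  refine ⟨fun h g => ?_, fun h => h3 ▸ congrArg _ (Set.eq_univ_of_forall fun x => ?_).symm⟩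
  · have h4 := Set.eq_of_subset_of_ncard_le (Set.subset_univ _) (h.trans h3.symm).le
    simpa [h1, eq_comm (a := (1 : G))] using h4.ge (Set.mem_univ (c g))
  · obtain ⟨g, rfl⟩ := Quotient.exists_rep x
    change c g ∈ _
    simpa [h1, eq_comm (a := (1 : G))] using h g

end Cfsg.Agent.C3.OR
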