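import Mathlib

/-! Exponent types of small groups and their direct products. -/

set_option autoImplicit false
set_option maxRecDepth 100000

namespace Cfsg.Agent.C3.OT

def D : List ℕ := [1, 2, 3, 4, 6, 7, 8, 12, 14, 21, 24, 28, 42, 56, 84, 168]

noncomputable def E (G : Type) [Group G] (n : ℕ) : ℕ := Nat.card {g : G // g ^ n = 1}

def Re (s u : Prop) (e : ℕ → ℕ) : Prop := ∃ (G : Type) (_ : Group G) (_ : Finite G), (s → Group.IsSolvable G) ∧
  (u → ¬ Group.IsSolvable G) ∧ (∀ g : G, g ^ 168 = 1) ∧ ∀ d ∈ D, E G d = e d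

theorem Re.mul {s u u' : Prop} {e e' : ℕ → ℕ} (h : Re s u e) (h' : Re s u' e') : Re s u (fun d => e d * e' d) := by
  obtain ⟨G, _, _, a1, a2, a3, a4⟩ := h
  obtain ⟨H, _, _, b1, -, b3, b4⟩ := h'
  refine ⟨G × H, inferInstance, inferInstance, fun hs => ?_, fun hu hn => ?_, fun g => Prod.ext (a3 g.1) (b3 g.2),
    fun d hd => ?_⟩
  · haveI := a1 hs; haveI := b1 hs; infer_instance
  · exact a2 hu (Group.isSolvable_of_surjective (f := MonoidHom.fst G H) Prod.fst_surjective)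
  · show E (G × H) d = e d * e' d
    rw [← a4 d hd, ← b4 d hd, E, E, E, ← Nat.card_prod]
    exact Nat.card_congr ((Equiv.subtypeEquivRight fun g => Prod.ext_iff).trans
      (Equiv.subtypeProdEquivProd (p := fun a : G => a ^ d = 1) (q := fun a : H => a ^ d = 1)))

theorem Re.one (s : Prop) : Re s False (fun _ => 1) := by
  refine ⟨Unit, inferInstance, inferInstance, fun _ => inferInstance, False.elim, fun _ => rfl, fun d _ => ?_⟩
  haveI : Unique {g : Unit // g ^ d = 1} := ⟨⟨⟨(), rfl⟩⟩, fun _ => rfl⟩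
  exact Nat.card_unique

theorem Re.congr {s u : Prop} {e e' : ℕ → ℕ} (h : Re s u e) (he : ∀ d ∈ D, e d = e' d) : Re s u e' := by
  obtain ⟨G, _, _, a1, a2, a3, a4⟩ := h
  exact ⟨G, _, inferInstance, a1, a2, a3, fun d hd => (a4 d hd).trans (he d hd)⟩

theorem Re.weak {s u s' u' : Prop} {e : ℕ → ℕ} (h : Re s u e) (h1 : s' → s) (h2 : u' → u) : Re s' u' e := by
  obtain ⟨G, _, _, a1, a2, a3, a4⟩ := h
  exact ⟨G, _, inferInstance, fun x => a1 (h1 x), fun x => a2 (h2 x), a3, a4⟩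

theorem Re.pow {s u : Prop} {e : ℕ → ℕ} (h : Re s u e) : ∀ k : ℕ, Re s False (fun d => e d ^ k)
  | 0 => Re.one s
  | k + 1 => ((Re.pow h k).mul h).congr fun _ _ => rfl

theorem Re.list {s : Prop} {α : Type} (f : α → ℕ → ℕ) : ∀ l : List (α × ℕ), (∀ p ∈ l, Re s False (f p.1)) →
    Re s False (fun d => (l.map fun p => f p.1 d ^ p.2).prod)
  | [], _ => Re.one s
  | p :: l, h => (((h p List.mem_cons_self).pow p.2).mul
      (Re.list f l fun q hq => h q (List.mem_cons_of_mem _ hq))).congr fun _ _ => rfl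

def ordL {G : Type} [Mul G] [One G] [DecidableEq G] (g : G) : ℕ → G → ℕ → ℕ
  | 0, _, _ => 0
  | f + 1, y, k => if y = 1 then k else ordL g f (y * g) (k + 1)

theorem ordL_spec {G : Type} [Group G] [DecidableEq G] (g : G) : ∀ f k : ℕ, 0 < k → (∀ j, j < k → 0 < j → g ^ j ≠ 1) →
    ordL g f (g ^ k) k ≠ 0 → orderOf g = ordL g f (g ^ k) k
  | 0, _, _, _, h => absurd rfl h
  | f + 1, k, hk, hj, h => by
    unfold ordL at h ⊢
    split_ifs at h ⊢ with h1
    · exact (orderOf_eq_iff hk).2 ⟨h1, hj⟩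
    · rw [← pow_succ] at h ⊢
      refine ordL_spec g f (k + 1) (by omega) (fun j h2 h3 => ?_) h
      rcases Nat.lt_succ_iff_lt_or_eq.1 h2 with h4 | rfl
      · exact hj j h4 h3
      · exact h1

def ords {G : Type} [Mul G] [One G] [DecidableEq G] (l : List G) : List ℕ := l.map fun g => ordL g 170 g 1

def cnt (o : List ℕ) (d : ℕ) : ℕ := o.countP fun k => Nat.beq (d % k) 0

theorem re_of {s u : Prop} (G : Type) [Group G] [DecidableEq G] (l : List G) (hn : l.Nodup) (hc : ∀ g, g ∈ l)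
    (hs : s → Group.IsSolvable G) (hu : u → ¬ Group.IsSolvable G)
    (ho : ((ords l).all fun k => Nat.beq (168 % k) 0) = true) : Re s u (cnt (ords l)) := by
  haveI : Finite G := Finite.of_surjective (fun i : Fin l.length => l.get i) fun g => List.get_of_mem (hc g)
  have h1 : ∀ g : G, 168 % ordL g 170 g 1 = 0 := fun g => by
    simpa using List.all_eq_true.1 ho _ (List.mem_map.2 ⟨g, hc g, rfl⟩)
  have h2 : ∀ g : G, orderOf g = ordL g 170 g 1 := fun g => by
    have := ordL_spec g 170 1 one_pos (fun j h1 h2 => by omega)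
    rw [pow_one] at this
    refine this fun h => ?_
    have h3 := h1 g
    rw [h] at h3
    omega
  refine ⟨G, inferInstance, inferInstance, hs, hu, fun g => ?_, fun d _ => ?_⟩
  · rw [← orderOf_dvd_iff_pow_eq_one, h2]; exact Nat.dvd_of_mod_eq_zero (h1 g)
  · rw [E, Nat.subtype_card (l.filter fun g => Nat.beq (d % ordL g 170 g 1) 0).toFinset,
      List.toFinset_card_of_nodup (hn.filter _), cnt, ords, List.countP_map, List.countP_eq_length_filter]
    · rfl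
    · intro g
      simp only [List.mem_toFinset, List.mem_filter, hc, true_and, Nat.beq_eq]
      rw [← orderOf_dvd_iff_pow_eq_one, h2, Nat.dvd_iff_mod_eq_zero]

structure SD (A K : Type) (φ : K → A → A) where
  a : A
  k : K

section
variable {A K : Type} {φ : K → A → A}

instance decSD [DecidableEq A] [DecidableEq K] : DecidableEq (SD A K φ) := fun x y =>
  decidable_of_iff (x.k = y.k ∧ x.a = y.a) ⟨fun h => by cases x; cases y; cases h.1; cases h.2; rfl,
    fun h => by cases h; exact ⟨rfl, rfl⟩⟩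

instance mulSD [Add A] [Mul K] : Mul (SD A K φ) := ⟨fun x y => ⟨x.a + φ x.k y.a, x.k * y.k⟩⟩

instance oneSD [Zero A] [One K] : One (SD A K φ) := ⟨⟨0, 1⟩⟩

def Act [Add A] [Mul K] [One K] (φ : K → A → A) : Prop :=
  (∀ k a b, φ k (a + b) = φ k a + φ k b) ∧ (∀ k j a, φ (k * j) a = φ k (φ j a)) ∧ ∀ a, φ 1 a = a

@[reducible] def grpSD [AddCommGroup A] [Group K] (h : Act φ) : Group (SD A K φ) :=
  @Group.ofLeftAxioms _ mulSD ⟨fun x => ⟨-φ x.k⁻¹ x.a, x.k⁻¹⟩⟩ oneSD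
    (fun x y z => by
      show SD.mk (x.a + φ x.k y.a + φ (x.k * y.k) z.a) (x.k * y.k * z.k) =
        SD.mk (x.a + φ x.k (y.a + φ y.k z.a)) (x.k * (y.k * z.k))
      rw [h.1, h.2.1, add_assoc, mul_assoc])
    (fun x => by
      show SD.mk (0 + φ 1 x.a) (1 * x.k) = x
      rw [h.2.2, zero_add, one_mul])
    (fun x => by
      show SD.mk (-φ x.k⁻¹ x.a + φ x.k⁻¹ x.a) (x.k⁻¹ * x.k) = SD.mk 0 1
      rw [neg_add_cancel, inv_mul_cancel])

theorem solSD [AddCommGroup A] [Group K] [Group.IsSolvable K] (h : Act φ) : @Group.IsSolvable _ (grpSD h) := by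
  letI := grpSD h
  let f : Multiplicative A →* SD A K φ := MonoidHom.mk' (fun a => ⟨a.toAdd, 1⟩) fun a b => by
    show SD.mk (a.toAdd + b.toAdd) 1 = SD.mk (a.toAdd + φ 1 b.toAdd) (1 * 1)
    rw [h.2.2, one_mul]
  let g : SD A K φ →* K := MonoidHom.mk' (fun x => x.k) fun _ _ => rfl
  refine Group.isSolvable_of_ker_le_range f g fun x hx => ⟨Multiplicative.ofAdd x.a, ?_⟩
  have : x.k = 1 := hx
  show SD.mk x.a 1 = x
  rw [← this]

def els (φ : K → A → A) (la : List A) (lk : List K) : List (SD A K φ) := (la ×ˢ lk).map fun x => ⟨x.1, x.2⟩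

theorem els_nodup {la : List A} {lk : List K} (ha : la.Nodup) (hk : lk.Nodup) : (els φ la lk).Nodup :=
  (ha.product hk).map fun x y h => by
    cases x; cases y; simp only [SD.mk.injEq] at h; exact Prod.ext h.1 h.2

theorem els_mem {la : List A} {lk : List K} (ha : ∀ a, a ∈ la) (hk : ∀ k, k ∈ lk) (x : SD A K φ) : x ∈ els φ la lk :=
  List.mem_map.2 ⟨(x.a, x.k), List.mem_product.2 ⟨ha _, hk _⟩, rfl⟩

theorem act_chi {R : Type} [CommRing R] [Mul K] [One K] [DecidableEq R] (χ : K → R) (lk : List K) (hk : ∀ k, k ∈ lk)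
    (h : (decide (χ 1 = 1) && lk.all fun k => lk.all fun j => decide (χ (k * j) = χ k * χ j)) = true) :
    Act (fun k (a : R) => χ k * a) := by
  simp only [Bool.and_eq_true, decide_eq_true_eq, List.all_eq_true] at h
  exact ⟨fun k a b => mul_add _ _ _, fun k j a => by simp only [h.2 k (hk k) j (hk j), mul_assoc],
    fun a => by simp only [h.1, one_mul]⟩

end

def lz (n : ℕ) : List (ZMod (n + 1)) := List.finRange (n + 1)

theorem lz_nodup (n : ℕ) : (lz n).Nodup := List.nodup_finRange _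

theorem lz_mem (n : ℕ) (a : ZMod (n + 1)) : a ∈ lz n := List.mem_finRange (n := n + 1) a

abbrev K0 (l : ℕ) : Type := SD (ZMod (l + 1)) Unit fun _ a => a

def e0 (l : ℕ) : List (K0 l) := els _ (lz l) [()]

theorem act0 (l : ℕ) : Act (fun (_ : Unit) (a : ZMod (l + 1)) => a) := ⟨fun _ _ _ => rfl, fun _ _ _ => rfl, fun _ => rfl⟩

def c1 (m l t : ℕ) (k : K0 l) : ZMod (m + 1) := ((t ^ k.a.val : ℕ) : ZMod (m + 1))

abbrev K1 (m l t : ℕ) : Type := SD (ZMod (m + 1)) (K0 l) fun k a => c1 m l t k * a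

def e1 (m l t : ℕ) : List (K1 m l t) := els _ (lz m) (e0 l)

def ok1 (m l t : ℕ) : Bool :=
  decide (c1 m l t 1 = 1) && (e0 l).all fun k => (e0 l).all fun j => decide (c1 m l t (k * j) = c1 m l t k * c1 m l t j)

theorem e0_mem (l : ℕ) (k : K0 l) : k ∈ e0 l := els_mem (lz_mem l) (fun _ => List.mem_singleton.2 rfl) k

theorem e1_mem (m l t : ℕ) (k : K1 m l t) : k ∈ e1 m l t := els_mem (lz_mem m) (e0_mem l) k

theorem e1_nodup (m l t : ℕ) : (e1 m l t).Nodup := els_nodup (lz_nodup m) (els_nodup (lz_nodup l) (List.nodup_singleton _))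

theorem re_sd {A : Type} [AddCommGroup A] [DecidableEq A] (m l t : ℕ) (φ : K1 m l t → A → A) (la : List A)
    (h1 : ok1 m l t = true) (h2 : Act φ) (hn : la.Nodup) (hc : ∀ a, a ∈ la)
    (ho : ((ords (els φ la (e1 m l t))).all fun k => Nat.beq (168 % k) 0) = true) :
    Re True False (cnt (ords (els φ la (e1 m l t)))) := by
  letI g0 : Group (K0 l) := grpSD (act0 l)
  haveI : Group.IsSolvable (K0 l) := solSD (act0 l)
  have a1 := act_chi (c1 m l t) (e0 l) (e0_mem l) h1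
  letI g1 : Group (K1 m l t) := grpSD a1
  haveI : Group.IsSolvable (K1 m l t) := solSD a1
  letI g2 : Group (SD A (K1 m l t) φ) := grpSD h2
  exact re_of (SD A (K1 m l t) φ) _ (els_nodup hn (e1_nodup m l t)) (els_mem hc (e1_mem m l t))
    (fun _ => solSD h2) False.elim ho

abbrev P6 : Type := ℕ × ℕ × ℕ × ℕ × ℕ × ℕ

def c2 (n m l r s t : ℕ) (x : K1 m l t) : ZMod (n + 1) := ((r ^ x.a.val * s ^ x.k.a.val : ℕ) : ZMod (n + 1))

def oP : P6 → List ℕ
  | (n, m, l, r, s, t) => ords (els (fun k a => c2 n m l r s t k * a) (lz n) (e1 m l t))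

def okP : P6 → Bool
  | (n, m, l, r, s, t) => ok1 m l t && ((decide (c2 n m l r s t 1 = 1) && (e1 m l t).all fun k => (e1 m l t).all fun j =>
      decide (c2 n m l r s t (k * j) = c2 n m l r s t k * c2 n m l r s t j)) &&
      (oP (n, m, l, r, s, t)).all fun k => Nat.beq (168 % k) 0)

theorem re_P : ∀ p : P6, okP p = true → Re True False (cnt (oP p))
  | (n, m, l, r, s, t), h => by
    rw [okP, Bool.and_eq_true, Bool.and_eq_true] at h
    exact re_sd m l t _ (lz n) h.1 (act_chi _ _ (e1_mem m l t) h.2.1) (lz_nodup n) (lz_mem n) h.2.2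

abbrev V3 : Type := ZMod 2 × ZMod 2 × ZMod 2

def f1 (v : V3) : V3 := (v.2.2, v.1 + v.2.2, v.2.1)
def f2 (v : V3) : V3 := (v.1, v.2.2, v.2.1 + v.2.2)
def phA (x : K1 6 2 2) (v : V3) : V3 := f1^[x.a.val] (f2^[x.k.a.val] v)
def lV : List V3 := lz 1 ×ˢ (lz 1 ×ˢ lz 1)
theorem lV_mem (v : V3) : v ∈ lV := List.mem_product.2 ⟨lz_mem 1 _, List.mem_product.2 ⟨lz_mem 1 _, lz_mem 1 _⟩⟩
def oA : List ℕ := ords (els phA lV (e1 6 2 2))

theorem actA : Act phA := by
  have h1 : ((e1 6 2 2).all fun k => lV.all fun a => lV.all fun b => decide (phA k (a + b) = phA k a + phA k b)) = true := by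
    decide +kernel
  have h2 : ((e1 6 2 2).all fun k => (e1 6 2 2).all fun j => lV.all fun a =>
      decide (phA (k * j) a = phA k (phA j a))) = true := by decide +kernel
  simp only [List.all_eq_true, decide_eq_true_eq] at h1 h2
  exact ⟨fun k a b => h1 k (e1_mem _ _ _ k) a (lV_mem a) b (lV_mem b),
    fun k j a => h2 k (e1_mem _ _ _ k) j (e1_mem _ _ _ j) a (lV_mem a), fun a => rfl⟩

theorem re_A : Re True False (cnt oA) :=
  re_sd 6 2 2 phA lV (by decide +kernel) actA ((lz_nodup 1).product ((lz_nodup 1).product (lz_nodup 1))) lV_mem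
    (by decide +kernel)

structure M3 where
  (a b c d e f g h i : ZMod 2)
  deriving DecidableEq

def M3.mul (x y : M3) : M3 :=
  ⟨x.a * y.a + x.b * y.d + x.c * y.g, x.a * y.b + x.b * y.e + x.c * y.h, x.a * y.c + x.b * y.f + x.c * y.i,
   x.d * y.a + x.e * y.d + x.f * y.g, x.d * y.b + x.e * y.e + x.f * y.h, x.d * y.c + x.e * y.f + x.f * y.i,
   x.g * y.a + x.h * y.d + x.i * y.g, x.g * y.b + x.h * y.e + x.i * y.h, x.g * y.c + x.h * y.f + x.i * y.i⟩

def M3.det (x : M3) : ZMod 2 :=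
  x.a * (x.e * x.i - x.f * x.h) - x.b * (x.d * x.i - x.f * x.g) + x.c * (x.d * x.h - x.e * x.g)

def M3.adj (x : M3) : M3 :=
  ⟨x.e * x.i - x.f * x.h, x.c * x.h - x.b * x.i, x.b * x.f - x.c * x.e,
   x.f * x.g - x.d * x.i, x.a * x.i - x.c * x.g, x.c * x.d - x.a * x.f,
   x.d * x.h - x.e * x.g, x.b * x.g - x.a * x.h, x.a * x.e - x.b * x.d⟩

def M3.id : M3 := ⟨1, 0, 0, 0, 1, 0, 0, 0, 1⟩

theorem adj_ok (x : M3) (hx : x.det = 1) : x.adj.det = 1 ∧ x.adj.mul x = M3.id := by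
  obtain ⟨a, b, c, d, e, f, g, h, i⟩ := x
  revert a b c d e f g h i
  decide +kernel

def L3 : Type := {x : M3 // x.det = 1}

instance decL3 : DecidableEq L3 := inferInstanceAs (DecidableEq {x : M3 // x.det = 1})

instance mulL3 : Mul L3 := ⟨fun x y => ⟨x.1.mul y.1, by
  have : (x.1.mul y.1).det = x.1.det * y.1.det := by simp only [M3.det, M3.mul]; ring
  rw [this, x.2, y.2, one_mul]⟩⟩

instance oneL3 : One L3 := ⟨⟨M3.id, by decide⟩⟩

instance grpL3 : Group L3 :=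
  @Group.ofLeftAxioms _ mulL3 ⟨fun x => ⟨x.1.adj, (adj_ok _ x.2).1⟩⟩ oneL3
    (fun x y z => Subtype.ext (by
      show (x.1.mul y.1).mul z.1 = x.1.mul (y.1.mul z.1)
      simp only [M3.mul, M3.mk.injEq]
      refine ⟨?_, ?_, ?_, ?_, ?_, ?_, ?_, ?_, ?_⟩ <;> ring))
    (fun x => Subtype.ext (by
      show M3.id.mul x.1 = x.1
      simp [M3.mul, M3.id]))
    (fun x => Subtype.ext (adj_ok _ x.2).2)

def toM (x : V3 × V3 × V3) : M3 := ⟨x.1.1, x.1.2.1, x.1.2.2, x.2.1.1, x.2.1.2.1, x.2.1.2.2, x.2.2.1, x.2.2.2.1, x.2.2.2.2⟩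

def lL : List L3 := (lV ×ˢ (lV ×ˢ lV)).filterMap fun x => if h : (toM x).det = 1 then some ⟨toM x, h⟩ else none

theorem lL_mem (x : L3) : x ∈ lL := by
  obtain ⟨⟨a, b, c, d, e, f, g, h, i⟩, hx⟩ := x
  exact List.mem_filterMap.2 ⟨((a, b, c), (d, e, f), (g, h, i)),
    List.mem_product.2 ⟨lV_mem _, List.mem_product.2 ⟨lV_mem _, lV_mem _⟩⟩, dif_pos hx⟩

def xL : L3 := ⟨⟨0, 0, 1, 0, 1, 0, 1, 0, 0⟩, by decide⟩
def yL : L3 := ⟨⟨0, 0, 1, 0, 1, 1, 1, 1, 0⟩, by decide⟩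
def zL : L3 := ⟨⟨0, 0, 1, 0, 1, 1, 1, 0, 0⟩, by decide⟩

theorem keyL : xL = zL * (xL * (yL * xL * yL⁻¹) * xL⁻¹ * (yL * xL * yL⁻¹)⁻¹) * zL⁻¹ := by decide +kernel

open scoped commutatorElement in
theorem L3_ns : ¬ Group.IsSolvable L3 := by
  let x : L3 := xL
  let y : L3 := yL
  let z : L3 := zL
  have key : x = z * ⁅x, y * x * y⁻¹⁆ * z⁻¹ := keyL
  refine not_isSolvable_of_mem_derivedSeries (show x ≠ 1 from fun h => absurd (congrArg (fun t : L3 => t.1.a) h) (show ¬ ((0 : ZMod 2) = 1) by decide)) fun n => ?_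
  induction n with
  | zero => exact Subgroup.mem_top x
  | succ n ih =>
    rw [key, (derivedSeries_normal _ _).mem_comm_iff, inv_mul_cancel_left]
    exact Subgroup.commutator_mem_commutator ih ((derivedSeries_normal _ _).conj_mem _ ih _)

def oL : List ℕ := ords lL

theorem re_L : Re False True (cnt oL) :=
  re_of L3 lL (by decide +kernel) lL_mem False.elim (fun _ => L3_ns) (by decide +kernel)

def pos : List (P6 × ℕ) := [((0, 0, 1, 0, 0, 1), 49), ((0, 0, 3, 0, 0, 1), 31), ((20, 0, 3, 1, 20, 1), 16), ((2, 0, 1, 1, 2, 1), 2), ((0, 0, 2, 0, 0, 1), 6), ((20, 3, 1, 13, 8, 3), 2), ((83, 1, 1, 41, 55, 1), 14), ((6, 6, 5, 1, 6, 3), 4), ((6, 0, 2, 1, 2, 1), 8), ((20, 3, 1, 20, 8, 3), 10), ((6, 3, 5, 6, 2, 3), 6), ((20, 7, 1, 13, 8, 3), 6), ((7, 0, 1, 1, 7, 1), 6), ((2, 11, 1, 2, 1, 11), 6), ((27, 0, 1, 1, 27, 1), 12)]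
def neg : List (P6 × ℕ) := [((2, 3, 1, 2, 1, 3), 22), ((3, 0, 1, 1, 3, 1), 26), ((2, 0, 3, 1, 2, 1), 16), ((20, 0, 1, 1, 20, 1), 16), ((55, 1, 1, 13, 15, 1), 6), ((11, 0, 1, 1, 11, 1), 8), ((0, 0, 6, 0, 0, 1), 2), ((6, 0, 1, 1, 6, 1), 1), ((6, 6, 1, 1, 6, 6), 4), ((6, 0, 3, 1, 6, 1), 19), ((6, 0, 5, 1, 3, 1), 6), ((20, 7, 1, 13, 8, 7), 6), ((6, 3, 1, 6, 1, 3), 6), ((6, 0, 11, 1, 3, 1), 12)]

end Cfsg.Agent.C3.OT
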