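import Cfsg.Agent.C3.OT

set_option autoImplicit false
set_option maxRecDepth 100000

namespace Cfsg.Agent.C3.OT

theorem pos_ok : (pos.all fun p => okP p.1) = true := by decide +kernel

end Cfsg.Agent.C3.OT
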