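import Cfsg.Agent.C3.OT

set_option autoImplicit false
set_option maxRecDepth 100000

namespace Cfsg.Agent.C3.OT

theorem eq_ok : (D.all fun d => Nat.beq (cnt oA d ^ 6 * (neg.map fun p => cnt (oP p.1) d ^ p.2).prod)
    (cnt oL d * (cnt oL d ^ 5 * (pos.map fun p => cnt (oP p.1) d ^ p.2).prod))) = true := by decide +kernel

end Cfsg.Agent.C3.OT
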