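import Cfsg.Agent.C3.Canon

/-! Kernels of characters of degree prime to `p`. -/

set_option autoImplicit false

namespace Cfsg.Agent.C3

open Cfsg H3 H2 B Subgroup Finset
open scoped ComplexConjugate

universe u

variable {p : ℕ} [hp : Fact p.Prime] {G : Type*} [Group G] [Finite G] {N P H : Subgroup G} {φ χ : G → ℂ}

omit hp in
theorem exists_constituent [Fintype G] (h : IsCharacter G φ) (hd : ¬ p ∣ charDegree φ) :
    ∃ χ, IsIrrCharacter G χ ∧ ¬ p ∣ charDegree χ ∧ classInner φ χ ≠ 0 := by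
  obtain ⟨c, a, b⟩ := h.exists_nat_coeffs
  by_contra! e
  rw [charDegree_eq (χ := φ) (n := ∑ χ : IrrCharacter G, c χ * charDegree (χ : G → ℂ))
    (by rw [b]; simp [IsIrrCharacter.cast_charDegree (Subtype.prop _)])] at hd
  refine hd (dvd_sum fun χ _ => by_contra fun f => f ?_)
  simp [Nat.cast_eq_zero.1 ((a χ).symm.trans (e _ χ.2 fun i => f (i.mul_left _)))]

theorem exists_over_not_dvd [Fintype H] (hi : ¬ p ∣ H.index) {η : H → ℂ} (h : IsCharacter H η)
    (hd : ¬ p ∣ charDegree η) : ∃ χ, IsIrrCharacter G χ ∧ ¬ p ∣ charDegree χ ∧ classInner (fun x : H => χ x) η ≠ 0 := by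
  have := Fintype.ofFinite G
  obtain ⟨χ, a, b, c⟩ := exists_constituent (p := p) (h.ind (G := G)) (by
    rw [charDegree_eq (n := H.index * charDegree η) (by rw [indFun_one, Nat.cast_mul, h.cast_charDegree])]
    exact hp.out.not_dvd_mul hi hd)
  exact ⟨χ, a, b, by rwa [classInner_indFun_left _ a.isClassFunction, Ne, classInner_eq_zero_comm] at c⟩

theorem exists_inv_irr [N.Normal] (hP : IsPGroup p P) (h : N ⊓ centralizer (P : Set G) ≠ ⊥) :
    ∃ θ : N → ℂ, IsIrrCharacter N θ ∧ θ ≠ (fun _ => 1) ∧ ¬ p ∣ charDegree θ ∧ P ≤ inertia θ := by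
  classical
  obtain ⟨⟨c, a, b⟩, d⟩ := ne_bot_iff_exists_ne_one.1 h
  obtain ⟨M, _⟩ := exists_pMod p
  let _ : MulAction P (IrrCharacter N) :=
    { smul := fun g => cjI g.1⁻¹
      one_smul := fun _ => Subtype.ext (by change cjf _ _ = _; simp [cjf_one])
      mul_smul := fun _ _ _ => Subtype.ext (by change cjf _ _ = cjf _ (cjf _ _); simp [cjf_mul]) }
  have e := sum_eq_sum_fixed hP (fun θ : IrrCharacter N => red M ((θ : N → ℂ) 1 * (θ : N → ℂ) ⟨c, a⟩)) fun u θ => by
    change red M (cjf _ _ _ * cjf _ _ _) = _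
    rw [cjf_apply_one, cjf_eq]
    congr 2
    exact congrArg _ (Subtype.ext (by simp [mul_assoc, ← b u u.2]))
  by_contra! f
  rw [← red_sum _ _ fun θ _ => mul_mem (irr_mem_O _ _) (irr_mem_O _ _), sum_irr_degree_mul_of_ne (G := N) (g := ⟨c, a⟩) (fun i => d (Subtype.ext (congrArg Subtype.val i :))),
    sum_eq_single_of_mem (oneIrr N) (by simp; exact fun _ _ => rfl) fun θ i j => ?_] at e
  · simp [oneIrr] at e
  rw [red_mul (irr_mem_O _ _) (irr_mem_O _ _), ← θ.2.cast_charDegree, red_natCast, (natCast_F_eq_zero_iff _).2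
    (by_contra fun l => f _ θ.2 (fun m => j (Subtype.ext m)) l fun g n => ?_), zero_mul]
  exact (inertia _).inv_mem_iff.1 (congrArg Subtype.val ((mem_filter.1 i).2 ⟨g, n⟩))

theorem le_charKer_of_fpf [hN : N.Normal] (hP : IsPGroup p P) (h : N ⊓ centralizer (P : Set G) = ⊥)
    (hχ : IsIrrCharacter G χ) (hd : ¬ p ∣ charDegree χ) : N ≤ charKer χ := by
  classical
  have := Fintype.ofFinite G
  obtain ⟨M, _⟩ := exists_pMod p
  have a := sum_eq_sum_centralizer hP (fun g => if g ∈ N then red M (χ g) else 0) fun u _ x => by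
    simp [hχ.isClassFunction.conj_apply, hN.mem_comm_iff (a := u * x)]
  rw [← sum_filter, ← sum_filter, filter_filter, sum_eq_single_of_mem (s := univ.filter fun a => a ∈ centralizer (P : Set G) ∧ a ∈ N) 1 (by simp [one_mem])
    fun g b c => (c (h.le ⟨(mem_filter.1 b).2.2, (mem_filter.1 b).2.1⟩)).elim, ← hχ.cast_charDegree,
    ← red_sum _ _ fun g _ => (irr_mem_O ⟨χ, hχ⟩ g : χ g ∈ _)] at a
  refine hχ.le_charKer_iff.2 fun b => red_natCast_ne_zero (M := M) hd ?_
  rw [← a, sum_subtype (p := (· ∈ N)) (F := inferInstance) _ (by simp)]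
  simp_all [classInner_def]

omit hp in
theorem le_charKer_of_inner [Fintype H] [N.Normal] (hN : N ≤ H) (hχ : IsIrrCharacter G χ) {η : H → ℂ}
    (hη : IsIrrCharacter H η) (h : classInner (fun x : H => χ x) η ≠ 0) :
    N ≤ charKer χ ↔ N.subgroupOf H ≤ charKer η := by
  have := Fintype.ofFinite N
  refine ⟨fun a x b => (hχ.isCharacter.res H).charKer_le_of_inner hη h fun y => a b y, fun a => hχ.le_charKer_iff.2 ?_⟩
  obtain ⟨n, b⟩ := (((hχ.isCharacter.res H).sub_of_inner_ne_zero hη h).resLe hN).exists_nat_inner isCharacter_one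
  obtain ⟨m, c, d⟩ := hη.exists_pos_degree
  rw [show (fun n : N => χ n) = resLe hN ((fun x : H => χ x) - η) + (m : ℂ) • fun _ => 1 from funext fun x => by
    simp [← d, apply_of_mem_charKer (a (x := ⟨x, hN x.2⟩) x.2)], classInner_add_left, b, classInner_smul_left,
    isIrrCharacter_one.inner_self]
  exact_mod_cast (by omega : n + m * 1 ≠ 0)

theorem exists_not_le_charKer {G : Type u} [Group G] [Finite G] {N : Subgroup G} [N.Normal] (P : Sylow p G)
    (h : N ⊓ centralizer (P : Set G) ≠ ⊥) (hr : resOf p N = N) :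
    ∃ χ, IsIrrCharacter G χ ∧ ¬ p ∣ charDegree χ ∧ ¬ N ≤ charKer χ := by
  obtain ⟨θ, a, b, c, d⟩ := exists_inv_irr P.2 h
  have e : N ≤ N ⊔ P := le_sup_left
  have := Fintype.ofFinite ↥(N ⊔ P)
  obtain ⟨j, f⟩ := H1.exists_relIndex_eq_pow P.2 N
  obtain ⟨η, i, l, -⟩ := exists_canon (p := p) (j := j) (by rw [← f, ← relIndex_sup_left]; rfl) (a.toSubOf e)
    (fun g => by rw [cjf_toSubOf, mem_inertia.1 (sup_le a.isClassFunction.le_inertia d g.2)]) c
    (not_dvd_detOrder (pResidual_eq_top_iff.2 (map_injective (N ⊔ P).subtype_injective (by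
      rw [resOf_subgroupOf e, hr, subgroupOf_map_subtype, inf_eq_left.2 e]))) (a.toSubOf e).isCharacter)
  obtain ⟨χ, m, n, o⟩ := exists_over_not_dvd (fun q => P.not_dvd_index (q.trans (index_dvd_of_le le_sup_right)))
    i.isCharacter (by rwa [charDegree, show η 1 = _ from l 1])
  refine ⟨χ, m, n, fun r => b (a.eq_one_of_forall fun x => ?_)⟩
  exact (l ⟨⟨x, e x.2⟩, x.2⟩).symm.trans ((apply_of_mem_charKer ((le_charKer_of_inner e m i o).1 r x.2)).trans (l 1))

end Cfsg.Agent.C3
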