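/-
Simple groups with three non-trivial class sizes.
-/
import Cfsg.Agent.C3.AC2
import Cfsg.Agent.C3.Kaz
import Cfsg.Agent.B.ZStar
import Cfsg.Agent.BG.Gen3
import Cfsg.Agent.H1.Products
import Cfsg.Agent.H3.Normal
import Cfsg.Agent.H3.Orth
import Cfsg.Agent.H7.PD
import Cfsg.Agent.PF.FT
import Cfsg.Agent.L.Quat

set_option autoImplicit false

namespace Cfsg.Agent.C3

open Cfsg Subgroup H2 H3 BG

variable {G : Type*} [Group G] {g t u w x y : G}

theorem mem_c1 : x ∈ 𝒞₁ y ↔ Commute x y := mem_centralizer_singleton_iff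

theorem c1_le_of_mem (h : y ∈ zpowers x) : 𝒞₁ x ≤ 𝒞₁ y := fun _ hg => by
  obtain ⟨k, rfl⟩ := h
  exact mem_c1.2 ((mem_c1.1 hg).zpow_right k)

/-- the centralizer of `w` is minimal among those of non-identity elements -/
def MinC (w : G) : Prop := ∀ g, g ≠ 1 → 𝒞₁ g ≤ 𝒞₁ w → 𝒞₁ w ≤ 𝒞₁ g

theorem MinC.le (h : MinC w) (h1 : w ≠ 1) (hc : Commute w x) (ho : (orderOf w).Coprime (orderOf x)) : 𝒞₁ w ≤ 𝒞₁ x :=
  have a := mem_zpowers_mul_left hc ho
  (h _ (fun e => h1 (by simpa [e] using a)) (c1_le_of_mem a)).trans (c1_le_of_mem (mem_zpowers_mul_right hc ho))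

variable [Finite G]

theorem ac_of_min (h : ∀ t : G, orderOf t = 2 → MinC t) : AC G := fun t x y ht hx hy => by
  have k1 : ∀ w, Commute w t → (orderOf w).Coprime 2 → 𝒞₁ t ≤ 𝒞₁ w := fun w h1 h2 =>
    (h t ht).le (ord2_ne_one ht) h1.symm (ht ▸ h2.symm)
  have k2 : ∀ (u : G) (j : ℕ), u ^ 2 ^ j = 1 → Commute u t → u * u ≠ 1 → 𝒞₁ t ≤ 𝒞₁ u := fun u j h1 h2 h3 => by
    obtain ⟨s, h4, h5⟩ := exists_ord2_of_ne_bot (isPGroup_zpowers_iff.2 ⟨j, by
      rw [← sq, ← pow_mul, mul_comm, pow_mul, h1, one_pow]⟩ : IsPGroup 2 (zpowers (u * u))) (zpowers_ne_bot.2 h3)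
    have h6 : (u * t) * (u * t) = u * u := by rw [← sq, h2.mul_pow, sq, sq, ord2_mul_self ht, mul_one]
    have h7 : ∀ v : G, v * v = u * u → 𝒞₁ v = 𝒞₁ s := fun v e =>
      have a := c1_le_of_mem (zpowers_le.2 (e ▸ mul_mem (mem_zpowers v) (mem_zpowers v)) h4)
      le_antisymm a (h s h5 v (fun e' => h3 (by rw [← e, e', one_mul])) a)
    refine h t ht u (fun e => h3 (by rw [e, one_mul])) fun g hg => mem_c1.2 ?_
    simpa using (mem_c1.1 hg).inv_right.mul_right (mem_c1.1 ((h7 _ h6).ge ((h7 u rfl).le hg)))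
  have k3 : ∀ g, Commute g t → 𝒞₁ t ≤ 𝒞₁ g ∨ ∃ u w, g = u * w ∧ u * u = 1 ∧ Commute u t ∧ 𝒞₁ t ≤ 𝒞₁ w ∧
      (orderOf w).Coprime 2 := fun g hg => by
    obtain ⟨a, b, h1, ⟨k, h2⟩, h3⟩ := exists_pparts (p := 2) g
    have h4 := k1 _ (hg.pow_left b) h3
    by_cases e : g ^ a * g ^ a = 1
    · exact Or.inr ⟨_, _, h1.symm, e, hg.pow_left a, h4, h3⟩
    · exact Or.inl fun z hz => mem_c1.2 (h1 ▸ (mem_c1.1 (k2 _ k h2 (hg.pow_left a) e hz)).mul_right (mem_c1.1 (h4 hz)))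
  by_contra hc
  obtain ⟨u, w, rfl, h1, h2, h3, -⟩ := (k3 x hx).resolve_left fun e => hc (mem_c1.1 (e (mem_c1.2 hy))).symm
  obtain ⟨v, z, rfl, h4, h5, h6, -⟩ := (k3 y hy).resolve_left fun e => hc (mem_c1.1 (e (mem_c1.2 hx)))
  refine hc (((?_ : Commute u v).mul_right (mem_c1.1 (h6 (mem_c1.2 h2)))).mul_left (mem_c1.1 (h3 (mem_c1.2 hy))).symm)
  rcases k3 _ (h2.mul_left h5) with e | ⟨a, b, h7, h8, h9, h10, h11⟩
  · simpa using (Commute.refl u).inv_right.mul_right (mem_c1.1 (e (mem_c1.2 h2)))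
  have h12 : (u * v) ^ 2 = b ^ 2 := by rw [h7, (mem_c1.1 (h10 (mem_c1.2 h9))).mul_pow, sq, h8, one_mul]
  have h13 : u * (u * v) ^ 2 * u⁻¹ = ((u * v) ^ 2)⁻¹ := by rw [← conj_pow, inverts_left h1 h4, inv_pow]
  rw [h12, ((mem_c1.1 (h10 (mem_c1.2 h2))).pow_right 2).eq, mul_inv_cancel_right, eq_inv_iff_mul_eq_one, ← pow_add] at h13
  have h14 : b = 1 := orderOf_eq_one_iff.1 (Nat.eq_one_of_dvd_coprimes (h11.pow_right 2) dvd_rfl
    (orderOf_dvd_of_pow_eq_one h13))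
  rw [h14, one_pow, sq, ← eq_inv_iff_mul_eq_one, mul_inv_rev, inv_eq_of_mul_eq_one_right h1,
    inv_eq_of_mul_eq_one_right h4] at h12
  exact h12

/-- an abelian self-centralizing regular subgroup of non-prime-power order of a simple group forces double
transitivity -/
theorem two_trans_of_fact [IsSimpleGroup G] {H K : Subgroup G} (hC : ∀ h ∈ H, h ≠ 1 → 𝒞₁ h = H)
    (hcard : K.index = Nat.card H) (hfix : ∀ h ∈ H, h ≠ 1 → ∀ g, g⁻¹ * h * g ∉ K) {y z : G} {p : ℕ} (hy : y ∈ H)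
    (hy1 : y ≠ 1) (hyp : y ^ p = 1) (hz : z ∈ H) (hzp : z ^ p ≠ 1) : MulAction.IsMultiplyPretransitive G (G ⧸ K) 2 := by
  classical
  have := Fintype.ofFinite G
  let N := normalizer (H : Set G)
  let L := H.subgroupOf N
  have hab : ∀ a ∈ H, ∀ b ∈ H, a * b = b * a := fun a ha b hb => by
    by_cases e : b = 1
    · simp [e]
    · exact mem_c1.1 ((hC b hb e).ge ha)
  have : IsMulCommutative L := ⟨⟨fun a b => Subtype.ext (Subtype.ext (hab _ a.2 _ b.2))⟩⟩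
  have hTI : ∀ g, g ∉ N → ∀ s ∈ (H : Set G), g * s * g⁻¹ ∈ (H : Set G) → s = 1 := fun g hg s h1 h2 => by_contra fun e =>
    hg (mem_normalizer_iff_cj.2 (by rw [← hC s h1 e, cj_centralizer_singleton, hC s h1 e, hC _ h2 (by simpa using e)]))
  have hL : ∀ n ∈ L, n ≠ 1 → 𝒞₁ n ≤ L := fun n hn e m hm =>
    (hC n hn fun e' => e (Subtype.ext e')).le (mem_c1.2 ((mem_c1.1 hm).map N.subtype))
  let π : G → ℂ := fun g => Nat.card (MulAction.fixedBy (G ⧸ K) g)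
  have hπ : IsCharacter G π := isCharacter_fixedBy _
  have hreg : (fun h : L => π (h : N)) = regChar L := funext fun h => by
    by_cases e : h = 1
    · rw [e, regChar_one, Nat.card_congr (subgroupOfEquivOfLe le_normalizer).toEquiv, ← hcard]
      simp [π, index]
    · rw [regChar_of_ne e]
      have : IsEmpty (MulAction.fixedBy (G ⧸ K) ((h : N) : G)) := ⟨fun ⟨q, hq⟩ => by
        obtain ⟨g, rfl⟩ := QuotientGroup.mk_surjective q
        exact hfix _ h.2 (fun e' => e (Subtype.ext (Subtype.ext e'))) g (by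
          simpa [mul_assoc] using QuotientGroup.eq.1 (Eq.symm hq))⟩
      exact Nat.cast_eq_zero.2 Nat.card_of_isEmpty
  let I : (N → ℂ) → Prop := fun φ => IsIrrCharacter N φ ∧ ¬ L ≤ charKer φ
  have k1 : ∀ {φ}, I φ → (∀ x : N, (x : G) ∉ (H : Set G) → φ x = 0) ∧ φ 1 = L.index ∧ ⟪π, indFun N φ⟫ = 1 :=
    fun {φ} hφ => by
    obtain ⟨θ, h1, -, rfl⟩ := hφ.1.exists_eq_ind_of_frobenius hφ.2 hL
    refine ⟨fun x hx => indFun_eq_zero_of_not_mem θ hx, by rw [indFun_one, h1.degree_eq_one_of_comm, mul_one], ?_⟩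
    rw [classInner_indFun_right _ hπ.isClassFunction, classInner_indFun_right _ (hπ.res N).isClassFunction, hreg,
      classInner_regChar_left, h1.degree_eq_one_of_comm, map_one]
  let U : (G → ℂ) → Prop := fun χ => IsIrrCharacter G χ ∧ ⟪π, χ⟫ ≠ 0
  have k2 : ∀ {χ ψ}, U χ → U ψ → χ ≠ ψ → IsCharacter G (π - χ - ψ) := fun {χ ψ} h1 h2 e =>
    (hπ.sub_of_inner_ne_zero h1.1 h1.2).sub_of_inner_ne_zero h2.1 (by
      rw [classInner_sub_left, h1.1.inner_of_ne h2.1 e, sub_zero]; exact h2.2)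
  have k3 : ∀ {χ φ}, U χ → I φ → ⟪χ, indFun N φ⟫ ≠ 0 → ⟪χ, indFun N φ⟫ = 1 ∧ ∀ ψ, U ψ → χ ≠ ψ → ⟪ψ, indFun N φ⟫ = 0 :=
    fun {χ φ} h1 h2 h3 => by
    obtain ⟨a, ha⟩ := h1.1.isCharacter.exists_nat_inner h2.1.isCharacter.ind
    obtain ⟨b, hb⟩ := (hπ.sub_of_inner_ne_zero h1.1 h1.2).exists_nat_inner h2.1.isCharacter.ind
    rw [classInner_sub_left, (k1 h2).2.2, ha, sub_eq_iff_eq_add] at hb
    have h4 : a = 1 := by
      have : a ≠ 0 := fun e => h3 (by rw [ha, e, Nat.cast_zero])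
      have : 1 = b + a := by exact_mod_cast hb
      omega
    refine ⟨by rw [ha, h4, Nat.cast_one], fun ψ h5 e => ?_⟩
    obtain ⟨c, hc⟩ := h5.1.isCharacter.exists_nat_inner h2.1.isCharacter.ind
    obtain ⟨d, hd⟩ := (k2 h1 h5 e).exists_nat_inner h2.1.isCharacter.ind
    rw [classInner_sub_left, classInner_sub_left, (k1 h2).2.2, ha, hc, h4, Nat.cast_one, sub_self, sub_eq_iff_eq_add] at hd
    have : 0 = d + c := by exact_mod_cast hd
    rw [hc, show c = 0 by omega, Nat.cast_zero]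
  have k4 : ∀ {φ}, I φ → ∃ χ, U χ ∧ ⟪χ, indFun N φ⟫ ≠ 0 := fun {φ} h1 => by
    obtain ⟨χ, h2, h3, h4⟩ := hπ.isClassFunction.exists_irr_of_inner_ne_zero (ψ := indFun N φ) (by
      rw [(k1 h1).2.2]; exact one_ne_zero)
    exact ⟨χ, ⟨h2, h3⟩, h4⟩
  have k5 : ∀ {φ ψ}, I φ → I ψ → φ ≠ ψ → ⟪indFun N φ - indFun N ψ, indFun N φ - indFun N ψ⟫ = 2 := fun {φ ψ} h1 h2 e => by
    have h3 : ∀ x : N, (x : G) ∉ (H : Set G) → x ≠ 1 → (φ - ψ) x = 0 := fun x hx _ => by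
      simp [(k1 h1).1 x hx, (k1 h2).1 x hx]
    rw [← indFun_sub, classInner_indFun_of_TI hTI (h1.1.isClassFunction.sub h2.1.isClassFunction) h3 h3 (by
      simp [(k1 h1).2.1, (k1 h2).2.1]), classInner_sub_left, classInner_sub_right, classInner_sub_right, h1.1.inner_self,
      h2.1.inner_self, h1.1.inner_of_ne h2.1 e, h2.1.inner_of_ne h1.1 e.symm]
    norm_num
  have k6 : ∀ {φ ψ χ ξ}, I φ → I ψ → U χ → U ξ → ⟪χ, indFun N φ⟫ ≠ 0 → ⟪ξ, indFun N ψ⟫ ≠ 0 → χ ≠ ξ →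
      χ - ξ = indFun N φ - indFun N ψ := fun {φ ψ χ ξ} h1 h2 h3 h4 h5 h6 e => by
    have h7 : ⟪χ - ξ, indFun N φ - indFun N ψ⟫ = 2 := by
      rw [classInner_sub_left, classInner_sub_right, classInner_sub_right, (k3 h3 h1 h5).1, (k3 h3 h1 h5).2 _ h4 e,
        (k3 h4 h2 h6).1, (k3 h4 h2 h6).2 _ h3 e.symm]
      norm_num
    refine eq_of_inner_eq_nrm ?_ ?_
    · rw [h7, nrm_sub_of_orth (h3.1.inner_of_ne h4.1 e), h3.1.nrm_eq, h4.1.nrm_eq]; norm_num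
    · rw [h7, nrm_def, k5 h1 h2 fun e' => h6 (e' ▸ (k3 h3 h1 h5).2 _ h4 e)]
  have u1 : U fun _ => 1 := ⟨isIrrCharacter_one, by
    rw [show ⟪π, fun _ => 1⟫ = 1 from H7.inner_fixedBy_oneI (G := G) (Ω := G ⧸ K)]; exact one_ne_zero⟩
  have k7 : ∀ {φ}, I φ → ⟪fun _ => 1, indFun N φ⟫ = 0 := fun {φ} h1 => by
    rw [classInner_indFun_right _ (isClassFunction_const 1)]
    exact isIrrCharacter_one.inner_of_ne h1.1 fun e => h1.2 (e ▸ fun _ _ _ => rfl)
  obtain ⟨θ, h1, h2⟩ : ∃ θ, IsIrrCharacter L θ ∧ θ (⟨⟨z, le_normalizer hz⟩, hz⟩ ^ p) ≠ θ 1 := by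
    by_contra! e
    exact hzp (congrArg (fun x : L => ((x : N) : G)) (eq_one_of_forall_irr e))
  let pw : L →* L := MonoidHom.mk' (· ^ p) fun a b => (show Commute a b from mul_comm' a b).mul_pow p
  have h3 : IsIrrCharacter L fun x => θ (pw x) :=
    (h1.isCharacter.comp _).irr_of_degree_one (by simpa using h1.degree_eq_one_of_comm)
  have h4 : (fun x => θ (pw x)) ≠ fun _ => 1 := fun e => h2 (by
    rw [h1.degree_eq_one_of_comm]; exact congrFun e _)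
  have h5 := h3.ind_irr_of_frobenius h4 hL
  let y' : N := ⟨y, le_normalizer hy⟩
  have h6 : y' ∈ charKer (indFun L fun x => θ (pw x)) := by
    rw [h5.mem_charKer_iff, indFun_apply', indFun_apply']
    refine congrArg _ (Finset.sum_congr rfl fun n _ => ?_)
    rw [extendByZero_of_mem _ (Normal.conj_mem inferInstance y' hy n), extendByZero_of_mem _ (by simp)]
    refine congrArg θ (Subtype.ext (Subtype.ext ?_))
    simp [y', hyp, pw]
  have h7 : I (indFun L fun x => θ (pw x)) := ⟨h5, fun e => h4 (h3.eq_one_of_charKer_eq_top (by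
    have := (le_charKer_ind_iff le_rfl h3.isCharacter).1 e
    rwa [subgroupOf_self, top_le_iff] at this))⟩
  generalize (indFun L fun x => θ (pw x)) = φ at h6 h7
  obtain ⟨χ, h8, h9⟩ := k4 h7
  have h10 : χ ≠ fun _ => 1 := fun e => h9 (e ▸ k7 h7)
  obtain ⟨ψ, h11, h12, h13⟩ : ∃ ψ, I ψ ∧ ψ ≠ φ ∧ ⟪χ, indFun N ψ⟫ ≠ 0 := by
    by_contra! e
    have := (h8.1.isCharacter.res N).isClassFunction.mem_charKer_of_forall (g := y') fun ψ h1 h2 => by
      by_cases h3 : L ≤ charKer ψ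
      · exact h3 hy
      by_cases h4 : ψ = φ
      · exact h4 ▸ h6
      · exact absurd (by rw [← classInner_indFun_right _ h8.1.isClassFunction]; exact e ψ ⟨h1, h3⟩ h4) h2
    exact hy1 (mem_bot.1 (h8.1.charKer_eq_bot_of_simple h10 ▸ h8.1.mem_charKer_iff.2 (apply_of_mem_charKer this :)))
  have k8 : ∀ {ξ}, I ξ → ⟪χ, indFun N ξ⟫ = 1 := fun {ξ} h1 => by
    obtain ⟨χ', h2, h3⟩ := k4 h1
    by_cases e : χ = χ'
    · exact (k3 h8 h1 (e ▸ h3)).1
    have h4 := k5 h11 h7 h12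
    rw [sub_left_injective ((k6 h11 h1 h8 h2 h13 h3 e).symm.trans (k6 h7 h1 h8 h2 h9 h3 e)), sub_self,
      classInner_zero_left] at h4
    exact absurd h4 (by norm_num)
  have h14 := k2 u1 h8 h10.symm
  have h15 := (le_charKer_iff_inner (h14.res N) L).1 fun g hg =>
    (h14.res N).isClassFunction.mem_charKer_of_forall fun ξ h1 h2 => by
      by_contra e
      have h3 : I ξ := ⟨h1, fun e' => e (e' hg)⟩
      exact h2 (by rw [← classInner_indFun_right _ h14.isClassFunction, classInner_sub_left, classInner_sub_left,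
        (k1 h3).2.2, k7 h3, k8 h3]; simp)
  obtain ⟨a, ha⟩ := h14.exists_nat_degree
  obtain ⟨b, hb⟩ := ((h8.1.isCharacter.res N).res L).exists_nat_inner isCharacter_one
  have h16 : (fun x : L => (π - (fun _ => 1) - χ : G → ℂ) (x : N)) = regChar L - (fun _ => 1) - fun x : L => χ (x : N) := by
    rw [← hreg]; rfl
  rw [h16, classInner_sub_left, classInner_sub_left, classInner_regChar_left, isIrrCharacter_one.inner_self, hb,
    OneMemClass.coe_one, ha, map_one, sub_self, sub_eq_iff_eq_add] at h15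
  have h17 : 0 = a + b := by exact_mod_cast h15
  have h18 := h14.eq_zero_of_apply_one (by rw [ha, show a = 0 by omega, Nat.cast_zero])
  exact H7.two_trans_of_irr (χ := ⟨χ, h8.1⟩) (fun e => h10 (congrArg Subtype.val e)) fun g => by
    have := congrFun h18 g
    simp only [Pi.sub_apply, Pi.zero_apply] at this
    linear_combination this

theorem exists_prime_central {p : ℕ} [hp : Fact p.Prime] (h : p ∣ Nat.card G) :
    ∃ y : G, orderOf y = p ∧ ¬ p ∣ (𝒞₁ y).index := by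
  obtain ⟨P⟩ : Nonempty (Sylow p G) := inferInstance
  have h1 := H1.inf_centralizer_ne_bot_of_isPGroup P.isPGroup' P.isPGroup' le_normalizer (P.ne_bot_of_dvd_card h)
  obtain ⟨k, hk⟩ := (P.isPGroup'.to_le (inf_le_left : _ ⊓ 𝒞 (P : Subgroup G) ≤ _)).exists_card_eq
  obtain ⟨y, hy⟩ := exists_prime_orderOf_dvd_card' (G := ↥((P : Subgroup G) ⊓ 𝒞 (P : Subgroup G))) p
    (hk ▸ dvd_pow_self p fun e => h1 (by rw [← card_eq_one, hk, e, pow_zero]))
  exact ⟨y, (orderOf_coe y).trans hy, fun e => P.not_dvd_index (e.trans (index_dvd_of_le fun g hg =>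
    mem_c1.2 (mem_centralizer_iff.1 y.2.2 g hg)))⟩

theorem c1_eq_of_index (h : 𝒞₁ x ≤ 𝒞₁ y) (e : (𝒞₁ x).index = (𝒞₁ y).index) : 𝒞₁ x = 𝒞₁ y :=
  eq_of_le_of_card_ge h (Nat.eq_of_mul_eq_mul_right (Nat.pos_of_ne_zero index_ne_zero_of_finite)
    (by rw [card_mul_index, ← e, card_mul_index])).le

section
variable [IsSimpleGroup G] (hG : ¬ IsMulCommutative G)
include hG

theorem eq_one_of_comm_conj (h1 : x ≠ 1) (h : ∀ g, Commute (g * x * g⁻¹) y) : y = 1 := by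
  have h2 : normalClosure {x} ≤ 𝒞₁ y := by
    rw [normalClosure, closure_le]
    intro z hz
    obtain ⟨_, rfl, h3⟩ := Group.mem_conjugatesOfSet_iff.1 hz
    obtain ⟨g, rfl⟩ := isConj_iff.1 h3
    exact mem_c1.2 (h g)
  rw [(normalClosure_normal.eq_bot_or_eq_top).resolve_left fun e => h1 (mem_bot.1 (e ▸ subset_normalClosure (Set.mem_singleton x)))] at h2
  rcases (inferInstance : (center G).Normal).eq_bot_or_eq_top with e | e
  · exact mem_bot.1 (e ▸ mem_center_iff.2 fun g => mem_c1.1 (h2 (mem_top g)))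
  · exact absurd ⟨⟨fun a b => mem_center_iff.1 (e ▸ mem_top b) a⟩⟩ hG

theorem index_c1_ne_pow (h1 : x ≠ 1) {p k : ℕ} (hp : p.Prime) : (𝒞₁ x).index ≠ p ^ k := fun e => by
  rcases (solvRad_spec G).1.eq_bot_or_eq_top with h | h
  · exact h1 (mem_bot.1 (h ▸ kazarin hp e))
  · have := (solvRad_spec G).2
    rw [h] at this
    exact hG ⟨⟨IsSimpleGroup.comm_iff_isSolvable.2 (solvable_of_surjective (f := (⊤ : Subgroup G).subtype) fun g => ⟨⟨g, mem_top g⟩, rfl⟩)⟩⟩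

theorem ac_of_three (h3 : ∀ a b c d : G, a ≠ 1 → b ≠ 1 → c ≠ 1 → d ≠ 1 → (𝒞₁ a).index ≠ (𝒞₁ b).index →
    (𝒞₁ a).index ≠ (𝒞₁ c).index → (𝒞₁ b).index ≠ (𝒞₁ c).index → (𝒞₁ d).index = (𝒞₁ a).index ∨
    (𝒞₁ d).index = (𝒞₁ b).index ∨ (𝒞₁ d).index = (𝒞₁ c).index) : AC G := by
  refine ac_of_min fun x hx v v1 hv => by_contra fun hv' => ?_
  have x1 := ord2_ne_one hx
  have h1 := index_dvd_of_le hv
  have h2 : (𝒞₁ x).index ≠ (𝒞₁ v).index := fun e => hv' (c1_eq_of_index hv e.symm).ge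
  obtain ⟨p, hp, h4, h5⟩ := (Nat.eq_two_pow_or_exists_odd_prime_and_dvd (𝒞₁ x).index).resolve_left fun ⟨k, e⟩ =>
    index_c1_ne_pow hG x1 Nat.prime_two e
  obtain ⟨q, hq, h6, h7⟩ : ∃ q, q.Prime ∧ q ∣ (𝒞₁ x).index ∧ q ≠ p := by
    by_contra! e
    exact index_c1_ne_pow hG x1 hp (Nat.eq_prime_pow_of_unique_prime_dvd index_ne_zero_of_finite fun {q} => e q)
  have := Fact.mk hp
  have := Fact.mk hq
  obtain ⟨y, hy, h8⟩ := exists_prime_central (h4.trans (index_dvd_card _))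
  have y1 : y ≠ 1 := fun e => hp.one_lt.ne (by rw [← hy, e, orderOf_one])
  replace h3 := fun d hd => h3 x y v d x1 y1 v1 hd (fun e => h8 (e ▸ h4)) h2 fun e => h8 (e ▸ h4.trans h1)
  have h9 : (𝒞₁ x).index.Coprime (𝒞₁ y).index := Nat.coprime_of_dvd fun r hr h9 h10 => by
    have := Fact.mk hr
    obtain ⟨z, hz, h11⟩ := exists_prime_central (h9.trans (index_dvd_card _))
    rcases h3 z (fun e => hr.one_lt.ne (by rw [← hz, e, orderOf_one])) with e | e | e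
    exacts [h11 (e ▸ h9), h11 (e ▸ h10), h11 (e ▸ h9.trans h1)]
  have k1 : ∀ {a b : G}, a ≠ 1 → b ≠ 1 → (𝒞₁ a).index = (𝒞₁ x).index → (𝒞₁ b).index = (𝒞₁ y).index → ¬ Commute a b :=
    fun {a b} a1 b1 ha hb e => b1 (eq_one_of_comm_conj hG a1 fun g => by
      obtain ⟨s, hs, t, ht, rfl⟩ := H1.forall_mul_of_coprime_index (H := 𝒞₁ b) (K := 𝒞₁ a) (by rw [ha, hb]; exact h9.symm) g
      rw [mul_assoc s, (mem_c1.1 ht).eq, mul_inv_rev, ← mul_assoc s, ← mul_assoc, mul_inv_cancel_right]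
      exact ((mem_c1.1 hs).mul_left e).mul_left (mem_c1.1 hs).inv_left)
  have k2 : ∀ {w : G}, (𝒞₁ w).index = (𝒞₁ v).index → MinC w := fun {w} hw g g1 hg => by
    have h10 := hw ▸ index_dvd_of_le hg
    rcases h3 g g1 with e | e | e
    · exact absurd (Nat.dvd_antisymm h1 (e ▸ h10)) h2
    · exact absurd ((h4.trans h1).trans (e ▸ h10)) h8
    · exact (c1_eq_of_index hg (e.trans hw.symm)).ge
  have k3 : 𝒞₁ x ⊓ 𝒞₁ y = ⊥ := by_contra fun e => by
    obtain ⟨r, hr, h10⟩ := Nat.exists_prime_and_dvd (mt card_eq_one.1 e)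
    have := Fact.mk hr
    obtain ⟨⟨w, h11, h12⟩, hw⟩ := exists_prime_orderOf_dvd_card' r h10
    replace hw : orderOf w = r := (orderOf_coe _).trans hw
    have w1 : w ≠ 1 := fun e => hr.one_lt.ne (by rw [← hw, e, orderOf_one])
    have h13 := k2 (((h3 w w1).resolve_left fun e => k1 w1 y1 e rfl (mem_c1.1 h12)).resolve_left fun e =>
      k1 x1 w1 rfl e (mem_c1.1 h11).symm)
    refine k1 x1 y1 rfl rfl ?_
    by_cases r2 : r = 2
    · exact mem_c1.1 (h13.le w1 (mem_c1.1 h12) (by rw [hw, hy, r2]; exact Nat.coprime_two_left.2 h5)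
        (mem_c1.2 (mem_c1.1 h11).symm))
    · exact (mem_c1.1 (h13.le w1 (mem_c1.1 h11) (by rw [hw, hx]; exact (Nat.coprime_primes hr Nat.prime_two).2 r2)
        (mem_c1.2 (mem_c1.1 h12).symm))).symm
  have k4 : Nat.card G = (𝒞₁ x).index * (𝒞₁ y).index := by rw [← H1.index_inf_of_coprime h9, k3, index_bot]
  have k5 : (𝒞₁ x).index = Nat.card (𝒞₁ y) := Nat.eq_of_mul_eq_mul_right (Nat.pos_of_ne_zero index_ne_zero_of_finite)
    (by rw [card_mul_index, k4])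
  have k6 : ∀ h ∈ 𝒞₁ y, h ≠ 1 → (𝒞₁ h).index = (𝒞₁ y).index := fun h hh e => by_contra fun e' => by
    obtain ⟨m, hm⟩ : (𝒞₁ x).index ∣ (𝒞₁ h).index := by
      rcases h3 h e with e | e | e
      exacts [e ▸ dvd_rfl, absurd e e', e ▸ h1]
    have h10 := (𝒞₁ h).card_mul_index
    rw [k4, hm, mul_left_comm] at h10
    exact h8 ((hy ▸ orderOf_dvd_natCard _ (mem_c1.2 (mem_c1.1 hh).symm)).trans
      (Dvd.intro _ (Nat.eq_of_mul_eq_mul_left (Nat.pos_of_ne_zero index_ne_zero_of_finite) h10)))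
  have k7 : ∀ {a b : G}, a ∈ 𝒞₁ y → b ∈ 𝒞₁ y → a ≠ 1 → b ≠ 1 → Commute a b → (orderOf a).Coprime (orderOf b) →
      𝒞₁ a = 𝒞₁ b := fun {a b} ha hb a1 b1 hc ho => by
    have h10 := mem_zpowers_mul_left hc ho
    have h11 := k6 _ (mul_mem ha hb) fun e => a1 (by simpa [e] using h10)
    rw [← c1_eq_of_index (c1_le_of_mem h10) (h11.trans (k6 a ha a1).symm),
      c1_eq_of_index (c1_le_of_mem (mem_zpowers_mul_right hc ho)) (h11.trans (k6 b hb b1).symm)]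
  have y2 : y ∈ 𝒞₁ y := mem_c1.2 (Commute.refl y)
  obtain ⟨⟨z, hz⟩, h10⟩ := exists_prime_orderOf_dvd_card' q (k5 ▸ h6)
  replace h10 : orderOf z = q := (orderOf_coe _).trans h10
  have z1 : z ≠ 1 := fun e => hq.one_lt.ne (by rw [← h10, e, orderOf_one])
  have hpq := (Nat.coprime_primes hq hp).2 h7
  have h11 := k7 hz y2 z1 y1 (mem_c1.1 hz) (by rwa [h10, hy])
  have k8 : ∀ h ∈ 𝒞₁ y, h ≠ 1 → 𝒞₁ h = 𝒞₁ y := fun h hh e => by
    obtain ⟨a, b, h12, ⟨k, h13⟩, h14⟩ := exists_pparts (p := p) h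
    refine (c1_eq_of_index (fun g hg => mem_c1.2 (h12 ▸ Commute.mul_right ?_ ?_)) (k6 h hh e).symm).symm
    · by_cases e : h ^ a = 1
      · rw [e]; exact Commute.one_right g
      · exact mem_c1.1 ((k7 (pow_mem hh a) hz e z1 (mem_c1.1 (h11.ge (pow_mem hh a))) (h10 ▸ (hpq.symm.pow_left k).coprime_dvd_left
          (orderOf_dvd_of_pow_eq_one h13))).ge (h11.ge hg))
    · by_cases e : h ^ b = 1
      · rw [e]; exact Commute.one_right g
      · exact mem_c1.1 ((k7 (pow_mem hh b) y2 e y1 (mem_c1.1 (pow_mem hh b)) (hy ▸ h14)).ge hg)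
  have h12 := two_trans_of_fact k8 k5 (fun h hh e g hg => k1 x1 (mt H4.conj_eq_one_iff'.1 e) rfl (by
    rw [← k6 h hh e]; exact index_centralizer_of_isConj (isConj_iff.2 ⟨g, by group⟩)) (mem_c1.1 hg).symm) y2 y1
    (hy ▸ pow_orderOf_eq_one y) hz fun e => h7 ((Nat.prime_dvd_prime_iff_eq hq hp).1 (h10 ▸ orderOf_dvd_of_pow_eq_one e))
  obtain ⟨g, h13, h14⟩ : ∃ g, Commute x (g * x * g⁻¹) ∧ g * x * g⁻¹ ≠ x := by
    by_contra! e
    refine x1 (eq_one_of_comm_conj hG x1 fun g => mem_center_iff.1 (B.zstar_center ⟨hx, e⟩ ?_) _)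
    refine (inferInstance : (pPrimeCore 2 G).Normal).eq_bot_or_eq_top.resolve_right fun e => ?_
    exact L.not_dvd_card_pPrimeCore Nat.prime_two (hx ▸ orderOf_dvd_natCard _ (e ▸ mem_top x))
  refine x1 (eq_one_of_comm_conj hG x1 fun s => by_contra fun e => ?_)
  have h15 : ∀ {g : G}, g * x * g⁻¹ ≠ x → ((1 : G) : G ⧸ 𝒞₁ x) ≠ g := fun {g} h e => h (by
    rw [(mem_c1.1 (show g ∈ 𝒞₁ x by simpa using QuotientGroup.eq.1 e)).eq, mul_inv_cancel_right])
  obtain ⟨k, h16, h17⟩ := MulAction.is_two_pretransitive_iff.1 h12 (h15 h14) (h15 (g := s) fun e' => e (by rw [e']))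
  have h18 := mem_c1.1 (show k ∈ 𝒞₁ x by simpa using QuotientGroup.eq.1 h16.symm)
  have h19 : Commute (s⁻¹ * (k * g)) x := mem_c1.1 (QuotientGroup.eq.1 h17.symm)
  have h20 : s * x * s⁻¹ = k * (g * x * g⁻¹) * k⁻¹ := by
    calc _ = s * (x * (s⁻¹ * (k * g))) * g⁻¹ * k⁻¹ := by group
      _ = _ := by rw [← h19.eq]; group
  exact e (h20 ▸ (h18.mul_left h13.symm).mul_left h18.inv_left)

theorem ac1_of_simple (h : AC G) : AC1 G := by
  obtain ⟨P⟩ : Nonempty (Sylow 2 G) := inferInstance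
  have h1 : (P : Subgroup G) ≠ ⊤ := fun e => hG ⟨⟨fun a b => h.comm (P := P) (e ▸ mem_top a) (e ▸ mem_top b)⟩⟩
  have h2 : ¬ IsCyclic P := fun hc => by
    have h3 := pNil_iff_card.1 (L.pNil_of_isCyclic (sylIn_top P) hc)
    rcases (resOf_normal 2 (⊤ : Subgroup G)).eq_bot_or_eq_top with e | e
    · exact h1 (by rw [← (sylIn_top P).resOf_sup, e, bot_sup_eq])
    · rw [e, card_top] at h3
      exact hG ⟨⟨IsSimpleGroup.comm_iff_isSolvable.2 (odd_order (Nat.coprime_two_right.1 h3))⟩⟩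
  have h3 := h.ac0 h2 (Q := P) fun hn => hn.eq_bot_or_eq_top.elim (fun e => h2 (by rw [e]; infer_instance)) h1
  exact h3.ac1 fun s t a hs ht hc h4 h5 => eq_one_of_comm_conj hG (ord2_ne_one hs) fun g =>
    mem_center_iff.1 (h3.cen hs ht hc h4 h5) _

end

open scoped MatrixGroups in
theorem card_c1_pgl {F : Type*} [Field F] [Fintype F] [CharP F 2] (g : PGL(2, F)) (h : g ≠ 1) :
    Nat.card (𝒞₁ g) = Fintype.card F - 1 ∨ Nat.card (𝒞₁ g) = Fintype.card F ∨ Nat.card (𝒞₁ g) = Fintype.card F + 1 := by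
  by_cases e : g ^ 2 = 1
  · obtain ⟨x, hx⟩ := (H4.dact F 2).fix g
    rw [(H4.dact F 2).centralizer_U h ⟨hx, e⟩, H4.card_U_rat (H4.rat_of_U ⟨hx, e⟩ h)]
    exact Or.inr (Or.inl rfl)
  · obtain ⟨x, y, h1, h2, h3⟩ := H4.exists_tp_of e
    rw [(H4.dact F 2).centralizer_T h1.1 e h2 h3, ← top_inf_eq (_ ⊓ _), ← H4.St_inf_St]
    by_cases hx : H4.Rat x
    · exact Or.inl (by simpa using h1.card_rat le_top hx)
    · exact Or.inr (Or.inr (by simpa using h1.card_qd le_top hx))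

end Cfsg.Agent.C3
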