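import Cfsg.Agent.GS.Odd
import Cfsg.Agent.GS.MinAct
import Cfsg.Agent.H2.Baer
import Cfsg.Agent.H2.Count

/-! Real elements. -/

set_option autoImplicit false

namespace Cfsg.Agent.C3

open Cfsg Subgroup H2 BG

universe u

variable {G : Type u} [Group G] [Finite G] {N : Subgroup G} {x y t : G}

theorem isConj_of_coset [hN : N.Normal] (h : (x : G ⧸ N) = y) (h1 : (orderOf x).Coprime (♯N))
    (h2 : (orderOf y).Coprime (♯N)) : ∃ n ∈ N, n * x * n⁻¹ = y := by
  have a : zpowers y ⊓ N = ⊥ := (disjoint_of_coprime_natCard (by rwa [Nat.card_zpowers])).eq_bot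
  obtain ⟨n, b, c⟩ := GS.conj_le_cop (A := zpowers y) (B := zpowers x) le_normalizer_of_normal a
    (zpowers_le.2 (by
      rw [← mul_inv_cancel_left y x]
      exact mul_mem_sup (mem_zpowers y) (QuotientGroup.eq.1 h.symm))) (by rwa [Nat.card_zpowers])
  refine ⟨n, b, (inv_mul_eq_one.1 (a.le (mem_inf.2 ⟨mul_mem (inv_mem (mem_zpowers y))
    (H1.conj_smul_le_iff.1 c x (mem_zpowers x)), QuotientGroup.eq.1 ?_⟩))).symm⟩
  simp [← h, (QuotientGroup.eq_one_iff n).2 b]

omit [Finite G] in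
theorem even_index_of_real (h : IsConj x x⁻¹) (h1 : x * x ≠ 1) : 2 ∣ (𝒞₁ x).index :=
  relIndex_extCent h1 h ▸ relIndex_dvd_index_of_le (centralizer_le_extCent x)

omit [Finite G] in
theorem mul_self_of_real_central (h : IsConj x x⁻¹) (h1 : x ∈ center G) : x * x = 1 := by
  obtain ⟨c, h⟩ := isConj_iff.1 h
  rw [mem_center_iff.1 h1 c, mul_inv_cancel_right] at h
  exact mul_eq_one_iff_eq_inv.2 h

omit [Finite G] in
theorem eq_one_of_odd (h : Odd (orderOf x)) (h1 : x * x = 1) : x = 1 :=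
  orderOf_eq_one_iff.1 (Nat.eq_one_of_dvd_coprimes h.coprime_two_right dvd_rfl
    (orderOf_dvd_of_pow_eq_one (by rwa [sq])))

/-- A group without nontrivial real elements of odd order is `2`-closed. -/
theorem odd_index_of_no_real (h : ∀ x : G, Odd (orderOf x) → IsConj x x⁻¹ → x = 1) :
    Odd (pCore 2 G).index := by
  have := Fact.mk Nat.prime_two
  refine Nat.not_even_iff_odd.1 fun a => ?_
  obtain ⟨t, b⟩ := exists_prime_orderOf_dvd_card' (G := G ⧸ pCore 2 G) 2 a.two_dvd
  obtain ⟨z, c, d, e⟩ := exists_inverted_odd (t := t) ((sq t).symm.trans (orderOf_dvd_iff_pow_eq_one.1 b.dvd)) (by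
    rw [H1.pCore_quotient_eq_bot _ rfl, mem_bot]
    rintro rfl; simp at b)
  obtain ⟨t, rfl⟩ := QuotientGroup.mk_surjective t
  obtain ⟨z, rfl⟩ := QuotientGroup.mk_surjective z
  obtain ⟨n, f, g⟩ := exists_lift_coprime (p := 2) (QuotientGroup.mk' _) z d.coprime_two_right
  have i := (H1.coprime_card_of_isPGroup (H1.isPGroup_pCore 2 G) g).symm
  obtain ⟨m, -, j⟩ := isConj_of_coset (N := pCore 2 G) (x := t * z ^ n * t⁻¹) (y := (z ^ n)⁻¹)
    (by simpa [show ((z : G ⧸ pCore 2 G)) ^ n = z from f] using e)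
    (by rwa [← MulAut.conj_apply, MulEquiv.orderOf_eq]) (by rwa [orderOf_inv])
  refine c (f.symm.trans ?_)
  rw [h _ (Nat.coprime_two_right.1 g) (isConj_iff.2 ⟨m * t, by rw [← j]; group⟩), map_one]

theorem solv_of_odd_index [N.Normal] (h : Group.IsSolvable N) (h1 : Odd N.index) : Group.IsSolvable G :=
  H1.isSolvable_of_normal_of_quotient N h (odd_order h1)

theorem solv_of_pNil_two (h : PNil 2 (⊤ : Subgroup G)) : Group.IsSolvable G :=
  have := Fact.mk Nat.prime_two
  H1.isSolvable_of_normal_of_quotient (pResidual 2 G)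
    (odd_order (Nat.coprime_two_right.1 (resOf_top (G := G) 2 ▸ pNil_iff_card.1 h)))
    (H1.isSolvable_of_isPGroup (isPGroup_quotient_pResidual 2 G))

end Cfsg.Agent.C3
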