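import Cfsg.Agent.H9.SCert
import Cfsg.Agent.H6.Rank

/-!
More certificates for the simplicity of 2-fusion systems of explicit groups:
order colours, and the case of a Sylow normalizer `S : 3`.
-/

set_option autoImplicit false
set_option linter.unusedSectionVars false

namespace Cfsg.Agent.C3.SC

open Cfsg Cfsg.Agent.H6 Cfsg.Agent.H9 Subgroup
open scoped commutatorElement

theorem eqBc_iff {G Ω : Type*} [Group G] [MulAction G Ω] {N : ℕ} {X : ℕ → Ω} {g : ℕ → G}
    {nets : ℕ → Net} {base : List ℕ} (hb : Based N X (⊤ : Subgroup G) base)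
    (hm : IsModel N X g nets vT) (u w : List ℕ) : eqBc nets base u w = true ↔ wp g u = wp g w := by
  refine ⟨hb.eqv hm.toIsPre u w, fun e => (lall_eq _ _).2 fun p hp => beq_eq.2 ?_⟩
  have hu : ∀ l ∈ u, vT l = true := fun _ _ => rfl
  have hw : ∀ l ∈ w, vT l = true := fun _ _ => rfl
  have hi := hb.1 p hp
  rw [fnWc_eq, fnWc_eq]
  exact hm.inj _ ((hm.ok.fnW_lt hu p).2 hi) _ ((hm.ok.fnW_lt hw p).2 hi)
    (by rw [← hm.cmpW hu hi, ← hm.cmpW hw hi, e])

variable {G : Type*} [Group G] {g : ℕ → G} {k d : ℕ} {eqv : List ℕ → List ℕ → Bool}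

noncomputable def ifb (b : Bool) (x y : ℕ) : ℕ := Bool.rec (motive := fun _ => ℕ) y x b

theorem ifb_eq {b : Bool} {P : Prop} [Decidable P] (h : b = true ↔ P) (x y : ℕ) :
    ifb b x y = if P then x else y := by
  cases b
  · rw [if_neg fun p => by simpa using h.2 p]; rfl
  · rw [if_pos (h.1 rfl)]; rfl

/-- colour: is the square trivial, or central -/
noncomputable def colA (eqv : List ℕ → List ℕ → Bool) (k : ℕ) (w : List ℕ) : ℕ :=
  ifb (eqv (lapp w w) []) 0
    (ifb (nall (fun i => eqv (lapp w (lapp w [i])) (i :: lapp w w)) k) 1 2)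

open Classical in
noncomputable def cA (S : Subgroup G) (x : G) : ℕ :=
  if x * x = 1 then 0 else if x * x ∈ centralizer (S : Set G) then 1 else 2

theorem colA_eq (he : ∀ u w, eqv u w = true ↔ wp g u = wp g w) (w : List ℕ) :
    colA eqv k w = cA (PcG g k 0) (wp g w) := by
  classical
  have a : eqv (lapp w w) [] = true ↔ wp g w * wp g w = 1 := by rw [he, lapp_eq]; simp
  have b : nall (fun i => eqv (lapp w (lapp w [i])) (i :: lapp w w)) k = true ↔
      wp g w * wp g w ∈ centralizer (PcG g k 0 : Set G) := by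
    simp only [nall_eq, he, lapp_eq, wp_append, wp_cons, wp_nil, mul_one]
    refine ⟨fun h x hx => ?_, fun h i hi => ?_⟩
    · have := pcG_le (g := g) (k := k) (i := 0) (H := centralizer {wp g w * wp g w})
        (fun j _ l => mem_centralizer_singleton_iff.2 (by rw [← h j l, mul_assoc])) hx
      exact mem_centralizer_singleton_iff.1 this
    · rw [← mul_assoc, h _ (mem_pcG (Nat.zero_le _) hi)]
  rw [colA, cA, ifb_eq a, ifb_eq b]

theorem cA_conj {S : Subgroup G} (a : G) (ha : a ∈ normalizer (S : Set G)) (x : G) :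
    cA S (a * x * a⁻¹) = cA S x := by
  have e : a * x * a⁻¹ * (a * x * a⁻¹) = a * (x * x) * a⁻¹ := by group
  have h1 : a * (x * x) * a⁻¹ = 1 ↔ x * x = 1 := by
    rw [mul_inv_eq_one, mul_eq_left]
  have h2 : a * (x * x) * a⁻¹ ∈ centralizer (S : Set G) ↔ x * x ∈ centralizer (S : Set G) := by
    refine ⟨fun h s hs => ?_, fun h s hs => ?_⟩
    · have := h _ ((mem_normalizer_iff.1 ha s).1 hs)
      calc s * (x * x) = a⁻¹ * (a * s * a⁻¹ * (a * (x * x) * a⁻¹)) * a := by group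
        _ = _ := by rw [this]; group
    · have := h _ ((mem_normalizer_iff.1 (Subgroup.inv_mem _ ha) s).1 hs)
      calc s * (a * (x * x) * a⁻¹) = a * (a⁻¹ * s * a⁻¹⁻¹ * (x * x)) * a⁻¹ := by group
        _ = _ := by rw [this]; group
  classical
  unfold cA
  rw [e]
  exact if_congr h1 rfl (if_congr h2 rfl rfl)

theorem simpleA [Finite G] (he : ∀ u w, eqv u w = true ↔ wp g u = wp g w)
    (hd : d ≤ k) (hk : 0 < k) {m : ℕ} (hm : Nat.card G = 2 ^ k * m) (ho : ¬ 2 ∣ m)
    {rel sq : List (List (List ℕ))} {z σ : List ℕ} {b fin : List (List ℕ)}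
    {st : List (List ℕ × List ℕ × List ℕ)} (h1 : pcChk eqv k d rel = true)
    (h2 : cenChk eqv k d z = true) (h3 : sqChk eqv k d sq = true)
    (h4 : sigChk eqv (colA eqv k) k d σ b = true) (h5 : derChk eqv k fin st [z] = true)
    (S : Sylow 2 G) : (groupFusionSystem (S : Subgroup G)).IsSimple 2 :=
  simple_of_chk he (colA_eq he) cA_conj hd hk hm ho h1 h2 h3 h4 h5 S

theorem mem_of_sq [Finite G] {S : Subgroup G} (hs : Syl 2 S ⊤) {a : G}
    (ha : a ∈ normalizer (S : Set G))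
    (h : ∀ x ∈ S, x⁻¹ * (a * a * x * (a * a)⁻¹) ∈ (frattini S).map S.subtype) :
    a ∈ S ⊔ centralizer (S : Set G) := by
  have hp : ∀ n : ℕ, ∀ x ∈ S, x⁻¹ * ((a * a) ^ n * x * ((a * a) ^ n)⁻¹) ∈
      (frattini S).map S.subtype := fun n => by
    induction n with
    | zero => intro x _; simp
    | succ n ih =>
      intro x hx
      have := mul_mem (ih x hx) (h _ ((mem_normalizer_iff.1 (pow_mem (mul_mem ha ha) n) x).1 hx))
      convert this using 1
      rw [pow_succ']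
      generalize a * a = b
      generalize b ^ n = c
      group
  obtain ⟨e, m, hm, ho⟩ := Nat.exists_eq_two_pow_mul_odd (orderOf_pos a).ne'
  have hc : (2 ^ e).Coprime m := Nat.Coprime.pow_left _ (Nat.coprime_two_left.2 hm)
  have h0 : a ^ (2 ^ e * m) = 1 := ho ▸ pow_orderOf_eq_one a
  have h1 : a ^ m ∈ S := hs.sylIn.mem_of_mem_normalizer trivial (k := e)
    (by rw [← pow_mul, mul_comm, h0]) (pow_mem ha m)
  have h2 : (a ^ 2 ^ e) ^ m = 1 := by rw [← pow_mul, h0]
  have h3 : a ^ 2 ^ e ∈ centralizer (S : Set G) := by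
    refine H1.le_centralizer_of_commutator_le_frattini (A := zpowers (a ^ 2 ^ e))
      (zpowers_le.2 (pow_mem ha _)) ?_ (commutator_le.2 fun x hx c hc => ?_) (mem_zpowers _)
    · obtain ⟨n, hn⟩ := IsPGroup.iff_card.1 (hs.pg.to_subgroup (frattini S))
      rw [hn, Nat.card_zpowers]
      exact (Nat.Coprime.pow_right n (Nat.coprime_two_right.2 hm)).coprime_dvd_left
        (orderOf_dvd_of_pow_eq_one h2)
    · obtain ⟨j, rfl⟩ := (mem_powers_iff_mem_zpowers.2 hc)
      obtain ⟨t, rfl⟩ := hm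
      have := hp (2 ^ e * j * (t + 1)) x⁻¹ (S.inv_mem hx)
      have e1 : (a * a) ^ (2 ^ e * j * (t + 1)) = (a ^ 2 ^ e) ^ j := by
        rw [← pow_two, ← pow_mul, ← pow_mul, show 2 * (2 ^ e * j * (t + 1)) =
          2 ^ e * (2 * t + 1) * j + 2 ^ e * j by ring, pow_add, pow_mul, h0, one_pow, one_mul]
      rw [e1] at this
      simpa [commutatorElement_def, mul_assoc] using this
  have h4 : a = (a ^ 2 ^ e) ^ Nat.gcdA (2 ^ e) m * (a ^ m) ^ Nat.gcdB (2 ^ e) m := by
    rw [← zpow_natCast, ← zpow_natCast, ← zpow_mul, ← zpow_mul, ← zpow_add, ← Nat.gcd_eq_gcd_ab, hc]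
    simp
  rw [h4]
  exact mul_mem (mem_sup_right (zpow_mem h3 _)) (mem_sup_left (zpow_mem h1 _))

theorem centric [Finite G] {S R : Subgroup G} (hs : Syl 2 S ⊤) (hR : R ≤ S)
    (hn : S ≤ normalizer (R : Set G)) (hc : ∀ s ∈ S, (∀ x ∈ R, x * s = s * x) → s ∈ R)
    (c : G) (h2 : ∃ k, c ^ 2 ^ k = 1) (h : ∀ x ∈ R, x * c = c * x) : c ∈ R := by
  obtain ⟨n, h2⟩ := h2
  have a : c ∈ normalizer (R : Set G) := mem_normalizer_of_finite fun x hx => by
    rw [← h x hx]; simpa using hx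
  obtain ⟨u, hu, e⟩ := (hs.mono hn le_top).conj (zpowers_le.2 a) (show IsPGroup 2 (zpowers c) from fun ⟨x, j, e⟩ => ⟨n, Subtype.ext (by
    subst e; show (c ^ j) ^ 2 ^ n = 1
    rw [← zpow_natCast, ← zpow_mul, mul_comm, zpow_mul, zpow_natCast, h2, one_zpow])⟩)
  have := hc _ (e c (mem_zpowers c)) fun x hx => by
    have := h _ ((mem_normalizer_iff.1 (Subgroup.inv_mem _ hu) x).1 hx)
    calc x * (u * c * u⁻¹) = u * (u⁻¹ * x * u⁻¹⁻¹ * c) * u⁻¹ := by group
      _ = _ := by rw [this]; group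
  exact (mem_normalizer_iff.1 hu c).2 this

/-- the word `y` normalizes `PcG g k e` -/
noncomputable def nrmChk (eqv : List ℕ → List ℕ → Bool) (k e : ℕ) (y : List ℕ)
    (vs : List (List ℕ)) : Bool :=
  nall (fun i => bor (Nat.ble (Nat.succ i) e)
    (band (inW e k (lk [] vs i)) (eqv (lapp y [i]) (lapp (lk [] vs i) y)))) k

theorem nrm_spec (he : ∀ u w, eqv u w = true ↔ wp g u = wp g w) {e : ℕ} {y : List ℕ}
    {vs : List (List ℕ)} (h : nrmChk eqv k e y vs = true) {i : ℕ} (h1 : e ≤ i) (h2 : i < k) :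
    wp g (lk [] vs i) ∈ PcG g k e ∧ wp g y * g i * (wp g y)⁻¹ = wp g (lk [] vs i) := by
  simp only [nrmChk, nall_eq, bor_eq, band_eq, ble_eq, he, lapp_eq, wp_append, wp_cons, wp_nil,
    mul_one] at h
  rcases h i h2 with a | ⟨a, b⟩
  · omega
  · exact ⟨mem_of_inW a, by rw [b]; simp⟩

theorem nrm_of [Finite G] (he : ∀ u w, eqv u w = true ↔ wp g u = wp g w) {e : ℕ} {y : List ℕ}
    {vs : List (List ℕ)} (h : nrmChk eqv k e y vs = true) :
    wp g y ∈ normalizer (PcG g k e : Set G) :=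
  mem_normalizer_of_finite fun x hx => by
    have := conj_mem_of_gens (a := (wp g y)⁻¹) (fun j a b => by
      obtain ⟨p, q⟩ := nrm_spec he h a b
      rw [inv_inv, q]; exact p) hx
    rwa [inv_inv] at this

/-- colour: is the fourth power trivial -/
noncomputable def chk4 (eqv : List ℕ → List ℕ → Bool) (k : ℕ) (v : List ℕ) (b : Bool) : Bool :=
  allNF (Nat.sub k 3) 3 fun w =>
    beqb (eqv (lapp (lapp v w) (lapp (lapp v w) (lapp (lapp v w) (lapp v w)))) []) b

theorem chk4_spec (h : Pc g k 3) (hk : 3 ≤ k) (he : ∀ u w, eqv u w = true ↔ wp g u = wp g w)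
    {v : List ℕ} {b : Bool} (hc : chk4 eqv k v b = true) {x : G}
    (hx : (wp g v)⁻¹ * x ∈ PcG g k 3) : x ^ 4 = 1 ↔ b = true := by
  obtain ⟨w, l, e⟩ := h.exists_nf' (n := Nat.sub k 3) (by simp; omega) hx
  have := (beqb_eq _ _).1 (allNF_spec hc l)
  rw [← this, he]
  simp only [lapp_eq, wp_append, e, wp_nil, mul_inv_cancel_left]
  rw [show x ^ 4 = x * (x * (x * x)) by simp [pow_succ, mul_assoc]]

theorem three {Q : Type*} {f : G → G} {m : G → Q} (hf : ∀ x y, m (f x) = m (f y) ↔ m x = m y)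
    {x y z : G} (h1 : m (f x) = m x) (h2 : m (f y) = m x ∨ m (f y) = m y ∨ m (f y) = m z)
    (h3 : m (f z) = m x ∨ m (f z) = m y ∨ m (f z) = m z) :
    m (f (f x)) = m x ∧ m (f (f y)) = m y ∧ m (f (f z)) = m z := by
  have a := hf (f x) x
  have b := hf (f y) y
  have c := hf (f y) z
  have d := hf (f z) z
  have e := hf (f z) y
  have p := hf x y
  have q := hf x z
  have r := hf y z
  grind

theorem simpleB [Finite G] (he : ∀ u w, eqv u w = true ↔ wp g u = wp g w)
    (hk : 3 ≤ k) {m : ℕ} (hm : Nat.card G = 2 ^ k * m) (ho : ¬ 2 ∣ m)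
    {rel sq : List (List (List ℕ))} {z y₁ y₂ φ₀ φ₁ : List ℕ} {fin v₁ v₂ v₃ : List (List ℕ)}
    {st : List (List ℕ × List ℕ × List ℕ)} (h1 : pcChk eqv k 3 rel = true)
    (h2 : cenChk eqv k 3 z = true) (h3 : sqChk eqv k 3 sq = true)
    (h4 : band (lall (fun v => chk4 eqv k v false) [[0], [1], [0, 1, 2]])
      (lall (fun v => chk4 eqv k v true) [[], [2], [1, 2], [0, 2], [0, 1]]) = true)
    (h5 : derChk eqv k fin st [z] = true)
    (h6 : allNF k 0 (fun w => bor (inW 2 k w) (beqb (nall (fun i => bor (Nat.ble (Nat.succ i) 2)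
      (eqv (lapp w [i]) (i :: w))) k) false)) = true)
    (h7 : band (eqv (lapp y₁ y₁) []) (band (eqv (lapp y₂ y₂) []) (band (nrmChk eqv k 2 y₁ v₁)
      (nrmChk eqv k 2 y₂ v₂))) = true)
    (h8 : band (nrmChk eqv k 0 (lapp y₁ y₂) ((1 :: φ₀) :: (0 :: 1 :: 2 :: φ₁) :: v₃))
      (band (inW 3 k φ₀) (inW 3 k φ₁)) = true)
    (S : Sylow 2 G) : (groupFusionSystem (S : Subgroup G)).IsSimple 2 := by
  have h := pc_of_chk he h1
  have a : ∀ w, NFm k 0 w → w = [] ∨ wp g w ≠ 1 ∧
      ((∀ i < 3, wp g w * g i = g i * wp g w) → wp g w = wp g z) := fun w hw => by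
    have := allNF_spec h2 hw
    rw [bor_eq, band_eq, bor_eq, beqb_eq, beqb_eq, ← Bool.not_eq_true, ← Bool.not_eq_true, he, he,
      nall_eq] at this
    refine this.imp H9.isNil_eq fun e => ⟨e.1, fun f => e.2.resolve_left (not_not.2 fun i l => ?_)⟩
    rw [he, lapp_eq]; simpa using f i l
  have a1 : ∀ w, NFm k 0 w → wp g w = 1 → w = [] := fun w p q => (a w p).resolve_right (·.1 q)
  have hs := h.syl a1 hm ho
  have hF := h.frattini_eq he h3
  refine simple_sylow hs (simple_of_crit hs (fun e => ?_) (fun T p q => ?_) fun H hS hC hR => ?_) S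
  · have := h.card_ge a1
    rw [e, card_bot] at this
    exact absurd (Nat.one_lt_two_pow (by omega)) (not_lt.2 this)
  · obtain ⟨x, r, s, t⟩ := p.exists_central hs.pg q
    obtain ⟨w, l, rfl⟩ := h.exists_nf' (zero_add k) (p.1 r)
    refine le_of_derChk he p h5 (cl_le.2 fun v hv => ?_)
    rw [List.mem_singleton.1 hv]
    rcases a w l with rfl | ⟨-, e⟩
    · simp at s
    · exact e (fun i hi => (t _ (mem_pcG (Nat.zero_le _) (by omega))).symm) ▸ r
  simp only [band_eq, he, lapp_eq, wp_append, wp_nil] at h7 h8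
  have ht := nrm_of he h8.1
  have t0 := (nrm_spec he h8.1 (i := 0) le_rfl (by omega)).2
  have t1 := (nrm_spec he h8.1 (i := 1) (by omega) (by omega)).2
  simp only [lk_zero, lk_succ, wp_cons, wp_append] at ht t0 t1
  have hle : PcG g k 2 ≤ PcG g k 0 := pcG_mono (by omega)
  have htH : wp g y₁ * wp g y₂ ∈ H := by
    refine hR (PcG g k 2) hle (centric hs hle (fun y hy => mem_normalizer_of_finite fun x hx => ?_)
      fun s hs' hc => ?_) ⟨ht, mul_mem (subset_closure ⟨nrm_of he h7.2.2.1, 1, by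
        simpa [pow_two] using h7.1⟩) (subset_closure ⟨nrm_of he h7.2.2.2, 1, by
        simpa [pow_two] using h7.2.1⟩)⟩
    · have := mul_mem hx (pcG_mono (show 2 ≤ 3 by omega) (h.comm_mem (hle hx) (Subgroup.inv_mem _ hy)))
      simpa [mul_assoc] using this
    · obtain ⟨w, l, rfl⟩ := h.exists_nf' (zero_add k) hs'
      have := allNF_spec h6 l
      rw [bor_eq, beqb_eq, ← Bool.not_eq_true, nall_eq] at this
      refine mem_of_inW (this.resolve_right (not_not.2 fun i hi => ?_))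
      rw [bor_eq, ble_eq, he, lapp_eq]
      by_cases c : i + 1 ≤ 2
      · exact Or.inl c
      · exact Or.inr (by simpa using (hc _ (mem_pcG (by omega) hi)).symm)
  generalize wp g y₁ * wp g y₂ = t at ht t0 t1 htH
  let μ : G → G ⧸ PcG g k 3 := QuotientGroup.mk
  have n1 : ∀ a ∈ normalizer (PcG g k 0 : Set G), ∀ x y,
      μ (a * x * a⁻¹) = μ (a * y * a⁻¹) ↔ μ x = μ y := fun a ha x y => by
    have hn := H1.normalizer_le_normalizer_map_frattini _ ha
    rw [hF] at hn
    simp only [μ, QuotientGroup.eq]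
    rw [mem_normalizer_iff.1 hn (x⁻¹ * y)]
    exact iff_of_eq (by congr 1; group)
  rw [band_eq, lall_eq, lall_eq] at h4
  have c3 : ∀ a ∈ normalizer (PcG g k 0 : Set G), ∀ v ∈ [[0], [1], [0, 1, 2]],
      μ (a * wp g v * a⁻¹) = μ (g 0) ∨ μ (a * wp g v * a⁻¹) = μ (g 1) ∨
        μ (a * wp g v * a⁻¹) = μ (g 0 * (g 1 * g 2)) := fun a ha v hv => by
    have p : wp g v ∈ PcG g k 0 := wp_mem fun l hl => mem_pcG (Nat.zero_le _) (by
      simp only [List.mem_cons, List.not_mem_nil, or_false] at hv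
      rcases hv with rfl | rfl | rfl <;> simp at hl <;> omega)
    have q : ¬ (a * wp g v * a⁻¹) ^ 4 = 1 := by
      rw [conj_pow, mul_inv_eq_one, mul_eq_left, chk4_spec h hk he (h4.1 v hv) (by simp)]; simp
    obtain ⟨u, r, s⟩ := h.exists_nf (i := 0) (n := 3) (by omega) ((mem_normalizer_iff.1 ha _).1 p)
    have s' : μ (a * wp g v * a⁻¹) = μ (wp g u) := (QuotientGroup.eq.2 s).symm
    have n : u ∉ [[], [2], [1, 2], [0, 2], [0, 1]] := fun hu =>
      q ((chk4_spec h hk he (h4.2 u hu) s).2 rfl)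
    rw [s']
    simp only [NFm] at r
    rcases r with ((rfl | ⟨_, rfl, rfl⟩) | ⟨_, rfl | ⟨_, rfl, rfl⟩, rfl⟩) |
      ⟨_, (rfl | ⟨_, rfl, rfl⟩) | ⟨_, rfl | ⟨_, rfl, rfl⟩, rfl⟩, rfl⟩ <;> simp at n ⊢
  have key : ∀ a ∈ normalizer (PcG g k 0 : Set G), μ (a * g 0 * a⁻¹) = μ (g 0) → a ∈ H := by
    intro a ha e
    refine sup_le hS hC (mem_of_sq hs ha fun x hx => ?_)
    rw [hF]
    obtain ⟨p, q, r⟩ := three (f := fun x => a * x * a⁻¹) (n1 a ha) e
      (by simpa using c3 a ha [1] (by simp)) (by simpa using c3 a ha [0, 1, 2] (by simp))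
    have ha2 := mul_mem ha ha
    have w : ∀ x, a * (a * x * a⁻¹) * a⁻¹ = a * a * x * (a * a)⁻¹ := fun x => by group
    simp only [w] at p q r
    have hn := H1.normalizer_le_normalizer_map_frattini _ ha2
    rw [hF] at hn
    generalize a * a = a' at p q r hn
    let B : Subgroup G :=
      { carrier := {x | x ∈ PcG g k 0 ∧ x⁻¹ * (a' * x * a'⁻¹) ∈ PcG g k 3}
        one_mem' := ⟨one_mem _, by simp⟩
        mul_mem' := fun {x y} p q => ⟨mul_mem p.1 q.1, by
          simpa [mul_assoc] using mul_mem (h.normD q.1 p.2) q.2⟩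
        inv_mem' := fun {x} p => ⟨Subgroup.inv_mem _ p.1, by
          simpa [mul_assoc] using h.normD (Subgroup.inv_mem _ p.1) (Subgroup.inv_mem _ p.2)⟩ }
    have m0 : g 0 ∈ PcG g k 0 := mem_pcG le_rfl (by omega)
    have m1 : g 1 ∈ PcG g k 0 := mem_pcG (by omega) (by omega)
    have m2 : g 2 ∈ PcG g k 0 := mem_pcG (by omega) (by omega)
    have b0 : g 0 ∈ B := ⟨m0, QuotientGroup.eq.1 p.symm⟩
    have b1 : g 1 ∈ B := ⟨m1, QuotientGroup.eq.1 q.symm⟩
    have b2 : g 0 * (g 1 * g 2) ∈ B := ⟨mul_mem m0 (mul_mem m1 m2), QuotientGroup.eq.1 r.symm⟩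
    refine (pcG_le (H := B) (fun j _ l => ?_) hx).2
    by_cases c : 3 ≤ j
    · have := mem_pcG (g := g) c l
      exact ⟨mem_pcG (Nat.zero_le _) l,
        mul_mem (Subgroup.inv_mem _ this) ((mem_normalizer_iff.1 hn _).1 this)⟩
    · have : j = 0 ∨ j = 1 ∨ j = 2 := by omega
      rcases this with rfl | rfl | rfl
      · exact b0
      · exact b1
      · simpa using B.mul_mem (B.inv_mem b1) (B.mul_mem (B.inv_mem b0) b2)
  have u0 : μ (t * g 0 * t⁻¹) = μ (g 1) := by
    rw [t0]; exact QuotientGroup.mk_mul_of_mem _ (mem_of_inW h8.2.1)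
  have u1 : μ (t * g 1 * t⁻¹) = μ (g 0 * (g 1 * g 2)) := by
    rw [t1, show g 0 * (g 1 * (g 2 * wp g φ₁)) = g 0 * (g 1 * g 2) * wp g φ₁ by group]
    exact QuotientGroup.mk_mul_of_mem _ (mem_of_inW h8.2.2)
  intro a ha
  have hti := Subgroup.inv_mem _ ht
  rcases c3 a ha [0] (by simp) with e | e | e <;> simp only [wp_cons, wp_nil, mul_one] at e
  · exact key a ha e
  · have := key (t⁻¹ * a) (mul_mem hti ha) ((n1 t ht _ _).1 (by
      rw [u0, ← e]; congr 1; group))
    simpa using mul_mem htH this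
  · have := key (t⁻¹ * (t⁻¹ * a)) (mul_mem hti (mul_mem hti ha)) ((n1 t ht _ _).1 (by
      rw [u0]
      refine (n1 t ht _ _).1 ?_
      rw [u1, ← e]; congr 1; group))
    simpa using mul_mem htH (mul_mem htH this)

end Cfsg.Agent.C3.SC
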