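import Cfsg.Agent.C3.Glaub5

/-! Degree bound for a cyclic operator group all of whose elements have the same fixed points. -/

set_option autoImplicit false

namespace Cfsg.Agent.C3

open Cfsg Subgroup H3 BG

variable {X : Type*} [Group X] [Finite X] {N : Subgroup X} [N.Normal] {s : X} {ξ : X → ℂ}

theorem res_irr_of_inv [Fintype N] (h : IsCyclic (X ⧸ N)) (hξ : IsIrrCharacter X ξ) {θ : N → ℂ}
    (h1 : IsIrrCharacter N θ) (h2 : ⟪fun x : N => ξ x, θ⟫ ≠ 0) (h3 : inertia (G := X) θ = ⊤) :
    IsIrrCharacter N fun x : N => ξ x := by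
  have := Fintype.ofFinite X
  have h4 := commutator_le_of_cyclic h
  obtain ⟨η, b1, b2⟩ := exists_ext_of_cyclic h1 (inertia_eq_top_iff.1 h3) h
  obtain rfl : θ = fun x : N => η x := (funext b2).symm
  obtain ⟨β, c1, c2, rfl⟩ := hξ.exists_gallagher b1.isCharacter h1 h2
  convert h1 using 2 with x
  rw [Pi.mul_apply, apply_of_mem_charKer (c2 x.2), c1.degree_eq_one_iff.2 (h4.trans c2), one_mul]

theorem sInv_of_cent_eq {Γ : Type*} [Group Γ] [Finite Γ] {G S T : Subgroup Γ} (h : S ≤ 𝒩 G)
    (hc : (♯G).Coprime (♯S)) (hs : Group.IsSolvable S) (hT : T ≤ S) (e : G ⊓ 𝒞 T = G ⊓ 𝒞 S)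
    {θ : G → ℂ} (h1 : IrrI T θ) : SInv S θ := by
  have a := card_irr_inv (hT.trans h) (hc.coprime_dvd_right (card_dvd_of_le hT))
    (H1.isSolvable_of_le hT hs)
  rw [e, ← card_irr_inv h hc hs] at a
  exact (Set.ext_iff.1 (Set.eq_of_subset_of_ncard_le (s := {χ : IrrCharacter G | SInv S χ.1})
    (t := {χ | SInv T χ.1}) (fun χ b => SInv.mono b hT) a.le) ⟨θ, h1.irr⟩).2 h1.inv

theorem orderOf_le_degree (ht : N ⊔ zpowers s = ⊤) (hc : (♯N).Coprime (orderOf s))
    (hf : ∀ x ∈ zpowers s, x ≠ 1 → N ⊓ 𝒞 (zpowers x) = N ⊓ 𝒞 (zpowers s))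
    (hξ : IsIrrCharacter X ξ) (hs : s ∉ charCenter ξ) : orderOf s ≤ charDegree ξ + 1 := by
  have := Fintype.ofFinite X
  have := Fintype.ofFinite N
  obtain ⟨θ, h1, h2⟩ := hξ.exists_under N
  by_cases h3 : inertia θ ⊓ zpowers s = ⊥
  · have a := hξ.clifford_degree h1 h2
    obtain ⟨e, b⟩ := (hξ.isCharacter.res N).exists_nat_inner h1.isCharacter
    rw [b, ← h1.cast_charDegree, ← hξ.cast_charDegree] at a
    have c := H1.card_inf_mul_relIndex (inertia θ) (zpowers s)
    rw [h3, card_bot, one_mul, Nat.card_zpowers] at c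
    have d : e ≠ 0 := fun d => h2 (by simp [b, d])
    have f : charDegree ξ = e * (inertia (G := X) θ).index * charDegree θ := by exact_mod_cast a
    rw [← c, f]
    exact ((relIndex_le_of_le_right le_top (by simp [index_ne_zero_of_finite])).trans_eq
      (relIndex_top_right _)).trans (((Nat.le_mul_of_pos_left _ (Nat.pos_of_ne_zero d)).trans
      (Nat.le_mul_of_pos_right _ h1.charDegree_pos)).trans (Nat.le_succ _))
  have hc' : (♯N).Coprime (♯(zpowers s)) := by rwa [Nat.card_zpowers]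
  have h4 := res_irr_of_inv (isCyclic_quot ht) hξ h1 h2 (top_le_iff.1 (ht.ge.trans (sup_le
    h1.isClassFunction.le_inertia fun y hy => by
      obtain ⟨⟨x, a, b⟩, c⟩ := ne_bot_iff_exists_ne_one.1 h3
      exact (cInv_iff (le_normalizer_of_normal hy)).1 (sInv_of_cent_eq le_normalizer_of_normal hc'
        inferInstance (zpowers_le.2 b) (hf x b fun e => c (Subtype.ext e)) ⟨h1, sInv_zpowers
        (le_normalizer_of_normal b) ((cInv_iff (le_normalizer_of_normal b)).2 a)⟩ y hy))))
  have h5 : (⟨s, mem_zpowers s⟩ : zpowers s) ≠ 1 := fun e => hs (by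
    rw [show s = 1 from congrArg Subtype.val e]; exact one_mem _)
  have := nontrivial_of_ne _ _ h5
  have := Fintype.ofFinite (zpowers s)
  have := Fintype.ofFinite ↥(N ⊓ 𝒞 (zpowers s))
  obtain ⟨ε, β, μ, ϑ, a, b, c, d, f⟩ := exists_of_slices (char_mulHom (C := N ⊓ 𝒞 (zpowers s))
    (S := zpowers s) inf_le_right hξ.isCharacter) fun x hx => by
      have g := one_of_cent (le_normalizer_of_normal (H := N) x.2)
        (hc'.symm.coprime_dvd_left ((zpowers s).orderOf_dvd_natCard x.2))
      rw [hf x x.2 (by simpa using hx)] at g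
      have i := g.inner_self (ext_of_char hξ.isCharacter h4) rfl
      exact nrm_eq_one i
  have g := f 1
  have i := d 1 _ h5
  simp only [OneMemClass.coe_one, mul_one, one_mul,
    Nat.card_zpowers, ← hξ.cast_charDegree, ← b.cast_charDegree, ← c.cast_charDegree] at g i
  have j : charDegree ϑ ≠ 0 := fun j => hs (hξ.isCharacter.mem_charCenter_iff.2 (by
    rw [← Complex.norm_natCast, g, i, j, norm_mul, norm_linear]; simp))
  replace g : (charDegree ξ : ℤ) = orderOf s * charDegree ϑ + ε * charDegree β := by exact_mod_cast g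
  rcases a with rfl | rfl
  · have := Nat.le_mul_of_pos_right (orderOf s) (Nat.pos_of_ne_zero j)
    generalize charDegree ϑ = u at this g
    zify at this ⊢
    linarith [Int.natCast_nonneg (charDegree β)]
  have k : charDegree β ≤ charDegree ϑ := c.degree_le_of_inner_ne_zero b fun k => by
    have l := (hξ.isCharacter.res (N ⊓ 𝒞 (zpowers s))).inner_re_nonneg b.isCharacter
    rw [show (fun x : ↥(N ⊓ 𝒞 (zpowers s)) => ξ x) = (♯(zpowers s) : ℂ) • ϑ - β from
      funext fun x => by simpa [sub_eq_add_neg] using f x, classInner_sub_left, classInner_smul_left, k,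
      b.inner_self] at l
    norm_num at l
  have l : (1 : ℤ) ≤ orderOf s := by exact_mod_cast orderOf_pos s
  have m : (1 : ℤ) ≤ charDegree ϑ := by exact_mod_cast Nat.pos_of_ne_zero j
  generalize charDegree ϑ = u at k g m
  generalize charDegree β = v at k g
  zify at k ⊢
  nlinarith [mul_nonneg (sub_nonneg.2 l) (sub_nonneg.2 m)]

end Cfsg.Agent.C3
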