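import Mathlib
import Cfsg.Agent.H2.Wt

/-! Abstract tools for lower bounds of degrees of representations: joint eigenvectors,
Heisenberg bound, double counting over weights. -/

namespace Cfsg.Agent.C3.WT

open Module Subgroup Cfsg.Agent.H2
open scoped commutatorElement

theorem joint_indep {K M ι J : Type*} [Field K] [AddCommGroup M] [Module K M]
    (L : J → M →ₗ[K] M) (x : ι → M) (hx : ∀ i, x i ≠ 0) (c : ι → J → K)
    (hc : Function.Injective c) (h : ∀ i j, L j (x i) = c i j • x i) : LinearIndependent K x := by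
  classical
  rw [linearIndependent_iff']
  intro s
  induction s using Finset.induction_on with
  | empty => simp
  | insert a s ha ih =>
    intro g hg
    rw [Finset.sum_insert ha] at hg
    have h1 : ∀ i ∈ s, g i = 0 := by
      intro i hi
      have hia : i ≠ a := fun e => ha (e ▸ hi)
      obtain ⟨j, hj⟩ := Function.ne_iff.1 (hc.ne hia)
      have h2 : ∑ k ∈ s, (g k * (c k j - c a j)) • x k = 0 := by
        have h3 := congrArg (L j) hg
        rw [map_add, map_sum, map_zero, map_smul, h] at h3
        simp only [map_smul, h] at h3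
        have h4 := congrArg (c a j • ·) hg
        simp only [smul_add, Finset.smul_sum, smul_zero] at h4
        have h5 := congrArg₂ (· - ·) h3 h4
        simp only [sub_zero] at h5
        rw [← h5, smul_comm (c a j) (g a), add_sub_add_left_eq_sub, ← Finset.sum_sub_distrib]
        refine Finset.sum_congr rfl fun k _ => ?_
        rw [smul_smul, smul_smul, ← sub_smul]
        congr 1; ring
      have := ih _ h2 i hi
      exact (mul_eq_zero.1 this).resolve_right (sub_ne_zero.2 hj)
    intro i hi
    rcases Finset.mem_insert.1 hi with rfl | hi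
    · rw [Finset.sum_eq_zero fun k hk => by rw [h1 k hk, zero_smul], add_zero] at hg
      exact (smul_eq_zero.1 hg).resolve_right (hx _)
    · exact h1 i hi

/-- The Heisenberg bound. -/
theorem heis {K W I : Type*} [Field K] [AddCommGroup W] [Module K W] [FiniteDimensional K W]
    [Finite I] (M : Submodule K W) (hM : M ≠ ⊥) (x : I → W →ₗ[K] W)
    (hxM : ∀ i, ∀ w ∈ M, x i w ∈ M) (hinj : ∀ i, Function.Injective (x i)) (c : I → I → K)
    (hc : Function.Injective c) (h : ∀ i j, ∀ w ∈ M, x j (x i w) = c i j • x i (x j w)) :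
    Nat.card I ≤ finrank K M ^ 2 := by
  classical
  let y : I → M →ₗ[K] M := fun i => (x i).restrict (hxM i)
  have hy : ∀ i, Function.Injective (y i) := fun i a b hab =>
    Subtype.ext (hinj i (congrArg Subtype.val hab))
  let z : I → M ≃ₗ[K] M := fun i => LinearEquiv.ofInjectiveEndo (y i) (hy i)
  have hz : ∀ i w, z i w = y i w := fun _ _ => rfl
  obtain ⟨w0, hw0, hw00⟩ := (Submodule.ne_bot_iff M).1 hM
  have hli : LinearIndependent K y := by
    refine joint_indep (fun j => (z j).conj.toLinearMap) y (fun i h0 => ?_) c hc fun i j => ?_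
    · have : y i ⟨w0, hw0⟩ = y i 0 := by simp [h0]
      exact hw00 (congrArg Subtype.val (hy i this))
    · ext w
      obtain ⟨w, rfl⟩ := (z j).surjective w
      simp only [LinearEquiv.coe_coe, LinearEquiv.conj_apply, LinearMap.coe_comp,
        Function.comp_apply, LinearEquiv.symm_apply_apply, LinearMap.smul_apply]
      exact h i j w w.2
  have := Fintype.ofFinite I
  have h2 := hli.fintype_card_le_finrank
  rwa [Module.finrank_linearMap, ← Nat.card_eq_fintype_card, ← pow_two] at h2

/-- an injective family of `|F|` characters of a finite group exhausts all characters -/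
theorem char_surj {G K ι : Type*} [Group G] [Finite G] [Field K] (ν : ι → G →* K)
    (hν : Function.Injective ν) (hc : Nat.card G ≤ Nat.card ι) (μ : G →* K) : ∃ b, ν b = μ := by
  classical
  by_contra hne
  push Not at hne
  have hfin : Finite ι := Nat.finite_of_card_ne_zero (by have := Nat.card_pos (α := G); omega)
  have := Fintype.ofFinite ι
  have := Fintype.ofFinite G
  let ν' : Option ι → G →* K := fun o => o.elim μ ν
  have hinj : Function.Injective ν' := by
    rintro (_ | a) (_ | b) hab
    · rfl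
    · exact absurd hab.symm (hne b)
    · exact absurd hab (hne a)
    · exact congrArg some (hν hab)
  have h1 := ((linearIndependent_monoidHom G K).comp ν' hinj).fintype_card_le_finrank
  rw [Module.finrank_fintype_fun_eq_card, Fintype.card_option, ← Nat.card_eq_fintype_card,
    ← Nat.card_eq_fintype_card] at h1
  omega

variable {K Γ W : Type*} [Field K] [Group Γ] [AddCommGroup W] [Module K W] [Finite Γ]

theorem pr_mem_of_inv (ρ : Representation K Γ W) (A : Subgroup Γ) (μ : A →* Kˣ)
    {M : Submodule K W} (hM : ∀ a : A, ∀ w ∈ M, ρ a w ∈ M) {w : W} (hw : w ∈ M) :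
    pr ρ A μ w ∈ M := by
  have := Fintype.ofFinite A
  rw [pr_apply]
  exact M.smul_mem _ (M.sum_mem fun a _ => M.smul_mem _ (hM a w hw))

theorem exists_wt_of_ne [IsAlgClosed K] (ρ : Representation K Γ W) {A : Subgroup Γ}
    (hA : (Nat.card A : K) ≠ 0) (hab : ⁅A, A⁆ = ⊥) {a : A} (ha : ρ a ≠ 1) :
    ∃ μ : A →* Kˣ, μ a ≠ 1 ∧ ∃ w ∈ wt ρ A μ, w ≠ 0 := by
  classical
  have := Fintype.ofFinite (A →* Kˣ)
  by_contra hne
  push Not at hne
  apply ha
  ext w
  have h1 := sum_pr (ρ := ρ) hA (w := w) (by rw [hab, fixS_bot]; trivial)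
  rw [Module.End.one_apply]
  conv_lhs => rw [← h1]
  conv_rhs => rw [← h1]
  rw [map_sum]
  refine Finset.sum_congr rfl fun μ _ => ?_
  by_cases h : μ a = 1
  · rw [pr_mem_wt ρ A μ w a, h, Units.val_one, one_smul]
  · rw [hne μ h _ (pr_mem_wt ρ A μ w), map_zero]

/-- double counting over the weights of an abelian subgroup -/
theorem dcount [IsAlgClosed K] [FiniteDimensional K W] (ρ : Representation K Γ W) {A : Subgroup Γ}
    (hA : (Nat.card A : K) ≠ 0) (hab : ⁅A, A⁆ = ⊥) {ι : Type*} (s : Finset ι)
    (M : ι → Submodule K W) (hM : ∀ i ∈ s, ∀ a : A, ∀ w ∈ M i, ρ a w ∈ M i) (a B : ℕ)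
    (hB : ∀ (μ : A →* Kˣ), ∀ t ⊆ s,
      (∀ i ∈ t, ∃ w ∈ wt ρ A μ, w ≠ 0 ∧ w ∈ M i) → t.card * a ≤ B) :
    (∑ i ∈ s, finrank K (M i)) * a ≤ B * finrank K W := by
  classical
  have := Fintype.ofFinite (A →* Kˣ)
  let r : ι → (A →* Kˣ) → Prop := fun i μ => ∃ w ∈ wt ρ A μ, w ≠ 0 ∧ w ∈ M i
  have h1 : ∀ i ∈ s, finrank K (M i) ≤ ∑ μ with r i μ, finrank K (wt ρ A μ) := by
    intro i hi
    let φ : M i →ₗ[K] ((μ : {μ // r i μ}) → wt ρ A μ.1) :=
      LinearMap.pi fun μ => ((pr ρ A μ.1).codRestrict _ (pr_mem_wt ρ A μ.1)) ∘ₗ (M i).subtype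
    have hφ : Function.Injective φ := by
      rw [injective_iff_map_eq_zero]
      intro w hw
      have h2 := sum_pr (ρ := ρ) hA (w := w.1) (by rw [hab, fixS_bot]; trivial)
      apply Subtype.ext
      rw [← h2]
      refine Finset.sum_eq_zero fun μ _ => ?_
      by_contra h3
      have h4 : r i μ := ⟨_, pr_mem_wt ρ A μ w, h3, pr_mem_of_inv ρ A μ (hM i hi) w.2⟩
      exact h3 (congrArg Subtype.val (congrFun hw ⟨μ, h4⟩))
    have h5 := LinearMap.finrank_le_finrank_of_injective hφ
    rw [Module.finrank_pi_fintype] at h5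
    rwa [Finset.sum_subtype _ (p := r i) (by simp)]
  have h6 : finrank K W = ∑ μ : A →* Kˣ, finrank K (wt ρ A μ) := by
    rw [← finrank_fixS_der ρ hA, hab, fixS_bot, finrank_top]
  calc (∑ i ∈ s, finrank K (M i)) * a
      ≤ (∑ i ∈ s, ∑ μ with r i μ, finrank K (wt ρ A μ)) * a :=
        Nat.mul_le_mul_right _ (Finset.sum_le_sum h1)
    _ = ∑ μ, ((s.filter fun i => r i μ).card * a) * finrank K (wt ρ A μ) := by
        simp only [Finset.sum_filter]
        rw [Finset.sum_comm, Finset.sum_mul]
        refine Finset.sum_congr rfl fun μ _ => ?_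
        rw [← Finset.sum_filter, Finset.sum_const, smul_eq_mul]; ring
    _ ≤ ∑ μ, B * finrank K (wt ρ A μ) :=
        Finset.sum_le_sum fun μ _ => Nat.mul_le_mul_right _
          (hB μ _ (Finset.filter_subset _ _) fun i hi => (Finset.mem_filter.1 hi).2)
    _ = B * finrank K W := by rw [h6, Finset.mul_sum]

end Cfsg.Agent.C3.WT
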