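import Mathlib
import Cfsg.Agent.C3.WT1
import Cfsg.Agent.H4.Bridge2

/-! Lower bounds for cross characteristic representations of symplectic and unitary groups. -/

namespace Cfsg.Agent.C3.WT

open Module Subgroup Cfsg.Agent.H2 Cfsg.Agent.H4 Cfsg.Agent.H4.CForm
open scoped commutatorElement

variable {F : Type*} [Field F] {T : FType F} {V : Type*} [AddCommGroup V] [Module F V]
  {f : CForm T V} {K W : Type*} [Field K] [AddCommGroup W] [Module K W]

open Classical in
/-- total version of a representation of the group generated by Eichler maps -/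
noncomputable def R (ρ : Representation K f.E W) (g : V ≃ₗ[F] V) : Module.End K W :=
  if h : g ∈ f.E then ρ ⟨g, h⟩ else 0

variable {ρ : Representation K f.E W}

theorem R_coe (g : f.E) : R ρ g = ρ g := by simp [R]

theorem R_mul {g h : V ≃ₗ[F] V} (hg : g ∈ f.E) (hh : h ∈ f.E) (w : W) :
    R ρ (g * h) w = R ρ g (R ρ h w) := by
  have := R_coe (ρ := ρ) (⟨g, hg⟩ * ⟨h, hh⟩)
  rw [map_mul, ← R_coe, ← R_coe] at this
  exact congrArg (· w) (congrArg DFunLike.coe this)

theorem R_one (w : W) : R ρ 1 w = w := by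
  have := R_coe (ρ := ρ) 1
  rw [map_one] at this
  exact congrArg (· w) (congrArg DFunLike.coe this)

theorem R_inj {g : V ≃ₗ[F] V} (hg : g ∈ f.E) : Function.Injective (R ρ g) := fun a b h => by
  have := congrArg (R ρ g⁻¹) h
  rwa [← R_mul (inv_mem hg) hg, ← R_mul (inv_mem hg) hg, inv_mul_cancel, R_one, R_one] at this

theorem ok0 {u : V} (hu : f.Q u = 0) {t : F} (ht : T.τ t = 0) : f.EichOk u 0 t :=
  ⟨hu, by simp, by simp [ht]⟩

theorem eich00 {u : V} (hu : f.Q u = 0) : f.eich u 0 0 = 1 := by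
  ext x; simp [(ok0 hu (map_zero _)).apply]

variable (ρ) in
/-- eigenspace of a transvection group -/
def Wt (u : V) (l : F → K) : Submodule K W where
  carrier := {w | ∀ t, T.τ t = 0 → R ρ (f.eich u 0 t) w = l t • w}
  add_mem' := fun {a b} ha hb t ht => by rw [map_add, ha t ht, hb t ht, smul_add]
  zero_mem' := fun t ht => by simp
  smul_mem' := fun c w hw t ht => by rw [map_smul, hw t ht, smul_comm]

theorem Wt_map {u : V} (hu : f.Q u = 0) {l : F → K} {g : V ≃ₗ[F] V} (hg : g ∈ f.E) {w : W}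
    (hw : w ∈ Wt ρ u l) : R ρ g w ∈ Wt ρ (g u) l := fun t ht => by
  have h1 := eich_conj (E_le_iso hg) u 0 t
  rw [map_zero] at h1
  have h2 := (ok0 hu ht).mem_E
  rw [← h1, ← R_mul (mul_mem (mul_mem hg h2) (inv_mem hg)) hg, inv_mul_cancel_right,
    R_mul hg h2, hw t ht, map_smul]

theorem finrank_Wt_le [FiniteDimensional K W] {u : V} (hu : f.Q u = 0) (l : F → K)
    {g : V ≃ₗ[F] V} (hg : g ∈ f.E) : finrank K (Wt ρ u l) ≤ finrank K (Wt ρ (g u) l) :=
  LinearMap.finrank_le_finrank_of_injective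
    (f := (R ρ g).restrict fun _ hw => Wt_map hu hg hw)
    fun _ _ h => Subtype.ext (R_inj hg (congrArg Subtype.val h))

theorem l_add {u : V} (hu : f.Q u = 0) {l : F → K} {w : W} (hw : w ∈ Wt ρ u l) (h0 : w ≠ 0)
    {s t : F} (hs : T.τ s = 0) (ht : T.τ t = 0) : l (s + t) = l s * l t := by
  apply smul_left_injective K h0
  have h1 := eich_mul (f.B_self_of_Q hu) (v := 0) (v' := 0) (by simp) (by simp) s t
  simp only [add_zero, map_zero, mul_zero] at h1
  have h2 := hw (s + t) (by simp [hs, ht])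
  rw [← h1, R_mul (ok0 hu hs).mem_E (ok0 hu ht).mem_E, hw t ht, map_smul, hw s hs, smul_smul] at h2
  simp only [← h2, mul_comm]

theorem l_zero {u : V} (hu : f.Q u = 0) {l : F → K} {w : W} (hw : w ∈ Wt ρ u l) (h0 : w ≠ 0) :
    l 0 = 1 := by
  apply smul_left_injective K h0
  have h2 := hw 0 (map_zero _)
  rw [eich00 hu, R_one] at h2
  simp only [← h2, one_smul]

theorem τ_sub (a : F) : T.τ (T.ε * a - T.σ a) = 0 := by simp

theorem l_cancel {u : V} (hu : f.Q u = 0) {l : F → K} {w : W} (hw : w ∈ Wt ρ u l) (h0 : w ≠ 0)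
    {s t : F} (hs : T.τ s = 0) (ht : T.τ t = 0) (h : l s = l t) : l (s - t) = 1 := by
  have h1 := l_add hu hw h0 hs (t := -t) (by simp [ht])
  have h2 := l_add hu hw h0 ht (t := -t) (by simp [ht])
  rw [add_neg_cancel, l_zero hu hw h0] at h2
  rw [sub_eq_add_neg, h1, h, ← h2]

/-- the Heisenberg bound for eigenspaces of transvection groups -/
theorem heis_Wt [Finite F] [FiniteDimensional F V] [FiniteDimensional K W] (hf : f.Nondeg)
    (hsurj : ∀ t, T.τ t = 0 → ∃ a, t = T.ε * a - T.σ a) {u : V} (hu0 : u ≠ 0) (hu : f.Q u = 0)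
    {l : F → K} {w : W} (hw : w ∈ Wt ρ u l) (h0 : w ≠ 0) {t0 : F} (ht0 : T.τ t0 = 0)
    (hl : l t0 ≠ 1) : Nat.card F ^ (finrank F V - 2) ≤ finrank K (Wt ρ u l) ^ 2 := by
  obtain ⟨u', hu', hB⟩ := hf.exists_pair hu0 hu
  set Y := f.perp (Submodule.span F {u, u'}) with hY
  have hYn : (f.res Y).Nondeg := hf.res_perp_pair hu hu' hB
  have hdim : finrank F Y + 2 = finrank F V := by
    have h1 := hf.finrank_perp (Submodule.span F {u, u'})
    have h2 : LinearIndependent F ![u, u'] := by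
      rw [LinearIndependent.pair_iff]
      intro a b hab
      have h3 := congrArg (fun x => f.B x u') hab
      have h4 := congrArg (fun x => f.B u x) hab
      simp [hB, f.B_self_of_Q hu, f.B_self_of_Q hu'] at h3 h4
      exact ⟨h3, h4⟩
    have h3 := finrank_span_eq_card h2
    rw [Matrix.range_cons_cons_empty, Fintype.card_fin] at h3
    rw [h3] at h1
    rw [hY]; omega
  have hfin : Finite V := Module.finite_of_finite F
  have hYu : ∀ v : Y, f.B v u = 0 := fun v => (f.mem_perp_pair.1 v.2).1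
  choose c hc using f.Q_range
  have ok : ∀ v : Y, f.EichOk u v (c v) := fun v => ⟨hu, hYu v, hc v⟩
  have hb := f.B_self_of_Q hu
  have := heis (I := Y) (Wt ρ u l) ((Submodule.ne_bot_iff _).2 ⟨w, hw, h0⟩)
    (fun v => R ρ (f.eich u v (c v)))
    (fun v x hx => by simpa [(ok v).apply_self] using Wt_map hu (ok v).mem_E hx)
    (fun v => R_inj (ok v).mem_E) (fun i j => l (T.ε * f.B i j - T.σ (f.B i j))) ?_ ?_
  · rwa [Module.natCard_eq_pow_finrank (K := F), show finrank F Y = finrank F V - 2 by omega] at this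
  · intro i i' hi
    by_contra hne
    obtain ⟨a, rfl⟩ := hsurj t0 ht0
    obtain ⟨j, hj⟩ := hYn.exists_B_eq (sub_ne_zero.2 hne) a
    have h1 := l_cancel hu hw h0 (τ_sub _) (τ_sub _) (congrFun hi j)
    apply hl
    rw [← h1, ← hj]
    congr 1
    change T.ε * f.B ((i : V) - i') j - T.σ (f.B ((i : V) - i') j) = _
    simp only [map_sub, LinearMap.sub_apply]; ring
  · intro i j x hx
    have h1 := Wt_map hu (ok i).mem_E (by simpa [(ok j).apply_self] using Wt_map hu (ok j).mem_E hx)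
    rw [(ok i).apply_self] at h1
    rw [← h1 _ (τ_sub _), ← R_mul (ok j).mem_E (ok i).mem_E, ← R_mul (ok i).mem_E (ok j).mem_E,
      ← R_mul (ok0 hu (τ_sub _)).mem_E (mul_mem (ok i).mem_E (ok j).mem_E),
      eich_mul hb (hYu j) (hYu i), eich_mul hb (hYu i) (hYu j),
      eich_mul hb (by simp) (by simp [hYu]), f.symm i j, zero_add, add_comm (j : V)]
    congr 3
    simp; ring

theorem eich_line {u w : V} (hu : f.Q u = 0) (hw : f.Q w = 0) (hB : f.B w u = 0) (s : F) {t : F}
    (ht : T.τ t = 0) : f.eich (w + s • u) 0 t =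
      f.eich w 0 t * (f.eich u 0 (s * T.σ s * t) * f.eich u ((T.ε * t * T.σ s) • w) 0) := by
  have h1 := f.B_self_of_Q hu
  have h2 := f.B_self_of_Q hw
  have h3 := f.B_zero_symm hB
  have h4 : T.σ t = -T.ε * t := by
    have := T.β_τ t
    rw [ht, mul_zero] at this
    have h5 := T.εε
    linear_combination T.ε * this - T.σ t * h5
  ext x
  rw [LinearEquiv.mul_apply, LinearEquiv.mul_apply, eich_apply' (by simp [h1, h2, h3, hB]) (by simp),
    eich_apply' h2 (by simp), eich_apply' h1 (by simp), eich_apply' h1 (by simp [hB])]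
  simp only [map_add, map_sub, map_smul, map_smulₛₗ, LinearMap.add_apply, LinearMap.sub_apply,
    LinearMap.smul_apply, map_zero, h1, h2, h3, hB, smul_eq_mul, map_mul, T.σσ, h4, T.σε,
    RingHom.id_apply, LinearMap.zero_apply]
  rcases T.ε_eq with h | h <;> simp only [h] <;> module

theorem cnt_line [Finite F] (hsurj : ∀ t, T.τ t = 0 → ∃ a, t = T.ε * a - T.σ a) {N : ℕ}
    (hN : ∀ c : F, {x : F | x * T.σ x = c}.ncard ≤ N) {U : Submodule F V} (hU : f.TS U)
    {w0 : W} (h0 : w0 ≠ 0)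
    (hsc : ∀ u ∈ U, ∀ v ∈ U, ∀ c, T.τ c = 0 → ∃ k : K, R ρ (f.eich u v c) w0 = k • w0)
    {l : F → K} {t0 : F} (ht0 : T.τ t0 = 0) (hl : l t0 ≠ 1) {u : V} (hu : u ∈ U)
    (hw0 : w0 ∈ Wt ρ u l) {w : V} (hw : w ∈ U) :
    {s : F | w0 ∈ Wt ρ (w + s • u) l}.ncard ≤ N := by
  have hQ := hU.1 u hu
  have hb := f.B_self_of_Q hQ
  have ok : ∀ u ∈ U, ∀ v ∈ U, ∀ c, T.τ c = 0 → f.EichOk u v c := fun u hu v hv c hc =>
    ⟨hU.1 u hu, hU.2 v hv u hu, by rw [hc, hU.1 v hv]⟩
  choose! k hk using hsc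
  have hmul : ∀ v ∈ U, ∀ a b : F,
      k u ((a + b) • v) 0 = k u (a • v) 0 * k u (b • v) 0 := by
    intro v hv a b
    apply smul_left_injective K h0
    have h1 := eich_mul hb (hU.2 _ (U.smul_mem a hv) u hu) (hU.2 _ (U.smul_mem b hv) u hu) 0 0
    rw [hU.2 _ (U.smul_mem b hv) _ (U.smul_mem a hv), mul_zero, add_zero, add_zero, ← add_smul] at h1
    have h2 := hk u hu _ (U.smul_mem (a + b) hv) 0 (map_zero _)
    rw [← h1, R_mul (ok u hu _ (U.smul_mem a hv) 0 (map_zero _)).mem_E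
      (ok u hu _ (U.smul_mem b hv) 0 (map_zero _)).mem_E, hk u hu _ (U.smul_mem b hv) 0 (map_zero _),
      map_smul, hk u hu _ (U.smul_mem a hv) 0 (map_zero _), smul_smul] at h2
    simp only [← h2, mul_comm]
  have hone : k u 0 0 = 1 := by
    apply smul_left_injective K h0
    have h2 := hk u hu 0 U.zero_mem 0 (map_zero _)
    rw [eich00 hQ, R_one] at h2
    simp only [← h2, one_smul]
  let μ : ∀ v ∈ U, Multiplicative F →* K := fun v hv =>
    { toFun := fun a => k u (a.toAdd • v) 0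
      map_one' := by simpa using hone
      map_mul' := fun a b => hmul v hv _ _ }
  have hν : ∀ a : F, k u (a • u) 0 = l (T.ε * a - T.σ a) := by
    intro a
    apply smul_left_injective K h0
    have h2 := hk u hu _ (U.smul_mem a hu) 0 (map_zero _)
    have h3 := eich_add_smul hb (v := 0) (by simp) a 0
    rw [zero_add, zero_add] at h3
    rw [h3, hw0 _ (τ_sub a)] at h2
    exact h2.symm
  have hδ : ∀ δ : F, T.σ δ = δ → (∀ t, T.τ t = 0 → l (δ * t) = 1) → δ = 0 := by
    intro δ h1 h2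
    by_contra h3
    obtain ⟨a, rfl⟩ := hsurj t0 ht0
    apply hl
    rw [← h2 _ (τ_sub (a / δ))]
    congr 1
    rw [map_div₀, h1]; field_simp
  obtain ⟨b, hb'⟩ := char_surj (fun b : F => μ (b • u) (U.smul_mem b hu)) (fun b b' h => by
    by_contra hne
    obtain ⟨a, rfl⟩ := hsurj t0 ht0
    have h1 : k u ((a / (b - b')) • b • u) 0 = k u ((a / (b - b')) • b' • u) 0 :=
      DFunLike.congr_fun h (Multiplicative.ofAdd (a / (b - b')))
    rw [smul_smul, smul_smul, hν, hν] at h1
    apply hl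
    rw [← l_cancel hQ hw0 h0 (τ_sub _) (τ_sub _) h1]
    have h2 := sub_ne_zero.2 hne
    have h3 : a = a / (b - b') * b - a / (b - b') * b' := by field_simp
    congr 1
    conv_lhs => rw [h3]
    rw [map_sub]; ring) (Nat.card_congr Multiplicative.toAdd).le (μ w hw)
  have hb2 : ∀ z : F, k u (z • w) 0 = l (T.ε * (z * b) - T.σ (z * b)) := fun z => by
    rw [← hν, ← smul_smul]
    exact (DFunLike.congr_fun hb' (Multiplicative.ofAdd z)).symm
  have hτ : ∀ δ t : F, T.σ δ = δ → T.τ t = 0 → T.τ (δ * t) = 0 := by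
    intro δ t h1 h2
    obtain ⟨a, rfl⟩ := hsurj t h2
    rw [← τ_sub (T := T) (δ * a), map_mul T.σ, h1]; congr 1; ring
  have key : ∀ s : F, w0 ∈ Wt ρ (w + s • u) l → ∀ t, T.τ t = 0 →
      l t = k w 0 t * l (((s + b) * T.σ (s + b) - b * T.σ b) * t) := by
    intro s hs t ht
    apply smul_left_injective K h0
    have h4 : T.σ t = -T.ε * t := by
      have := T.β_τ t
      rw [ht, mul_zero] at this
      have h5 := T.εε
      linear_combination T.ε * this - T.σ t * h5
    have h1 := hs t ht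
    have h2 : T.τ (s * T.σ s * t) = 0 := by rw [T.τ_norm, ht, mul_zero]
    have e1 := (ok0 (hU.1 w hw) ht).mem_E
    have e2 := (ok0 hQ h2).mem_E
    have e3 := (ok u hu _ (U.smul_mem (T.ε * t * T.σ s) hw) 0 (map_zero _)).mem_E
    rw [eich_line hQ (hU.1 w hw) (hU.2 w hw u hu) s ht, R_mul e1 (mul_mem e2 e3), R_mul e2 e3,
      hk u hu _ (U.smul_mem _ hw) 0 (map_zero _), map_smul, hw0 _ h2, smul_smul, map_smul,
      hk w hw 0 U.zero_mem t ht, smul_smul, hb2, ← l_add hQ hw0 h0 (τ_sub _) h2] at h1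
    simp only [← h1]
    rw [mul_comm]
    congr 3
    simp only [map_mul, map_add, T.σσ, T.σε, h4]
    have := T.εε
    linear_combination (t * T.σ s * b + t * s * T.σ b) * this
  by_cases hS : {s : F | w0 ∈ Wt ρ (w + s • u) l} = ∅
  · simp [hS]
  obtain ⟨s0, hs0⟩ := Set.nonempty_iff_ne_empty.2 hS
  refine le_trans (Set.ncard_le_ncard_of_injOn (· + b) (fun s hs => ?_)
    (fun _ _ _ _ h => add_right_cancel h)) (hN ((s0 + b) * T.σ (s0 + b)))
  refine sub_eq_zero.1 (hδ _ (by simp [mul_comm]) fun t ht => ?_)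
  have h1 := key s hs t ht
  have h2 := key s0 hs0 t ht
  have h3 : l t ≠ 0 := fun h => by
    have := l_cancel hQ hw0 h0 ht ht rfl
    have h5 := l_add hQ hw0 h0 ht (t := -t) (by simp [ht])
    rw [add_neg_cancel, l_zero hQ hw0 h0, h, zero_mul] at h5
    exact one_ne_zero h5
  have h4 : k w 0 t ≠ 0 := fun h => h3 (by rw [h1, h, zero_mul])
  have h5 := l_cancel hQ hw0 h0 (hτ _ _ (by simp [mul_comm]) ht) (hτ _ _ (by simp [mul_comm]) ht)
    (mul_left_cancel₀ h4 (h1.symm.trans h2))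
  rw [← h5]; congr 1; ring

end Cfsg.Agent.C3.WT
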