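import Mathlib
import Cfsg.Agent.C3.WT2

/-! The Landazuri-Seitz-Zalesskii bound for symplectic and unitary groups. -/

namespace Cfsg.Agent.C3.WT

open Module Subgroup Cfsg.Agent.H2 Cfsg.Agent.H4 Cfsg.Agent.H4.CForm
open scoped commutatorElement

theorem count_lines {F V : Type*} [Field F] [Finite F] [AddCommGroup V] [Module F V] [Finite V]
    (U : Submodule F V) {u : V} (hu : u ∈ U) (t : Finset V) (htU : ∀ x ∈ t, x ∈ U) {N : ℕ}
    (h : ∀ w ∈ U, {s : F | w + s • u ∈ t}.ncard ≤ N) : t.card * Nat.card F ≤ N * Nat.card U := by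
  classical
  have := Fintype.ofFinite F
  have := Fintype.ofFinite U
  have h1 := Finset.card_le_mul_card_image_of_maps_to
    (f := fun p : V × F => p.1 - p.2 • u) (s := t ×ˢ Finset.univ)
    (t := Finset.univ.map (Function.Embedding.subtype (· ∈ U))) (fun p hp => by
      simpa using U.sub_mem (htU _ (Finset.mem_product.1 hp).1) (U.smul_mem _ hu)) N
    (fun w hw => by
      have hwU : w ∈ U := by simpa using hw
      refine le_trans ?_ (h w hwU)
      rw [← Set.ncard_coe_finset]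
      refine Set.ncard_le_ncard_of_injOn (fun p => p.2) (fun p hp => ?_) (fun p hp q hq e => ?_)
      · simp only [Finset.coe_filter, Finset.mem_product, Set.mem_setOf_eq] at hp
        rw [Set.mem_setOf_eq, ← hp.2, sub_add_cancel]; exact hp.1.1
      · simp only [Finset.coe_filter, Finset.mem_product, Set.mem_setOf_eq] at hp hq
        have e' : p.2 = q.2 := e
        refine Prod.ext ?_ e'
        have := hp.2.trans hq.2.symm
        rwa [e', sub_left_inj] at this)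
  rwa [Finset.card_product, Finset.card_map, Finset.card_univ, Finset.card_univ,
    ← Nat.card_eq_fintype_card, ← Nat.card_eq_fintype_card] at h1

variable {F : Type*} [Field F] {T : FType F} {V : Type*} [AddCommGroup V] [Module F V]
  {f : CForm T V} {K W : Type*} [Field K] [AddCommGroup W] [Module K W]

variable (f) in
/-- the abelian subgroup attached to a subspace -/
def AU (U : Submodule F V) : Subgroup f.E where
  carrier := {g | (∀ x, g.1 x - x ∈ U) ∧ ∀ u ∈ U, g.1 u = u}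
  one_mem' := ⟨by simp, by simp⟩
  mul_mem' := fun {a b} ha hb => ⟨fun x => by
    have := U.add_mem (ha.1 (b.1 x)) (hb.1 x)
    simpa using this, fun u hu => by simp [hb.2 u hu, ha.2 u hu]⟩
  inv_mem' := fun {a} ha => ⟨fun x => by
    have := U.neg_mem (ha.1 (a.1⁻¹ x))
    simpa using this, fun u hu => by
    have := congrArg (a.1⁻¹ ·) (ha.2 u hu)
    simpa using this.symm⟩

theorem AU_mul {U : Submodule F V} {a b : f.E} (ha : a ∈ AU f U) (hb : b ∈ AU f U) (x : V) :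
    (a * b).1 x = a.1 x + (b.1 x - x) := by
  rw [← ha.2 _ (hb.1 x), ← map_add]; simp

theorem AU_comm {U : Submodule F V} {a b : f.E} (ha : a ∈ AU f U) (hb : b ∈ AU f U) :
    a * b = b * a := by
  ext x; rw [AU_mul ha hb, AU_mul hb ha]; abel

theorem AU_der (U : Submodule F V) : ⁅AU f U, AU f U⁆ = ⊥ := by
  rw [eq_bot_iff, commutator_le]
  intro a ha b hb
  rw [mem_bot, commutatorElement_eq_one_iff_mul_comm, AU_comm ha hb]

theorem AU_pow {U : Submodule F V} {a : f.E} (ha : a ∈ AU f U) (n : ℕ) (x : V) :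
    (a ^ n).1 x = x + (n : F) • (a.1 x - x) := by
  induction n with
  | zero => simp
  | succ n ih => rw [pow_succ, AU_mul (pow_mem ha n) ha, ih]; simp [add_smul, add_assoc]

theorem AU_card [Finite F] [Finite V] (hK : ringChar K ≠ ringChar F) (U : Submodule F V) :
    (Nat.card (AU f U) : K) ≠ 0 := by
  have hp : (ringChar F).Prime := CharP.char_is_prime F _
  have := Fact.mk hp
  have h1 : IsPGroup (ringChar F) (AU f U) := fun a => ⟨1, by
    ext x
    have := AU_pow a.2 (ringChar F) x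
    simpa using this⟩
  have hfin2 : Finite (V ≃ₗ[F] V) := DFunLike.finite _
  obtain ⟨n, hn⟩ := h1.exists_card_eq
  rw [hn, Nat.cast_pow]
  refine pow_ne_zero _ fun h => ?_
  rw [ringChar.spec] at h
  rcases (Nat.dvd_prime hp).1 h with h | h
  · exact CharP.char_ne_one K _ h
  · exact hK h

theorem eich_mem_AU {U : Submodule F V} (hU : f.TS U) {u v : V} (hu : u ∈ U) (hv : v ∈ U) {c : F}
    (h : f.EichOk u v c) : (⟨_, h.mem_E⟩ : f.E) ∈ AU f U := by
  refine ⟨fun x => ?_, fun x hx => ?_⟩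
  · simp only [h.apply]
    rw [show x + f.B x v • u - f.B x u • (T.ε • v + c • u) - x =
      f.B x v • u - f.B x u • (T.ε • v + c • u) by abel]
    exact U.sub_mem (U.smul_mem _ hu) (U.smul_mem _ (U.add_mem (U.smul_mem _ hv) (U.smul_mem _ hu)))
  · exact eich_fix c (hU.2 x hx u hu) (hU.2 x hx v hv)

theorem main_bound [Finite F] [FiniteDimensional F V] [FiniteDimensional K W] [IsAlgClosed K]
    (hK : ringChar K ≠ ringChar F) (hf : f.Nondeg)
    (hsurj : ∀ t, T.τ t = 0 → ∃ a, t = T.ε * a - T.σ a) {N : ℕ}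
    (hN : ∀ c : F, {x : F | x * T.σ x = c}.ncard ≤ N) {U : Submodule F V} (hU : f.TS U)
    (hU0 : U ≠ ⊥) (htr : ∀ u u', u ≠ 0 → u' ≠ 0 → f.Q u = 0 → f.Q u' = 0 → ∃ g ∈ f.E, g u = u')
    (ρ : Representation K f.E W) {u1 : V} (hu1 : f.Q u1 = 0) {t0 : F} (ht0 : T.τ t0 = 0)
    (hne : ρ ⟨_, (ok0 hu1 ht0).mem_E⟩ ≠ 1) :
    ∃ D, Nat.card F ^ (finrank F V - 2) ≤ D ^ 2 ∧
      (Nat.card F ^ finrank F U - 1) * D * Nat.card F ≤
        N * Nat.card F ^ finrank F U * finrank K W := by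
  classical
  have hfin : Finite V := Module.finite_of_finite F
  have hfin2 : Finite (V ≃ₗ[F] V) := DFunLike.finite _
  obtain ⟨u0, hu0, hu00⟩ := (Submodule.ne_bot_iff U).1 hU0
  have hQ0 := hU.1 u0 hu0
  have hu10 : u1 ≠ 0 := by
    rintro rfl
    apply hne
    have : (⟨_, (ok0 hu1 ht0).mem_E⟩ : f.E) = 1 := by
      ext x; simp [(ok0 hu1 ht0).apply]
    rw [this, map_one]
  obtain ⟨g, hg, hgu⟩ := htr u0 u1 hu00 hu10 hQ0 hu1
  have hne0 : ρ ⟨_, (ok0 hQ0 ht0).mem_E⟩ ≠ 1 := fun h => hne (by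
    have h1 := eich_conj (E_le_iso hg) u0 0 t0
    rw [map_zero, hgu] at h1
    have h2 : (⟨_, (ok0 hu1 ht0).mem_E⟩ : f.E) =
        ⟨g, hg⟩ * ⟨_, (ok0 hQ0 ht0).mem_E⟩ * (⟨g, hg⟩ : f.E)⁻¹ := Subtype.ext h1.symm
    rw [h2, map_mul, map_mul, h, mul_one, ← map_mul, mul_inv_cancel, map_one])
  have hA := AU_card (f := f) hK U
  have ok : ∀ u ∈ U, ∀ v ∈ U, ∀ c, T.τ c = 0 → f.EichOk u v c := fun u hu v hv c hc =>
    ⟨hU.1 u hu, hU.2 v hv u hu, by rw [hc, hU.1 v hv]⟩
  have hact : ∀ (μ : AU f U →* Kˣ), ∀ w ∈ wt ρ _ μ, ∀ u (hu : u ∈ U) v (hv : v ∈ U) c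
      (hc : T.τ c = 0), R ρ (f.eich u v c) w =
        (μ ⟨_, eich_mem_AU hU hu hv (ok u hu v hv c hc)⟩ : K) • w := fun μ w hw u hu v hv c hc => by
    rw [← hw, ← R_coe]
  obtain ⟨μ0, hμ0, w0, hw0, hw00⟩ := exists_wt_of_ne ρ hA (AU_der U)
    (a := ⟨_, eich_mem_AU hU hu0 U.zero_mem (ok0 hQ0 ht0)⟩) hne0
  let l : F → K := fun t => if ht : T.τ t = 0 then
    μ0 ⟨_, eich_mem_AU hU hu0 U.zero_mem (ok u0 hu0 0 U.zero_mem t ht)⟩ else 0
  have hl : l t0 ≠ 1 := by
    simp only [l, dif_pos ht0]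
    exact fun h => hμ0 (Units.ext h)
  have hw0l : w0 ∈ Wt ρ u0 l := fun t ht => by
    simp only [l, dif_pos ht]
    exact hact μ0 w0 hw0 u0 hu0 0 U.zero_mem t ht
  refine ⟨finrank K (Wt ρ u0 l), heis_Wt hf hsurj hu00 hQ0 hw0l hw00 ht0 hl, ?_⟩
  have := Fintype.ofFinite V
  let s : Finset V := (Finset.univ.filter (· ∈ U)).erase 0
  have hs : ∀ x, x ∈ s ↔ x ≠ 0 ∧ x ∈ U := by simp [s]
  have hsc : s.card = Nat.card F ^ finrank F U - 1 := by
    rw [Finset.card_erase_of_mem (by simp), ← Module.natCard_eq_pow_finrank,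
      Nat.card_eq_fintype_card, Fintype.card_subtype]
  have h1 := dcount ρ hA (AU_der U) s (fun u => Wt ρ u l) (fun u hu a w hw => by
      have := Wt_map (hU.1 u ((hs u).1 hu).2) a.1.2 hw
      rwa [a.2.2 u ((hs u).1 hu).2, R_coe] at this) (Nat.card F) (N * Nat.card U)
    (fun μ t ht h => by
      rcases t.eq_empty_or_nonempty with rfl | ⟨u, hu⟩
      · simp
      have htU : ∀ x ∈ t, x ∈ U := fun x hx => ((hs x).1 (ht hx)).2
      obtain ⟨w1, hw1, hw10, -⟩ := h u hu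
      have h2 : ∀ x ∈ t, w1 ∈ Wt ρ x l := fun x hx c hc => by
        obtain ⟨w2, hw2, hw20, hw2l⟩ := h x hx
        have h3 := (hw2l c hc).symm.trans (hact μ w2 hw2 x (htU x hx) 0 U.zero_mem c hc)
        rw [smul_left_injective K hw20 h3]
        exact hact μ w1 hw1 x (htU x hx) 0 U.zero_mem c hc
      refine count_lines U (htU u hu) t htU fun w hw => le_trans (Set.ncard_le_ncard
        (fun c hc => h2 _ hc)) (cnt_line hsurj hN hU hw10
          (fun a ha b hb c hc => ⟨_, hact μ w1 hw1 a ha b hb c hc⟩) ht0 hl (htU u hu) (h2 u hu) hw))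
  rw [Module.natCard_eq_pow_finrank (K := F) (V := U)] at h1
  refine le_trans (Nat.mul_le_mul_right _ ?_) h1
  rw [← hsc, ← smul_eq_mul]
  refine Finset.card_nsmul_le_sum _ _ _ fun x hx => ?_
  obtain ⟨g, hg, rfl⟩ := htr u0 x hu00 ((hs x).1 hx).1 hQ0 (hU.1 x ((hs x).1 hx).2)
  exact finrank_Wt_le hQ0 l hg

end Cfsg.Agent.C3.WT
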