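import Mathlib
import Cfsg.Agent.C3.WT3

/-! The degree bounds for `SU` and `Sp`. -/

namespace Cfsg.Agent.C3.WT

open Module Subgroup Cfsg.Agent.H2 Cfsg.Agent.H4 Cfsg.Agent.H4.CForm

theorem nontriv_of_irr {K G W : Type*} [Field K] [Monoid G] [AddCommGroup W] [Module K W]
    (ρ : Representation K G W) (h : ρ.IsIrreducible) (h2 : 2 ≤ finrank K W) : ∃ g, ρ g ≠ 1 := by
  by_contra hne
  push Not at hne
  have : Nontrivial W := Module.nontrivial_of_finrank_pos (R := K) (by omega)
  obtain ⟨w, hw⟩ := exists_ne (0 : W)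
  let S : Subrepresentation ρ := ⟨K ∙ w, fun g v hv => by simpa [hne g] using hv⟩
  have h1 := finrank_span_singleton (K := K) hw
  rcases h.eq_bot_or_eq_top S with h3 | h3
  · have h4 : (K ∙ w) = ⊥ := congrArg Subrepresentation.toSubmodule h3
    rw [h4, finrank_bot] at h1; omega
  · have h4 : (K ∙ w) = ⊤ := congrArg Subrepresentation.toSubmodule h3
    rw [h4, finrank_top] at h1; omega

theorem ncard_pow_le {F : Type*} [Field F] {n : ℕ} (hn : 0 < n) (c : F) :
    {x : F | x ^ n = c}.ncard ≤ n := by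
  classical
  have : {x : F | x ^ n = c} = (Polynomial.nthRoots n c).toFinset := by
    ext x; simp [Polynomial.mem_nthRoots hn]
  rw [this, Set.ncard_coe_finset]
  exact (Multiset.toFinset_card_le _).trans (Polynomial.card_nthRoots n c)

variable {F : Type*} [Field F] {V : Type*} [AddCommGroup V] [Module F V]
  {K W : Type*} [Field K] [AddCommGroup W] [Module K W]

theorem exists_nontriv {T : FType F} {f : CForm T V} (hE : f.E ≤ f.Tr) (ρ : Representation K f.E W)
    (h : ∃ g, ρ g ≠ 1) :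
    ∃ u t, ∃ (hu : f.Q u = 0) (ht : T.τ t = 0), ρ ⟨_, (ok0 hu ht).mem_E⟩ ≠ 1 := by
  by_contra hne
  push Not at hne
  obtain ⟨g, hg⟩ := h
  have h1 : f.Tr ≤ (MonoidHom.ker ρ).map f.E.subtype := Tr_le_iff.2 fun u c hu hc =>
    ⟨_, hne u (-c) hu (by simp [hc]), by simp [eich_zero_eq_tv (f.B_self_of_Q hu)]⟩
  obtain ⟨g', hg', e⟩ := h1 (hE g.2)
  exact hg (Subtype.ext e ▸ hg')

variable [FiniteDimensional F V] [FiniteDimensional K W] [IsAlgClosed K]

theorem unit_bound [Fintype F] {q : ℕ} (hF : Fintype.card F = q ^ 2) (hK : ringChar K ≠ ringChar F)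
    {f : CForm (unT hF) V} (hf : f.Nondeg) (h3 : 3 ≤ finrank F V) (h : ¬ (finrank F V = 3 ∧ q = 2))
    (ρ : Representation K f.E W) (hρ : ∃ g, ρ g ≠ 1) :
    (q ^ (2 * (finrank F V / 2)) - 1) * q ^ finrank F V ≤
      (q + 1) * q ^ (2 * (finrank F V / 2)) * finrank K W := by
  obtain ⟨u, t, hu, ht, hne⟩ := exists_nontriv (hf.unT_E_le_Tr hF h3 h) ρ hρ
  obtain ⟨U, hU, hUd⟩ := exists_TS_wi (f := f)
  rw [hf.unit_wi (frobq_ne hF)] at hUd
  obtain ⟨θ, hθ⟩ : ∃ θ, frobq hF θ ≠ θ := by
    by_contra h1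
    push Not at h1
    exact frobq_ne hF (RingHom.ext h1)
  obtain ⟨D, hD1, hD2⟩ := main_bound (N := q + 1) hK hf (fun t ht => ⟨t * θ / (θ - frobq hF θ), by
      have h1 : frobq hF t = -t := by
        rw [FType.unit_τ] at ht; linear_combination ht
      have h2 := sub_ne_zero.2 hθ
      have h3 := sub_ne_zero.2 hθ.symm
      rw [FType.unit_σ, FType.unit_ε, map_div₀, map_mul, map_sub, frobq_frobq, h1]
      field_simp; ring⟩)
    (fun c => by simpa [pow_succ'] using ncard_pow_le (Nat.succ_pos q) c) hU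
    (fun h0 => by rw [h0, finrank_bot] at hUd; omega) (fun a b ha hb hQa hQb => by
      obtain ⟨g, hg, hgab⟩ := hf.witt_vec ha hb (hQb.trans hQa.symm)
      obtain ⟨w, hw, hB⟩ := hf.exists_pair ha hQa
      have hYn := hf.res_perp_pair hQa hw hB
      have h1 := hf.finrank_perp (Submodule.span F {a, w})
      have h2 : finrank F (Submodule.span F {a, w}) ≤ 2 := by
        classical
        have := finrank_span_finset_le_card (R := F) ({a, w} : Finset V)
        rw [Set.finrank, Finset.coe_pair] at this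
        exact this.trans Finset.card_le_two
      have : Nontrivial (f.perp (Submodule.span F {a, w})) :=
        Module.nontrivial_of_finrank_pos (R := F) (by omega)
      obtain ⟨p, hp⟩ := hYn.unit_exists_Q_one (frobq_ne hF)
      have hp' : f.Q p = 1 := hp
      have h4 := hf.det_norm (inv_mem hg)
      refine ⟨g * f.tv p (LinearEquiv.det g⁻¹ - 1), ?_, ?_⟩
      · rw [hf.unit_E_eq (frobq_ne hF) (Nondeg.unT_not_aniso hF (by omega))]
        refine ⟨mul_mem hg (unit_tvOk hp' h4).mem_iso, ?_⟩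
        have h5 : LinearEquiv.det (f.tv p (LinearEquiv.det g⁻¹ - 1)) = LinearEquiv.det g⁻¹ :=
          Units.ext (det_unit_tv hp' h4)
        change LinearEquiv.det _ = 1
        rw [map_mul, h5, ← map_mul, mul_inv_cancel, map_one]
      · rw [LinearEquiv.mul_apply, tv_fix _ (f.B_zero_symm (f.mem_perp_pair.1 p.2).1), hgab])
    ρ hu ht hne
  rw [Nat.card_eq_fintype_card, hF, ← pow_mul, mul_comm 2, pow_mul] at hD1
  rw [Nat.card_eq_fintype_card, hF, ← pow_mul, hUd] at hD2
  refine le_trans ?_ hD2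
  have h6 := (Nat.pow_le_pow_iff_left two_ne_zero).1 hD1
  rw [mul_assoc]
  refine Nat.mul_le_mul_left _ (le_trans (le_of_eq ?_) (Nat.mul_le_mul_right _ h6))
  rw [← pow_add]; congr 1; omega

theorem symp_bound [Fintype F] (hodd : Odd (Fintype.card F)) (hK : ringChar K ≠ ringChar F)
    {m : ℕ} (hm : 1 ≤ m) (ρ : Representation K (spF F m).E W) (hρ : ∃ g, ρ g ≠ 1) :
    Fintype.card F ^ m - 1 ≤ 2 * finrank K W := by
  have hf := spF_nondeg (F := F) m
  obtain ⟨u, t, hu, ht, hne⟩ := exists_nontriv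
    (E_le_iso.trans (hf.symp_iso_le fun p c => tv_mem_Tr rfl rfl)) ρ hρ
  have h2 : (2 : F) ≠ 0 := Ring.two_ne_zero
    (fun h => by have := FiniteField.even_card_iff_char_two.1 h; rw [Nat.odd_iff] at hodd; omega)
  obtain ⟨D, hD1, hD2⟩ := main_bound (N := 2) hK hf (fun t _ => ⟨-t / 2, by
      simp only [FType.symp_ε, FType.symp_σ]; field_simp; ring⟩)
    (fun c => by simpa [pow_two] using ncard_pow_le two_pos c) (spF_TS_inlSub m)
    (fun h0 => by have := finrank_inlSub (F := F) m; rw [h0, finrank_bot] at this; omega)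
    (fun a b ha hb hQa hQb => by
      rw [hf.symp_E_eq]; exact hf.witt_vec ha hb (hQb.trans hQa.symm)) ρ hu ht hne
  rw [Nat.card_eq_fintype_card, finrank_fintype_fun_eq_card, Fintype.card_sum, Fintype.card_fin,
    show m + m - 2 = (m - 1) * 2 by omega, pow_mul] at hD1
  rw [Nat.card_eq_fintype_card, finrank_inlSub] at hD2
  have h6 := (Nat.pow_le_pow_iff_left two_ne_zero).1 hD1
  have h7 : 0 < Fintype.card F ^ m := pow_pos Fintype.card_pos m
  refine Nat.le_of_mul_le_mul_right ?_ h7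
  calc (Fintype.card F ^ m - 1) * Fintype.card F ^ m
      = (Fintype.card F ^ m - 1) * Fintype.card F ^ (m - 1) * Fintype.card F := by
        rw [mul_assoc, ← pow_succ, Nat.sub_add_cancel hm]
    _ ≤ (Fintype.card F ^ m - 1) * D * Fintype.card F := by gcongr
    _ ≤ _ := hD2
    _ = _ := by ring

theorem su_bound [Fintype F] {q n : ℕ} (hF : Fintype.card F = q ^ 2) (hK : ringChar K ≠ ringChar F)
    (h3 : 3 ≤ n) (h : (n, q) ≠ (3, 2)) (ρ : Representation K (Cfsg.SU n F q) W) (hρ : ∃ g, ρ g ≠ 1) :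
    (q ^ (2 * (n / 2)) - 1) * q ^ n ≤ (q + 1) * q ^ (2 * (n / 2)) * finrank K W := by
  have := unit_bound hF hK (unF_nondeg hF n) (by simpa using h3) (by simpa using h)
    (ρ.comp (suEquivE hF (by omega)).symm.toMonoidHom) (by
      obtain ⟨g, hg⟩ := hρ
      exact ⟨suEquivE hF (by omega) g, by simpa using hg⟩)
  simpa using this

theorem sp_bound [Fintype F] (hodd : Odd (Fintype.card F)) (hK : ringChar K ≠ ringChar F)
    {m : ℕ} (hm : 1 ≤ m) (ρ : Representation K (Matrix.symplecticGroup (Fin m) F) W)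
    (hρ : ∃ g, ρ g ≠ 1) : Fintype.card F ^ m - 1 ≤ 2 * finrank K W := by
  let e := (spEquiv F m).trans (MulEquiv.subgroupCongr (spF_nondeg (F := F) m).symp_E_eq.symm)
  refine symp_bound hodd hK hm (ρ.comp e.symm.toMonoidHom) ?_
  obtain ⟨g, hg⟩ := hρ
  exact ⟨e g, by simpa using hg⟩

theorem ringChar_complex_ne (F : Type*) [Field F] [Finite F] : ringChar ℂ ≠ ringChar F := by
  rw [ringChar.eq_zero]
  exact (CharP.char_is_prime F (ringChar F)).ne_zero.symm

end Cfsg.Agent.C3.WT
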