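import Mathlib
import Cfsg.Agent.C3.WT4

/-! Counting pairs of vectors with prescribed quadratic form values in characteristic two. -/

namespace Cfsg.Agent.C3.WT

open Module

theorem count_fib {V S : Type*} [AddCommGroup V] [Finite V] [Finite S]
    (U : AddSubgroup V) (φ : S → V) (hφ : ∀ s, φ s ∈ U) (v : V) (t : Finset V)
    (htU : ∀ x ∈ t, x - v ∈ U) {N : ℕ}
    (h : ∀ w ∈ U, {s : S | v + w + φ s ∈ t}.ncard ≤ N) : t.card * Nat.card S ≤ N * Nat.card U := by
  classical
  have := Fintype.ofFinite S
  have := Fintype.ofFinite U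
  have h1 := Finset.card_le_mul_card_image_of_maps_to
    (f := fun p : V × S => p.1 - v - φ p.2) (s := t ×ˢ Finset.univ)
    (t := Finset.univ.map (Function.Embedding.subtype (· ∈ U))) (fun p hp => by
      simpa using U.sub_mem (htU _ (Finset.mem_product.1 hp).1) (hφ _)) N
    (fun w hw => by
      have hwU : w ∈ U := by simpa using hw
      refine le_trans ?_ (h w hwU)
      rw [← Set.ncard_coe_finset]
      refine Set.ncard_le_ncard_of_injOn (fun p => p.2) (fun p hp => ?_) (fun p hp q hq e => ?_)
      · simp only [Finset.coe_filter, Finset.mem_product, Set.mem_setOf_eq] at hp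
        rw [Set.mem_setOf_eq, ← hp.2, show v + (p.1 - v - φ p.2) + φ p.2 = p.1 by abel]
        exact hp.1.1
      · simp only [Finset.coe_filter, Finset.mem_product, Set.mem_setOf_eq] at hp hq
        have e' : p.2 = q.2 := e
        refine Prod.ext ?_ e'
        have := hp.2.trans hq.2.symm
        rwa [e', sub_left_inj, sub_left_inj] at this)
  rwa [Finset.card_product, Finset.card_map, Finset.card_univ, Finset.card_univ,
    ← Nat.card_eq_fintype_card, ← Nat.card_eq_fintype_card] at h1

theorem ncard_quad_le {F : Type*} [Field F] (a c e : F) (hc : c ≠ 0 ∨ a ≠ 0) :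
    {s : F | a * s ^ 2 + c * s + e = 0}.ncard ≤ 2 := by
  classical
  let p : Polynomial F := Polynomial.C a * Polynomial.X ^ 2 + Polynomial.C c * Polynomial.X +
    Polynomial.C e
  have hp : p ≠ 0 := fun h => by
    have h1 := congrArg (Polynomial.coeff · 1) h
    have h2 := congrArg (Polynomial.coeff · 2) h
    simp [p, Polynomial.coeff_X, Polynomial.coeff_C] at h1 h2
    tauto
  have : {s : F | a * s ^ 2 + c * s + e = 0} = p.roots.toFinset := by
    ext x; simp [hp, p]
  rw [this, Set.ncard_coe_finset]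
  exact (Multiset.toFinset_card_le _).trans
    ((Polynomial.card_roots' p).trans Polynomial.natDegree_quadratic_le)

theorem ncard_lin_le {F : Type*} [Field F] (c e : F) (hc : c ≠ 0) :
    {s : F | c * s + e = 0}.ncard ≤ 1 := by
  have : {s : F | c * s + e = 0} = {-e / c} := by
    ext x
    simp only [Set.mem_setOf_eq, Set.mem_singleton_iff, eq_div_iff hc]
    constructor <;> intro h <;> linear_combination h
  rw [this, Set.ncard_singleton]

theorem ncard_aniso_le {F : Type*} [Field F] [Finite F] (h2 : (2 : F) = 0) {a b c : F}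
    (h : ∀ s t, s ^ 2 * a + t ^ 2 * b + s * t * c = 0 → s = 0 ∧ t = 0) (e : F) :
    {p : F × F | p.1 ^ 2 * a + p.2 ^ 2 * b + p.1 * p.2 * c = e}.ncard ≤ Nat.card F + 1 := by
  classical
  have hsq : ∀ x y : F, x ^ 2 = y ^ 2 → x = y := fun x y hxy =>
    sub_eq_zero.1 (pow_eq_zero_iff two_ne_zero |>.1 (by linear_combination hxy + (y ^ 2 - x * y) * h2))
  rw [← Finite.card_option, ← Set.ncard_univ]
  refine Set.ncard_le_ncard_of_injOn (fun p => if p.2 = 0 then none else some (p.1 / p.2))
    (fun _ _ => trivial) ?_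
  rintro ⟨s, t⟩ hp ⟨s', t'⟩ hq e'
  simp only [Set.mem_setOf_eq] at hp hq
  by_cases h1 : t = 0 <;> by_cases h1' : t' = 0 <;> simp only [h1, h1', if_true, if_false,
    reduceCtorEq, Option.some.injEq] at e'
  · subst h1 h1'
    have ha : a ≠ 0 := fun ha => one_ne_zero (h 1 0 (by simp [ha])).1
    rw [hsq s s' (mul_right_cancel₀ ha (by linear_combination hp - hq))]
  · have h3 : s = s' / t' * t := by rw [← e']; field_simp
    have h4 : s' = s' / t' * t' := by field_simp
    generalize s' / t' = r at h3 h4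
    subst h3 h4
    have h5 : r ^ 2 * a + 1 ^ 2 * b + r * 1 * c ≠ 0 := fun h0 => one_ne_zero (h r 1 h0).2
    rw [hsq t t' (mul_right_cancel₀ h5 (by linear_combination hp - hq))]

theorem count_pairs {F U : Type*} [Field F] [Finite F] [AddCommGroup U] [Module F U]
    [FiniteDimensional F U] (h2 : (2 : F) = 0) (Q : U → F) (B : U →ₗ[F] U →ₗ[F] F)
    (hs : ∀ x y, B x y = B y x) (hQ : ∀ x y, Q (x + y) = Q x + Q y + B x y)
    (hQs : ∀ (s : F) x, Q (s • x) = s ^ 2 * Q x) {a b c : F} (hc : c ≠ 0)
    (hab : a = 0 ∨ ∀ s t, s ^ 2 * a + t ^ 2 * b + s * t * c = 0 → s = 0 ∧ t = 0)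
    (t : Finset (Fin 2 → U)) (ht : ∀ i ∈ t, Q (i 0) = a ∧ Q (i 1) = b ∧ B (i 0) (i 1) = c) :
    t.card * Nat.card F ^ 4 ≤ 2 * (Nat.card F + 1) * Nat.card U ^ 2 := by
  classical
  have hfin : Finite U := Module.finite_of_finite F
  have hB0 : ∀ x, B x x = 0 := fun x => by
    have h3 := hQ x x
    rw [← two_smul F x, hQs] at h3
    linear_combination -h3 + Q x * h2
  rcases t.eq_empty_or_nonempty with rfl | ⟨i0, hi0⟩
  · simp
  obtain ⟨ha0, hb0, hc0⟩ := ht i0 hi0
  let t0 := t.image (· 0)
  have ht0 : ∀ u ∈ t0, Q u = a := fun u hu => by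
    obtain ⟨i, hi, rfl⟩ := Finset.mem_image.1 hu
    exact (ht i hi).1
  have hfib : ∀ N, (∀ e, {s : F | a * s ^ 2 + c * s + e = 0}.ncard ≤ N) → ∀ u ∈ t0,
      (t.filter (· 0 = u)).card * Nat.card F ^ 2 ≤ N * Nat.card U := by
    intro N hN u hu
    obtain ⟨i1, hi1, rfl⟩ := Finset.mem_image.1 hu
    let t1 := (t.filter (· 0 = i1 0)).image (· 1)
    have ht1 : ∀ x ∈ t1, Q x = b ∧ B (i1 0) x = c := fun x hx => by
      obtain ⟨i, hi, rfl⟩ := Finset.mem_image.1 hx
      obtain ⟨hi, e⟩ := Finset.mem_filter.1 hi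
      rw [← e]; exact (ht i hi).2
    have h3 := count_fib (LinearMap.ker (B (i1 0))).toAddSubgroup (fun s : F => s • i1 0)
      (fun s => by simp [hB0]) (i1 1) t1 (fun x hx => by simp [(ht1 x hx).2, (ht i1 hi1).2.2])
      (N := N) fun w hw => le_trans (Set.ncard_le_ncard fun s hs' => by
        have h4 := (ht1 _ hs').1
        have h5 : B (i1 0) w = 0 := hw
        rw [hQ, hQs, ht0 _ hu, hs, map_smul, LinearMap.smul_apply, map_add, h5,
          (ht i1 hi1).2.2] at h4
        simp only [Set.mem_setOf_eq, smul_eq_mul] at h4 ⊢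
        linear_combination h4) (hN (Q (i1 1 + w) - b))
    have h6 : t1.card = (t.filter (· 0 = i1 0)).card := Finset.card_image_of_injOn fun i hi j hj e => by
      simp only [Finset.coe_filter, Set.mem_setOf_eq] at hi hj
      ext k; fin_cases k
      · exact hi.2.trans hj.2.symm
      · exact e
    have h7 : Nat.card (LinearMap.ker (B (i1 0))) * Nat.card F = Nat.card U := by
      have h8 : B (i1 0) ≠ 0 := fun h => hc (by rw [← (ht i1 hi1).2.2, h]; rfl)
      have h9 := Module.Dual.finrank_ker_add_one_of_ne_zero h8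
      rw [Module.natCard_eq_pow_finrank (K := F) (V := U), Module.natCard_eq_pow_finrank (K := F),
        ← h9, pow_succ]
    rw [← h6, ← h7, pow_two, ← mul_assoc, ← mul_assoc]
    exact Nat.mul_le_mul_right _ h3
  have hsum : ∀ N, (∀ e, {s : F | a * s ^ 2 + c * s + e = 0}.ncard ≤ N) →
      t.card * Nat.card F ^ 2 ≤ t0.card * (N * Nat.card U) := fun N hN => by
    rw [Finset.card_eq_sum_card_image (· 0) t, Finset.sum_mul, ← smul_eq_mul]
    exact Finset.sum_le_card_nsmul _ _ _ (hfib N hN)
  rcases hab with rfl | hab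
  · have h3 := hsum 1 fun e => by simpa using ncard_lin_le c e hc
    let x := i0 1 + ((1 - b) / c) • i0 0
    have hx : Q x = 1 := by
      simp only [x]
      rw [hQ, hQs, ha0, hb0, map_smul, hs, hc0, smul_eq_mul]; field_simp; ring
    have h4 := count_fib ⊤ (fun s : F => s • x) (fun _ => trivial) 0 t0 (fun _ _ => trivial)
      (N := 2) fun w _ => le_trans (Set.ncard_le_ncard fun s hs' => by
        have h4 := ht0 _ hs'
        rw [hQ, hQs, hx, map_smul] at h4
        simp only [Set.mem_setOf_eq, smul_eq_mul] at h4 ⊢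
        linear_combination h4) (ncard_quad_le 1 (B (0 + w) x) (Q (0 + w)) (Or.inr one_ne_zero))
    rw [AddSubgroup.card_top] at h4
    calc t.card * Nat.card F ^ 4 = t.card * Nat.card F ^ 2 * Nat.card F * Nat.card F := by ring
      _ ≤ t0.card * (1 * Nat.card U) * Nat.card F * Nat.card F := by gcongr
      _ = t0.card * Nat.card F * (Nat.card U * Nat.card F) := by ring
      _ ≤ 2 * Nat.card U * (Nat.card U * (Nat.card F + 1)) := by gcongr; omega
      _ = _ := by ring
  · have h3 := hsum 2 fun e => ncard_quad_le a c e (Or.inl hc)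
    have h4 := count_fib ⊤ (fun s : F × F => s.1 • i0 0 + s.2 • i0 1) (fun _ => trivial) 0 t0
      (fun _ _ => trivial) (N := Nat.card F + 1) fun w _ => le_trans
        (Set.ncard_le_ncard_of_injOn (fun p => (p.1 + B w (i0 1) / c, p.2 + B w (i0 0) / c))
          (fun s hs' => by
            have h4 := ht0 _ hs'
            rw [zero_add, hQ, hQ, hQs, hQs, ha0, hb0] at h4
            simp only [Set.mem_setOf_eq, smul_eq_mul, map_add, map_smul, LinearMap.smul_apply,
              hc0] at h4 ⊢
            have h5 : B w (i0 1) = B w (i0 1) / c * c := by field_simp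
            have h6 : B w (i0 0) = B w (i0 0) / c * c := by field_simp
            generalize B w (i0 1) / c = x at h5 ⊢
            generalize B w (i0 0) / c = y at h6 ⊢
            rw [h5, h6] at h4
            linear_combination h4 + (s.1 * x * a + s.2 * y * b) * h2)
          (fun _ _ _ _ e => by simpa [Prod.ext_iff] using e))
        (ncard_aniso_le h2 hab (a - Q w + ((B w (i0 1) / c) ^ 2 * a + (B w (i0 0) / c) ^ 2 * b +
          (B w (i0 1) / c) * (B w (i0 0) / c) * c)))
    rw [AddSubgroup.card_top, Nat.card_prod] at h4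
    calc t.card * Nat.card F ^ 4 = t.card * Nat.card F ^ 2 * (Nat.card F * Nat.card F) := by ring
      _ ≤ t0.card * (2 * Nat.card U) * (Nat.card F * Nat.card F) := by gcongr
      _ = t0.card * (Nat.card F * Nat.card F) * (2 * Nat.card U) := by ring
      _ ≤ (Nat.card F + 1) * Nat.card U * (2 * Nat.card U) := by gcongr
      _ = _ := by ring

end Cfsg.Agent.C3.WT
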