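import Mathlib
import Cfsg.Agent.C3.WT5

/-! The degree bound for symplectic groups in characteristic two. -/

namespace Cfsg.Agent.C3.WT

open Module Subgroup Cfsg.Agent.H2 Cfsg.Agent.H4 Cfsg.Agent.H4.CForm

variable {F : Type*} [Field F] {V : Type*} [AddCommGroup V] [Module F V]
  {f : CForm (FType.symp F) V} {K W : Type*} [Field K] [AddCommGroup W] [Module K W]
  {ρ : Representation K f.E W}

theorem psi_inj {ψ : AddChar F K} (hψ : ψ.IsPrimitive) {a b : F} (h : ∀ t, ψ (a * t) = ψ (b * t)) :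
    a = b := AddChar.to_mulShift_inj_of_isPrimitive hψ (AddChar.ext _ _ h)

theorem exists_psi [Finite F] {ψ : AddChar F K} (hψ : ψ.IsPrimitive) (k : F → K) (h0 : k 0 = 1)
    (hk : ∀ a b, k (a + b) = k a * k b) : ∃ c, ∀ t, k t = ψ (c * t) := by
  obtain ⟨c, hc⟩ := char_surj (fun b : F => (ψ.mulShift b).toMonoidHom)
    (fun a b h => psi_inj hψ fun t => DFunLike.congr_fun h (Multiplicative.ofAdd t))
    (Nat.card_congr Multiplicative.toAdd).le
    { toFun := fun a => k a.toAdd, map_one' := h0, map_mul' := fun a b => hk _ _ }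
  exact ⟨c, fun t => (DFunLike.congr_fun hc (Multiplicative.ofAdd t)).symm⟩

theorem exists_psi' [Finite F] {ψ : AddChar F K} (hψ : ψ.IsPrimitive) {w : W} (h0 : w ≠ 0)
    (g : F → V ≃ₗ[F] V) (hg : ∀ a, g a ∈ f.E) (hg0 : g 0 = 1) (hm : ∀ a b, g (a + b) = g a * g b)
    (hsc : ∀ a, ∃ k : K, R ρ (g a) w = k • w) : ∃ c, ∀ t, R ρ (g t) w = ψ (c * t) • w := by
  choose k hk using hsc
  obtain ⟨c, hc⟩ := exists_psi hψ k (smul_left_injective K h0 (by
      simp only [← hk, hg0, R_one, one_smul])) (fun a b => smul_left_injective K h0 (by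
      simp only [← hk (a + b)]
      rw [hm, R_mul (hg a) (hg b), hk b, map_smul, hk a, smul_smul, mul_comm]))
  exact ⟨c, fun t => by rw [hk, hc]⟩

theorem sE {u v : V} (h : f.B v u = 0) (c : F) : f.eich u v c ∈ f.E := (symp_eichOk h c).mem_E

theorem eich_swap {u v : V} (h : f.B v u = 0) (t : F) :
    f.eich u (t • v) 0 = f.eich v (t • u) 0 := by
  ext x
  rw [(symp_eichOk (by simp [h]) 0).apply, (symp_eichOk (by simp [f.B_zero_symm h]) 0).apply]
  simp only [map_smulₛₗ, FType.symp_σ, FType.symp_ε, smul_eq_mul]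
  module

theorem exists_form [Finite F] {ψ : AddChar F K} (hψ : ψ.IsPrimitive) (h2 : (2 : F) = 0)
    {U : Submodule F V} (hU : f.TS U) {w : W} (h0 : w ≠ 0)
    (hsc : ∀ u ∈ U, ∀ v ∈ U, ∀ c, ∃ k : K, R ρ (f.eich u v c) w = k • w) :
    ∃ (Q : U → F) (B : U →ₗ[F] U →ₗ[F] F), (∀ x y, B x y = B y x) ∧
      (∀ x y, Q (x + y) = Q x + Q y + B x y) ∧ (∀ (s : F) x, Q (s • x) = s ^ 2 * Q x) ∧
      (∀ (u : U) t, R ρ (f.eich u 0 t) w = ψ (Q u * t) • w) ∧
      ∀ (u v : U) t, R ρ (f.eich u (t • (v : V)) 0) w = ψ (B u v * t) • w := by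
  have hz : ∀ u v : U, f.B u v = 0 := fun u v => hU.2 u u.2 v v.2
  have hz' : ∀ (u v : U) (t : F), f.B (t • (v : V)) u = 0 := fun u v t => hz (t • v) u
  choose Q hQ using fun u : U => exists_psi' (ρ := ρ) hψ h0 (fun t => f.eich u 0 t)
    (fun t => sE (by simp) t) (eich00 (hU.1 u u.2))
    (fun a b => by rw [eich_mul (hz u u) (by simp) (by simp)]; simp)
    (fun a => hsc u u.2 0 U.zero_mem a)
  choose B hB using fun u v : U => exists_psi' (ρ := ρ) hψ h0 (fun t => f.eich u (t • (v : V)) 0)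
    (fun t => sE (hz' u v t) 0) (by simpa using eich00 (hU.1 u u.2))
    (fun a b => by
      rw [eich_mul (hz u u) (hz' u v a) (hz' u v b), add_smul]; simp [hz])
    (fun a => hsc u u.2 _ (U.smul_mem a v.2) 0)
  have inj : ∀ {a b : F}, (∀ t, ψ (a * t) • w = ψ (b * t) • w) → a = b := fun h =>
    psi_inj hψ fun t => smul_left_injective K h0 (h t)
  have hs : ∀ x y, B x y = B y x := fun x y => inj fun t => by
    rw [← hB, ← hB, eich_swap (hz y x)]
  have hadd : ∀ x y z, B x (y + z) = B x y + B x z := fun x y z => inj fun t => by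
    have h1 := eich_mul (hz x x) (hz' x y t) (hz' x z t) 0 0
    rw [hU.2 _ (U.smul_mem t z.2) _ (U.smul_mem t y.2), mul_zero, add_zero, add_zero,
      ← smul_add] at h1
    rw [← hB, Submodule.coe_add, ← h1, R_mul (sE (hz' x y t) 0) (sE (hz' x z t) 0), hB, map_smul, hB,
      smul_smul, add_mul, AddChar.map_add_eq_mul, mul_comm]
  have hsm : ∀ (s : F) x y, B x (s • y) = s * B x y := fun s x y => inj fun t => by
    rw [← hB, Submodule.coe_smul, smul_smul, hB]; congr 2; ring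
  have hQs : ∀ (s : F) x, Q (s • x) = s ^ 2 * Q x := fun s x => inj fun t => by
    rw [← hQ, Submodule.coe_smul, eich_smul (hz x x) (by simp), smul_zero, hQ]
    congr 2; simp; ring
  refine ⟨Q, LinearMap.mk₂ F B (fun x y z => by rw [hs, hadd, hs z, hs z])
    (fun s x y => by rw [hs, hsm, hs y, smul_eq_mul]) hadd (fun s x y => hsm s x y), hs,
    fun x y => inj fun t => ?_, hQs, hQ, hB⟩
  have h1 := eich_line (f := f) (u := y) (w := x) (hU.1 y y.2) (hU.1 x x.2) (hz x y) 1 (t := t) rfl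
  rw [one_smul] at h1
  rw [← hQ, Submodule.coe_add, h1, R_mul (sE (by simp) _) (mul_mem (sE (by simp) _) (sE (hz' _ _ _) _)),
    R_mul (sE (by simp) _) (sE (hz' _ _ _) _), hB, map_smul, hQ, map_smul, map_smul, hQ, smul_smul,
    smul_smul, ← AddChar.map_add_eq_mul, ← AddChar.map_add_eq_mul, LinearMap.mk₂_apply, hs y]
  congr 2
  simp only [FType.symp_σ, FType.symp_ε]
  linear_combination (-B x y * t) * h2

variable (ρ) in
/-- eigenspace of the unipotent radical attached to a totally singular plane -/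
def W2 (ψ : AddChar F K) (u v : V) (a b c : F) : Submodule K W where
  carrier := {w | ∀ t, R ρ (f.eich u 0 t) w = ψ (a * t) • w ∧ R ρ (f.eich v 0 t) w = ψ (b * t) • w ∧
    R ρ (f.eich u (t • v) 0) w = ψ (c * t) • w}
  add_mem' := fun {x y} hx hy t => by
    simp only [map_add, (hx t).1, (hy t).1, (hx t).2.1, (hy t).2.1, (hx t).2.2, (hy t).2.2, smul_add,
      and_self]
  zero_mem' := fun t => by simp
  smul_mem' := fun k w hw t => by
    simp only [map_smul, (hw t).1, (hw t).2.1, (hw t).2.2, smul_comm k, and_self]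

theorem R_conj {g : V ≃ₗ[F] V} (hg : g ∈ f.E) {u v : V} (h : f.B v u = 0) (c : F) (w : W) :
    R ρ (f.eich (g u) (g v) c) (R ρ g w) = R ρ g (R ρ (f.eich u v c) w) := by
  rw [← eich_conj (E_le_iso hg), ← R_mul (mul_mem (mul_mem hg (sE h c)) (inv_mem hg)) hg,
    inv_mul_cancel_right, R_mul hg (sE h c)]

theorem W2_map {ψ : AddChar F K} {u v : V} (h : f.B v u = 0) {a b c : F} {g : V ≃ₗ[F] V}
    (hg : g ∈ f.E) {w : W} (hw : w ∈ W2 ρ ψ u v a b c) : R ρ g w ∈ W2 ρ ψ (g u) (g v) a b c :=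
  fun t => by
  have h1 := R_conj (ρ := ρ) hg (u := u) (v := 0) (by simp) t w
  have h2 := R_conj (ρ := ρ) hg (u := v) (v := 0) (by simp) t w
  have h3 := R_conj (ρ := ρ) hg (u := u) (v := t • v) (by simp [h]) 0 w
  rw [map_zero] at h1 h2
  rw [map_smul] at h3
  rw [h1, h2, h3, (hw t).1, (hw t).2.1, (hw t).2.2]
  simp only [map_smul, and_self]

theorem eich_comm2 (h2 : (2 : F) = 0) {u y z : V} (hy : f.B y u = 0) (hz : f.B z u = 0) :
    f.eich u y 0 * f.eich u z 0 = f.eich u z 0 * f.eich u y 0 := by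
  rw [eich_mul (f.symp_B_self u) hy hz, eich_mul (f.symp_B_self u) hz hy, add_comm y, f.symm y z]
  congr 1
  simp only [FType.symp_σ, FType.symp_ε]
  linear_combination f.B y z * h2

theorem eich_comm3 {u v y z : V} (h : f.B v u = 0) (hy : f.B y u = 0) (hy' : f.B y v = 0)
    (hz : f.B z u = 0) (hz' : f.B z v = 0) :
    f.eich u y 0 * f.eich v z 0 = f.eich u (f.B z y • v) 0 * (f.eich v z 0 * f.eich u y 0) := by
  have h1 := eich_conj (symp_eichOk hy 0).mem_iso v z 0
  rw [eich_fix 0 h (f.B_zero_symm hy'), (symp_eichOk hy 0).apply, hz, zero_smul, sub_zero] at h1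
  have h3 := eich_mul (f.symp_B_self v) (v := f.B z y • u) (v' := z) (by simp [f.B_zero_symm h]) hz' 0 0
  rw [eich_swap h, ← mul_assoc, h3, add_comm _ z, ← mul_inv_eq_iff_eq_mul, h1]
  simp [hz]

theorem heis_W2 [Finite F] [FiniteDimensional F V] [FiniteDimensional K W] (hf : f.Nondeg)
    {ψ : AddChar F K} (hψ : ψ.IsPrimitive) (h2 : (2 : F) = 0) {u v : V} (h : f.B v u = 0)
    (hli : LinearIndependent F ![u, v]) {a b c : F} (hc : c ≠ 0) {w : W}
    (hw : w ∈ W2 ρ ψ u v a b c) (h0 : w ≠ 0) :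
    Nat.card F ^ (finrank F V - 4) ≤ finrank K (W2 ρ ψ u v a b c) := by
  have hfin : Finite V := Module.finite_of_finite F
  set S := Submodule.span F {u, v} with hS
  have hSd : finrank F S = 2 := by
    have h3 := finrank_span_eq_card hli
    rwa [Matrix.range_cons_cons_empty, Fintype.card_fin] at h3
  have hSP : S ≤ f.perp S := by
    rw [hS, Submodule.span_le]
    rintro x (rfl | rfl) <;> simp [f.mem_perp_pair, symp_B_self, h, f.B_zero_symm h]
  obtain ⟨Y, hY⟩ := Submodule.exists_isCompl (S.comap (f.perp S).subtype)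
  have hYd : finrank F Y + 4 = finrank F V := by
    have h3 := hf.finrank_perp S
    have h4 := Submodule.finrank_add_eq_of_isCompl hY
    rw [(Submodule.comapSubtypeEquivOfLe hSP).finrank_eq] at h4
    omega
  have hu : ∀ y : Y, f.B y.1.1 u = 0 := fun y => (f.mem_perp_pair.1 y.1.2).1
  have hv : ∀ y : Y, f.B y.1.1 v = 0 := fun y => (f.mem_perp_pair.1 y.1.2).2
  have hnd : ∀ y : Y, (∀ z : Y, f.B y.1.1 z.1.1 = 0) → y = 0 := by
    intro y hy
    have h3 : y.1.1 ∈ f.perp (f.perp S) := fun x hx => by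
      obtain ⟨s, hs, z, hz, e⟩ := Submodule.mem_sup.1
        (hY.sup_eq_top ▸ Submodule.mem_top (x := (⟨x, hx⟩ : f.perp S)))
      have e' : s.1 + z.1 = x := congrArg Subtype.val e
      rw [← e', map_add, hy ⟨z, hz⟩, y.1.2 s hs, add_zero]
    rw [hf.perp_perp] at h3
    exact Subtype.ext ((Submodule.disjoint_def.1 hY.disjoint) _ h3 y.2)
  let p : Y → W →ₗ[K] W := fun y => R ρ (f.eich u y.1.1 0)
  let q : Y → W →ₗ[K] W := fun y => R ρ (f.eich v y.1.1 0)
  have hp : ∀ y, ∀ x ∈ W2 ρ ψ u v a b c, p y x ∈ W2 ρ ψ u v a b c := fun y x hx => by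
    have := W2_map h (sE (hu y) 0) hx
    rwa [(symp_eichOk (hu y) 0).apply_self, eich_fix 0 h (f.B_zero_symm (hv y))] at this
  have hq : ∀ y, ∀ x ∈ W2 ρ ψ u v a b c, q y x ∈ W2 ρ ψ u v a b c := fun y x hx => by
    have := W2_map h (sE (hv y) 0) hx
    rwa [(symp_eichOk (hv y) 0).apply_self,
      eich_fix 0 (f.B_zero_symm h) (f.B_zero_symm (hu y))] at this
  have hpp : ∀ y z x, p y (p z x) = p z (p y x) := fun y z x => by
    simp only [p]
    rw [← R_mul (sE (hu y) 0) (sE (hu z) 0), eich_comm2 h2 (hu y) (hu z),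
      R_mul (sE (hu z) 0) (sE (hu y) 0)]
  have hqq : ∀ y z x, q y (q z x) = q z (q y x) := fun y z x => by
    simp only [q]
    rw [← R_mul (sE (hv y) 0) (sE (hv z) 0), eich_comm2 h2 (hv y) (hv z),
      R_mul (sE (hv z) 0) (sE (hv y) 0)]
  have hpq : ∀ y z, ∀ x ∈ W2 ρ ψ u v a b c,
      p y (q z x) = ψ (c * f.B z.1.1 y.1.1) • q z (p y x) := fun y z x hx => by
    rw [← ((hq z _ (hp y x hx)) _).2.2]
    simp only [p, q]
    rw [← R_mul (sE (hu y) 0) (sE (hv z) 0), eich_comm3 h (hu y) (hv y) (hu z) (hv z),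
      R_mul (sE (by simp [h]) 0) (mul_mem (sE (hv z) 0) (sE (hu y) 0)),
      R_mul (sE (hv z) 0) (sE (hu y) 0)]
  have := heis (I := Y × Y) _ ((Submodule.ne_bot_iff _).2 ⟨w, hw, h0⟩) (fun i => q i.2 ∘ₗ p i.1)
    (fun i x hx => hq _ _ (hp _ _ hx))
    (fun i => (R_inj (sE (hv i.2) 0)).comp (R_inj (sE (hu i.1) 0)))
    (fun i j => ψ (c * (f.B i.2.1.1 j.1.1.1 - f.B j.2.1.1 i.1.1.1))) ?_ ?_
  · rw [Nat.card_prod, ← pow_two, Nat.pow_le_pow_iff_left two_ne_zero,
      Module.natCard_eq_pow_finrank (K := F)] at this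
    rwa [show finrank F V - 4 = finrank F Y by omega]
  · intro i i' e
    refine Prod.ext (sub_eq_zero.1 (hnd _ fun z => ?_)) (sub_eq_zero.1 (hnd _ fun z => ?_))
    · have h3 := psi_inj hψ (a := c * -f.B z.1.1 i.1.1.1) (b := c * -f.B z.1.1 i'.1.1.1) fun t => by
        have := congrFun e (0, t • z)
        simp only [Submodule.coe_smul, Submodule.coe_zero, map_zero, map_smul, zero_sub,
          LinearMap.smul_apply, smul_eq_mul] at this
        convert this using 2 <;> ring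
      apply f.B_zero_symm
      simp only [Submodule.coe_sub, map_sub]
      linear_combination -(mul_left_cancel₀ hc h3)
    · have h3 := psi_inj hψ (a := c * f.B i.2.1.1 z.1.1) (b := c * f.B i'.2.1.1 z.1.1) fun t => by
        have := congrFun e (t • z, 0)
        simp only [Submodule.coe_smul, Submodule.coe_zero, map_zero, map_smulₛₗ, sub_zero,
          LinearMap.zero_apply, smul_eq_mul, FType.symp_σ] at this
        convert this using 2 <;> ring
      simp only [Submodule.coe_sub, map_sub, LinearMap.sub_apply]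
      linear_combination (mul_left_cancel₀ hc h3)
  · intro i j x hx
    simp only [LinearMap.comp_apply]
    rw [hpq _ _ _ (hp _ _ hx), hpq _ _ _ (hp _ _ hx), map_smul, map_smul, smul_smul,
      ← AddChar.map_add_eq_mul, hqq, hpp]
    congr 2; ring

end Cfsg.Agent.C3.WT
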