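import Mathlib
import Cfsg.Agent.C3.WT6

/-! The degree bound for symplectic groups in characteristic two, conclusion. -/

namespace Cfsg.Agent.C3.WT

open Module Subgroup Cfsg.Agent.H2 Cfsg.Agent.H4 Cfsg.Agent.H4.CForm

variable {F : Type*} [Field F] {V : Type*} [AddCommGroup V] [Module F V]
  {f : CForm (FType.symp F) V} {K W : Type*} [Field K] [AddCommGroup W] [Module K W]

theorem witt_pair [FiniteDimensional F V] (hf : f.Nondeg) {u v u' v' : V} (h : f.B v u = 0)
    (h' : f.B v' u' = 0) (hli : LinearIndependent F ![u, v]) (hli' : LinearIndependent F ![u', v']) :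
    ∃ g ∈ f.E, g u = u' ∧ g v = v' := by
  have inj : ∀ {a b : V}, LinearIndependent F ![a, b] → Function.Injective
      ((LinearMap.toSpanSingleton F V a).coprod (LinearMap.toSpanSingleton F V b)) := fun h => by
    rw [injective_iff_map_eq_zero]
    intro x hx
    exact Prod.ext_iff.2 (LinearIndependent.pair_iff.1 h x.1 x.2 (by simpa using hx))
  obtain ⟨g, hg, e⟩ := hf.witt' _ _ (inj hli) (inj hli') (fun x y => by
    simp [f.symp_B_self, h, h', f.B_zero_symm h, f.B_zero_symm h']) (fun x => by rw [symp_Q, symp_Q])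
  exact ⟨g, hf.symp_E_eq ▸ hg, by simpa using e (1, 0), by simpa using e (0, 1)⟩

theorem even_bound [Fintype F] [FiniteDimensional F V] [FiniteDimensional K W] [IsAlgClosed K]
    (hK : ringChar K ≠ ringChar F) (hf : f.Nondeg) {ψ : AddChar F K} (hψ : ψ.IsPrimitive)
    (h2 : (2 : F) = 0) {U : Submodule F V} (hU : f.TS U) {n : ℕ} (hn : 2 ≤ n)
    (hUd : finrank F U = n) (hV : finrank F V = 2 * n) (ρ : Representation K f.E W)
    (hρ : Function.Injective ρ) :
    (Fintype.card F ^ n - 1) * (Fintype.card F ^ n - Fintype.card F) ≤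
      2 * (Fintype.card F + 1) * finrank K W := by
  classical
  have hfin : Finite V := Module.finite_of_finite F
  have hfin2 : Finite (V ≃ₗ[F] V) := DFunLike.finite _
  have hA := AU_card (f := f) hK U
  have hz : ∀ u v : U, f.B u v = 0 := fun u v => hU.2 u u.2 v v.2
  have hact : ∀ (μ : AU f U →* Kˣ), ∀ w ∈ wt ρ _ μ, ∀ u (hu : u ∈ U) v (hv : v ∈ U) c,
      R ρ (f.eich u v c) w = (μ ⟨_, eich_mem_AU hU hu hv (symp_eichOk (hU.2 v hv u hu) c)⟩ : K) • w :=
    fun μ w hw u hu v hv c => by rw [← hw, ← R_coe]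
  obtain ⟨e, heU, he⟩ := exists_li_of_finrank (W := U) (n := 2) (by omega)
  have hne : ρ ⟨_, sE (hU.2 _ (heU 1) _ (heU 0)) 0⟩ ≠ 1 := fun h => by
    have h1 : f.eich (e 0) (e 1) 0 = 1 := congrArg Subtype.val (hρ (h.trans (map_one ρ).symm))
    obtain ⟨x, hx⟩ := hf.exists_B_eq (he.ne_zero 0) 1
    have h3 := congrArg (· x) (congrArg DFunLike.coe h1)
    simp only [(symp_eichOk (hU.2 _ (heU 1) _ (heU 0)) 0).apply, LinearEquiv.coe_one, id] at h3
    have h4 : LinearIndependent F ![e 0, e 1] := by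
      convert he using 1; ext i; fin_cases i <;> rfl
    have h5 := (LinearIndependent.pair_iff.1 h4 (f.B x (e 1)) (f.B x (e 0)) (by
      simp only [FType.symp_ε] at h3
      linear_combination (norm := module) h3)).2
    rw [f.B_zero_symm h5] at hx
    exact zero_ne_one hx
  obtain ⟨μ0, hμ0, w0, hw0, hw00⟩ := exists_wt_of_ne ρ hA (AU_der U)
    (a := ⟨_, eich_mem_AU hU (heU 0) (heU 1) (symp_eichOk (hU.2 _ (heU 1) _ (heU 0)) 0)⟩) hne
  obtain ⟨Q0, B0, hs0, hQ0, hQs0, hQw0, hBw0⟩ := exists_form (ρ := ρ) hψ h2 hU hw00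
    fun u hu v hv c => ⟨_, hact μ0 w0 hw0 u hu v hv c⟩
  have hB00 : ∀ x, B0 x x = 0 := fun x => by
    have h3 := hQ0 x x
    rw [← two_smul F x, hQs0] at h3
    linear_combination -h3 + Q0 x * h2
  have hc1 : B0 ⟨e 0, heU 0⟩ ⟨e 1, heU 1⟩ ≠ 0 := fun h => hμ0 (Units.ext (by
    have h3 := hBw0 ⟨e 0, heU 0⟩ ⟨e 1, heU 1⟩ 1
    rw [one_smul, h, zero_mul, AddChar.map_zero_eq_one, hact μ0 w0 hw0 _ (heU 0) _ (heU 1)] at h3
    exact smul_left_injective K hw00 h3))
  obtain ⟨u, v, hc, hab⟩ : ∃ u v : U, B0 u v ≠ 0 ∧ (Q0 u = 0 ∨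
      ∀ s t, s ^ 2 * Q0 u + t ^ 2 * Q0 v + s * t * B0 u v = 0 → s = 0 ∧ t = 0) := by
    generalize (⟨e 0, heU 0⟩ : U) = u at hc1
    generalize (⟨e 1, heU 1⟩ : U) = v at hc1
    by_cases h : ∀ s t, s ^ 2 * Q0 u + t ^ 2 * Q0 v + s * t * B0 u v = 0 → s = 0 ∧ t = 0
    · exact ⟨u, v, hc1, Or.inr h⟩
    push Not at h
    obtain ⟨s, t, h1, h3⟩ := h
    have h4 : Q0 (s • u + t • v) = 0 := by
      rw [hQ0, hQs0, hQs0, ← h1]; simp; ring
    by_cases hs : s = 0
    · exact ⟨_, u, by simp [hB00, hs0 v u, hc1, h3 hs], Or.inl h4⟩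
    · exact ⟨_, v, by simp [hB00, hc1, hs], Or.inl h4⟩
  have hli : LinearIndependent F ![(u : V), v] := by
    rw [LinearIndependent.pair_iff]
    intro s t h
    have h1 : s • u + t • v = 0 := Subtype.ext h
    have h3 := congrArg (B0 u) h1
    have h4 := congrArg (B0 v) h1
    simp [hB00, hc, hs0 v u] at h3 h4
    exact ⟨h4, h3⟩
  have hD := heis_W2 (ρ := ρ) hf hψ h2 (hz v u) hli hc (w := w0)
    (fun t => ⟨hQw0 u t, hQw0 v t, hBw0 u v t⟩) hw00
  have := Fintype.ofFinite U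
  let s : Finset (Fin 2 → U) := Finset.univ.filter fun i => LinearIndependent F i
  have hsc : s.card = (Fintype.card F ^ n - 1) * (Fintype.card F ^ n - Fintype.card F) := by
    have h1 := card_linearIndependent (K := F) (V := U) (k := 2) (by omega)
    rw [Nat.card_eq_fintype_card, Fintype.card_subtype, hUd] at h1
    simpa using h1
  have h1 := dcount ρ hA (AU_der U) s (fun i => W2 ρ ψ (i 0) (i 1) (Q0 u) (Q0 v) (B0 u v))
    (fun i _ a w hw => by
      have := W2_map (hz _ _) a.1.2 hw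
      rwa [a.2.2 _ (i 0).2, a.2.2 _ (i 1).2, R_coe] at this) (Nat.card F ^ 4)
    (2 * (Nat.card F + 1) * Nat.card U ^ 2) (fun μ t _ h => by
      rcases t.eq_empty_or_nonempty with rfl | ⟨i0, hi0⟩
      · simp
      obtain ⟨w1, hw1, hw10, -⟩ := h i0 hi0
      obtain ⟨Q, B, hs, hQ, hQs, hQw, hBw⟩ := exists_form (ρ := ρ) hψ h2 hU hw10
        fun u hu v hv c => ⟨_, hact μ w1 hw1 u hu v hv c⟩
      refine count_pairs h2 Q B hs hQ hQs hc hab t fun i hi => ?_
      obtain ⟨w2, hw2, hw20, hw2l⟩ := h i hi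
      have key : ∀ (a b : U) (c : F) (k k' : K), R ρ (f.eich a b c) w1 = k • w1 →
          R ρ (f.eich a b c) w2 = k' • w2 → k = k' := fun a b c k k' e1 e2 => by
        rw [hact μ w1 hw1 a a.2 b b.2] at e1
        rw [hact μ w2 hw2 a a.2 b b.2] at e2
        exact (smul_left_injective K hw10 e1).symm.trans (smul_left_injective K hw20 e2)
      exact ⟨psi_inj hψ fun c => key _ 0 c _ _ (hQw _ c) (hw2l c).1,
        psi_inj hψ fun c => key _ 0 c _ _ (hQw _ c) (hw2l c).2.1,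
        psi_inj hψ fun c => key _ (c • i 1) 0 _ _ (hBw _ _ c) (hw2l c).2.2⟩)
  have h3 : s.card * Nat.card F ^ (finrank F V - 4) ≤
      ∑ i ∈ s, finrank K (W2 ρ ψ (i 0) (i 1) (Q0 u) (Q0 v) (B0 u v)) := by
    rw [← smul_eq_mul]
    refine Finset.card_nsmul_le_sum _ _ _ fun i hi => hD.trans ?_
    obtain ⟨g, hg, e0, e1⟩ := witt_pair hf (hz v u) (hz (i 1) (i 0)) hli (by
      have := (Finset.mem_filter.1 hi).2.map' U.subtype U.ker_subtype
      rwa [show U.subtype ∘ i = ![(i 0 : V), i 1] by ext j; fin_cases j <;> rfl] at this)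
    rw [← e0, ← e1]
    exact LinearMap.finrank_le_finrank_of_injective
      (f := (R ρ g).restrict fun _ hw => W2_map (hz v u) hg hw)
      fun _ _ h => Subtype.ext (R_inj hg (congrArg Subtype.val h))
  have h4 := (Nat.mul_le_mul_right _ h3).trans h1
  rw [Module.natCard_eq_pow_finrank (K := F) (V := U), hUd, hV, hsc, Nat.card_eq_fintype_card,
    mul_assoc, ← pow_add, ← pow_mul, show 2 * n - 4 + 4 = n * 2 by omega, mul_right_comm (2 * _)] at h4
  exact Nat.le_of_mul_le_mul_right h4 (pow_pos Fintype.card_pos _)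

theorem sp_even_simple [Fintype F] (h2 : (2 : F) = 0) {m : ℕ} (hm : 2 ≤ m)
    (hex : (m, Fintype.card F) ≠ (2, 2)) : IsSimpleGroup (spF F m).E := by
  have hf := spF_nondeg (F := F) m
  have : Nonempty (Fin m) := ⟨⟨0, by omega⟩⟩
  have h1 := hf.symp_simple (spF_perfect m (by
    have := Fintype.one_lt_card (α := F)
    simp only [ne_eq, Prod.mk.injEq] at hex; omega))
  have hc : center (spF F m).iso = ⊥ := by
    rw [eq_bot_iff]
    intro g hg
    obtain ⟨a, ha⟩ := hf.symp_mem_center_iff.1 hg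
    obtain ⟨v, hv⟩ := exists_ne (0 : Fin m ⊕ Fin m → F)
    have h3 := iso_scalar_norm hf g.2 ha hv
    have h4 : a = 1 := sub_eq_zero.1 (pow_eq_zero_iff two_ne_zero |>.1 (by
      rw [FType.symp_σ] at h3; linear_combination h3 + (1 - a) * h2))
    rw [mem_bot]; ext x; simp [ha, h4]
  rw [hf.symp_E_eq]
  exact ((QuotientGroup.quotientMulEquivOfEq hc).trans QuotientGroup.quotientBot).symm.isSimpleGroup

end Cfsg.Agent.C3.WT
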