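import Mathlib
import Cfsg.Agent.C3.WT6
import Cfsg.Agent.H4.Lin

/-! The Landazuri-Seitz bound for special linear groups. -/

namespace Cfsg.Agent.C3.WT

open Module Subgroup Cfsg.Agent.H2 Cfsg.Agent.H4 Submodule

theorem exists_wt_comm {K M W : Type*} [Field K] [IsAlgClosed K] [CommGroup M] [Finite M]
    [AddCommGroup W] [Module K W] (σ : Representation K M W) (hM : (Nat.card M : K) ≠ 0) {m : M}
    (hm : σ m ≠ 1) : ∃ μ : M →* Kˣ, μ m ≠ 1 ∧ ∃ w ≠ 0, ∀ x, σ x w = (μ x : K) • w := by
  obtain ⟨μ, h1, w, hw, h0⟩ := exists_wt_of_ne σ (A := ⊤) (by rwa [Subgroup.card_top]) (by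
    rw [eq_bot_iff, commutator_le]
    intro a _ b _
    rw [Subgroup.mem_bot, commutatorElement_eq_one_iff_mul_comm, mul_comm]) (a := ⟨m, trivial⟩) hm
  exact ⟨μ.comp (Subgroup.topEquiv (G := M)).symm.toMonoidHom, h1, w, h0, fun x => hw ⟨x, trivial⟩⟩

theorem natCard_cast_ne {F K : Type*} [Field F] [Finite F] [Field K] (hK : ringChar K ≠ ringChar F) :
    (Nat.card F : K) ≠ 0 := by
  have := Fintype.ofFinite F
  obtain ⟨n, hp, hn⟩ := FiniteField.card F (ringChar F)
  rw [Nat.card_eq_fintype_card, hn, Nat.cast_pow]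
  refine pow_ne_zero _ fun h => ?_
  rw [ringChar.spec] at h
  rcases (Nat.dvd_prime hp).1 h with h | h
  · exact CharP.char_ne_one K _ h
  · exact hK h

variable {F : Type*} [Field F] {V : Type*} [AddCommGroup V] [Module F V] [FiniteDimensional F V]

theorem SLg_trans (h3 : 3 ≤ finrank F V) {a u v : V} (hu : u ∉ span F {a}) (hv : v ∉ span F {a}) :
    ∃ g ∈ SLg F V, g a = a ∧ g u = v := by
  have step : ∀ {u v : V}, u ∉ span F {a} → v ∉ span F {a} ⊔ span F {u} →
      ∃ g ∈ SLg F V, g a = a ∧ g u = v := fun {u v} hu hv => by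
    obtain ⟨φ, h1, h2, h4⟩ := exists_dual_two hu hv (1 : F) 1
    have h5 : φ (v - u) = 0 := by simp [h2, h4]
    exact ⟨dt φ (v - u), dt_mem_SLg h5, dt_fix _ (h1 a (mem_span_singleton_self a)),
      by simp [dt_apply h5, h2]⟩
  by_cases h : v ∈ span F {a} ⊔ span F {u}
  · obtain ⟨z, -, hz⟩ := exists_notMem_of_finrank_lt (U := span F {a} ⊔ span F {u}) (W := ⊤) (by
      have := finrank_sup_span_le (span F {a}) u
      have := finrank_span_singleton_le (F := F) a
      rw [finrank_top]; omega)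
    obtain ⟨g, hg, h1, h2⟩ := step hu hz
    obtain ⟨g', hg', h1', h2'⟩ := step (u := z) (fun h' => hz (mem_sup_left h'))
      (notMem_sup_span_swap hv fun h' => hz
        (sup_le le_sup_left ((span_singleton_le_iff_mem _ _).2 h) h'))
    exact ⟨g' * g, mul_mem hg' hg, by simp [h1, h1'], by simp [h2, h2']⟩
  · exact step hu h

theorem sl_bound [Finite F] {K W : Type*} [Field K] [IsAlgClosed K] [AddCommGroup W] [Module K W]
    [FiniteDimensional K W] (hK : ringChar K ≠ ringChar F) (h3 : 3 ≤ finrank F V)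
    (ρ : Representation K (SLg F V) W) {a : V} (ha : a ≠ 0) {φ : V →ₗ[F] F} (hφ : φ a = 0)
    (hne : ρ ⟨_, dt_mem_SLg hφ⟩ ≠ 1) : Nat.card F ^ (finrank F V - 1) - 1 ≤ finrank K W := by
  classical
  have hfin : Finite V := Module.finite_of_finite F
  let N := (span F {a}).dualAnnihilator
  have hN : ∀ α : N, α.1 a = 0 := fun α => (mem_dualAnnihilator _).1 α.2 a (mem_span_singleton_self a)
  have mN : ∀ {α : Dual F V}, α a = 0 → α ∈ N := fun h => (mem_dualAnnihilator _).2 fun x hx => by
    obtain ⟨c, rfl⟩ := mem_span_singleton.1 hx; simp [h]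
  have hfinN : Finite N := Module.finite_of_finite F
  let τ : Multiplicative N →* SLg F V := MonoidHom.mk' (fun α => ⟨_, dt_mem_SLg (hN α.toAdd)⟩)
    fun α β => Subtype.ext (dt_add_left (hN _) (hN _))
  obtain ⟨μ, hμ, w, hw0, hw⟩ := exists_wt_comm (ρ.comp τ) (by
    rw [Nat.card_congr Multiplicative.toAdd, Module.natCard_eq_pow_finrank (K := F) (V := N),
      Nat.cast_pow]
    exact pow_ne_zero _ (natCard_cast_ne hK)) (m := Multiplicative.ofAdd (⟨φ, mN hφ⟩ : N)) hne
  let ψ : AddChar F K :=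
    { toFun := fun t => μ (Multiplicative.ofAdd (t • ⟨φ, mN hφ⟩))
      map_zero_eq_one' := by simp
      map_add_eq_mul' := fun s t => by rw [add_smul, ofAdd_add, map_mul, Units.val_mul] }
  have hψ : ψ.IsPrimitive := AddChar.IsPrimitive.of_ne_one fun h => hμ (Units.ext (by
    have := DFunLike.congr_fun h 1
    simpa [ψ] using this))
  obtain ⟨Y, hY⟩ := Submodule.exists_isCompl (span F {a})
  have hYd : finrank F Y = finrank F V - 1 := by
    have := finrank_add_eq_of_isCompl hY
    rw [finrank_span_singleton ha] at this; omega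
  have hYa : ∀ y : Y, y ≠ 0 → y.1 ∉ span F {a} := fun y h0 h =>
    h0 (Subtype.ext ((disjoint_def.1 hY.disjoint) _ h y.2))
  let ν : Y → Multiplicative N →* K := fun y =>
    { toFun := fun α => ψ (α.toAdd.1 y)
      map_one' := by simp
      map_mul' := fun α β => by simp [AddChar.map_add_eq_mul] }
  have hν : Function.Injective ν := fun y y' h => by
    by_contra hne'
    obtain ⟨α, h1, h2⟩ := exists_dual_pair (hYa _ (sub_ne_zero.2 hne')) (1 : F)
    have h4 := psi_inj hψ (a := α y) (b := α y') fun t => by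
      have := DFunLike.congr_fun h (Multiplicative.ofAdd (t • ⟨α, mN h1⟩))
      simpa [ν, mul_comm] using this
    simp [h4] at h2
  obtain ⟨y0, hy0⟩ := char_surj ν hν (by
    rw [Nat.card_congr Multiplicative.toAdd, Module.natCard_eq_pow_finrank (K := F),
      Module.natCard_eq_pow_finrank (K := F) (V := Y), hYd]
    have := Subspace.finrank_add_finrank_dualAnnihilator_eq (span F {a})
    rw [finrank_span_singleton ha] at this
    exact le_of_eq (by congr 1; simp only [N]; omega)) ((Units.coeHom K).comp μ)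
  have hw' : ∀ α : N, ρ ⟨_, dt_mem_SLg (hN α)⟩ w = ψ (α.1 y0) • w := fun α =>
    (hw (Multiplicative.ofAdd α)).trans (congrArg (· • w)
      (DFunLike.congr_fun hy0 (Multiplicative.ofAdd α)).symm)
  have hy00 : y0 ≠ 0 := by
    rintro rfl
    have := DFunLike.congr_fun hy0 (Multiplicative.ofAdd ⟨φ, mN hφ⟩)
    exact hμ (Units.ext (by simpa [ν] using this.symm))
  choose g hg hga hgy using fun y : {y : Y // y ≠ 0} => SLg_trans h3 (hYa _ hy00) (hYa _ y.2)
  have hli := joint_indep (fun α : Multiplicative N => ρ (τ α))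
    (fun y : {y : Y // y ≠ 0} => ρ ⟨g y, hg y⟩ w)
    (fun y h => hw0 (by simpa using congrArg (ρ (⟨g y, hg y⟩ : SLg F V)⁻¹) h))
    (fun y α => ν y.1 α) (fun y y' h => Subtype.ext (hν (DFunLike.coe_injective h))) (fun y α => by
      have h1 : (α.toAdd.1 ∘ₗ (g y : V →ₗ[F] V)) a = 0 := by simp [hga, hN]
      have h2 : τ α * ⟨g y, hg y⟩ = ⟨g y, hg y⟩ * ⟨_, dt_mem_SLg h1⟩ := by
        ext x
        simp [τ, dt_apply h1, dt_apply (hN _), hga]
      rw [← Module.End.mul_apply, ← map_mul, h2, map_mul, Module.End.mul_apply,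
        hw' ⟨_, mN h1⟩, map_smul]
      simp [ν, hgy])
  have := Fintype.ofFinite Y
  have h5 := hli.fintype_card_le_finrank
  rwa [Fintype.card_subtype_compl, Fintype.card_subtype_eq, ← Nat.card_eq_fintype_card,
    Module.natCard_eq_pow_finrank (K := F), hYd] at h5

end Cfsg.Agent.C3.WT
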