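import Mathlib
import Cfsg.Agent.C3.WT8
import Cfsg.Agent.H3.Rep

/-! The Weil representation of the symplectic group in odd characteristic. -/

namespace Cfsg.Agent.C3.WT

open Module Cfsg.Agent.H4 Matrix

theorem linearize {G U C : Type*} [Group G] [Group U] [Group C] (H : Subgroup (G × U)) (ι : C → U)
    (h1 : ∀ g, ∃ M, (g, M) ∈ H) (h2 : ∀ M, (1, M) ∈ H → ∃ c, M = ι c) (h3 : ∀ c, (1, ι c) ∈ H)
    (h4 : ι 1 = 1) (δ : H →* C) (hδ : ∀ c, δ ⟨_, h3 c⟩ = c) : ∃ σ : G →* H, ∀ g, (σ g).1.1 = g := by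
  let π : δ.ker →* G := ((MonoidHom.fst G U).comp H.subtype).comp δ.ker.subtype
  have hπ : Function.Bijective π := by
    constructor
    · rw [injective_iff_map_eq_one]
      rintro ⟨⟨⟨g, M⟩, hM⟩, hd⟩ (rfl : g = 1)
      obtain ⟨c, rfl⟩ := h2 M hM
      obtain rfl : c = 1 := (hδ c).symm.trans hd
      exact Subtype.ext (Subtype.ext (Prod.ext rfl h4))
    · intro g
      obtain ⟨M, hM⟩ := h1 g
      exact ⟨⟨(⟨_, hM⟩ : H) * (⟨_, h3 (δ ⟨_, hM⟩)⁻¹⟩ : H),
        by rw [MonoidHom.mem_ker, map_mul, hδ, mul_inv_cancel]⟩, mul_one g⟩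
  exact ⟨δ.ker.subtype.comp (MulEquiv.ofBijective π hπ).symm.toMonoidHom,
    fun g => (MulEquiv.ofBijective π hπ).apply_symm_apply g⟩

variable {F : Type*} [Field F] {n : ℕ} (ψ : AddChar F ℂ)

/-- Heisenberg operators -/
noncomputable def Hs (v : Fin n ⊕ Fin n → F) : Module.End ℂ ((Fin n → F) → ℂ) where
  toFun φ x := ψ (∑ i, v (.inr i) * (x i + v (.inl i) / 2)) * φ (x + fun i => v (.inl i))
  map_add' φ φ' := by ext x; simp [mul_add]
  map_smul' c φ := by ext x; simp [mul_left_comm]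

theorem Hs_apply (v : Fin n ⊕ Fin n → F) (φ : (Fin n → F) → ℂ) (x : Fin n → F) :
    Hs ψ v φ x = ψ (∑ i, v (.inr i) * (x i + v (.inl i) / 2)) * φ (x + fun i => v (.inl i)) := rfl

theorem Hs_zero : Hs ψ (0 : Fin n ⊕ Fin n → F) = 1 := by
  refine LinearMap.ext fun φ => funext fun x => ?_
  simp [Hs_apply, ← Pi.zero_def]

theorem Hs_mul (h2 : (2 : F) ≠ 0) (v w : Fin n ⊕ Fin n → F) :
    Hs ψ v * Hs ψ w = ψ (-sympForm n F v w / 2) • Hs ψ (v + w) := by
  refine LinearMap.ext fun φ => funext fun x => ?_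
  simp only [Module.End.mul_apply, Hs_apply, LinearMap.smul_apply, Pi.smul_apply, smul_eq_mul,
    ← mul_assoc, ← AddChar.map_add_eq_mul, sympForm_eq, Pi.add_apply]
  congr 2
  · rw [← Finset.sum_neg_distrib, Finset.sum_div, ← Finset.sum_add_distrib, ← Finset.sum_add_distrib]
    exact Finset.sum_congr rfl fun i _ => by field_simp; ring
  · ext i; simp [add_assoc]

/-- the parity operator -/
def Par (F : Type*) [Field F] (n : ℕ) : Module.End ℂ ((Fin n → F) → ℂ) :=
  LinearMap.funLeft ℂ ℂ fun x => -x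

theorem Par_apply (φ : (Fin n → F) → ℂ) (x : Fin n → F) : Par F n φ x = φ (-x) := rfl

theorem Par_Par : Par F n * Par F n = 1 := by
  refine LinearMap.ext fun φ => funext fun x => ?_
  simp [Par_apply]

theorem Par_Hs (v : Fin n ⊕ Fin n → F) : Par F n * Hs ψ v = Hs ψ (-v) * Par F n := by
  refine LinearMap.ext fun φ => funext fun x => ?_
  simp only [Module.End.mul_apply, Hs_apply, Par_apply, Pi.neg_apply]
  congr 2
  · exact Finset.sum_congr rfl fun i _ => by ring
  · ext i; simp [add_comm]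

variable [Fintype F] [DecidableEq F]

theorem trace_Par (h2 : (2 : F) ≠ 0) : LinearMap.trace ℂ _ (Par F n) = 1 := by
  rw [LinearMap.trace_eq_matrix_trace ℂ (Pi.basisFun ℂ (Fin n → F)), Matrix.trace,
    Finset.sum_eq_single 0]
  · simp [LinearMap.toMatrix_apply, Par_apply]
  · intro x _ hx
    have : -x ≠ x := fun h => hx (by
      ext i
      have := congrFun h i
      rw [Pi.neg_apply] at this
      exact (mul_eq_zero.1 (show 2 * x i = 0 by linear_combination -this)).resolve_left h2)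
    simp [LinearMap.toMatrix_apply, Par_apply, this]
  · simp

variable {ψ}

theorem exists_Hs_basis (hψ : ψ.IsPrimitive) (h2 : (2 : F) ≠ 0) :
    ∃ b : Basis (Fin n ⊕ Fin n → F) ℂ (Module.End ℂ ((Fin n → F) → ℂ)), ∀ v, b v = Hs ψ v := by
  have hli : LinearIndependent ℂ (Hs ψ (n := n)) := by
    refine joint_indep (fun j => (LinearMap.mulLeft ℂ (Hs ψ j)) ∘ₗ LinearMap.mulRight ℂ (Hs ψ (-j)))
      _ (fun v h => ?_) (fun i j => ψ ((spF F n).B i j)) (fun i i' h => ?_) fun i j => ?_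
    · have := Hs_mul ψ h2 (-v) v
      rw [h, mul_zero, neg_add_cancel, Hs_zero, eq_comm, smul_eq_zero] at this
      exact this.elim (AddChar.val_isUnit _ _).ne_zero one_ne_zero
    · refine (spF_nondeg n).eq_of_B fun z => psi_inj hψ fun t => ?_
      simpa [mul_comm, -spF_B] using congrFun h (t • z)
    · simp only [LinearMap.comp_apply, LinearMap.mulLeft_apply, LinearMap.mulRight_apply]
      rw [Hs_mul ψ h2, mul_smul_comm, Hs_mul ψ h2, smul_smul, ← AddChar.map_add_eq_mul,
        show j + (i + -j) = i by abel]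
      congr 2
      simp only [← spF_B, map_add, map_neg, CForm.symp_B_self, (spF F n).symm i j]
      simp only [FType.symp_σ, FType.symp_ε]
      field_simp; ring
  exact ⟨basisOfLinearIndependentOfCardEqFinrank hli (by
    simp [Module.finrank_linearMap, pow_add]), fun v => by simp⟩

theorem scalar_of_comm (hψ : ψ.IsPrimitive) (h2 : (2 : F) ≠ 0) {X : Module.End ℂ ((Fin n → F) → ℂ)}
    (h : ∀ v, X * Hs ψ v = Hs ψ v * X) : ∃ c : ℂ, X = c • 1 := by
  obtain ⟨b, hb⟩ := exists_Hs_basis (n := n) hψ h2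
  have h1 : LinearMap.mulRight ℂ X = LinearMap.mulLeft ℂ X := b.ext fun v => by simp [hb, h]
  obtain ⟨c, hc⟩ := (Algebra.IsCentral.mem_center_iff ℂ).1
    (Subalgebra.mem_center_iff.2 fun Y => DFunLike.congr_fun h1 Y)
  exact ⟨c, by rw [hc, Algebra.algebraMap_eq_smul_one]⟩

theorem exists_intertwiner (hψ : ψ.IsPrimitive) (h2 : (2 : F) ≠ 0) (g : (spF F n).iso) :
    ∃ M : (Module.End ℂ ((Fin n → F) → ℂ))ˣ, ∀ v, M * Hs ψ v = Hs ψ (g.1 v) * M := by
  obtain ⟨b, hb⟩ := exists_Hs_basis (n := n) hψ h2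
  let l := b.equiv b g.1.toEquiv
  have hl : ∀ v, l (Hs ψ v) = Hs ψ (g.1 v) := fun v => by
    rw [← hb, ← hb]; exact b.equiv_apply v b _
  have hm : (LinearMap.mul ℂ _).compr₂ l.toLinearMap =
      (LinearMap.mul ℂ _).compl₁₂ l.toLinearMap l.toLinearMap :=
    b.ext fun v => b.ext fun w => by
      have := CForm.iso_B g.2 v w
      simp only [spF_B] at this
      simp [hb, hl, Hs_mul ψ h2, this]
  obtain ⟨T, hT⟩ := (AlgEquiv.ofLinearEquiv l (by rw [← Hs_zero ψ, hl, map_zero])
    fun x y => DFunLike.congr_fun (DFunLike.congr_fun hm x) y).eq_linearEquivConjAlgEquiv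
  refine ⟨(LinearMap.GeneralLinearGroup.generalLinearEquiv ℂ _).symm T, fun v => ?_⟩
  have h1 : l (Hs ψ v) = T.conjAlgEquiv ℂ (Hs ψ v) := DFunLike.congr_fun hT _
  rw [← hl, h1, LinearEquiv.conjAlgEquiv_apply]
  refine LinearMap.ext fun φ => ?_
  change T (Hs ψ v φ) = T (Hs ψ v (T.symm (T φ)))
  rw [T.symm_apply_apply]

theorem exists_weil (hψ : ψ.IsPrimitive) (h2 : (2 : F) ≠ 0) :
    ∃ (S : Submodule ℂ ((Fin n → F) → ℂ)) (σ : Representation ℂ (spF F n).iso S),
      2 * finrank ℂ S + 1 = Fintype.card F ^ n ∧ (∀ φ, φ ∈ S ↔ Par F n φ = -φ) ∧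
      ∀ g v (φ φ' : S), Hs ψ v φ = φ' → Hs ψ (g.1 v) (σ g φ) = σ g φ' := by
  let H : Subgroup ((spF F n).iso × (Module.End ℂ ((Fin n → F) → ℂ))ˣ) :=
    { carrier := {x | ∀ v, x.2 * Hs ψ v = Hs ψ (x.1.1 v) * x.2}
      one_mem' := fun v => by simp
      mul_mem' := fun {a b} ha hb v => by
        simp only [Prod.snd_mul, Units.val_mul, Prod.fst_mul, Subgroup.coe_mul, LinearEquiv.mul_apply]
        rw [mul_assoc, hb, ← mul_assoc, ha, mul_assoc]
      inv_mem' := fun {a} ha v => by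
        have := ha (a.1.1⁻¹ v)
        simp only [LinearEquiv.coe_inv, LinearEquiv.apply_symm_apply] at this
        simp only [Prod.snd_inv, Prod.fst_inv, Subgroup.coe_inv, LinearEquiv.coe_inv]
        rw [Units.inv_mul_eq_iff_eq_mul, ← mul_assoc, this, Units.mul_inv_cancel_right] }
  have hP : ∀ x : H, x.1.2 * Par F n = Par F n * x.1.2 := by
    rintro ⟨⟨g, M⟩, hM⟩
    obtain ⟨c, hc⟩ := scalar_of_comm hψ h2 (X := Par F n * M⁻¹.1 * Par F n * M.1) fun v => by
      have h1 := H.inv_mem hM (-g.1 v)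
      simp only [Prod.snd_inv, Prod.fst_inv, Subgroup.coe_inv, LinearEquiv.coe_inv, map_neg,
        LinearEquiv.symm_apply_apply] at h1
      rw [mul_assoc, hM v, ← mul_assoc, mul_assoc _ (Par F n), Par_Hs, ← mul_assoc,
        mul_assoc (Par F n), h1, ← mul_assoc, Par_Hs, neg_neg]
      simp only [mul_assoc]
    have h3 : M⁻¹.1 * Par F n * M.1 = c • Par F n := by
      have := congrArg (Par F n * ·) hc
      simpa [← mul_assoc, Par_Par] using this
    have h4 := congrArg (LinearMap.trace ℂ _) h3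
    rw [LinearMap.trace_mul_comm, ← mul_assoc, Units.mul_inv, one_mul, map_smul, trace_Par h2,
      smul_eq_mul, mul_one] at h4
    rw [← h4, one_smul, mul_assoc, Units.inv_mul_eq_iff_eq_mul] at h3
    exact h3.symm
  let E : ℂ → Submodule ℂ ((Fin n → F) → ℂ) := fun ε => LinearMap.ker (Par F n - ε • 1)
  have hE : ∀ ε φ, φ ∈ E ε ↔ Par F n φ = ε • φ := fun ε φ => by simp [E, sub_eq_zero]
  let r : ∀ ε, H →* Module.End ℂ (E ε) := fun ε =>
    { toFun := fun x => (x.1.2 : Module.End ℂ _).restrict fun φ hφ => by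
        rw [hE] at hφ ⊢
        rw [← Module.End.mul_apply, ← hP, Module.End.mul_apply, hφ, map_smul]
      map_one' := by ext; simp
      map_mul' := fun a b => by ext; simp }
  have hd : ∀ ε : ℂ, ε * ε = 1 → (2 * finrank ℂ (E ε) : ℂ) = Fintype.card F ^ n + ε := by
    intro ε hε
    have h1 : LinearMap.IsProj (E ε) ((2⁻¹ : ℂ) • (1 + ε • Par F n)) := by
      constructor
      · intro φ
        rw [hE]
        simp only [LinearMap.smul_apply, LinearMap.add_apply, Module.End.one_apply, map_smul, map_add,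
          ← Module.End.mul_apply, Par_Par]
        rw [smul_comm ε, smul_add ε, smul_smul ε ε, hε, one_smul, add_comm]
      · intro φ hφ
        rw [hE] at hφ
        simp only [LinearMap.smul_apply, LinearMap.add_apply, Module.End.one_apply, hφ]
        rw [smul_smul, hε, one_smul, ← two_smul ℂ, smul_smul]; simp
    rw [← h1.trace, map_smul, map_add, map_smul, trace_Par h2, LinearMap.trace_one]
    simp
  have hd1 : 2 * finrank ℂ (E 1) = Fintype.card F ^ n + 1 := by exact_mod_cast hd 1 (by simp)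
  have hd2 : 2 * finrank ℂ (E (-1)) + 1 = Fintype.card F ^ n := by
    have := hd (-1) (by simp)
    have h3 : (2 * finrank ℂ (E (-1)) + 1 : ℂ) = Fintype.card F ^ n := by linear_combination this
    exact_mod_cast h3
  obtain ⟨σ, hσ⟩ := linearize H (Units.map (algebraMap ℂ (Module.End ℂ ((Fin n → F) → ℂ))).toMonoidHom)
    (fun g => exists_intertwiner hψ h2 g) (fun M hM => by
      obtain ⟨c, hc⟩ := scalar_of_comm hψ h2 hM
      have h0 : c ≠ 0 := by
        rintro rfl
        exact M.ne_zero (by simpa using hc)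
      exact ⟨Units.mk0 c h0, Units.ext (by simpa [Algebra.algebraMap_eq_smul_one] using hc)⟩)
    (fun c v => by simp [Algebra.algebraMap_eq_smul_one]) (map_one _)
    ((LinearMap.det.comp (r 1)).toHomUnits / (LinearMap.det.comp (r (-1))).toHomUnits) (fun c => by
      have h1 : ∀ ε h, r ε ⟨(1, Units.map
          (algebraMap ℂ (Module.End ℂ ((Fin n → F) → ℂ))).toMonoidHom c), h⟩ = (c : ℂ) • 1 :=
        fun ε h => by ext; simp [r]
      apply Units.ext
      simp only [MonoidHom.div_apply, Units.val_div_eq_div_val, MonoidHom.coe_toHomUnits,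
        MonoidHom.comp_apply, h1, LinearMap.det_smul, map_one, mul_one]
      rw [show finrank ℂ (E 1) = finrank ℂ (E (-1)) + 1 by omega, pow_succ]
      field_simp)
  refine ⟨E (-1), (r (-1)).comp σ, hd2, fun φ => by simp [hE], fun g v φ φ' h => ?_⟩
  have h1 := DFunLike.congr_fun ((σ g).2 v) φ.1
  rw [hσ, Module.End.mul_apply, h] at h1
  exact h1.symm

theorem exists_weil_irr (hodd : Odd (Fintype.card F)) (hn : 2 ≤ n) :
    ∃ ρ : Representation ℂ (Matrix.symplecticGroup (Fin n) F)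
      (Fin ((Fintype.card F ^ n - 1) / 2) → ℂ), ρ.IsIrreducible := by
  have h2 : (2 : F) ≠ 0 := Ring.two_ne_zero
    (fun h => by have := FiniteField.even_card_iff_char_two.1 h; rw [Nat.odd_iff] at hodd; omega)
  obtain ⟨S, σ, hd, hS, hσ⟩ := exists_weil (n := n)
    (AddChar.FiniteField.primitiveChar_to_Complex_isPrimitive F) h2
  let ρ : Representation ℂ (Matrix.symplecticGroup (Fin n) F) S := σ.comp (spEquiv F n).toMonoidHom
  let i0 : Fin n := ⟨0, by omega⟩
  let i1 : Fin n := ⟨1, by omega⟩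
  have hne : ∃ g, ρ g ≠ 1 := by
    refine ⟨SymplecticGroup.symJ _ _, fun h => ?_⟩
    let φ : (Fin n → F) → ℂ := fun x => (if x i1 = 0 then 1 else 0) *
      ((if x i0 = 1 then 1 else 0) - (if x i0 = -1 then 1 else 0))
    have hφ : φ ∈ S := (hS φ).2 (by
      ext x
      simp only [Par_apply, φ, Pi.neg_apply, neg_eq_zero, neg_inj, neg_eq_iff_eq_neg (a := x i0),
        neg_neg]
      ring)
    have h1 := hσ (spEquiv F n (SymplecticGroup.symJ _ _)) (Pi.single (.inr i1) 1) ⟨φ, hφ⟩ ⟨φ, hφ⟩ (by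
      ext x
      rw [Hs_apply, Finset.sum_eq_single i1 (fun i _ hi => by simp [hi]) (by simp)]
      by_cases hx : x i1 = 0 <;> simp [φ, hx])
    have h3 : σ (spEquiv F n (SymplecticGroup.symJ _ _)) = 1 := h
    have h4 := congrFun h1 (Pi.single i0 1)
    have h5 : (1 : F) ≠ -1 := fun e => h2 (by linear_combination e)
    rw [h3, Hs_apply] at h4
    simp [φ, i0, i1, Matrix.J, h5] at h4
  have hirr : ρ.IsIrreducible := by
    have key : ∀ U : Subrepresentation ρ, U ≠ ⊤ → ∀ g, ∀ v ∈ U.toSubmodule, ρ g v = v := by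
      intro U hU g v hv
      by_contra h
      have h1 := sp_bound hodd (ringChar_complex_ne F) (by omega : 1 ≤ n) U.toRepresentation
        ⟨g, fun e => h (congrArg Subtype.val (DFunLike.congr_fun e ⟨v, hv⟩))⟩
      have h3 : finrank ℂ S ≤ finrank ℂ U.toSubmodule := by
        rw [← hd, Nat.add_sub_cancel] at h1
        exact Nat.le_of_mul_le_mul_left h1 two_pos
      exact hU (Subrepresentation.toSubmodule_injective
        (Submodule.eq_top_of_finrank_eq (le_antisymm (Submodule.finrank_le _) h3)))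
    obtain ⟨g, hg⟩ := hne
    have hnt : Nontrivial S := by
      by_contra h
      rw [not_nontrivial_iff_subsingleton] at h
      exact hg (Subsingleton.elim _ _)
    rw [H3.isIrreducible_iff]
    refine ⟨hnt, fun U hU => ?_⟩
    by_contra hc
    push Not at hc
    have : NeZero (Nat.card (Matrix.symplecticGroup (Fin n) F) : ℂ) := ⟨by simp [Nat.card_pos.ne']⟩
    obtain ⟨U', hU'⟩ := H3.exists_isCompl_sub (ρ := ρ) ⟨U, fun g v hv => hU g v hv⟩
    have h3 := H3.sub_isCompl hU'
    apply hg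
    ext1 v
    obtain ⟨a, ha, b, hb, rfl⟩ := Submodule.mem_sup.1 (h3.sup_eq_top ▸ Submodule.mem_top (x := v))
    rw [map_add, key _ (fun e => hc.2 (congrArg Subrepresentation.toSubmodule e)) g a ha,
      key U' (fun e => hc.1 (by
        have := h3.inf_eq_bot
        rwa [e, H3.sub_toSubmodule_top, inf_top_eq] at this)) g b hb, Module.End.one_apply]
  let e : S ≃ₗ[ℂ] (Fin ((Fintype.card F ^ n - 1) / 2) → ℂ) :=
    LinearEquiv.ofFinrankEq _ _ (by rw [Module.finrank_fin_fun]; omega)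
  exact ⟨_, H3.isIrreducible_of_equiv (H3.repConjEquiv ρ e)⟩

end Cfsg.Agent.C3.WT
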